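import Cfsg.Agent.H87.BCDefs
import Cfsg.Agent.H87.NK
import Cfsg.Agent.H87.PCore
import Cfsg.Agent.H86.PredSys
import Cfsg.Agent.H86.FusNormal
import Cfsg.Agent.H86.FusExt
import Cfsg.Agent.H88.Puig
import Cfsg.Agent.H13.PCore

set_option autoImplicit false

/-!
The extension step of the saturation criterion of Broto–Castellana–Grodal–Levi–Oliver: in a fusion
system `E` over `N` with a normal subgroup `V`, saturated on and generated by the subgroups strictly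
containing `V`, every automorphism of `V` extends to a fixed larger invariant subgroup.
-/

namespace Cfsg.Agent.H87

open Cfsg Cfsg.FusionSystem Cfsg.Agent.H86

variable {Ω : Type*} [Group Ω] {N : Subgroup Ω}

/-- Elements of a join with a normalized subgroup are products. -/
theorem exists_mul_of_mem_sup {R W : Subgroup Ω} (hRW : R ≤ Subgroup.normalizer (W : Set Ω)) {g : Ω}
    (hg : g ∈ R ⊔ W) : ∃ r ∈ R, ∃ w ∈ W, g = r * w := by
  have hcl : Subgroup.closure ((R : Set Ω) ∪ W) = R ⊔ W := by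
    rw [Subgroup.closure_union, Subgroup.closure_eq, Subgroup.closure_eq]
  rw [← hcl] at hg
  induction hg using Subgroup.closure_induction with
  | mem x hx =>
    rcases hx with hx | hx
    · exact ⟨x, hx, 1, W.one_mem, (mul_one x).symm⟩
    · exact ⟨1, R.one_mem, x, hx, (one_mul x).symm⟩
  | one => exact ⟨1, R.one_mem, 1, W.one_mem, (mul_one 1).symm⟩
  | mul x y _ _ ihx ihy =>
    obtain ⟨r₁, hr₁, w₁, hw₁, rfl⟩ := ihx
    obtain ⟨r₂, hr₂, w₂, hw₂, rfl⟩ := ihy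
    refine ⟨r₁ * r₂, R.mul_mem hr₁ hr₂, r₂⁻¹ * w₁ * r₂ * w₂, W.mul_mem ?_ hw₂, by group⟩
    have h := (Subgroup.mem_normalizer_iff.1 (hRW (R.inv_mem hr₂)) w₁).1 hw₁
    rwa [inv_inv] at h
  | inv x _ ih =>
    obtain ⟨r, hr, w, hw, rfl⟩ := ih
    refine ⟨r⁻¹, R.inv_mem hr, r * w⁻¹ * r⁻¹, ?_, by group⟩
    exact (Subgroup.mem_normalizer_iff.1 (hRW hr) w⁻¹).1 (W.inv_mem hw)

/-- Maps of a system defined on an overgroup of a normal subgroup preserve it. -/
theorem normal_imgS {E : FusionSystem N} {V R : Subgroup Ω} (hV : E.IsNormal V) (hVR : V ≤ R)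
    {f : Ω → Ω} (hf : Mor E R f) : imgS V f = V := by
  obtain ⟨f', hf', hf'f, himg⟩ := (isNormal_iff.1 hV).2 R f hf
  exact ((hf.restrict hVR).imgS_congr (fun x hx => (hf'f x (hVR hx)).symm)).trans himg

/-- The elements of `N` acting on `V` through `O`. -/
def ovg (N V : Subgroup Ω) (O : Subgroup (MulAut V)) : Subgroup Ω := nkSub N V O (fun x => x)

theorem mem_ovg {V : Subgroup Ω} {O : Subgroup (MulAut V)} {g : Ω} :
    g ∈ ovg N V O ↔ g ∈ N ∧ ∃ κ ∈ O, ∀ x ∈ V, g * x * g⁻¹ = autFun V κ x := Iff.rfl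

theorem ovg_le (V : Subgroup Ω) (O : Subgroup (MulAut V)) : ovg N V O ≤ N := fun _ h => h.1

/-- The automorphisms of `X` whose restriction to `V` lies in `O`. -/
def resO {X V : Subgroup Ω} (hVX : V ≤ X) (O : Subgroup (MulAut V)) : Subgroup (MulAut X) where
  carrier := {γ | ∃ o ∈ O, ∀ v ∈ V, autFun X γ v = autFun V o v}
  mul_mem' := by
    rintro γ₁ γ₂ ⟨o₁, ho₁, h₁⟩ ⟨o₂, ho₂, h₂⟩
    refine ⟨o₁ * o₂, O.mul_mem ho₁ ho₂, fun v hv => ?_⟩
    rw [autFun_mul γ₁ γ₂ (hVX hv), h₂ v hv, h₁ _ (autFun_mem o₂ hv), autFun_mul o₁ o₂ hv]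
  one_mem' := ⟨1, O.one_mem, fun v hv => by rw [autFun_one (hVX hv), autFun_one hv]⟩
  inv_mem' := by
    rintro γ ⟨o, ho, h⟩
    refine ⟨o⁻¹, O.inv_mem ho, fun v hv => ?_⟩
    have hu : autFun V o⁻¹ v ∈ V := autFun_mem _ hv
    have h1 : autFun X γ (autFun V o⁻¹ v) = v := by rw [h _ hu, autFun_apply_inv o hv]
    conv_lhs => rw [← h1]
    exact autFun_inv_apply γ (hVX hu)

theorem mem_resO {X V : Subgroup Ω} {hVX : V ≤ X} {O : Subgroup (MulAut V)} {γ : MulAut X} :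
    γ ∈ resO hVX O ↔ ∃ o ∈ O, ∀ v ∈ V, autFun X γ v = autFun V o v := Iff.rfl

/-- The hypotheses on the subgroup `O` of `Aut_E(V)`. -/
structure OData (E : FusionSystem N) (p : ℕ) (V : Subgroup Ω) (O : Subgroup (MulAut V)) : Prop where
  le : O ≤ E.autGroup V
  inn : Inn V ≤ O
  nor : ∀ α ∈ E.autGroup V, ∀ o ∈ O, α * o * α⁻¹ ∈ O
  h3 : ∀ (X : Subgroup Ω) (hVX : V ≤ X), X ≤ N → E.IsFullyAutomized p X →
    ∀ γ ∈ E.autGroup X, γ ∈ resO hVX O →
      ∃ g ∈ ovg N V O, g ∈ Subgroup.normalizer (X : Set Ω) ∧ ∀ v ∈ V, autFun X γ v = g * v * g⁻¹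

namespace OData

variable {E : FusionSystem N} {p : ℕ} {V : Subgroup Ω} {O : Subgroup (MulAut V)}

theorem map_mem (hO : OData E p V O) (hV : E.IsNormal V) {R : Subgroup Ω} (hVR : V ≤ R)
    {f : Ω → Ω} (hf : Mor E R f) {g : Ω} (hgR : g ∈ R) (hg : g ∈ ovg N V O) : f g ∈ ovg N V O := by
  have himg := normal_imgS hV hVR hf
  have hfV : Mor E V f := hf.restrict hVR
  have ha : mkAut hfV himg ∈ E.autGroup V := mkAut_mem hfV himg
  obtain ⟨-, κ, hκ, hrel'⟩ := hg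
  have hrel : ∀ x ∈ V, g * x * g⁻¹ = autFun V κ x := hrel'
  refine ⟨hf.mem hgR, mkAut hfV himg * κ * (mkAut hfV himg)⁻¹, hO.nor _ ha κ hκ, fun y hy => ?_⟩
  have hx : autFun V (mkAut hfV himg)⁻¹ y ∈ V := autFun_mem _ hy
  have hfx : f (autFun V (mkAut hfV himg)⁻¹ y) = y := by
    rw [← autFun_mkAut hfV himg hx]
    exact autFun_apply_inv _ hy
  show f g * y * (f g)⁻¹ = autFun V (mkAut hfV himg * κ * (mkAut hfV himg)⁻¹) y
  rw [autFun_mul _ _ hy, autFun_mul _ _ hx, autFun_mkAut hfV himg (autFun_mem κ hx), ← hrel _ hx,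
    hf.map_mul (R.mul_mem hgR (hVR hx)) (R.inv_mem hgR), hf.map_mul hgR (hVR hx), hf.map_inv hgR, hfx]

theorem le_ovg (hO : OData E p V O) (hVN : V ≤ N) : V ≤ ovg N V O := by
  intro v hv
  obtain ⟨α, hα⟩ := exists_conjAut (V.le_normalizer hv)
  refine ⟨hVN hv, α, hO.inn ((mem_inn_iff α).2 ⟨v, hv, hα⟩), fun x hx => ?_⟩
  rw [autFun_of_mem α hx, hα]

theorem imgS_ovg [Finite N] (hO : OData E p V O) (hV : E.IsNormal V) {f : Ω → Ω}
    (hf : Mor E (ovg N V O) f) : imgS (ovg N V O) f = ovg N V O := by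
  haveI : Finite (ovg N V O) := finite_of_le (ovg_le V O)
  exact imgS_eq_of_maps hf (fun x hx => hO.map_mem hV (hO.le_ovg hV.1) hf hx hx)

theorem normalizer_ovg (hO : OData E p V O) (hV : E.IsNormal V) :
    N ≤ Subgroup.normalizer (ovg N V O : Set Ω) := by
  intro n hn
  have hVN : V ≤ N := hV.1
  refine mem_normalizer_of_forall_conj_mem (fun y hy => ?_) (fun y hy => ?_)
  · exact hO.map_mem hV hVN (Mor.conj E le_rfl hn) (ovg_le V O hy) hy
  · have h := hO.map_mem hV hVN (Mor.conj E le_rfl (N.inv_mem hn)) (ovg_le V O hy) hy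
    simpa using h

/-- Normalizer growth relative to the overgroup. -/
theorem exists_growth [Finite N] [Fact p.Prime] (hN : IsPGroup p N) (hO : OData E p V O)
    (hV : E.IsNormal V) {R : Subgroup Ω} (hRN : R ≤ N) (hle : ¬ ovg N V O ≤ R) :
    ∃ w ∈ ovg N V O, w ∈ normalizerIn N R ∧ w ∉ R := by
  have hV₀N : ovg N V O ≤ N := ovg_le V O
  have hMN : R ⊔ ovg N V O ≤ N := sup_le hRN hV₀N
  haveI : Finite ↥(R ⊔ ovg N V O) := finite_of_le hMN
  have hM : IsPGroup p ↥(R ⊔ ovg N V O) := hN.to_le hMN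
  have hlt : R < R ⊔ ovg N V O :=
    lt_of_le_of_ne le_sup_left (fun h => hle (le_sup_right.trans h.ge))
  obtain ⟨g, hgN, hgR⟩ := exists_mem_normalizerIn_not_mem hM hlt
  obtain ⟨hgM, hgnor⟩ := mem_normalizerIn_iff.1 hgN
  obtain ⟨r, hr, w, hw, rfl⟩ :=
    exists_mul_of_mem_sup (hRN.trans (hO.normalizer_ovg hV)) hgM
  refine ⟨w, hw, mem_normalizerIn_iff.2 ⟨hV₀N hw, ?_⟩, fun hwR => hgR (R.mul_mem hr hwR)⟩
  have h1 : r⁻¹ * (r * w) ∈ Subgroup.normalizer (R : Set Ω) :=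
    Subgroup.mul_mem _ (Subgroup.le_normalizer (R.inv_mem hr)) hgnor
  rwa [inv_mul_cancel_left] at h1

/-- Conjugation by an automorphism whose restriction to `V` lies in `Aut_E(V)` preserves `resO`. -/
theorem resO_conj (hnor : ∀ α ∈ E.autGroup V, ∀ o ∈ O, α * o * α⁻¹ ∈ O) {X : Subgroup Ω}
    (hVX : V ≤ X) {a γ : MulAut X}
    (ha : a ∈ resO hVX (E.autGroup V)) (hγ : γ ∈ resO hVX O) : a * γ * a⁻¹ ∈ resO hVX O := by
  obtain ⟨ra, hra, h1⟩ := ha
  obtain ⟨o, ho, h2⟩ := hγ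
  refine ⟨ra * o * ra⁻¹, hnor ra hra o ho, fun v hv => ?_⟩
  have hu : autFun V ra⁻¹ v ∈ V := autFun_mem _ hv
  have h3 : autFun X a⁻¹ v = autFun V ra⁻¹ v := by
    have h4 : autFun X a (autFun V ra⁻¹ v) = v := by rw [h1 _ hu, autFun_apply_inv ra hv]
    conv_lhs => rw [← h4]
    exact autFun_inv_apply a (hVX hu)
  rw [autFun_mul _ _ (hVX hv), h3, autFun_mul _ _ (hVX hu), h2 _ hu, h1 _ (autFun_mem o hu),
    autFun_mul _ _ hv, autFun_mul _ _ hu]

/-- Automorphisms of an overgroup of `V` in the system restrict to automorphisms of `V`. -/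
theorem mem_resO_autGroup (hV : E.IsNormal V) {X : Subgroup Ω} (hVX : V ≤ X) (hXN : X ≤ N)
    {a : MulAut X} (ha : a ∈ E.autGroup X) : a ∈ resO hVX (E.autGroup V) := by
  have ham : Mor E X (autFun X a) := (mem_autGroup_iff hXN a).1 ha
  have himg := normal_imgS hV hVX ham
  exact ⟨mkAut (ham.restrict hVX) himg, mkAut_mem _ _,
    fun v hv => (autFun_mkAut (ham.restrict hVX) himg hv).symm⟩

/-- An element of the overgroup normalizing a fully automized receptive `X ≥ V` lies in the extender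
of `κ * b`, when `κ * b` conjugates the automorphisms induced by such elements into themselves. -/
theorem claimE [Finite N] [Fact p.Prime] (hN : IsPGroup p N) (hO : OData E p V O)
    (hV : E.IsNormal V) (hover : ∀ X : Subgroup Ω, V < X → X ≤ N → SatClass E p X) :
    ∀ (k : ℕ) (R : Subgroup Ω) (φ : Ω → Ω), V < R → R ≤ N → Mor E R φ →
      Nat.card (ovg N V O) - Nat.card (ovg N V O ⊓ R : Subgroup Ω) = k →
      ∃ φ', Mor E (ovg N V O) φ' ∧ ∀ x ∈ V, φ' x = φ x := by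
  intro k
  induction k using Nat.strong_induction_on with
  | _ k ih =>
  intro R φ hVR hRN hφ hk
  by_cases hle : ovg N V O ≤ R
  · exact ⟨φ, hφ.restrict hle, fun x _ => rfl⟩
  have hVN : V ≤ N := hV.1
  have hVV₀ : V ≤ ovg N V O := hO.le_ovg hVN
  have hV₀N : ovg N V O ≤ N := ovg_le V O
  haveI : Finite (ovg N V O) := finite_of_le hV₀N
  haveI : Finite R := finite_of_le hRN
  -- the measure of `R`
  have hcR : Nat.card (ovg N V O ⊓ R : Subgroup Ω) < Nat.card (ovg N V O) := by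
    apply card_lt_card_of_lt
    exact lt_of_le_of_ne inf_le_left (fun h => hle (h ▸ inf_le_right))
  -- the saturated representative
  obtain ⟨X, hRX, hXfa, hXrc⟩ := hover R hVR hRN
  obtain ⟨χ, hχ, hχmaps, hχR⟩ := exists_normalizer_map hN hXfa hXrc hRX
  have hR'N : imgS R φ ≤ N := hφ.imgS_le
  have hVR' : V ≤ imgS R φ := by
    have h := hφ.imgS_mono hVR.le
    rwa [normal_imgS hV hVR.le hφ] at h
  have hVltR' : V < imgS R φ := by
    refine lt_of_le_of_ne hVR' (fun h => ?_)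
    have h1 := hφ.card_imgS
    rw [← h] at h1
    exact absurd h1 (card_lt_card_of_lt hVR).ne
  have hR'X : E.IsConj (imgS R φ) X :=
    isConj_trans (isConj_symm (isConj_iff.2 ⟨φ, hφ, rfl⟩)) hRX
  obtain ⟨χ', hχ', hχ'maps, hχ'R⟩ := exists_normalizer_map hN hXfa hXrc hR'X
  have hRNR : R ≤ normalizerIn N R := le_normalizerIn hRN
  have hR'NR : imgS R φ ≤ normalizerIn N (imgS R φ) := le_normalizerIn hR'N
  have hXN : X ≤ N := hXfa.1
  haveI : Finite X := finite_of_le hXN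
  have hχRm : Mor E R χ := hχ.restrict hRNR
  have hχ'Rm : Mor E (imgS R φ) χ' := hχ'.restrict hR'NR
  have hχV : imgS V χ = V := normal_imgS hV (hVR.le.trans hRNR) hχ
  have hχ'V : imgS V χ' = V := normal_imgS hV (hVR'.trans hR'NR) hχ'
  have hφV : imgS V φ = V := normal_imgS hV hVR.le hφ
  have hVX : V ≤ X := by
    have h := hχRm.imgS_mono hVR.le
    rwa [hχV, hχR] at h
  -- the automorphism `β` of `X`
  have hinv : Mor E X (invOn R χ) := by
    have := hχRm.inv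
    rwa [hχR] at this
  have hinvimg : imgS X (invOn R χ) = R := by
    have := hχRm.imgS_inv
    rwa [hχR] at this
  have hinvmem : ∀ y ∈ X, invOn R χ y ∈ R := fun y hy => hχRm.invOn_mem (by rw [hχR]; exact hy)
  have h1 : Mor E X (φ ∘ invOn R χ) := hinv.comp hφ hinvmem
  have h1maps : ∀ y ∈ X, (φ ∘ invOn R χ) y ∈ imgS R φ :=
    fun y hy => hφ.mem_imgS_of_mem (hinvmem y hy)
  have hβ : Mor E X (χ' ∘ (φ ∘ invOn R χ)) := h1.comp hχ'Rm h1maps
  have hβimg : imgS X (χ' ∘ (φ ∘ invOn R χ)) = X := by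
    rw [h1.imgS_comp hχ'Rm h1maps, hinv.imgS_comp hφ hinvmem, hinvimg, hχ'R]
  have hb : mkAut hβ hβimg ∈ E.autGroup X := mkAut_mem hβ hβimg
  -- Sylow theory in `C = Aut_E(X) ⊓ resO`
  have hsylA : IsSylIn p (autInducedBy N X) (E.autGroup X) := hXfa.2
  have hTA : autInducedBy N X ≤ E.autGroup X := autInducedBy_le_autGroup E hXN
  have hCconj : ∀ a ∈ E.autGroup X, ∀ γ ∈ E.autGroup X ⊓ resO hVX O,
      a * γ * a⁻¹ ∈ E.autGroup X ⊓ resO hVX O := fun a ha γ hγ =>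
    ⟨Subgroup.mul_mem _ (Subgroup.mul_mem _ ha hγ.1) (Subgroup.inv_mem _ ha),
      resO_conj hO.nor hVX (mem_resO_autGroup hV hVX hXN ha) hγ.2⟩
  have hnorm : E.autGroup X ≤ Subgroup.normalizer ((E.autGroup X ⊓ resO hVX O : Subgroup (MulAut X)) : Set (MulAut X)) := by
    intro a ha
    rw [Subgroup.mem_normalizer_iff]
    intro γ
    refine ⟨fun hγ => hCconj a ha γ hγ, fun hγ => ?_⟩
    have h := hCconj a⁻¹ (Subgroup.inv_mem _ ha) _ hγ
    have e : a⁻¹ * (a * γ * a⁻¹) * a⁻¹⁻¹ = γ := by group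
    rwa [e] at h
  have hsylC : IsSylIn p (autInducedBy N X ⊓ (E.autGroup X ⊓ resO hVX O))
      (E.autGroup X ⊓ resO hVX O) := hsylA.inf_of_normal hTA inf_le_left hnorm
  have hSgp : IsPGroup p ↥(autInducedBy N X ⊓ (E.autGroup X ⊓ resO hVX O) : Subgroup (MulAut X)) :=
    hsylC.isPGroup inf_le_right
  -- elements of the overgroup normalizing `X` induce members of `Σ`
  have hSgmem : ∀ y ∈ ovg N V O, y ∈ Subgroup.normalizer (X : Set Ω) → ∀ τ : MulAut X,
      (∀ x : X, ((τ x : X) : Ω) = y * (x : Ω) * y⁻¹) →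
      τ ∈ autInducedBy N X ⊓ (E.autGroup X ⊓ resO hVX O) := by
    intro y hy hyX τ hτ
    have hτN : τ ∈ autInducedBy N X := (mem_autInducedBy_iff N X τ).2 ⟨y, hV₀N hy, hτ⟩
    obtain ⟨-, κ, hκ, hrel⟩ := hy
    refine ⟨hτN, hTA hτN, κ, hκ, fun v hv => ?_⟩
    rw [autFun_of_mem τ (hVX hv), hτ]
    exact hrel v hv
  -- conjugate `b Σ b⁻¹` back into `Σ`
  have hconjle : (autInducedBy N X ⊓ (E.autGroup X ⊓ resO hVX O)).map
      (MulAut.conj (mkAut hβ hβimg)).toMonoidHom ≤ E.autGroup X ⊓ resO hVX O := by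
    rintro _ ⟨τ, hτ, rfl⟩
    exact hCconj _ hb τ hτ.2
  obtain ⟨δ, hδC, hδ⟩ := hsylC.exists_conj_le hconjle (hSgp.map _)
  obtain ⟨g, hgV₀, hgX, hgδ⟩ := hO.h3 X hVX hXN hXfa δ hδC.1 hδC.2
  obtain ⟨σ, hσ⟩ := exists_conjAut hgX
  have hσS := hSgmem g hgV₀ hgX σ hσ
  -- the corrected automorphism `β' = σ⁻¹ δ b`
  have hβ'A : σ⁻¹ * δ * mkAut hβ hβimg ∈ E.autGroup X :=
    Subgroup.mul_mem _ (Subgroup.mul_mem _ (Subgroup.inv_mem _ hσS.2.1) hδC.1) hb
  have hβ'm : Mor E X (autFun X (σ⁻¹ * δ * mkAut hβ hβimg)) := (mem_autGroup_iff hXN _).1 hβ'A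
  have hβ'V : ∀ v ∈ V, autFun X (σ⁻¹ * δ * mkAut hβ hβimg) v = χ' (φ (invOn R χ v)) := by
    intro v hv
    have hbv : autFun X (mkAut hβ hβimg) v = χ' (φ (invOn R χ v)) := autFun_mkAut hβ hβimg (hVX hv)
    have hbvV : χ' (φ (invOn R χ v)) ∈ V := by
      have e1 : invOn R χ v ∈ V := by
        rw [← hχV] at hv
        obtain ⟨u, hu, rfl⟩ := (hχRm.restrict hVR.le).mem_imgS.1 hv
        rw [invOn_apply hχRm.injOn (hVR.le hu)]
        exact hu
      have e2 : φ (invOn R χ v) ∈ V := by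
        have := (hφ.restrict hVR.le).mem_imgS_of_mem e1
        rwa [hφV] at this
      have := (hχ'Rm.restrict hVR').mem_imgS_of_mem e2
      rwa [hχ'V] at this
    rw [autFun_mul _ _ (hVX hv), hbv, autFun_mul _ _ (hVX hbvV), hgδ _ hbvV, ← hσ ⟨_, hVX hbvV⟩,
      ← autFun_of_mem σ (hVX hbvV), autFun_inv_apply σ (hVX hbvV)]
  -- elements of the overgroup normalizing `X` lie in the extender of `β'`
  have hext : ∀ y ∈ ovg N V O, y ∈ Subgroup.normalizer (X : Set Ω) →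
      y ∈ extSub N X (autFun X (σ⁻¹ * δ * mkAut hβ hβimg)) := by
    intro y hy hyX
    obtain ⟨τ, hτ⟩ := exists_conjAut hyX
    have hτS := hSgmem y hy hyX τ hτ
    have h2 : δ * (mkAut hβ hβimg * τ * (mkAut hβ hβimg)⁻¹) * δ⁻¹ ∈
        autInducedBy N X ⊓ (E.autGroup X ⊓ resO hVX O) := hδ _ ⟨τ, hτS, rfl⟩
    have h3 : σ⁻¹ * (δ * (mkAut hβ hβimg * τ * (mkAut hβ hβimg)⁻¹) * δ⁻¹) * σ ∈
        autInducedBy N X ⊓ (E.autGroup X ⊓ resO hVX O) :=
      Subgroup.mul_mem _ (Subgroup.mul_mem _ (Subgroup.inv_mem _ hσS) h2) hσS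
    have e : σ⁻¹ * (δ * (mkAut hβ hβimg * τ * (mkAut hβ hβimg)⁻¹) * δ⁻¹) * σ =
        (σ⁻¹ * δ * mkAut hβ hβimg) * τ * (σ⁻¹ * δ * mkAut hβ hβimg)⁻¹ := by group
    rw [e] at h3
    obtain ⟨h, hhN, hh⟩ := (mem_autInducedBy_iff N X _).1 h3.1
    rw [mem_extSub_iff hβ'm]
    refine ⟨hV₀N hy, hyX, h, hhN, fun x hx => ?_⟩
    have h4 := hh ((σ⁻¹ * δ * mkAut hβ hβimg) ⟨x, hx⟩)
    rw [MulAut.mul_apply, MulAut.mul_apply, MulAut.inv_apply_self] at h4
    have hyx : y * x * y⁻¹ ∈ X := conj_mem_of_mem_normalizer hyX hx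
    rw [autFun_of_mem _ hyx, autFun_of_mem _ hx, ← h4]
    congr 2
    exact Subtype.ext (hτ ⟨x, hx⟩).symm
  obtain ⟨βt, hβt, hβtβ'⟩ := receptive_extend' hXrc hβ'm (imgS_autFun hβ'm)
  -- the enlarged subgroup `R₁`
  have hR₁N : R ⊔ (ovg N V O ⊓ normalizerIn N R) ≤ normalizerIn N R := sup_le hRNR inf_le_right
  have hχR₁ : Mor E (R ⊔ (ovg N V O ⊓ normalizerIn N R)) χ := hχ.restrict hR₁N
  have hχR₁maps : ∀ x ∈ R ⊔ (ovg N V O ⊓ normalizerIn N R),
      χ x ∈ extSub N X (autFun X (σ⁻¹ * δ * mkAut hβ hβimg)) := by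
    refine Cfsg.Agent.H88.mor_sup_maps hχR₁ (fun x hx => ?_) (fun x hx => ?_)
    · apply le_extSub hβ'm
      rw [← hχR]
      exact hχRm.mem_imgS_of_mem hx
    · have hxχ := hχmaps x hx.2
      exact hext _ (hO.map_mem hV (hVR.le.trans hRNR) hχ hx.2 hx.1) (mem_normalizerIn_iff.1 hxχ).2
  have hρ : Mor E (R ⊔ (ovg N V O ⊓ normalizerIn N R)) (βt ∘ χ) := hχR₁.comp hβt hχR₁maps
  have hρV : ∀ v ∈ V, (βt ∘ χ) v = χ' (φ v) := by
    intro v hv
    have hχv : χ v ∈ V := by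
      have := (hχRm.restrict hVR.le).mem_imgS_of_mem hv
      rwa [hχV] at this
    show βt (χ v) = χ' (φ v)
    rw [hβtβ' _ (hVX hχv), hβ'V _ hχv, invOn_apply hχRm.injOn (hVR.le hv)]
  -- measures
  obtain ⟨w, hwV₀, hwN, hwR⟩ := hO.exists_growth hN hV hRN hle
  haveI : Finite ↥(ovg N V O ⊓ (R ⊔ (ovg N V O ⊓ normalizerIn N R)) : Subgroup Ω) :=
    finite_of_le (inf_le_left.trans hV₀N)
  have hc₁ : Nat.card (ovg N V O ⊓ R : Subgroup Ω) <
      Nat.card (ovg N V O ⊓ (R ⊔ (ovg N V O ⊓ normalizerIn N R)) : Subgroup Ω) := by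
    apply card_lt_card_of_lt
    refine lt_of_le_of_ne (inf_le_inf_left _ le_sup_left) (fun h => hwR ?_)
    have : w ∈ ovg N V O ⊓ R := by
      rw [h]
      exact ⟨hwV₀, Subgroup.mem_sup_right ⟨hwV₀, hwN⟩⟩
    exact this.2
  have hc₁' : Nat.card (ovg N V O ⊓ (R ⊔ (ovg N V O ⊓ normalizerIn N R)) : Subgroup Ω) ≤
      Nat.card (ovg N V O) := Subgroup.card_le_of_le inf_le_left
  obtain ⟨ρh, hρh, hρhV⟩ := ih _ (by omega) _ (βt ∘ χ) (lt_of_lt_of_le hVR le_sup_left)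
    (hR₁N.trans inf_le_left) hρ rfl
  -- the second map `χ'`
  haveI : Finite ↥(ovg N V O ⊓ normalizerIn N (imgS R φ) : Subgroup Ω) :=
    finite_of_le (inf_le_left.trans hV₀N)
  have hc₂ : Nat.card (ovg N V O ⊓ R : Subgroup Ω) <
      Nat.card (ovg N V O ⊓ normalizerIn N (imgS R φ) : Subgroup Ω) := by
    by_cases hle' : ovg N V O ≤ imgS R φ
    · have : ovg N V O ⊓ normalizerIn N (imgS R φ) = ovg N V O :=
        inf_eq_left.2 (hle'.trans hR'NR)
      rw [this]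
      exact hcR
    · obtain ⟨w', hw'V₀, hw'N, hw'R⟩ := hO.exists_growth hN hV hR'N hle'
      haveI : Finite ↥(ovg N V O ⊓ imgS R φ : Subgroup Ω) := finite_of_le (inf_le_left.trans hV₀N)
      have hle1 : Nat.card (ovg N V O ⊓ R : Subgroup Ω) ≤
          Nat.card (ovg N V O ⊓ imgS R φ : Subgroup Ω) := by
        have hm : Mor E (ovg N V O ⊓ R) φ := hφ.restrict inf_le_right
        rw [← hm.card_imgS]
        apply Subgroup.card_le_of_le
        intro y hy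
        obtain ⟨x, hx, rfl⟩ := hm.mem_imgS.1 hy
        exact ⟨hO.map_mem hV hVR.le hφ hx.2 hx.1, hφ.mem_imgS_of_mem hx.2⟩
      refine lt_of_le_of_lt hle1 (card_lt_card_of_lt ?_)
      refine lt_of_le_of_ne (inf_le_inf_left _ hR'NR) (fun h => hw'R ?_)
      have : w' ∈ ovg N V O ⊓ imgS R φ := by
        rw [h]
        exact ⟨hw'V₀, hw'N⟩
      exact this.2
  have hc₂' : Nat.card (ovg N V O ⊓ normalizerIn N (imgS R φ) : Subgroup Ω) ≤
      Nat.card (ovg N V O) := Subgroup.card_le_of_le inf_le_left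
  obtain ⟨χh, hχh, hχhV⟩ := ih _ (by omega) _ χ' (lt_of_lt_of_le hVltR' hR'NR) inf_le_left hχ' rfl
  -- combine
  have hχhimg : imgS (ovg N V O) χh = ovg N V O := hO.imgS_ovg hV hχh
  have hρhimg : imgS (ovg N V O) ρh = ovg N V O := hO.imgS_ovg hV hρh
  have hχhinv : Mor E (ovg N V O) (invOn (ovg N V O) χh) := by
    have := hχh.inv
    rwa [hχhimg] at this
  refine ⟨invOn (ovg N V O) χh ∘ ρh, hρh.comp hχhinv (fun x hx => ?_), fun v hv => ?_⟩
  · have := hρh.mem_imgS_of_mem hx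
    rwa [hρhimg] at this
  · have hφv : φ v ∈ V := by
      have := (hφ.restrict hVR.le).mem_imgS_of_mem hv
      rwa [hφV] at this
    show invOn (ovg N V O) χh (ρh v) = φ v
    rw [hρhV v hv, hρV v hv, ← hχhV _ hφv, invOn_apply hχh.injOn (hVV₀ hφv)]

/-- Every automorphism of `V` in the system extends to the overgroup. -/
theorem ext_all [Finite N] [Fact p.Prime] (hN : IsPGroup p N) (hO : OData E p V O)
    (hV : E.IsNormal V) (hover : ∀ X : Subgroup Ω, V < X → X ≤ N → SatClass E p X)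
    (hgen : ∀ D : FusionSystem N, (∀ X : Subgroup Ω, V < X → E.Hom X ⊆ D.Hom X) → E ≤ D) :
    ∀ a, Mor E V a → ∃ a', Mor E (ovg N V O) a' ∧ ∀ x ∈ V, a' x = a x := by
  have hVN : V ≤ N := hV.1
  have hVV₀ : V ≤ ovg N V O := hO.le_ovg hVN
  have hV₀N : ovg N V O ≤ N := ovg_le V O
  have hmapsV₀ : ∀ {f : Ω → Ω}, Mor E (ovg N V O) f → ∀ x ∈ ovg N V O, f x ∈ ovg N V O :=
    fun hf x hx => hO.map_mem hV hVV₀ hf hx hx
  let good : Subgroup Ω → (Ω → Ω) → Prop := fun X f =>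
    ∃ f', Mor E (X ⊔ V) f' ∧ (∀ x ∈ X, f' x = f x) ∧
      ∃ a', Mor E (ovg N V O) a' ∧ ∀ x ∈ V, a' x = f' x
  have hcongr : ∀ (P : Subgroup Ω) (f g : Ω → Ω), Mor E P f → (∀ x ∈ P, f x = g x) →
      good P f → good P g := by
    rintro P f g - hfg ⟨f', hf', hf'f, a', ha', ha'f'⟩
    exact ⟨f', hf', fun x hx => (hf'f x hx).trans (hfg x hx), a', ha', ha'f'⟩
  have hconj : ∀ (P : Subgroup Ω) (g : Ω), P ≤ N → g ∈ N → good P (fun x => g * x * g⁻¹) := by
    intro P g hP hg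
    exact ⟨fun x => g * x * g⁻¹, Mor.conj E (sup_le hP hVN) hg, fun x _ => rfl,
      fun x => g * x * g⁻¹, Mor.conj E hV₀N hg, fun x _ => rfl⟩
  have hcomp : ∀ (P Q : Subgroup Ω) (f g : Ω → Ω), Mor E P f → Mor E Q g → (∀ x ∈ P, f x ∈ Q) →
      good P f → good Q g → good P (g ∘ f) := by
    rintro P Q f g - - hPQ ⟨f', hf', hf'f, a', ha', ha'f'⟩ ⟨g', hg', hg'g, b', hb', hb'g'⟩
    have hf'V : ∀ x ∈ V, f' x ∈ V := fun x hx => by
      have := (hf'.restrict le_sup_right).mem_imgS_of_mem hx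
      rwa [normal_imgS hV le_sup_right hf'] at this
    have hmaps : ∀ x ∈ P ⊔ V, f' x ∈ Q ⊔ V :=
      Cfsg.Agent.H88.mor_sup_maps hf'
        (fun x hx => Subgroup.mem_sup_left (by rw [hf'f x hx]; exact hPQ x hx))
        (fun x hx => Subgroup.mem_sup_right (hf'V x hx))
    refine ⟨g' ∘ f', hf'.comp hg' hmaps, fun x hx => ?_, b' ∘ a',
      ha'.comp hb' (hmapsV₀ ha'), fun x hx => ?_⟩
    · show g' (f' x) = g (f x)
      rw [hf'f x hx, hg'g _ (hPQ x hx)]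
    · show b' (a' x) = g' (f' x)
      rw [ha'f' x hx, hb'g' _ (hf'V x hx)]
  have hinv : ∀ (P : Subgroup Ω) (f : Ω → Ω), Mor E P f → good P f →
      good (imgS P f) (invOn P f) := by
    rintro P f hf ⟨f', hf', hf'f, a', ha', ha'f'⟩
    have hf'Vimg : imgS V f' = V := normal_imgS hV le_sup_right hf'
    have himg : imgS (P ⊔ V) f' = imgS P f ⊔ V := by
      rw [hf'.imgS_sup, hf'Vimg, (hf'.restrict le_sup_left).imgS_congr hf'f]
    have hinv' : Mor E (imgS P f ⊔ V) (invOn (P ⊔ V) f') := by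
      have := hf'.inv
      rwa [himg] at this
    have ha'inv : Mor E (ovg N V O) (invOn (ovg N V O) a') := by
      have := ha'.inv
      rwa [hO.imgS_ovg hV ha'] at this
    refine ⟨invOn (P ⊔ V) f', hinv', fun y hy => ?_, invOn (ovg N V O) a', ha'inv, fun v hv => ?_⟩
    · obtain ⟨x, hx, rfl⟩ := hf.mem_imgS.1 hy
      rw [invOn_apply hf.injOn hx, ← hf'f x hx, invOn_apply hf'.injOn (Subgroup.mem_sup_left hx)]
    · rw [← hf'Vimg] at hv
      obtain ⟨u, hu, rfl⟩ := (hf'.restrict le_sup_right).mem_imgS.1 hv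
      rw [invOn_apply hf'.injOn (Subgroup.mem_sup_right hu), ← ha'f' u hu,
        invOn_apply ha'.injOn (hVV₀ hu)]
  have hle := hgen (predSys E good hcongr hconj hcomp hinv) (by
    intro X hVX φ hφ
    have hm : Mor E X (extFun X φ) := mor_extFun hφ
    refine ⟨hφ, ?_⟩
    obtain ⟨a', ha', ha'φ⟩ := hO.claimE hN hV hover _ X (extFun X φ) hVX hm.le hm rfl
    refine ⟨extFun X φ, ?_, fun x _ => rfl, a', ha', ha'φ⟩
    rw [sup_eq_left.2 hVX.le]
    exact hm)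
  intro a ha
  obtain ⟨f', hf', hf'a, a', ha', ha'f'⟩ := ((mor_predSys_iff.1 (fusionSystem_le_iff.1 hle V a ha)).2 : good V a)
  exact ⟨a', ha', fun x hx => (ha'f' x hx).trans (hf'a x hx)⟩

end OData

/-- The case `O = Inn V`. -/
theorem odata_inn {E : FusionSystem N} (p : ℕ) {V : Subgroup Ω} (hV : E.IsNormal V) :
    OData E p V (Inn V) where
  le := inn_le_autGroup E hV.1
  inn := le_rfl
  nor := fun α _ o ho => (inn_normal V).conj_mem o ho α
  h3 := by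
    rintro X hVX hXN - γ - ⟨o, ho, h⟩
    obtain ⟨v, hv, H⟩ := (mem_inn_iff o).1 ho
    refine ⟨v, ⟨hV.1 hv, o, ho, fun x hx => ?_⟩, Subgroup.le_normalizer (hVX hv), fun w hw => ?_⟩
    · show v * x * v⁻¹ = autFun V o x
      rw [autFun_of_mem o hx, H]
    · rw [h w hw, autFun_of_mem o hw, H]

theorem resO_pow_aux {X V : Subgroup Ω} (hVX : V ≤ X) {γ : MulAut X} {o : MulAut V}
    (h : ∀ v ∈ V, autFun X γ v = autFun V o v) (n : ℕ) :
    ∀ v ∈ V, autFun X (γ ^ n) v = autFun V (o ^ n) v := by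
  induction n with
  | zero =>
    intro v hv
    rw [pow_zero, pow_zero, autFun_one (hVX hv), autFun_one hv]
  | succ n ih =>
    intro v hv
    rw [pow_succ, pow_succ, autFun_mul _ _ (hVX hv), h v hv, ih _ (autFun_mem o hv),
      autFun_mul _ _ hv]

theorem normal_conj_mem {E : FusionSystem N} {V : Subgroup Ω} (hV : E.IsNormal V) {n v : Ω}
    (hn : n ∈ N) (hv : v ∈ V) : n * v * n⁻¹ ∈ V := by
  have h := normal_imgS hV hV.1 (Mor.conj E le_rfl hn)
  have h1 := (Mor.conj E hV.1 hn).mem_imgS_of_mem hv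
  rwa [h] at h1

theorem autFun_map_inv' {P : Subgroup Ω} (α : MulAut P) {x : Ω} (hx : x ∈ P) :
    autFun P α x⁻¹ = (autFun P α x)⁻¹ := by
  rw [autFun_of_mem α hx, autFun_of_mem α (P.inv_mem hx)]
  have : (⟨x⁻¹, P.inv_mem hx⟩ : P) = (⟨x, hx⟩ : P)⁻¹ := rfl
  rw [this, map_inv]
  rfl

/-- An automorphism of `X ≥ V` fixing `V` pointwise has order dividing `|V|`, when `C_N(V) ≤ V`. -/
theorem pow_card_eq_one_of_fix {E : FusionSystem N} [Finite N] {V X : Subgroup Ω}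
    (hV : E.IsNormal V) (hVX : V ≤ X) (hXN : X ≤ N) (hC : centralizerIn N V ≤ V) {κ : MulAut X}
    (hκ : ∀ v ∈ V, autFun X κ v = v) : κ ^ Nat.card V = 1 := by
  have hz : ∀ x ∈ X, x⁻¹ * autFun X κ x ∈ V := by
    intro x hx
    apply hC
    rw [mem_centralizerIn_iff]
    refine ⟨N.mul_mem (N.inv_mem (hXN hx)) (hXN (autFun_mem κ hx)), fun v hv => ?_⟩
    have hxv : x * v * x⁻¹ ∈ V := normal_conj_mem hV (hXN hx) hv
    have h1 : autFun X κ (x * v * x⁻¹) = x * v * x⁻¹ := hκ _ hxv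
    have h2 : autFun X κ (x * v * x⁻¹) = autFun X κ x * v * (autFun X κ x)⁻¹ := by
      rw [autFun_map_mul κ (X.mul_mem hx (hVX hv)) (X.inv_mem hx), autFun_map_mul κ hx (hVX hv),
        hκ v hv, autFun_map_inv' κ hx]
    have h3 : autFun X κ x * v * (autFun X κ x)⁻¹ = x * v * x⁻¹ := h2.symm.trans h1
    calc v * (x⁻¹ * autFun X κ x) = x⁻¹ * (x * v * x⁻¹) * autFun X κ x := by group
      _ = x⁻¹ * (autFun X κ x * v * (autFun X κ x)⁻¹) * autFun X κ x := by rw [h3]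
      _ = x⁻¹ * autFun X κ x * v := by group
  have hfix : ∀ n : ℕ, ∀ v ∈ V, autFun X (κ ^ n) v = v := by
    intro n v hv
    have h := resO_pow_aux hVX (γ := κ) (o := 1)
      (fun v hv => by rw [hκ v hv, autFun_one hv]) n v hv
    rwa [one_pow, autFun_one hv] at h
  have hpow : ∀ n : ℕ, ∀ x ∈ X, autFun X (κ ^ n) x = x * (x⁻¹ * autFun X κ x) ^ n := by
    intro n
    induction n with
    | zero =>
      intro x hx
      rw [pow_zero, pow_zero, autFun_one hx, mul_one]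
    | succ n ih =>
      intro x hx
      have hz' := hz x hx
      have e : autFun X κ x = x * (x⁻¹ * autFun X κ x) := by group
      rw [pow_succ, autFun_mul _ _ hx]
      conv_lhs => rw [e]
      rw [autFun_map_mul (κ ^ n) hx (hVX hz'), ih x hx, hfix n _ hz', pow_succ, mul_assoc]
  haveI : Finite V := finite_of_le hV.1
  apply autFun_ext
  intro x hx
  rw [hpow _ x hx, autFun_one hx]
  have h1 : (⟨x⁻¹ * autFun X κ x, hz x hx⟩ : V) ^ Nat.card V = 1 := pow_card_eq_one'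
  have h2 := congrArg Subtype.val h1
  simp only [Subgroup.coe_pow, Subgroup.coe_one] at h2
  rw [h2, mul_one]

/-- The case `O = O_p(Aut_E(V))`, when `C_N(V) ≤ V`. -/
theorem odata_pcore {E : FusionSystem N} [Finite N] {p : ℕ} [Fact p.Prime] (hN : IsPGroup p N)
    {V : Subgroup Ω} (hV : E.IsNormal V) (hC : centralizerIn N V ≤ V) :
    OData E p V ((pCore p ↥(E.autGroup V)).map (E.autGroup V).subtype) := by
  have hVN : V ≤ N := hV.1
  haveI : Finite V := finite_of_le hVN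
  have hnor : ∀ α ∈ E.autGroup V, ∀ o ∈ (pCore p ↥(E.autGroup V)).map (E.autGroup V).subtype,
      α * o * α⁻¹ ∈ (pCore p ↥(E.autGroup V)).map (E.autGroup V).subtype := by
    rintro α hα _ ⟨a, ha, rfl⟩
    exact ⟨⟨α, hα⟩ * a * ⟨α, hα⟩⁻¹,
      (Cfsg.Agent.H13.pCore_normal p ↥(E.autGroup V)).conj_mem a ha ⟨α, hα⟩, rfl⟩
  have hOp : IsPGroup p ↥((pCore p ↥(E.autGroup V)).map (E.autGroup V).subtype) :=
    (pCore_isPGroup p).map _
  refine ⟨?_, ?_, hnor, ?_⟩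
  · rintro _ ⟨a, -, rfl⟩
    exact a.2
  · intro α hα
    have hαA : α ∈ E.autGroup V := inn_le_autGroup E hVN hα
    have hInnp : IsPGroup p ↥((Inn V).subgroupOf (E.autGroup V)) :=
      ((autInducedBy_isPGroup hN V).to_le (inn_le_autInducedBy hVN)).comap_of_injective _
        (Subgroup.subtype_injective _)
    have h1 : (⟨α, hαA⟩ : ↥(E.autGroup V)) ∈ pCore p ↥(E.autGroup V) :=
      le_pCore (inn_subgroupOf_normal E V) hInnp (Subgroup.mem_subgroupOf.2 hα)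
    exact ⟨⟨α, hαA⟩, h1, rfl⟩
  · intro X hVX hXN hXfa γ hγA hγ
    haveI : Finite X := finite_of_le hXN
    have hsylA : IsSylIn p (autInducedBy N X) (E.autGroup X) := hXfa.2
    have hCconj : ∀ a ∈ E.autGroup X, ∀ γ ∈ E.autGroup X ⊓ resO hVX
        ((pCore p ↥(E.autGroup V)).map (E.autGroup V).subtype),
        a * γ * a⁻¹ ∈ E.autGroup X ⊓ resO hVX
          ((pCore p ↥(E.autGroup V)).map (E.autGroup V).subtype) := fun a ha γ hγ =>
      ⟨Subgroup.mul_mem _ (Subgroup.mul_mem _ ha hγ.1) (Subgroup.inv_mem _ ha),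
        OData.resO_conj hnor hVX (OData.mem_resO_autGroup hV hVX hXN ha) hγ.2⟩
    have hCp : IsPGroup p ↥(E.autGroup X ⊓ resO hVX
        ((pCore p ↥(E.autGroup V)).map (E.autGroup V).subtype) : Subgroup (MulAut X)) := by
      rintro ⟨γ, -, o, ho, h⟩
      obtain ⟨a, ha⟩ := hOp ⟨o, ho⟩
      have ha' : o ^ p ^ a = 1 := by
        have := congrArg Subtype.val ha
        simpa using this
      obtain ⟨b, hb⟩ := IsPGroup.iff_card.mp (hN.to_le hVN)
      have hfix : ∀ v ∈ V, autFun X (γ ^ p ^ a) v = v := by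
        intro v hv
        have := resO_pow_aux hVX h (p ^ a) v hv
        rwa [ha', autFun_one hv] at this
      have h1 := pow_card_eq_one_of_fix hV hVX hXN hC hfix
      refine ⟨a + b, Subtype.ext ?_⟩
      show γ ^ p ^ (a + b) = 1
      rw [pow_add, pow_mul, ← hb, h1]
    obtain ⟨m, hm, hmconj⟩ := hsylA.exists_conj_le inf_le_left hCp
    have h1 := hCconj m⁻¹ (Subgroup.inv_mem _ hm) γ ⟨hγA, hγ⟩
    have h2 := hmconj _ h1
    have e : m * (m⁻¹ * γ * m⁻¹⁻¹) * m⁻¹ = γ := by group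
    rw [e] at h2
    obtain ⟨g, hgN, H⟩ := (mem_autInducedBy_iff N X γ).1 h2
    obtain ⟨o, ho, h⟩ := hγ
    refine ⟨g, ⟨hgN, o, ho, fun x hx => ?_⟩, mem_normalizer_of_induces H, fun v hv => ?_⟩
    · show g * x * g⁻¹ = autFun V o x
      rw [← h x hx, autFun_of_mem γ (hVX hx), H]
    · rw [autFun_of_mem γ (hVX hv), H]

/-- Every automorphism of `V` extends to a fixed larger invariant subgroup. -/
theorem exists_ext_overgroup [Finite N] {p : ℕ} [Fact p.Prime] (hN : IsPGroup p N)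
    {E : FusionSystem N} {V : Subgroup Ω} (hV : E.IsNormal V)
    (hover : ∀ X : Subgroup Ω, V < X → X ≤ N → SatClass E p X)
    (hgen : ∀ D : FusionSystem N, (∀ X : Subgroup Ω, V < X → E.Hom X ⊆ D.Hom X) → E ≤ D)
    (hstar : ¬ centralizerIn N V ≤ V ∨
      ¬ (autInducedBy N V ⊓ (pCore p ↥(E.autGroup V)).map (E.autGroup V).subtype ≤ Inn V)) :
    ∃ V₀ : Subgroup Ω, V < V₀ ∧ V₀ ≤ N ∧ (∀ f, Mor E V₀ f → imgS V₀ f = V₀) ∧
      ∀ a, Mor E V a → ∃ a', Mor E V₀ a' ∧ ∀ x ∈ V, a' x = a x := by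
  have hVN : V ≤ N := hV.1
  by_cases hC : centralizerIn N V ≤ V
  · have hst := hstar.resolve_left (not_not.2 hC)
    have hO := odata_pcore hN hV hC
    refine ⟨_, ?_, ovg_le V _, fun f hf => hO.imgS_ovg hV hf, hO.ext_all hN hV hover hgen⟩
    refine lt_of_le_of_ne (hO.le_ovg hVN) (fun heq => hst ?_)
    rintro α ⟨hαN, hαO⟩
    obtain ⟨g, hg, H⟩ := (mem_autInducedBy_iff N V α).1 hαN
    have hgV₀ : g ∈ ovg N V ((pCore p ↥(E.autGroup V)).map (E.autGroup V).subtype) :=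
      ⟨hg, α, hαO, fun x hx => by
        show g * x * g⁻¹ = autFun V α x
        rw [autFun_of_mem α hx, H]⟩
    rw [← heq] at hgV₀
    exact (mem_inn_iff α).2 ⟨g, hgV₀, H⟩
  · have hO := odata_inn (E := E) p hV
    refine ⟨_, ?_, ovg_le V _, fun f hf => hO.imgS_ovg hV hf, hO.ext_all hN hV hover hgen⟩
    refine lt_of_le_of_ne (hO.le_ovg hVN) (fun heq => hC ?_)
    intro c hc
    have hcV₀ : c ∈ ovg N V (Inn V) := by
      obtain ⟨hcN, hcc⟩ := mem_centralizerIn_iff.1 hc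
      refine ⟨hcN, 1, Subgroup.one_mem _, fun x hx => ?_⟩
      show c * x * c⁻¹ = autFun V 1 x
      rw [autFun_one hx, ← hcc x hx, mul_inv_cancel_right]
    rw [← heq] at hcV₀
    exact hcV₀

end Cfsg.Agent.H87
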