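import Mathlib
import Cfsg.Agent.H45.S43Defs

/-!
# S43-ORB (helper87, for helper45's S2343): the projections of the characters non-trivial on
`Z` are conjugate (by `X t * H s`).
-/

set_option autoImplicit false

namespace Cfsg.Agent.H87.S43

open Matrix Cfsg.Agent.H45 Cfsg.Agent.H45.S43

universe u v

theorem orb : StOrb.{u, v} := by
  intro G _ F _ _ D ψ k R l μ hl hμ
  set s : Fˣ := Units.mk0 (l 1 / μ 1) (div_ne_zero hl hμ) with hs
  have hsv : (s : F) = l 1 / μ 1 := rfl
  have hs0 : (s : F) ≠ 0 := s.ne_zero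
  set κs : F := ((D.κ s : Fˣ) : F) with hκ
  have hκ0 : κs ≠ 0 := (D.κ s).ne_zero
  set t : F := (l 0 - μ 0 * κs) / (μ 1 * κs) with ht
  let σ : (Fin 2 → F) ≃ (Fin 2 → F) :=
    { toFun := fun a => ![κs * a 0, (s : F) * a 1 + t * (κs * a 0)]
      invFun := fun b => ![b 0 / κs, (b 1 - t * b 0) / (s : F)]
      left_inv := by
        intro a
        funext i
        fin_cases i
        · simp only [Fin.zero_eta, Matrix.cons_val_zero]
          field_simp
        · simp only [Fin.mk_one, Matrix.cons_val_one, Matrix.cons_val_zero]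
          field_simp
          ring
      right_inv := by
        intro b
        funext i
        fin_cases i
        · simp only [Fin.zero_eta, Matrix.cons_val_zero]
          field_simp
        · simp only [Fin.mk_one, Matrix.cons_val_one, Matrix.cons_val_zero]
          field_simp
          ring }
  have hσ0 : ∀ a, σ a 0 = κs * a 0 := fun a => rfl
  have hσ1 : ∀ a, σ a 1 = (s : F) * a 1 + t * (κs * a 0) := fun a => rfl
  refine ⟨D.X t * D.H s, ?_⟩
  apply lsIdem_conj ψ R D.uA (D.X t * D.H s) σ l μ
  · intro a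
    unfold ReeRel.uA
    rw [hσ0, hσ1]
    have h1 : D.X t * D.H s * D.A (a 0) (a 1) =
        D.A (κs * a 0) ((s : F) * a 1 + t * (κs * a 0)) * (D.X t * D.H s) := by
      rw [mul_assoc, D.H_conj, ← mul_assoc, D.X_conj, mul_assoc]
    rw [h1, mul_inv_cancel_right]
  · intro a
    simp only [dotProduct, Fin.sum_univ_two]
    rw [hσ0, hσ1, hsv, ht]
    field_simp
    ring

example : Cfsg.Agent.H45.S43.StOrb.{u, v} := orb

end Cfsg.Agent.H87.S43

#print axioms Cfsg.Agent.H87.S43.orb
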