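import Mathlib
import Cfsg.Agent.H45.S43Defs

/-!
# S43-TRIDEM (helper87, for helper45's S2343): the trace of an idempotent complex matrix is a
natural number.
-/

set_option autoImplicit false

namespace Cfsg.Agent.H87.S43

open Matrix Cfsg.Agent.H45 Cfsg.Agent.H45.S43

theorem trIdem : StTrIdem := by
  intro k M hM
  set f : (Fin k → ℂ) →ₗ[ℂ] (Fin k → ℂ) := Matrix.toLin' M with hf
  have hff : f ∘ₗ f = f := by rw [hf, ← Matrix.toLin'_mul, hM]
  have hproj : LinearMap.IsProj (LinearMap.range f) f := by
    constructor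
    · intro x; exact LinearMap.mem_range_self f x
    · rintro x ⟨y, rfl⟩
      exact LinearMap.congr_fun hff y
  have htr := hproj.trace
  refine ⟨Module.finrank ℂ (LinearMap.range f), ?_⟩
  rw [← htr, LinearMap.trace_eq_matrix_trace ℂ (Pi.basisFun ℂ (Fin k)),
    LinearMap.toMatrix_eq_toMatrix', hf, LinearMap.toMatrix'_toLin']

example : Cfsg.Agent.H45.S43.StTrIdem := trIdem

end Cfsg.Agent.H87.S43

#print axioms Cfsg.Agent.H87.S43.trIdem
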