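import Mathlib
import Cfsg.Agent.H64.TtDefs2

/-!
# TT-K4 (helper87, for helper64's S3685): the relations for `k = 4`.
-/

set_option autoImplicit false

namespace Cfsg.Agent.H87.Tt

open Cfsg.Agent.H64.Tt

universe u

/-- In a group of order 6 the product of two involutions has order dividing 3. -/
theorem cube_of_card_six {Q : Type*} [Group Q] [Finite Q] (h6 : Nat.card Q = 6) (a b : Q)
    (ha : a * a = 1) (hb : b * b = 1) (ha1 : a ≠ 1) (hb1 : b ≠ 1) : (a * b) ^ 3 = 1 := by
  haveI : Fact (Nat.Prime 3) := ⟨Nat.prime_three⟩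
  obtain ⟨T, hT⟩ := Sylow.exists_subgroup_card_pow_prime (G := Q) 3 (n := 1)
    (by rw [h6]; norm_num)
  rw [pow_one] at hT
  have hidx : T.index = 2 := by
    have := Subgroup.card_mul_index T
    rw [hT, h6] at this
    omega
  have hnot : ∀ c : Q, c * c = 1 → c ≠ 1 → c ∉ T := by
    intro c hc hc1 hcT
    have h2 : orderOf c = 2 := orderOf_eq_prime (by rw [pow_two, hc]) hc1
    have h3 : orderOf c ∣ 3 := by
      rw [← hT]
      exact Subgroup.orderOf_dvd_natCard T hcT
    rw [h2] at h3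
    exact absurd h3 (by norm_num)
  have hab : a * b ∈ T :=
    (Subgroup.mul_mem_iff_of_index_two hidx).mpr (iff_of_false (hnot a ha ha1) (hnot b hb hb1))
  have h3 := Subgroup.orderOf_dvd_natCard T hab
  rw [hT] at h3
  exact orderOf_dvd_iff_pow_eq_one.mp h3

section helpers

variable {G : Type u} [Group G]

theorem X_comm_elt (x : ℤ → G) (a b : ℤ) (y : G)
    (h : ∀ i, a ≤ i → i ≤ b → y * x i = x i * y) : ∀ n ∈ X x a b, y * n = n * y := by
  have hle : X x a b ≤ Subgroup.centralizer {y} := by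
    rw [X_le_iff]
    intro i h1 h2
    rw [Subgroup.mem_centralizer_iff]
    intro z hz
    rw [Set.mem_singleton_iff] at hz
    rw [hz]
    exact h i h1 h2
  intro n hn
  exact Subgroup.mem_centralizer_iff.mp (hle hn) y (Set.mem_singleton y)

theorem X_comm (x : ℤ → G) (a b : ℤ)
    (hcm : ∀ i j, a ≤ i → i ≤ b → a ≤ j → j ≤ b → x i * x j = x j * x i) :
    ∀ n ∈ X x a b, ∀ m ∈ X x a b, n * m = m * n := by
  intro n hn m hm
  have h1 : ∀ j, a ≤ j → j ≤ b → ∀ m ∈ X x a b, x j * m = m * x j := fun j hj1 hj2 =>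
    X_comm_elt x a b (x j) (fun i hi1 hi2 => hcm j i hj1 hj2 hi1 hi2)
  exact (X_comm_elt x a b m (fun i hi1 hi2 => (h1 i hi1 hi2 m hm).symm) n hn).symm

theorem X_sq (x : ℤ → G) (a b : ℤ) (hinv : ∀ i, x i * x i = 1)
    (hcm : ∀ i j, a ≤ i → i ≤ b → a ≤ j → j ≤ b → x i * x j = x j * x i) :
    ∀ n ∈ X x a b, n * n = 1 := by
  intro n hn
  have hc := X_comm x a b hcm
  have key : ∀ n (hn : n ∈ Subgroup.closure (x '' Set.Icc a b)), n * n = 1 := by
    intro n hn
    induction hn using Subgroup.closure_induction with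
    | mem y hy =>
      obtain ⟨i, -, rfl⟩ := hy
      exact hinv i
    | one => simp
    | mul y z hy hz ihy ihz =>
      have hyz : y * z = z * y := hc y hy z hz
      calc y * z * (y * z) = y * (z * y) * z := by group
        _ = y * (y * z) * z := by rw [hyz]
        _ = (y * y) * (z * z) := by group
        _ = 1 := by rw [ihy, ihz, one_mul]
    | inv y hy ihy =>
      rw [← mul_inv_rev, ihy, inv_one]
  exact key n hn

theorem mem_X_single (hsplit : SplitStmt.{u}) [Finite G] {x : ℤ → G} {g : G} {k : ℕ}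
    (T : TData x g k) (hk : 1 ≤ k) (a : ℤ) {d : G} (hd : d ∈ X x a a) : d = 1 ∨ d = x a := by
  have hk' : (1 : ℤ) ≤ k := by exact_mod_cast hk
  have h := (hsplit x g k T a a le_rfl (by omega) d hd).1
  rw [X_empty x (by omega : a - 1 < a), Subgroup.mem_bot, Subgroup.mem_bot] at h
  rcases h with h | h
  · exact Or.inl h
  · right
    rw [eq_inv_of_mul_eq_one_left h]
    exact inv_eq_of_mul_eq_one_right (T.inv a)

theorem mem_X_pair (hsplit : SplitStmt.{u}) [Finite G] {x : ℤ → G} {g : G} {k : ℕ}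
    (T : TData x g k) (hk : 2 ≤ k) (a b : ℤ) (hab : b = a + 1) {d : G} (hd : d ∈ X x a b) :
    d = 1 ∨ d = x a ∨ d = x b ∨ d = x a * x b := by
  subst hab
  have hk' : (2 : ℤ) ≤ k := by exact_mod_cast hk
  have h := (hsplit x g k T a (a + 1) (by omega) (by omega) d hd).1
  rw [add_sub_cancel_right] at h
  rcases h with h | h
  · rcases mem_X_single hsplit T (by omega) a h with h1 | h1
    · exact Or.inl h1
    · exact Or.inr (Or.inl h1)
  · rcases mem_X_single hsplit T (by omega) a h with h1 | h1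
    · right; right; left
      rw [eq_inv_of_mul_eq_one_left h1]
      exact inv_eq_of_mul_eq_one_right (T.inv _)
    · right; right; right
      rw [← h1, mul_assoc, T.inv, mul_one]

end helpers

theorem k4 (hcard : CardStmt.{u}) (hc1 : C1Stmt.{u}) (hsplit : SplitStmt.{u})
    (hcomm : CommStmt.{u}) (hc2 : C2Stmt.{u}) (hc3 : C3Stmt.{u}) (hc4 : C4Stmt.{u}) :
    K4Stmt.{u} := by
  intro G _ _ x g T h48
  obtain ⟨l, hl4, hlam⟩ := hc2 x g 4 T (by norm_num)
  have h2l := hc3 x g 4 l T hlam hl4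
  have hl1 : 1 ≤ l := hlam.1
  have hxinv : ∀ i, (x i)⁻¹ = x i := fun i => inv_eq_of_mul_eq_one_right (T.inv i)
  have hl3 : l = 3 := by
    by_contra hne
    have hl12 : l = 1 ∨ l = 2 := by omega
    have hc := hc4 x g 4 l T hlam (by omega)
    rw [X_empty x (by rcases hl12 with rfl | rfl <;> norm_num), Subgroup.mem_bot] at hc
    apply hlam.2.2
    rw [hxinv, hxinv] at hc
    have h1 : x 0 * x l = (x 0 * x l)⁻¹ :=
      eq_inv_of_mul_eq_one_left (by rw [← mul_assoc]; exact hc)
    calc x 0 * x l = (x 0 * x l)⁻¹ := h1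
      _ = x l * x 0 := by rw [mul_inv_rev, hxinv, hxinv]
  subst hl3
  obtain ⟨hcm, hncm⟩ := hcomm x g 4 3 T hlam
  have cm : ∀ i j : ℤ, -3 < i - j → i - j < 3 → x i * x j = x j * x i := fun i j h1 h2 =>
    hcm i j (by
      have : |i - j| < 3 := abs_lt.mpr ⟨h1, h2⟩
      exact_mod_cast this)
  have h03 : x 0 * x 3 ≠ x 3 * x 0 := by
    have := hlam.2.2
    simpa using this
  have h14 : x 1 * x 4 ≠ x 4 * x 1 := by
    have := hncm 1
    norm_num at this
    exact this
  -- the commutator `c`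
  have hcX : x 0 * x 3 * x 0 * x 3 ∈ X x 1 2 := by
    have h := hc4 x g 4 3 T hlam (by norm_num)
    rw [hxinv, hxinv] at h
    norm_num at h
    exact h
  set c : G := x 0 * x 3 * x 0 * x 3 with hc_def
  have hc_ne : c ≠ 1 := by
    intro h
    apply h03
    have h1 : x 0 * x 3 = (x 0 * x 3)⁻¹ :=
      eq_inv_of_mul_eq_one_left (by rw [← mul_assoc]; exact h)
    calc x 0 * x 3 = (x 0 * x 3)⁻¹ := h1
      _ = x 3 * x 0 := by rw [mul_inv_rev, hxinv, hxinv]
  have e0 : g * x 0 * g⁻¹ = x 1 := by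
    have := T.shift 0
    simpa using this
  have e1 : g * x 1 * g⁻¹ = x 2 := by
    have := T.shift 1
    norm_num at this
    exact this
  have e2 : g * x 2 * g⁻¹ = x 3 := by
    have := T.shift 2
    norm_num at this
    exact this
  have e3 : g * x 3 * g⁻¹ = x 4 := by
    have := T.shift 3
    norm_num at this
    exact this
  set cp : G := x 1 * x 4 * x 1 * x 4 with hcp_def
  have hcp : g * c * g⁻¹ = cp := by
    rw [hc_def, hcp_def, ← e0, ← e3]
    group
  have hcp_ne : cp ≠ 1 := by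
    intro h
    rw [← hcp] at h
    exact hc_ne (conj_eq_one_iff.mp h)
  have r03 : x 0 * x 3 * x 0 = c * x 3 := by
    rw [hc_def, mul_assoc _ (x 3) (x 3), T.inv, mul_one]
  have r41 : x 4 * x 1 * x 4 = x 1 * cp := by
    rw [hcp_def]
    simp only [← mul_assoc]
    rw [T.inv, one_mul]
  -- `N = X[1,3]`
  have hNP : X x 1 3 ≤ X x 0 4 := X_mono x (by norm_num) (by norm_num)
  have cmN : ∀ i j : ℤ, 1 ≤ i → i ≤ 3 → 1 ≤ j → j ≤ 3 → x i * x j = x j * x i :=
    fun i j h1 h2 h3 h4 => cm i j (by omega) (by omega)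
  have hNcomm := X_comm x 1 3 cmN
  have hNsq := X_sq x 1 3 T.inv cmN
  have hcN : c ∈ X x 1 3 := X_mono x le_rfl (by norm_num) hcX
  have hcpX : cp ∈ X x 2 3 := by
    have h := hc1 x g 4 T 1 4 (by norm_num) (by norm_num)
    rw [hxinv, hxinv] at h
    norm_num at h
    exact h
  have hcpN : cp ∈ X x 1 3 := X_mono x (by norm_num) le_rfl hcpX
  have hnormal : X x 0 4 ≤ Subgroup.normalizer ((X x 1 3 : Subgroup G) : Set G) := by
    rw [X_le_iff]
    intro i h0 h4
    have hmap : ∀ n ∈ X x 1 3, x i * n * (x i)⁻¹ ∈ X x 1 3 := by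
      have hle : X x 1 3 ≤ (X x 1 3).comap (MulAut.conj (x i)).toMonoidHom := by
        rw [X_le_iff]
        intro j h1 h3
        rw [Subgroup.mem_comap]
        show x i * x j * (x i)⁻¹ ∈ X x 1 3
        rw [hxinv]
        by_cases hij : -3 < i - j ∧ i - j < 3
        · have : x i * x j * x i = x j := by
            rw [cm i j hij.1 hij.2, mul_assoc, T.inv, mul_one]
          rw [this]
          exact mem_X x h1 h3
        · have hcase : (i = 0 ∧ j = 3) ∨ (i = 4 ∧ j = 1) := by omega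
          rcases hcase with ⟨rfl, rfl⟩ | ⟨rfl, rfl⟩
          · rw [r03]
            exact (X x 1 3).mul_mem hcN (mem_X x (by norm_num) le_rfl)
          · rw [r41]
            exact (X x 1 3).mul_mem (mem_X x le_rfl (by norm_num)) hcpN
      intro n hn
      exact hle hn
    rw [Subgroup.mem_normalizer_iff]
    intro n
    constructor
    · exact hmap n
    · intro h
      have h2 := hmap _ h
      have e : x i * (x i * n * (x i)⁻¹) * (x i)⁻¹ = n := by
        rw [hxinv]
        simp only [← mul_assoc]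
        rw [T.inv, one_mul, mul_assoc, T.inv, mul_one]
      rwa [e] at h2
  -- `(x0 x4)^3 ∈ N`
  have hu3 : (x 0 * x 4) ^ 3 ∈ X x 1 3 := by
    haveI : ((X x 1 3).subgroupOf (X x 0 4)).Normal :=
      (Subgroup.normal_subgroupOf_iff_le_normalizer hNP).mpr hnormal
    have hcardN : Nat.card (X x 1 3) = 8 := by
      have := hcard x g 4 T 1 3 (by norm_num) (by norm_num)
      norm_num at this
      exact this
    have hidx : ((X x 1 3).subgroupOf (X x 0 4)).index = 6 := by
      have h1 := Subgroup.card_mul_index ((X x 1 3).subgroupOf (X x 0 4))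
      rw [Nat.card_congr (Subgroup.subgroupOfEquivOfLe hNP).toEquiv, hcardN, h48] at h1
      omega
    have hQ : Nat.card (↥(X x 0 4) ⧸ (X x 1 3).subgroupOf (X x 0 4)) = 6 := by
      rw [← Subgroup.index_eq_card]
      exact hidx
    set p0 : ↥(X x 0 4) := ⟨x 0, mem_X x le_rfl (by norm_num)⟩ with hp0
    set p4 : ↥(X x 0 4) := ⟨x 4, mem_X x (by norm_num) le_rfl⟩ with hp4
    set π := QuotientGroup.mk' ((X x 1 3).subgroupOf (X x 0 4)) with hπ
    have ha : π p0 * π p0 = 1 := by
      rw [← map_mul]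
      have : p0 * p0 = 1 := Subtype.ext (T.inv 0)
      rw [this, map_one]
    have hb : π p4 * π p4 = 1 := by
      rw [← map_mul]
      have : p4 * p4 = 1 := Subtype.ext (T.inv 4)
      rw [this, map_one]
    have ha1 : π p0 ≠ 1 := by
      intro h
      have h' : p0 ∈ (X x 1 3).subgroupOf (X x 0 4) := (QuotientGroup.eq_one_iff p0).mp h
      have h'' : x 0 ∈ X x 1 3 := h'
      exact h03 (hNcomm _ h'' _ (mem_X x (by norm_num) le_rfl))
    have hb1 : π p4 ≠ 1 := by
      intro h
      have h' : p4 ∈ (X x 1 3).subgroupOf (X x 0 4) := (QuotientGroup.eq_one_iff p4).mp h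
      have h'' : x 4 ∈ X x 1 3 := h'
      exact h14 (hNcomm _ (mem_X x le_rfl (by norm_num)) _ h'')
    have h3 := cube_of_card_six hQ (π p0) (π p4) ha hb ha1 hb1
    rw [← map_mul, ← map_pow] at h3
    have h4 : (p0 * p4) ^ 3 ∈ (X x 1 3).subgroupOf (X x 0 4) :=
      (QuotientGroup.eq_one_iff _).mp h3
    exact h4
  -- the element `w = (x0 x4)^3`
  set w : G := (x 0 * x 4) ^ 3 with hw
  have hwexp : w = x 0 * x 4 * (x 0 * x 4) * (x 0 * x 4) := by
    rw [hw, pow_succ, pow_two]
  have hwsq : w * w = 1 := hNsq w hu3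
  have hwinv : w⁻¹ = w := inv_eq_of_mul_eq_one_right hwsq
  have i0' : ∀ z, x 0 * (x 0 * z) = z := fun z => by rw [← mul_assoc, T.inv, one_mul]
  have i4' : ∀ z, x 4 * (x 4 * z) = z := fun z => by rw [← mul_assoc, T.inv, one_mul]
  have hw0 : x 0 * w * x 0 = w := by
    have : x 0 * w * x 0 = w⁻¹ := by
      rw [hwexp]
      simp only [mul_inv_rev, hxinv, mul_assoc, i0']
    rw [this, hwinv]
  have hw4 : x 4 * w * x 4 = w := by
    have : x 4 * w * x 4 = w⁻¹ := by
      rw [hwexp]
      simp only [mul_inv_rev, hxinv, mul_assoc, T.inv, mul_one]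
    rw [this, hwinv]
  -- `w ∈ {1, x2}`
  have hw12 : w ∈ X x 1 2 := by
    have hs := (hsplit x g 4 T 1 3 (by norm_num) (by norm_num) w hu3).1
    norm_num at hs
    rcases hs with h | h
    · exact h
    · exfalso
      have hm0 : x 0 * (w * x 3) = (w * x 3) * x 0 :=
        X_comm_elt x 1 2 (x 0) (fun i h1 h2 => cm 0 i (by omega) (by omega)) _ h
      have hwm : w = (w * x 3) * x 3 := by rw [mul_assoc, T.inv, mul_one]
      have h1 : x 0 * w * x 0 = (w * x 3) * (c * x 3) := by
        rw [← r03]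
        have hm0' : x 0 * w * x 3 = w * x 3 * x 0 := by rw [mul_assoc]; exact hm0
        conv_lhs => rw [hwm]
        simp only [← mul_assoc]
        rw [hm0']
      rw [hw0] at h1
      have h2 : (w * x 3) * x 3 = (w * x 3) * (c * x 3) := by rw [← hwm]; exact h1
      have h3 := mul_left_cancel h2
      have h4 : c = 1 := by
        have : 1 * x 3 = c * x 3 := by rw [one_mul]; exact h3
        exact (mul_right_cancel this).symm
      exact hc_ne h4
  have hw2 : w = 1 ∨ w = x 2 := by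
    have hs := (hsplit x g 4 T 1 2 (by norm_num) (by norm_num) w hw12).2
    norm_num at hs
    rcases hs with h | h
    · exact mem_X_single hsplit T (by norm_num) 2 h
    · exfalso
      have hm4 : x 4 * (x 1 * w) = (x 1 * w) * x 4 :=
        X_comm_elt x 2 2 (x 4) (fun i h1 h2 => cm 4 i (by omega) (by omega)) _ h
      have hwm : w = x 1 * (x 1 * w) := by rw [← mul_assoc, T.inv, one_mul]
      have h1 : x 4 * w * x 4 = x 1 * cp * (x 1 * w) := by
        rw [← r41]
        conv_lhs => rw [hwm]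
        calc x 4 * (x 1 * (x 1 * w)) * x 4 = x 4 * x 1 * ((x 1 * w) * x 4) := by
              simp only [mul_assoc]
          _ = x 4 * x 1 * (x 4 * (x 1 * w)) := by rw [hm4]
          _ = x 4 * x 1 * x 4 * (x 1 * w) := by simp only [mul_assoc]
      rw [hw4] at h1
      have h2 : x 1 * (x 1 * w) = x 1 * (cp * (x 1 * w)) := by
        rw [← hwm, ← mul_assoc]; exact h1
      have h3 := mul_left_cancel h2
      have h4 : cp = 1 := by
        have : 1 * (x 1 * w) = cp * (x 1 * w) := by rw [one_mul]; exact h3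
        exact (mul_right_cancel this).symm
      exact hcp_ne h4
  -- `w` commutes with `N`
  have hw_x1 : w * x 1 = x 1 * w := hNcomm w hu3 (x 1) (mem_X x le_rfl (by norm_num))
  have hw_x3 : w * x 3 = x 3 * w := hNcomm w hu3 (x 3) (mem_X x (by norm_num) le_rfl)
  -- rewriting rules
  have i1 := T.inv 1
  have i2 := T.inv 2
  have i3 := T.inv 3
  have i0 := T.inv 0
  have i4 := T.inv 4
  have i1' : ∀ z, x 1 * (x 1 * z) = z := fun z => by rw [← mul_assoc, T.inv, one_mul]
  have i2' : ∀ z, x 2 * (x 2 * z) = z := fun z => by rw [← mul_assoc, T.inv, one_mul]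
  have i3' : ∀ z, x 3 * (x 3 * z) = z := fun z => by rw [← mul_assoc, T.inv, one_mul]
  have s21 : x 2 * x 1 = x 1 * x 2 := cm 2 1 (by norm_num) (by norm_num)
  have s31 : x 3 * x 1 = x 1 * x 3 := cm 3 1 (by norm_num) (by norm_num)
  have s32 : x 3 * x 2 = x 2 * x 3 := cm 3 2 (by norm_num) (by norm_num)
  have s21' : ∀ z, x 2 * (x 1 * z) = x 1 * (x 2 * z) := fun z => by
    rw [← mul_assoc, s21, mul_assoc]
  have s31' : ∀ z, x 3 * (x 1 * z) = x 1 * (x 3 * z) := fun z => by
    rw [← mul_assoc, s31, mul_assoc]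
  have s32' : ∀ z, x 3 * (x 2 * z) = x 2 * (x 3 * z) := fun z => by
    rw [← mul_assoc, s32, mul_assoc]
  have m01 : x 0 * x 1 = x 1 * x 0 := cm 0 1 (by norm_num) (by norm_num)
  have m02 : x 0 * x 2 = x 2 * x 0 := cm 0 2 (by norm_num) (by norm_num)
  have m43 : x 4 * x 3 = x 3 * x 4 := cm 4 3 (by norm_num) (by norm_num)
  have m42 : x 4 * x 2 = x 2 * x 4 := cm 4 2 (by norm_num) (by norm_num)
  have m01' : ∀ z, x 0 * (x 1 * z) = x 1 * (x 0 * z) := fun z => by
    rw [← mul_assoc, m01, mul_assoc]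
  have m02' : ∀ z, x 0 * (x 2 * z) = x 2 * (x 0 * z) := fun z => by
    rw [← mul_assoc, m02, mul_assoc]
  have m43' : ∀ z, x 4 * (x 3 * z) = x 3 * (x 4 * z) := fun z => by
    rw [← mul_assoc, m43, mul_assoc]
  have m42' : ∀ z, x 4 * (x 2 * z) = x 2 * (x 4 * z) := fun z => by
    rw [← mul_assoc, m42, mul_assoc]
  -- `x0 x3 = c x3 x0` and `x4 x1 = x1 c⁺ x4`
  have q03 : x 0 * x 3 = c * (x 3 * x 0) := by
    have : x 0 * x 3 = x 0 * x 3 * x 0 * x 0 := by rw [mul_assoc _ (x 0) (x 0), T.inv, mul_one]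
    rw [this, r03, mul_assoc]
  have q41 : x 4 * x 1 = x 1 * (cp * x 4) := by
    have : x 4 * x 1 = x 4 * x 1 * x 4 * x 4 := by rw [mul_assoc _ (x 4) (x 4), T.inv, mul_one]
    rw [this, r41, mul_assoc]
  have x1_ne_x2 : x 1 ≠ x 2 := by
    intro h
    have h23 : x 2 = x 3 := by rw [← e1, ← e2, h]
    apply h03
    rw [← h23, ← h]
    exact m01
  have x3_ne_one : x 3 ≠ 1 := by
    intro h
    apply h03
    rw [h, mul_one, one_mul]
  rcases mem_X_pair hsplit T (by norm_num) 1 2 (by norm_num) hcX with h | h | h | h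
  · exact absurd h hc_ne
  · -- `c = x1`: impossible
    exfalso
    have hcp2 : cp = x 2 := by rw [← hcp, h, e1]
    have m03 : x 0 * x 3 = x 1 * (x 3 * x 0) := by rw [q03, h]
    have m41 : x 4 * x 1 = x 1 * (x 2 * x 4) := by rw [q41, hcp2]
    have m03' : ∀ z, x 0 * (x 3 * z) = x 1 * (x 3 * (x 0 * z)) := fun z => by
      rw [← mul_assoc, m03]; simp only [mul_assoc]
    have m41' : ∀ z, x 4 * (x 1 * z) = x 1 * (x 2 * (x 4 * z)) := fun z => by
      rw [← mul_assoc, m41]; simp only [mul_assoc]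
    have key : w * x 3 = x 1 * (x 2 * x 3) * w := by
      rw [hwexp]
      simp only [mul_assoc, m43, m43', m42, m42', m41, m41', m01, m01', m02, m02', m03, m03',
        s21, s21', s31, s31', s32, s32', i1, i1', i2, i2', i3, i3', mul_one, one_mul]
    rw [hw_x3] at key
    have h5 := mul_right_cancel key
    have h6 : x 1 * x 2 = 1 := by
      have : 1 * x 3 = x 1 * x 2 * x 3 := by rw [one_mul, mul_assoc]; exact h5
      exact (mul_right_cancel this).symm
    apply x1_ne_x2
    rw [eq_inv_of_mul_eq_one_left h6, hxinv]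
  · -- `c = x2`: impossible
    exfalso
    have hcp3 : cp = x 3 := by rw [← hcp, h, e2]
    have m03 : x 0 * x 3 = x 2 * (x 3 * x 0) := by rw [q03, h]
    have m41 : x 4 * x 1 = x 1 * (x 3 * x 4) := by rw [q41, hcp3]
    have m03' : ∀ z, x 0 * (x 3 * z) = x 2 * (x 3 * (x 0 * z)) := fun z => by
      rw [← mul_assoc, m03]; simp only [mul_assoc]
    have m41' : ∀ z, x 4 * (x 1 * z) = x 1 * (x 3 * (x 4 * z)) := fun z => by
      rw [← mul_assoc, m41]; simp only [mul_assoc]
    have key : w * x 1 = x 1 * x 3 * w := by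
      rw [hwexp]
      simp only [mul_assoc, m43, m43', m42, m42', m41, m41', m01, m01', m02, m02', m03, m03',
        s21, s21', s31, s31', s32, s32', i1, i1', i2, i2', i3, i3', mul_one, one_mul]
    rw [hw_x1] at key
    have h5 := mul_right_cancel key
    have h6 : x 3 = 1 := by
      have : x 1 * 1 = x 1 * x 3 := by rw [mul_one]; exact h5
      exact (mul_left_cancel this).symm
    exact x3_ne_one h6
  · -- `c = x1 x2`
    refine ⟨m01, m02, h, ?_⟩
    have hprod : (x 0 * x 4 * x 0) * (x 4 * x 0 * x 4) = w := by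
      rw [hwexp]; simp only [mul_assoc]
    rcases hw2 with h1 | h2
    · refine ⟨x 4, Or.inl rfl, ?_⟩
      rw [h1] at hprod
      have := eq_inv_of_mul_eq_one_right hprod
      rw [this]
      simp only [mul_inv_rev, hxinv, mul_assoc]
    · refine ⟨x 4 * x 2, Or.inr rfl, ?_⟩
      rw [h2] at hprod
      have h3 : x 4 * x 0 * x 4 = (x 0 * x 4 * x 0)⁻¹ * x 2 := eq_inv_mul_of_mul_eq hprod
      have h4 : x 4 * (x 0 * x 4) = x 0 * (x 4 * (x 0 * x 2)) := by
        rw [← mul_assoc, h3]
        simp only [mul_inv_rev, hxinv, mul_assoc]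
      have t20 : x 2 * x 0 = x 0 * x 2 := m02.symm
      have t24 : x 2 * x 4 = x 4 * x 2 := m42.symm
      have t20' : ∀ z, x 2 * (x 0 * z) = x 0 * (x 2 * z) := fun z => by
        rw [← mul_assoc, t20, mul_assoc]
      have t24' : ∀ z, x 2 * (x 4 * z) = x 4 * (x 2 * z) := fun z => by
        rw [← mul_assoc, t24, mul_assoc]
      simp only [mul_assoc, t20, t20', t24, t24', i2, i2', mul_one]
      exact h4

example (hcard : CardStmt.{u}) (hc1 : C1Stmt.{u}) (hsplit : SplitStmt.{u})
    (hcomm : CommStmt.{u}) (hc2 : C2Stmt.{u}) (hc3 : C3Stmt.{u}) (hc4 : C4Stmt.{u}) :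
    Cfsg.Agent.H64.Tt.K4Stmt.{u} := k4 hcard hc1 hsplit hcomm hc2 hc3 hc4

end Cfsg.Agent.H87.Tt

#print axioms Cfsg.Agent.H87.Tt.k4
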