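import Mathlib
import Cfsg.Agent.H64.TtDefs2
import Cfsg.Agent.H87.TtK4

/-!
# TT-K3 (helper87, for helper64's S3685): the relations for `k = 3`.
-/

set_option autoImplicit false

namespace Cfsg.Agent.H87.Tt

open Cfsg.Agent.H64.Tt

universe u

theorem k3 (hcard : CardStmt.{u}) (hc1 : C1Stmt.{u}) (hsplit : SplitStmt.{u})
    (hcomm : CommStmt.{u}) (hc2 : C2Stmt.{u}) (hc3 : C3Stmt.{u}) (hc4 : C4Stmt.{u}) :
    K3Stmt.{u} := by
  intro G _ _ x g T h24
  obtain ⟨l, hl3, hlam⟩ := hc2 x g 3 T (by norm_num)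
  have h2l := hc3 x g 3 l T hlam hl3
  have hl1 : 1 ≤ l := hlam.1
  have hxinv : ∀ i, (x i)⁻¹ = x i := fun i => inv_eq_of_mul_eq_one_right (T.inv i)
  have hl2 : l = 2 := by
    by_contra hne
    have hl1' : l = 1 := by omega
    subst hl1'
    have hc := hc1 x g 3 T 0 1 (by norm_num) (by norm_num)
    rw [X_empty x (by norm_num), Subgroup.mem_bot] at hc
    apply hlam.2.2
    rw [hxinv, hxinv] at hc
    have h1 : x 0 * x 1 = (x 0 * x 1)⁻¹ :=
      eq_inv_of_mul_eq_one_left (by rw [← mul_assoc]; exact hc)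
    have h2 : x 0 * x 1 = x 1 * x 0 := by
      calc x 0 * x 1 = (x 0 * x 1)⁻¹ := h1
        _ = x 1 * x 0 := by rw [mul_inv_rev, hxinv, hxinv]
    simpa using h2
  subst hl2
  obtain ⟨hcm, hncm⟩ := hcomm x g 3 2 T hlam
  have cm : ∀ i j : ℤ, -2 < i - j → i - j < 2 → x i * x j = x j * x i := fun i j h1 h2 =>
    hcm i j (by
      have : |i - j| < 2 := abs_lt.mpr ⟨h1, h2⟩
      exact_mod_cast this)
  have h02 : x 0 * x 2 ≠ x 2 * x 0 := by
    have := hlam.2.2
    simpa using this
  have h13 : x 1 * x 3 ≠ x 3 * x 1 := by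
    have := hncm 1
    norm_num at this
    exact this
  -- the commutator `c`
  have hcX : x 0 * x 2 * x 0 * x 2 ∈ X x 1 1 := by
    have h := hc1 x g 3 T 0 2 (by norm_num) (by norm_num)
    rw [hxinv, hxinv] at h
    norm_num at h
    exact h
  set c : G := x 0 * x 2 * x 0 * x 2 with hc_def
  have hc_ne : c ≠ 1 := by
    intro h
    apply h02
    have h1 : x 0 * x 2 = (x 0 * x 2)⁻¹ :=
      eq_inv_of_mul_eq_one_left (by rw [← mul_assoc]; exact h)
    calc x 0 * x 2 = (x 0 * x 2)⁻¹ := h1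
      _ = x 2 * x 0 := by rw [mul_inv_rev, hxinv, hxinv]
  have hcpX : x 1 * x 3 * x 1 * x 3 ∈ X x 2 2 := by
    have h := hc1 x g 3 T 1 3 (by norm_num) (by norm_num)
    rw [hxinv, hxinv] at h
    norm_num at h
    exact h
  set cp : G := x 1 * x 3 * x 1 * x 3 with hcp_def
  have hcp_ne : cp ≠ 1 := by
    intro h
    apply h13
    have h1 : x 1 * x 3 = (x 1 * x 3)⁻¹ :=
      eq_inv_of_mul_eq_one_left (by rw [← mul_assoc]; exact h)
    calc x 1 * x 3 = (x 1 * x 3)⁻¹ := h1
      _ = x 3 * x 1 := by rw [mul_inv_rev, hxinv, hxinv]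
  have r02 : x 0 * x 2 * x 0 = c * x 2 := by
    rw [hc_def, mul_assoc _ (x 2) (x 2), T.inv, mul_one]
  have r31 : x 3 * x 1 * x 3 = x 1 * cp := by
    rw [hcp_def]
    simp only [← mul_assoc]
    rw [T.inv, one_mul]
  -- `N = X[1,2]`
  have hNP : X x 1 2 ≤ X x 0 3 := X_mono x (by norm_num) (by norm_num)
  have cmN : ∀ i j : ℤ, 1 ≤ i → i ≤ 2 → 1 ≤ j → j ≤ 2 → x i * x j = x j * x i :=
    fun i j h1 h2 h3 h4 => cm i j (by omega) (by omega)
  have hNcomm := X_comm x 1 2 cmN
  have hNsq := X_sq x 1 2 T.inv cmN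
  have hcN : c ∈ X x 1 2 := X_mono x le_rfl (by norm_num) hcX
  have hcpN : cp ∈ X x 1 2 := X_mono x (by norm_num) le_rfl hcpX
  have hnormal : X x 0 3 ≤ Subgroup.normalizer ((X x 1 2 : Subgroup G) : Set G) := by
    rw [X_le_iff]
    intro i h0 h4
    have hmap : ∀ n ∈ X x 1 2, x i * n * (x i)⁻¹ ∈ X x 1 2 := by
      have hle : X x 1 2 ≤ (X x 1 2).comap (MulAut.conj (x i)).toMonoidHom := by
        rw [X_le_iff]
        intro j h1 h3
        rw [Subgroup.mem_comap]
        show x i * x j * (x i)⁻¹ ∈ X x 1 2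
        rw [hxinv]
        by_cases hij : -2 < i - j ∧ i - j < 2
        · have : x i * x j * x i = x j := by
            rw [cm i j hij.1 hij.2, mul_assoc, T.inv, mul_one]
          rw [this]
          exact mem_X x h1 h3
        · have hcase : (i = 0 ∧ j = 2) ∨ (i = 3 ∧ j = 1) := by omega
          rcases hcase with ⟨rfl, rfl⟩ | ⟨rfl, rfl⟩
          · rw [r02]
            exact (X x 1 2).mul_mem hcN (mem_X x (by norm_num) le_rfl)
          · rw [r31]
            exact (X x 1 2).mul_mem (mem_X x le_rfl (by norm_num)) hcpN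
      intro n hn
      exact hle hn
    rw [Subgroup.mem_normalizer_iff]
    intro n
    constructor
    · exact hmap n
    · intro h
      have h2 := hmap _ h
      have e : x i * (x i * n * (x i)⁻¹) * (x i)⁻¹ = n := by
        rw [hxinv]
        simp only [← mul_assoc]
        rw [T.inv, one_mul, mul_assoc, T.inv, mul_one]
      rwa [e] at h2
  -- `(x0 x3)^3 ∈ N`
  have hu3 : (x 0 * x 3) ^ 3 ∈ X x 1 2 := by
    haveI : ((X x 1 2).subgroupOf (X x 0 3)).Normal :=
      (Subgroup.normal_subgroupOf_iff_le_normalizer hNP).mpr hnormal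
    have hcardN : Nat.card (X x 1 2) = 4 := by
      have := hcard x g 3 T 1 2 (by norm_num) (by norm_num)
      norm_num at this
      exact this
    have hidx : ((X x 1 2).subgroupOf (X x 0 3)).index = 6 := by
      have h1 := Subgroup.card_mul_index ((X x 1 2).subgroupOf (X x 0 3))
      rw [Nat.card_congr (Subgroup.subgroupOfEquivOfLe hNP).toEquiv, hcardN, h24] at h1
      omega
    have hQ : Nat.card (↥(X x 0 3) ⧸ (X x 1 2).subgroupOf (X x 0 3)) = 6 := by
      rw [← Subgroup.index_eq_card]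
      exact hidx
    set p0 : ↥(X x 0 3) := ⟨x 0, mem_X x le_rfl (by norm_num)⟩ with hp0
    set p3 : ↥(X x 0 3) := ⟨x 3, mem_X x (by norm_num) le_rfl⟩ with hp3
    set π := QuotientGroup.mk' ((X x 1 2).subgroupOf (X x 0 3)) with hπ
    have ha : π p0 * π p0 = 1 := by
      rw [← map_mul]
      have : p0 * p0 = 1 := Subtype.ext (T.inv 0)
      rw [this, map_one]
    have hb : π p3 * π p3 = 1 := by
      rw [← map_mul]
      have : p3 * p3 = 1 := Subtype.ext (T.inv 3)
      rw [this, map_one]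
    have ha1 : π p0 ≠ 1 := by
      intro h
      have h' : p0 ∈ (X x 1 2).subgroupOf (X x 0 3) := (QuotientGroup.eq_one_iff p0).mp h
      have h'' : x 0 ∈ X x 1 2 := h'
      exact h02 (hNcomm _ h'' _ (mem_X x (by norm_num) le_rfl))
    have hb1 : π p3 ≠ 1 := by
      intro h
      have h' : p3 ∈ (X x 1 2).subgroupOf (X x 0 3) := (QuotientGroup.eq_one_iff p3).mp h
      have h'' : x 3 ∈ X x 1 2 := h'
      exact h13 (hNcomm _ (mem_X x le_rfl (by norm_num)) _ h'')
    have h3 := cube_of_card_six hQ (π p0) (π p3) ha hb ha1 hb1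
    rw [← map_mul, ← map_pow] at h3
    have h4 : (p0 * p3) ^ 3 ∈ (X x 1 2).subgroupOf (X x 0 3) :=
      (QuotientGroup.eq_one_iff _).mp h3
    exact h4
  -- the element `w = (x0 x3)^3`
  set w : G := (x 0 * x 3) ^ 3 with hw
  have hwexp : w = x 0 * x 3 * (x 0 * x 3) * (x 0 * x 3) := by
    rw [hw, pow_succ, pow_two]
  have hwsq : w * w = 1 := hNsq w hu3
  have hwinv : w⁻¹ = w := inv_eq_of_mul_eq_one_right hwsq
  have i0' : ∀ z, x 0 * (x 0 * z) = z := fun z => by rw [← mul_assoc, T.inv, one_mul]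
  have hw0 : x 0 * w * x 0 = w := by
    have : x 0 * w * x 0 = w⁻¹ := by
      rw [hwexp]
      simp only [mul_inv_rev, hxinv, mul_assoc, i0']
    rw [this, hwinv]
  have hw3 : x 3 * w * x 3 = w := by
    have : x 3 * w * x 3 = w⁻¹ := by
      rw [hwexp]
      simp only [mul_inv_rev, hxinv, mul_assoc, T.inv, mul_one]
    rw [this, hwinv]
  have hw11 : w ∈ X x 1 1 := by
    have hs := (hsplit x g 3 T 1 2 (by norm_num) (by norm_num) w hu3).1
    norm_num at hs
    rcases hs with h | h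
    · exact h
    · exfalso
      have hm0 : x 0 * (w * x 2) = (w * x 2) * x 0 :=
        X_comm_elt x 1 1 (x 0) (fun i h1 h2 => cm 0 i (by omega) (by omega)) _ h
      have hwm : w = (w * x 2) * x 2 := by rw [mul_assoc, T.inv, mul_one]
      have h1 : x 0 * w * x 0 = (w * x 2) * (c * x 2) := by
        rw [← r02]
        have hm0' : x 0 * w * x 2 = w * x 2 * x 0 := by rw [mul_assoc]; exact hm0
        conv_lhs => rw [hwm]
        simp only [← mul_assoc]
        rw [hm0']
      rw [hw0] at h1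
      have h2 : (w * x 2) * x 2 = (w * x 2) * (c * x 2) := by rw [← hwm]; exact h1
      have h3 := mul_left_cancel h2
      have h4 : c = 1 := by
        have : 1 * x 2 = c * x 2 := by rw [one_mul]; exact h3
        exact (mul_right_cancel this).symm
      exact hc_ne h4
  have hw1 : w = 1 := by
    rcases mem_X_single hsplit T (by norm_num) 1 hw11 with h | h
    · exact h
    · exfalso
      rw [h] at hw3
      apply h13
      have : x 3 * x 1 = x 1 * x 3 := by
        have e : x 3 * x 1 = x 3 * x 1 * x 3 * x 3 := by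
          rw [mul_assoc _ (x 3) (x 3), T.inv, mul_one]
        rw [e, hw3]
      exact this.symm
  refine ⟨cm 0 1 (by norm_num) (by norm_num), ?_, ?_⟩
  · rcases mem_X_single hsplit T (by norm_num) 1 hcX with h | h
    · exact absurd h hc_ne
    · exact h
  · have hprod : (x 0 * x 3 * x 0) * (x 3 * x 0 * x 3) = w := by
      rw [hwexp]; simp only [mul_assoc]
    rw [hw1] at hprod
    have := eq_inv_of_mul_eq_one_right hprod
    rw [this]
    simp only [mul_inv_rev, hxinv, mul_assoc]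

example (hcard : CardStmt.{u}) (hc1 : C1Stmt.{u}) (hsplit : SplitStmt.{u})
    (hcomm : CommStmt.{u}) (hc2 : C2Stmt.{u}) (hc3 : C3Stmt.{u}) (hc4 : C4Stmt.{u}) :
    Cfsg.Agent.H64.Tt.K3Stmt.{u} := k3 hcard hc1 hsplit hcomm hc2 hc3 hc4

end Cfsg.Agent.H87.Tt

#print axioms Cfsg.Agent.H87.Tt.k3
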