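import Mathlib
import Cfsg.Agent.H64.TtDefs2
import Cfsg.Agent.H5.Dihedral

/-!
# TT-RECD12 (helper87, for helper64's S3685): recognition of the dihedral group of order 12.
-/

set_option autoImplicit false

namespace Cfsg.Agent.H87.Tt

open Cfsg.Agent.H64.Tt

universe u

theorem recD12 : RecD12Stmt.{u} := by
  intro P _ _ hc s t hs ht hst
  have hs1 : s ≠ 1 := by
    rintro rfl
    rw [one_mul] at hst
    have h2 : orderOf t ∣ 2 := orderOf_dvd_of_pow_eq_one (by rw [pow_two, ht])
    rw [hst] at h2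
    exact absurd (Nat.le_of_dvd (by norm_num) h2) (by norm_num)
  have ht1 : t ≠ 1 := by
    rintro rfl
    rw [mul_one] at hst
    have h2 : orderOf s ∣ 2 := orderOf_dvd_of_pow_eq_one (by rw [pow_two, hs])
    rw [hst] at h2
    exact absurd (Nat.le_of_dvd (by norm_num) h2) (by norm_num)
  have e := Cfsg.Agent.H5.closurePairEquivDihedral hs ht hs1 ht1
  rw [hst] at e
  have hcard : Nat.card (Subgroup.closure ({s, t} : Set P)) = 12 := by
    rw [Nat.card_congr e.toEquiv, DihedralGroup.nat_card]
  have htop : Subgroup.closure ({s, t} : Set P) = ⊤ :=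
    Subgroup.eq_top_of_card_eq _ (hcard.trans hc.symm)
  exact ⟨(Subgroup.topEquiv.symm.trans (MulEquiv.subgroupCongr htop.symm)).trans e⟩

example : Cfsg.Agent.H64.Tt.RecD12Stmt.{u} := recD12

end Cfsg.Agent.H87.Tt

#print axioms Cfsg.Agent.H87.Tt.recD12
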