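import Mathlib
import Cfsg.Agent.H64.TtDefs2

/-!
# TT-RECS4C2 (helper87, for helper64's S3685): an index-2 subgroup `S ≅ S₄` of a group `P` of
order 48 and a central involution of `P` outside `S` give `P ≅ S₄ × C₂`.
-/

set_option autoImplicit false

namespace Cfsg.Agent.H87.Tt

open Cfsg.Agent.H64.Tt

universe u

theorem recS4C2 : RecS4C2Stmt.{u} := by
  intro G _ P S z hSP hP hzP hzS hz2 hzc hS4
  obtain ⟨eS⟩ := hS4
  classical
  haveI : Finite P := Nat.finite_of_card_ne_zero (by rw [hP]; norm_num)
  have hS : Nat.card S = 24 := by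
    rw [Nat.card_congr eS.toEquiv, Nat.card_eq_fintype_card, Fintype.card_perm, Fintype.card_fin]
    rfl
  have h2 : z ^ 2 = 1 := by rw [pow_two, hz2]
  have hzp_mul : ∀ a b : ZMod 2, z ^ (a + b).val = z ^ a.val * z ^ b.val := by
    intro a b
    rw [ZMod.val_add, ← pow_eq_pow_mod _ h2, pow_add]
  have hcomm : ∀ (n : ℕ) (p : G), p ∈ P → z ^ n * p = p * z ^ n := by
    intro n p hp
    exact ((show Commute z p from hzc p hp).pow_left n).eq
  let f : S × Multiplicative (ZMod 2) →* P :=
    { toFun := fun p => ⟨(p.1 : G) * z ^ (Multiplicative.toAdd p.2).val,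
        P.mul_mem (hSP p.1.2) (P.pow_mem hzP _)⟩
      map_one' := by
        apply Subtype.ext
        simp
      map_mul' := by
        rintro ⟨s1, e1⟩ ⟨s2, e2⟩
        apply Subtype.ext
        show ((s1 * s2 : S) : G) * z ^ (Multiplicative.toAdd (e1 * e2)).val =
          ((s1 : G) * z ^ (Multiplicative.toAdd e1).val) *
            ((s2 : G) * z ^ (Multiplicative.toAdd e2).val)
        rw [toAdd_mul, hzp_mul, Subgroup.coe_mul, mul_assoc, mul_assoc,
          ← mul_assoc (z ^ (Multiplicative.toAdd e1).val) (s2 : G),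
          hcomm _ (s2 : G) (hSP s2.2), mul_assoc] }
  have hf : ∀ p : S × Multiplicative (ZMod 2),
      ((f p : P) : G) = (p.1 : G) * z ^ (Multiplicative.toAdd p.2).val := fun p => rfl
  have hinj : Function.Injective f := by
    rw [injective_iff_map_eq_one]
    rintro ⟨s, e⟩ h
    have h' : (s : G) * z ^ (Multiplicative.toAdd e).val = 1 := by
      rw [← hf ⟨s, e⟩, h]; rfl
    have hzS' : z ^ (Multiplicative.toAdd e).val ∈ S := by
      have : z ^ (Multiplicative.toAdd e).val = (s : G)⁻¹ := eq_inv_of_mul_eq_one_right h'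
      rw [this]
      exact S.inv_mem s.2
    have hval : (Multiplicative.toAdd e).val = 0 := by
      have hlt : (Multiplicative.toAdd e).val < 2 := ZMod.val_lt _
      by_contra hne
      have h1 : (Multiplicative.toAdd e).val = 1 := by omega
      rw [h1, pow_one] at hzS'
      exact hzS hzS'
    have he : e = 1 := by
      have : Multiplicative.toAdd e = 0 := (ZMod.val_eq_zero _).mp hval
      exact this
    have hs : s = 1 := by
      rw [hval, pow_zero, mul_one] at h'
      exact Subtype.ext h'
    rw [hs, he]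
    rfl
  have hcard : Nat.card P ≤ Nat.card (S × Multiplicative (ZMod 2)) := by
    rw [Nat.card_prod, hS, hP]
    have : Nat.card (Multiplicative (ZMod 2)) = 2 := by
      rw [Nat.card_eq_fintype_card]
      rfl
    rw [this]
  have hbij : Function.Bijective f := hinj.bijective_of_nat_card_le hcard
  exact ⟨(MulEquiv.ofBijective f hbij).symm.trans (MulEquiv.prodCongr eS (MulEquiv.refl _))⟩

example : Cfsg.Agent.H64.Tt.RecS4C2Stmt.{u} := recS4C2

end Cfsg.Agent.H87.Tt

#print axioms Cfsg.Agent.H87.Tt.recS4C2
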