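import Cfsg.Agent.H87.Invariant
import Cfsg.Agent.H87.Centric
import Cfsg.Agent.H87.NK
import Cfsg.Agent.H88.Ess

set_option autoImplicit false

/-!
Subsystems of index prime to `p` (Broto–Castellana–Grodal–Levi–Oliver II, Lemma 3.4): a subsystem
`E` of a saturated system `F` over the same `S` with `Aut_E(P) ≥ O^{p'}(Aut_F(P))` for all
`F`-centric `P` satisfies this for all `P`, the Frattini condition, and has the same centric
subgroups.
-/

namespace Cfsg.Agent.H87

open Cfsg Cfsg.FusionSystem Cfsg.Agent.H86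

theorem pPrimeRes_normal (p : ℕ) (X : Type*) [Group X] :
    (Subgroup.closure {α : X | ∃ k : ℕ, orderOf α = p ^ k}).Normal := by
  refine ⟨fun n hn g => ?_⟩
  have h1 : (Subgroup.closure {α : X | ∃ k : ℕ, orderOf α = p ^ k}).map
      (MulAut.conj g).toMonoidHom ≤ Subgroup.closure {α : X | ∃ k : ℕ, orderOf α = p ^ k} := by
    rw [MonoidHom.map_closure]
    apply Subgroup.closure_mono
    rintro _ ⟨y, ⟨k, hk⟩, rfl⟩
    refine ⟨k, ?_⟩
    show orderOf ((MulAut.conj g) y) = p ^ k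
    rw [MulEquiv.orderOf_eq]
    exact hk
  exact h1 ⟨n, hn, rfl⟩

theorem pPrimeRes_map_equiv {A B : Type*} [Group A] [Group B] (p : ℕ) (ε : A ≃* B) {a : A}
    (ha : a ∈ Subgroup.closure {α : A | ∃ k : ℕ, orderOf α = p ^ k}) :
    ε a ∈ Subgroup.closure {β : B | ∃ k : ℕ, orderOf β = p ^ k} := by
  have h : Subgroup.closure {α : A | ∃ k : ℕ, orderOf α = p ^ k} ≤
      (Subgroup.closure {β : B | ∃ k : ℕ, orderOf β = p ^ k}).comap ε.toMonoidHom := by
    rw [Subgroup.closure_le]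
    rintro g ⟨k, hk⟩
    apply Subgroup.subset_closure
    refine ⟨k, ?_⟩
    show orderOf (ε g) = p ^ k
    rw [MulEquiv.orderOf_eq]
    exact hk
  exact h ha

/-- Frattini argument: `X = O^{p'}(X) N_X(R)` for a Sylow `p`-subgroup `R`. -/
theorem exists_mul_normalizer_sylow {X : Type*} [Group X] [Finite X] {p : ℕ} [Fact p.Prime]
    (R : Sylow p X) (y : X) :
    ∃ n ∈ Subgroup.closure {α : X | ∃ k : ℕ, orderOf α = p ^ k},
      ∃ m ∈ Subgroup.normalizer ((R : Subgroup X) : Set X), y = n * m := by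
  haveI := pPrimeRes_normal p X
  have hRN : (R : Subgroup X) ≤ Subgroup.closure {α : X | ∃ k : ℕ, orderOf α = p ^ k} := by
    intro r hr
    apply Subgroup.subset_closure
    obtain ⟨k, hk⟩ := (IsPGroup.iff_orderOf.1 R.isPGroup') ⟨r, hr⟩
    exact ⟨k, by rw [← hk, Subgroup.orderOf_mk]⟩
  have h := Sylow.normalizer_sup_eq_top' R hRN
  have hy : y ∈ Subgroup.normalizer ((R : Subgroup X) : Set X) ⊔
      Subgroup.closure {α : X | ∃ k : ℕ, orderOf α = p ^ k} := by
    have h0 := Subgroup.mem_top y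
    rw [← h] at h0
    exact h0
  rw [sup_comm, ← SetLike.mem_coe, Subgroup.normal_mul] at hy
  obtain ⟨n, hn, m, hm, rfl⟩ := Set.mem_mul.1 hy
  exact ⟨n, hn, m, hm, rfl⟩

variable {Ω : Type*} [Group Ω] {S : Subgroup Ω}

/-- The predicate cutting out the largest `Aut_F(S)`-invariant subsystem of `E`. -/
def InvC (E F : FusionSystem S) (P : Subgroup Ω) (f : Ω → Ω) : Prop :=
  Mor E P f ∧ ∀ a, Mor F S a → imgS S a = S → Mor E (imgS P a) (fun y => a (f (invOn S a y)))

theorem invOn_apply_of_mem {F : FusionSystem S} {a : Ω → Ω} (ha : Mor F S a) {x : Ω} (hx : x ∈ S) :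
    invOn S a (a x) = x := invOn_apply ha.injOn hx

theorem InvC.congr {E F : FusionSystem S} {P : Subgroup Ω} {f g : Ω → Ω} (hPS : P ≤ S)
    (hfg : ∀ x ∈ P, f x = g x) (h : InvC E F P f) : InvC E F P g := by
  refine ⟨h.1.congr hfg, fun a ha haS => (h.2 a ha haS).congr (fun y hy => ?_)⟩
  obtain ⟨x, hx, rfl⟩ := (ha.restrict hPS).mem_imgS.1 hy
  show a (f (invOn S a (a x))) = a (g (invOn S a (a x)))
  rw [invOn_apply_of_mem ha (hPS hx), hfg x hx]

theorem InvC.conj (E F : FusionSystem S) {P : Subgroup Ω} {g : Ω} (hP : P ≤ S) (hg : g ∈ S) :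
    InvC E F P (fun x => g * x * g⁻¹) := by
  refine ⟨Mor.conj E hP hg, fun a ha haS => ?_⟩
  refine (Mor.conj E (ha.restrict hP).imgS_le (ha.mem hg)).congr (fun y hy => ?_)
  obtain ⟨x, hx, rfl⟩ := (ha.restrict hP).mem_imgS.1 hy
  show a g * a x * (a g)⁻¹ = a (g * invOn S a (a x) * g⁻¹)
  rw [invOn_apply_of_mem ha (hP hx), ha.map_mul (S.mul_mem hg (hP hx)) (S.inv_mem hg),
    ha.map_mul hg (hP hx), ha.map_inv hg]

theorem InvC.comp {E F : FusionSystem S} {P R : Subgroup Ω} {f g : Ω → Ω} (hPS : P ≤ S)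
    (hRS : R ≤ S) (hfR : ∀ x ∈ P, f x ∈ R) (h : InvC E F P f) (h' : InvC E F R g) :
    InvC E F P (g ∘ f) := by
  refine ⟨h.1.comp h'.1 hfR, fun a ha haS => ?_⟩
  have A := h.2 a ha haS
  have B := h'.2 a ha haS
  have hmaps : ∀ y ∈ imgS P a, (fun y => a (f (invOn S a y))) y ∈ imgS R a := by
    intro y hy
    obtain ⟨x, hx, rfl⟩ := (ha.restrict hPS).mem_imgS.1 hy
    show a (f (invOn S a (a x))) ∈ imgS R a
    rw [invOn_apply_of_mem ha (hPS hx)]
    exact (ha.restrict hRS).mem_imgS_of_mem (hfR x hx)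
  refine (A.comp B hmaps).congr (fun y hy => ?_)
  obtain ⟨x, hx, rfl⟩ := (ha.restrict hPS).mem_imgS.1 hy
  show a (g (invOn S a (a (f (invOn S a (a x)))))) = a (g (f (invOn S a (a x))))
  rw [invOn_apply_of_mem ha (hPS hx), invOn_apply_of_mem ha (hRS (hfR x hx))]

theorem InvC.inv {E F : FusionSystem S} {P : Subgroup Ω} {f : Ω → Ω} (hf : Mor F P f)
    (h : InvC E F P f) : InvC E F (imgS P f) (invOn P f) := by
  have hPS : P ≤ S := hf.le
  refine ⟨h.1.inv, fun a ha haS => ?_⟩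
  have A := h.2 a ha haS
  have haP := ha.restrict hPS
  have haQ := ha.restrict hf.imgS_le
  have hval : ∀ x ∈ P, (fun y => a (f (invOn S a y))) (a x) = a (f x) := by
    intro x hx
    show a (f (invOn S a (a x))) = a (f x)
    rw [invOn_apply_of_mem ha (hPS hx)]
  have himg : imgS (imgS P a) (fun y => a (f (invOn S a y))) = imgS (imgS P f) a := by
    ext z
    rw [A.mem_imgS, haQ.mem_imgS]
    constructor
    · rintro ⟨y, hy, rfl⟩
      obtain ⟨x, hx, rfl⟩ := haP.mem_imgS.1 hy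
      exact ⟨f x, hf.mem_imgS_of_mem hx, (hval x hx).symm⟩
    · rintro ⟨w, hw, rfl⟩
      obtain ⟨x, hx, rfl⟩ := hf.mem_imgS.1 hw
      exact ⟨a x, haP.mem_imgS_of_mem hx, hval x hx⟩
  have B := A.inv
  rw [himg] at B
  refine B.congr (fun z hz => ?_)
  obtain ⟨w, hw, rfl⟩ := haQ.mem_imgS.1 hz
  obtain ⟨x, hx, rfl⟩ := hf.mem_imgS.1 hw
  show invOn (imgS P a) (fun y => a (f (invOn S a y))) (a (f x)) =
    a (invOn P f (invOn S a (a (f x))))
  rw [invOn_apply_of_mem ha (hf.mem hx), invOn_apply hf.injOn hx, ← hval x hx,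
    invOn_apply A.injOn (haP.mem_imgS_of_mem hx)]

/-- The largest `Aut_F(S)`-invariant subsystem of `E`. -/
def invSys (E F : FusionSystem S) : FusionSystem S :=
  Cfsg.Agent.H88.subSys F (InvC E F)
    (fun _ _ _ hf hfg h => h.congr hf.le hfg)
    (fun _ _ hP hg => InvC.conj E F hP hg)
    (fun _ _ _ _ hf hg hfR h h' => h.comp hf.le hg.le hfR h')
    (fun _ _ hf h => h.inv hf)

theorem mor_invSys_iff {E F : FusionSystem S} {P : Subgroup Ω} {f : Ω → Ω} :
    Mor (invSys E F) P f ↔ Mor F P f ∧ InvC E F P f :=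
  Cfsg.Agent.H88.mor_subSys_iff

theorem invSys_subsystem (E F : FusionSystem S) : (invSys E F).IsSubsystemOf F :=
  fun _ _ h => h.1

theorem mor_of_invSys {E F : FusionSystem S} {P : Subgroup Ω} {f : Ω → Ω}
    (h : Mor (invSys E F) P f) : Mor E P f := (mor_invSys_iff.1 h).2.1

theorem invSys_autInv (E F : FusionSystem S) : AutInv (invSys E F) F := by
  intro P f a hPS hf ha haS
  obtain ⟨hfF, hfE, hfI⟩ := mor_invSys_iff.1 hf
  have haP := ha.restrict hPS
  refine ⟨fun y => a (f (invOn S a y)), ?_, fun x hx => ?_⟩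
  · rw [mor_invSys_iff]
    have hinvm : ∀ y ∈ imgS P a, invOn S a y ∈ P := by
      intro y hy
      obtain ⟨x, hx, rfl⟩ := haP.mem_imgS.1 hy
      rw [invOn_apply_of_mem ha (hPS hx)]
      exact hx
    have hainv : Mor F S (invOn S a) := by
      have := ha.inv
      rwa [haS] at this
    have h1 : Mor F (imgS P a) (invOn S a) := hainv.restrict haP.imgS_le
    have h2 : Mor F (imgS P a) (f ∘ invOn S a) := h1.comp hfF hinvm
    have h3 : Mor F (imgS P a) (a ∘ (f ∘ invOn S a)) :=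
      h2.comp ha (fun y hy => hfF.mem (hinvm y hy))
    refine ⟨h3, hfI a ha haS, fun b hb hbS => ?_⟩
    have hba : Mor F S (b ∘ a) := ha.comp hb (fun x hx => ha.mem hx)
    have hbaS : imgS S (b ∘ a) = S := by
      rw [ha.imgS_comp hb (fun x hx => ha.mem hx), haS, hbS]
    have C := hfI (b ∘ a) hba hbaS
    have himg : imgS P (b ∘ a) = imgS (imgS P a) b :=
      haP.imgS_comp hb (fun x hx => ha.mem (hPS hx))
    rw [himg] at C
    refine C.congr (fun z hz => ?_)
    obtain ⟨y, hy, rfl⟩ := (hb.restrict haP.imgS_le).mem_imgS.1 hz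
    obtain ⟨x, hx, rfl⟩ := haP.mem_imgS.1 hy
    show (b ∘ a) (f (invOn S (b ∘ a) (b (a x)))) = b (a (f (invOn S a (invOn S b (b (a x))))))
    have e1 : invOn S (b ∘ a) (b (a x)) = x := invOn_apply hba.injOn (hPS hx)
    rw [e1, invOn_apply_of_mem hb (ha.mem (hPS hx)), invOn_apply_of_mem ha (hPS hx)]
    rfl
  · show a (f (invOn S a (a x))) = a (f x)
    rw [invOn_apply_of_mem ha (hPS hx)]

section FratGen

variable {T : Subgroup Ω} {E : FusionSystem T} {F : FusionSystem S}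

/-- The inductive step of the Frattini condition, from a key statement on automorphisms of fully
normalized subgroups. -/
theorem frat_step' [Finite S] {p : ℕ} [Fact p.Prime] (hS : IsPGroup p S) (hF : F.IsSaturated p)
    (hT : F.StronglyClosed T) (hI : AutInv E F)
    (hkey : ∀ Q : Subgroup Ω, Q < T → F.IsFullyNormalized Q →
      (∀ (R : Subgroup Ω), R ≤ T → Nat.card Q < Nat.card R → ∀ g, Mor F R g → FrMor E F R g) →
      ∀ β ∈ F.autGroup Q, FrMor E F Q (autFun Q β))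
    {P : Subgroup Ω} (hPT : P < T)
    (ih : ∀ (R : Subgroup Ω), R ≤ T → Nat.card P < Nat.card R → ∀ g, Mor F R g → FrMor E F R g)
    {f : Ω → Ω} (hf : Mor F P f) : FrMor E F P f := by
  have hTS := hT.1
  haveI : Finite T := finite_of_le hTS
  have hTp : IsPGroup p T := hS.to_le hTS
  have hsc := (stronglyClosed_iff.1 hT).2
  have hPS : P ≤ S := hPT.le.trans hTS
  obtain ⟨Pst, hconj, hfn⟩ := exists_fullyNormalized_conj F hPS
  obtain ⟨hfc, hfa⟩ := saturated_fullyNormalized hS hF hfn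
  have hrec := saturated_receptive_of_fullyCentralized hS hF hfc
  have hP'T : imgS P f ≤ T := by
    intro y hy
    obtain ⟨x, hx, rfl⟩ := hf.mem_imgS.1 hy
    exact hsc P f hPT.le hf x hx
  have hP'S : imgS P f ≤ S := hP'T.trans hTS
  have hconj' : F.IsConj (imgS P f) Pst :=
    isConj_trans (isConj_symm (isConj_iff.2 ⟨f, hf, rfl⟩)) hconj
  obtain ⟨χ, hχ, -, hχimg⟩ := exists_normalizer_map hS hfa hrec hconj
  obtain ⟨χ', hχ', -, hχ'img⟩ := exists_normalizer_map hS hfa hrec hconj'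
  have hχP : Mor F P χ := hχ.restrict (le_normalizerIn hPS)
  have hχ'P' : Mor F (imgS P f) χ' := hχ'.restrict (le_normalizerIn hP'S)
  have hPstT : Pst ≤ T := by
    rw [← hχimg]
    intro y hy
    obtain ⟨x, hx, rfl⟩ := hχP.mem_imgS.1 hy
    exact hsc P χ hPT.le hχP x hx
  have hcardPst : Nat.card Pst = Nat.card P := isConj_card hconj
  have hcardP' : Nat.card (imgS P f) = Nat.card P := hf.card_imgS
  have hcardlt : Nat.card P < Nat.card T := card_lt_card_of_lt hPT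
  have hPstlt : Pst < T := lt_of_le_of_ne hPstT (fun h => by rw [h] at hcardPst; omega)
  have hP'lt : imgS P f < T := lt_of_le_of_ne hP'T (fun h => by rw [h] at hcardP'; omega)
  have hlt : P < normalizerIn T P := lt_normalizerIn hTp hPT
  haveI : Finite (normalizerIn T P) := finite_of_le (S := T) inf_le_left
  have hχM : FrMor E F P χ :=
    (ih (normalizerIn T P) inf_le_left (card_lt_card_of_lt hlt) χ
      (hχ.restrict (inf_le_inf_right _ hTS))).restrict hlt.le
  have hlt' : imgS P f < normalizerIn T (imgS P f) := lt_normalizerIn hTp hP'lt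
  haveI : Finite (normalizerIn T (imgS P f)) := finite_of_le (S := T) inf_le_left
  have hχ'M : FrMor E F (imgS P f) χ' :=
    (ih (normalizerIn T (imgS P f)) inf_le_left (by rw [← hcardP']; exact card_lt_card_of_lt hlt') χ'
      (hχ'.restrict (inf_le_inf_right _ hTS))).restrict hlt'.le
  have hinv : Mor F Pst (invOn P χ) := hχimg ▸ hχP.inv
  have hinvmem : ∀ y ∈ Pst, invOn P χ y ∈ P := fun y hy => hχP.invOn_mem (hχimg ▸ hy)
  have h1 : Mor F Pst (f ∘ invOn P χ) := hinv.comp hf hinvmem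
  have hβ : Mor F Pst (χ' ∘ (f ∘ invOn P χ)) :=
    h1.comp hχ'P' (fun y hy => hf.mem_imgS_of_mem (hinvmem y hy))
  have hβmaps : ∀ y ∈ Pst, (χ' ∘ (f ∘ invOn P χ)) y ∈ Pst := by
    intro y hy
    rw [← hχ'img]
    exact hχ'P'.mem_imgS_of_mem (hf.mem_imgS_of_mem (hinvmem y hy))
  haveI : Finite Pst := finite_of_le (hPstT.trans hTS)
  have himgβ : imgS Pst (χ' ∘ (f ∘ invOn P χ)) = Pst := imgS_eq_of_maps hβ hβmaps
  have hβM : FrMor E F Pst (χ' ∘ (f ∘ invOn P χ)) := by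
    have hk := hkey Pst hPstlt hfn
      (fun R hRT hlt g hg => ih R hRT (by rw [← hcardPst]; exact hlt) g hg) _ (mkAut_mem hβ himgβ)
    exact hk.congr (fun y hy => autFun_mkAut hβ himgβ hy)
  have hχ'inv : FrMor E F Pst (invOn (imgS P f) χ') := hχ'img ▸ FrMor.inv hI hTS hχ'M hχ'P'
  have hχmem : ∀ x ∈ P, χ x ∈ Pst := fun x hx => by
    rw [← hχimg]
    exact hχP.mem_imgS_of_mem hx
  have comp1 := FrMor.comp hI hχM hβM hχmem hPstT
  have comp2 := FrMor.comp hI comp1 hχ'inv (fun x hx => hβmaps _ (hχmem x hx)) hPstT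
  refine comp2.congr (fun x hx => ?_)
  show invOn (imgS P f) χ' (χ' (f (invOn P χ (χ x)))) = f x
  rw [invOn_apply hχP.injOn hx, invOn_apply hχ'P'.injOn (hf.mem_imgS_of_mem hx)]

theorem frat_of_key [Finite S] {p : ℕ} [Fact p.Prime] (hS : IsPGroup p S) (hF : F.IsSaturated p)
    (hT : F.StronglyClosed T) (hI : AutInv E F)
    (hkey : ∀ Q : Subgroup Ω, Q < T → F.IsFullyNormalized Q →
      (∀ (R : Subgroup Ω), R ≤ T → Nat.card Q < Nat.card R → ∀ g, Mor F R g → FrMor E F R g) →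
      ∀ β ∈ F.autGroup Q, FrMor E F Q (autFun Q β)) : Frat E F := by
  have hTS : T ≤ S := hT.1
  haveI : Finite T := finite_of_le hTS
  have hsc := (stronglyClosed_iff.1 hT).2
  suffices H : ∀ (n : ℕ) (P : Subgroup Ω), P ≤ T → Nat.card T - Nat.card P ≤ n →
      ∀ f, Mor F P f → FrMor E F P f from fun P f hPT hf => H _ P hPT le_rfl f hf
  intro n
  induction n with
  | zero =>
    intro P hPT hn f hf
    by_cases hPeq : P = T
    · subst hPeq
      exact frMor_of_aut E le_rfl hf (imgS_eq_of_maps hf (hsc P f le_rfl hf))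
    · refine frat_step' hS hF hT hI hkey (lt_of_le_of_ne hPT hPeq) (fun R hRT hlt g hg => ?_) hf
      exfalso
      have := Subgroup.card_le_of_le hRT
      omega
  | succ n ih =>
    intro P hPT hn f hf
    by_cases hPeq : P = T
    · subst hPeq
      exact frMor_of_aut E le_rfl hf (imgS_eq_of_maps hf (hsc P f le_rfl hf))
    · exact frat_step' hS hF hT hI hkey (lt_of_le_of_ne hPT hPeq)
        (fun R hRT hlt g hg => ih R hRT (by omega) g hg) hf

end FratGen

/-- The key step for the invariant subsystem: automorphisms of a fully normalized proper subgroup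
satisfy the Frattini condition. -/
theorem key_invSys [Finite S] {p : ℕ} [Fact p.Prime] (hS : IsPGroup p S) {F : FusionSystem S}
    (hF : F.IsSaturated p) (E : FusionSystem S)
    (h : ∀ P : Subgroup Ω, F.IsCentric P →
      (Subgroup.closure {α : ↥(F.autGroup P) | ∃ k : ℕ, orderOf α = p ^ k}).map
        (F.autGroup P).subtype ≤ (invSys E F).autGroup P)
    (Q : Subgroup Ω) (hQS : Q < S) (hQn : F.IsFullyNormalized Q)
    (ih : ∀ (R : Subgroup Ω), R ≤ S → Nat.card Q < Nat.card R → ∀ g, Mor F R g →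
      FrMor (invSys E F) F R g)
    (β : MulAut Q) (hβ : β ∈ F.autGroup Q) : FrMor (invSys E F) F Q (autFun Q β) := by
  obtain ⟨hQc, hQa⟩ := saturated_fullyNormalized hS hF hQn
  have hrec := saturated_receptive_of_fullyCentralized hS hF hQc
  have hQ : Q ≤ S := hQS.le
  haveI : Finite Q := finite_of_le hQ
  have hβm := (mem_autGroup_iff hQ β).1 hβ
  by_cases hcen : F.IsCentric Q
  · obtain ⟨R, hR⟩ := hQa.2
    obtain ⟨n, hn, m, hm, hnm⟩ := exists_mul_normalizer_sylow R (⟨β, hβ⟩ : ↥(F.autGroup Q))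
    have hnE : (n : MulAut Q) ∈ (invSys E F).autGroup Q := h Q hcen ⟨n, hn, rfl⟩
    have hnFr : FrMor (invSys E F) F Q (autFun Q (n : MulAut Q)) :=
      frMor_of_mor le_rfl ((mem_autGroup_iff hQ _).1 hnE)
    have hmm : Mor F Q (autFun Q (m : MulAut Q)) := (mem_autGroup_iff hQ _).1 m.2
    have hext : ∀ g ∈ normalizerIn S Q, g ∈ S ∧ g ∈ Subgroup.normalizer (Q : Set Ω) ∧
        ∃ h ∈ S, ∀ x ∈ Q, autFun Q (m : MulAut Q) (g * x * g⁻¹) =
          h * autFun Q (m : MulAut Q) x * h⁻¹ := by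
      intro g hg
      refine ⟨hg.1, hg.2, ?_⟩
      obtain ⟨γ, hγ⟩ := exists_conjAut hg.2
      have hγS : γ ∈ autInducedBy S Q := (mem_autInducedBy_iff S Q γ).2 ⟨g, hg.1, hγ⟩
      have hγF : γ ∈ F.autGroup Q := autInducedBy_le_autGroup F hQ hγS
      have h1 : (⟨γ, hγF⟩ : ↥(F.autGroup Q)) ∈ (R : Subgroup ↥(F.autGroup Q)) := by
        rw [hR, Subgroup.mem_subgroupOf]
        exact hγS
      have h2 : m * ⟨γ, hγF⟩ * m⁻¹ ∈ (R : Subgroup ↥(F.autGroup Q)) :=
        conj_mem_of_mem_normalizer hm h1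
      rw [hR, Subgroup.mem_subgroupOf] at h2
      obtain ⟨h', hh'S, hh'⟩ := (mem_autInducedBy_iff S Q _).1 h2
      refine ⟨h', hh'S, fun x hx => ?_⟩
      have h3 := hh' ((m : MulAut Q) ⟨x, hx⟩)
      have h4 : ((m * ⟨γ, hγF⟩ * m⁻¹ : ↥(F.autGroup Q)) : MulAut Q) ((m : MulAut Q) ⟨x, hx⟩) =
          (m : MulAut Q) (γ ⟨x, hx⟩) := by
        simp [MulAut.mul_apply]
      rw [h4] at h3
      have hmem : g * x * g⁻¹ ∈ Q := conj_mem_of_mem_normalizer hg.2 hx
      have h5 : γ ⟨x, hx⟩ = ⟨g * x * g⁻¹, hmem⟩ := Subtype.ext (hγ ⟨x, hx⟩)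
      rw [h5] at h3
      rw [autFun_of_mem _ hmem, autFun_of_mem _ hx]
      exact h3
    have hlt : Q < normalizerIn S Q := lt_normalizerIn hS hQS
    obtain ⟨m', hm', hm'eq⟩ := receptive_extend hrec hmm (imgS_autFun hmm) hlt.le hext
    haveI : Finite (normalizerIn S Q) := finite_of_le (S := S) inf_le_left
    have hmFr : FrMor (invSys E F) F Q (autFun Q (m : MulAut Q)) :=
      ((ih (normalizerIn S Q) inf_le_left (card_lt_card_of_lt hlt) m' hm').restrict hlt.le).congr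
        hm'eq
    have hcomp := FrMor.comp (invSys_autInv E F) hmFr hnFr (fun x hx => autFun_mem _ hx) hQ
    refine hcomp.congr (fun x hx => ?_)
    show autFun Q (n : MulAut Q) (autFun Q (m : MulAut Q) x) = autFun Q β x
    rw [← autFun_mul _ _ hx]
    have e : β = (n : MulAut Q) * (m : MulAut Q) := congrArg Subtype.val hnm
    rw [e]
  · have hC : ¬ centralizerIn S Q ≤ Q := fun hC => hcen (isCentric_of_fullyCentralized hQc hC)
    obtain ⟨β', hβ', hβ'eq⟩ := receptive_extend' hrec hβm (imgS_autFun hβm)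
    have hle : Q ≤ extSub S Q (autFun Q β) := le_extSub hβm
    have hlt : Q < extSub S Q (autFun Q β) := by
      refine lt_of_le_of_ne hle (fun heq => hC ?_)
      intro c hc
      have h1 := centralizerIn_le_extSub hβm hc
      rw [← heq] at h1
      exact h1
    have hXS : extSub S Q (autFun Q β) ≤ S := extSub_le hβm
    haveI : Finite (extSub S Q (autFun Q β)) := finite_of_le hXS
    exact ((ih _ hXS (card_lt_card_of_lt hlt) β' hβ').restrict hle).congr hβ'eq

theorem invSys_contains {p : ℕ} {E F : FusionSystem S}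
    (h : ∀ P : Subgroup Ω, F.IsCentric P →
      (Subgroup.closure {α : ↥(F.autGroup P) | ∃ k : ℕ, orderOf α = p ^ k}).map
        (F.autGroup P).subtype ≤ E.autGroup P) :
    ∀ P : Subgroup Ω, F.IsCentric P →
      (Subgroup.closure {α : ↥(F.autGroup P) | ∃ k : ℕ, orderOf α = p ^ k}).map
        (F.autGroup P).subtype ≤ (invSys E F).autGroup P := by
  intro P hP
  have hPS : P ≤ S := hP.1
  rintro _ ⟨α, hα, rfl⟩
  show (α : MulAut P) ∈ (invSys E F).autGroup P
  rw [mem_autGroup_iff hPS, mor_invSys_iff]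
  refine ⟨(mem_autGroup_iff hPS _).1 α.2, (mem_autGroup_iff hPS _).1 (h P hP ⟨α, hα, rfl⟩),
    fun a ha haS => ?_⟩
  have haP := ha.restrict hPS
  have hP'S : imgS P a ≤ S := haP.imgS_le
  have hP'c : F.IsCentric (imgS P a) :=
    ⟨hP'S, fun Q hQ => hP.2 Q (isConj_trans (isConj_iff.2 ⟨a, haP, rfl⟩) hQ)⟩
  set e : P ≃* imgS P a := isoEquiv haP rfl with he
  set ε : ↥(F.autGroup P) ≃* ↥(F.autGroup (imgS P a)) :=
    (MulEquiv.subgroupMap (MulAut.congr e) (F.autGroup P)).trans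
      (MulEquiv.subgroupCongr (map_congr_autGroup haP rfl)) with hε
  have hεα := pPrimeRes_map_equiv p ε hα
  have h1 : ((ε α : ↥(F.autGroup (imgS P a))) : MulAut (imgS P a)) ∈ E.autGroup (imgS P a) :=
    h (imgS P a) hP'c ⟨ε α, hεα, rfl⟩
  have h2 := (mem_autGroup_iff hP'S _).1 h1
  refine h2.congr (fun y hy => ?_)
  obtain ⟨x, hx, rfl⟩ := haP.mem_imgS.1 hy
  show autFun (imgS P a) ((ε α : ↥(F.autGroup (imgS P a))) : MulAut (imgS P a)) (a x) =
    a (autFun P (α : MulAut P) (invOn S a (a x)))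
  rw [invOn_apply_of_mem ha (hPS hx)]
  have hval : (((ε α : ↥(F.autGroup (imgS P a))) : MulAut (imgS P a)) (e ⟨x, hx⟩) : imgS P a) =
      e ((α : MulAut P) ⟨x, hx⟩) := congr_apply_apply e (α : MulAut P) ⟨x, hx⟩
  have e1 : e ⟨x, hx⟩ = ⟨a x, hy⟩ := Subtype.ext rfl
  rw [autFun_of_mem _ hy, ← e1, hval, autFun_of_mem _ hx]
  rfl

/-- BCGLO II, Lemma 3.4. -/
theorem primeIdx_main [Finite S] {p : ℕ} [Fact p.Prime] (hS : IsPGroup p S) {F : FusionSystem S}
    (hF : F.IsSaturated p) (E : FusionSystem S) (hEF : E.IsSubsystemOf F)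
    (h : ∀ P : Subgroup Ω, F.IsCentric P →
      (Subgroup.closure {α : ↥(F.autGroup P) | ∃ k : ℕ, orderOf α = p ^ k}).map
        (F.autGroup P).subtype ≤ E.autGroup P) :
    E.HasPrimeToPIndexIn F p ∧
    (∀ (P : Subgroup Ω) (φ : P →* Ω), φ ∈ F.Hom P → ∃ α ∈ F.autGroup S, ∃ φ₀ ∈ E.Hom P,
      ∀ (x : P) (hx : φ₀ x ∈ S), φ x = ((α ⟨φ₀ x, hx⟩ : S) : Ω)) ∧
    ∀ P : Subgroup Ω, E.IsCentric P ↔ F.IsCentric P := by
  have hST : F.StronglyClosed S := stronglyClosed_iff.2 ⟨le_rfl, fun R f _ hf x hx => hf.mem hx⟩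
  have hfrat : Frat (invSys E F) F := frat_of_key hS hF hST (invSys_autInv E F)
    (fun Q hQ hQn ih β hβ => key_invSys hS hF E (invSys_contains h) Q hQ hQn ih β hβ)
  have hfratE : ∀ (P : Subgroup Ω) (f : Ω → Ω), Mor F P f →
      ∃ a f₀, Mor F S a ∧ imgS S a = S ∧ Mor E P f₀ ∧ ∀ x ∈ P, f x = a (f₀ x) := by
    intro P f hf
    obtain ⟨a, f₀, ha, haS, hf₀, hfa⟩ := hfrat P f hf.le hf
    exact ⟨a, f₀, ha, haS, mor_of_invSys hf₀, hfa⟩
  refine ⟨⟨hEF, fun P hP => ?_⟩, fun P φ hφ => ?_, fun P => ⟨fun hPc => ?_, fun hPc => ?_⟩⟩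
  · rw [MonoidHom.map_closure, Subgroup.closure_le]
    rintro _ ⟨α, ⟨k, hk⟩, rfl⟩
    show (α : MulAut P) ∈ E.autGroup P
    haveI : Finite P := finite_of_le hP
    obtain ⟨Q', hPQ', hQ'n⟩ := exists_fullyNormalized_conj F hP
    obtain ⟨-, hQ'a⟩ := saturated_fullyNormalized hS hF hQ'n
    obtain ⟨f₁, hf₁, himg₁⟩ := isConj_iff.1 hPQ'
    have hUle : Subgroup.zpowers (α : MulAut P) ≤ F.autGroup P := (Subgroup.zpowers_le).2 α.2
    have hUp : IsPGroup p (Subgroup.zpowers (α : MulAut P)) := by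
      apply IsPGroup.of_card (n := k)
      rw [Nat.card_zpowers, Subgroup.orderOf_coe, hk]
    obtain ⟨f, hf, himg, hUf⟩ := exists_mor_rel hQ'a hf₁ himg₁ hUle hUp
    obtain ⟨g, hg, hrel⟩ := hUf _ (Subgroup.mem_zpowers _)
    obtain ⟨a, f₀, ha, haS, hf₀, hfa⟩ := hfratE P f hf
    have hainv : Mor F S (invOn S a) := by
      have := ha.inv
      rwa [haS] at this
    have hg' : invOn S a g ∈ S := ha.invOn_mem (by rw [haS]; exact hg)
    refine mem_autGroup_of_rel hf₀ hg' (fun x hx => ?_)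
    have hx' := autFun_mem (α : MulAut P) hx
    have h1 := hrel x hx
    rw [hfa x hx, hfa _ hx'] at h1
    have hf₀x : f₀ x ∈ S := hf₀.mem hx
    have h2 : invOn S a (g * a (f₀ x) * g⁻¹) = invOn S a g * f₀ x * (invOn S a g)⁻¹ := by
      rw [hainv.map_mul (S.mul_mem hg (ha.mem hf₀x)) (S.inv_mem hg),
        hainv.map_mul hg (ha.mem hf₀x), hainv.map_inv hg, invOn_apply_of_mem ha hf₀x]
    rw [← h2, h1, invOn_apply_of_mem ha (hf₀.mem hx')]
  · obtain ⟨a, f₀, ha, haS, hf₀, hfa⟩ := hfratE P (extFun P φ) (mor_extFun hφ)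
    obtain ⟨φ₀, hφ₀, hφ₀f⟩ := hf₀
    refine ⟨mkAut ha haS, mkAut_mem ha haS, φ₀, hφ₀, fun x hx => ?_⟩
    rw [mkAut_apply, ← extFun_apply P φ x, hfa x x.2]
    show a (f₀ x) = a (φ₀ x)
    rw [hφ₀f x]
  · refine ⟨hPc.1, fun Q hQ => ?_⟩
    obtain ⟨f, hf, rfl⟩ := isConj_iff.1 hQ
    obtain ⟨a, f₀, ha, haS, hf₀, hfa⟩ := hfratE P f hf
    have hQ₀ := hPc.2 (imgS P f₀) (isConj_iff.2 ⟨f₀, hf₀, rfl⟩)
    intro c hc
    rw [mem_centralizerIn_iff] at hc
    have hc' : invOn S a c ∈ S := ha.invOn_mem (by rw [haS]; exact hc.1)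
    have hac : a (invOn S a c) = c := ha.apply_invOn (by rw [haS]; exact hc.1)
    have h1 : invOn S a c ∈ centralizerIn S (imgS P f₀) := by
      rw [mem_centralizerIn_iff]
      refine ⟨hc', fun y hy => ?_⟩
      obtain ⟨x, hx, rfl⟩ := hf₀.mem_imgS.1 hy
      have hyS := hf₀.mem hx
      apply ha.injOn (S.mul_mem hyS hc') (S.mul_mem hc' hyS)
      rw [ha.map_mul hyS hc', ha.map_mul hc' hyS, hac, ← hfa x hx]
      exact hc.2 _ (hf.mem_imgS_of_mem hx)
    have h2 := hQ₀ h1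
    obtain ⟨x, hx, hxc⟩ := hf₀.mem_imgS.1 h2
    rw [hf.mem_imgS]
    exact ⟨x, hx, by rw [hfa x hx, hxc, hac]⟩
  · refine ⟨hPc.1, fun Q hQ => hPc.2 Q ?_⟩
    obtain ⟨f, hf, rfl⟩ := isConj_iff.1 hQ
    exact isConj_iff.2 ⟨f, mor_of_subsystem hEF hf, rfl⟩

end Cfsg.Agent.H87
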