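import Cfsg.Agent.H87.BCDefs
import Cfsg.Agent.H86.PredSys
import Cfsg.Agent.H88.NormModel
import Cfsg.Agent.H89.Normalizer
import Cfsg.Agent.H24.BCNSat
import Cfsg.Agent.H87.BCExt
import Cfsg.Agent.H67.BCBack
import Cfsg.Agent.H67.BCFar
import Cfsg.Agent.H24.BCRcv
import Cfsg.Agent.Lib.Helper30.BCMaxPair
import Cfsg.Agent.H92.BCNGen
import Cfsg.Agent.H29.Transport

set_option autoImplicit false

/-!
Assembly of the saturation criterion of Broto–Castellana–Grodal–Levi–Oliver.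
-/

namespace Cfsg.Agent.H87

open Cfsg Cfsg.FusionSystem Cfsg.Agent.H86

variable {Ω : Type*} [Group Ω] {S : Subgroup Ω}

/-- Transport of the `O_p` condition along a map defined on the normalizer. -/
theorem star_transport {p : ℕ} {F : FusionSystem S} {Q V : Subgroup Ω}
    (hQS : Q ≤ S) {ψ : Ω → Ω} (hψ : Mor F (normalizerIn S Q) ψ) (hψQ : imgS Q ψ = V)
    (h : ¬ (autInducedBy S Q ⊓ (pCore p ↥(F.autGroup Q)).map (F.autGroup Q).subtype ≤ Inn Q)) :
    ¬ (autInducedBy S V ⊓ (pCore p ↥(F.autGroup V)).map (F.autGroup V).subtype ≤ Inn V) := by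
  rw [SetLike.not_le_iff_exists] at h ⊢
  obtain ⟨α, ⟨hαS, hαO⟩, hαI⟩ := h
  have hQN : Q ≤ normalizerIn S Q := le_normalizerIn hQS
  have hψQm : Mor F Q ψ := hψ.restrict hQN
  have hkey : ∀ x : Q, (((MulAut.congr (isoEquiv hψQm hψQ) α) (isoEquiv hψQm hψQ x) : V) : Ω)
      = ψ ((α x : Q) : Ω) := fun x => by
    rw [congr_apply_apply, isoEquiv_apply]
  refine ⟨MulAut.congr (isoEquiv hψQm hψQ) α, ⟨?_, ?_⟩, ?_⟩
  · obtain ⟨g, hg, H⟩ := (mem_autInducedBy_iff S Q α).1 hαS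
    have hgN : g ∈ normalizerIn S Q := mem_normalizerIn_iff.2 ⟨hg, mem_normalizer_of_induces H⟩
    refine (mem_autInducedBy_iff S V _).2 ⟨ψ g, hψ.mem hgN, fun y => ?_⟩
    obtain ⟨x, rfl⟩ := (isoEquiv hψQm hψQ).surjective y
    rw [hkey, isoEquiv_apply, H, hψ.map_mul (mul_mem hgN (hQN x.2)) (inv_mem hgN),
      hψ.map_mul hgN (hQN x.2), hψ.map_inv hgN]
  · obtain ⟨a, ha, rfl⟩ := hαO
    let ε : ↥(F.autGroup Q) ≃* ↥(F.autGroup V) :=
      ((MulAut.congr (isoEquiv hψQm hψQ)).subgroupMap (F.autGroup Q)).trans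
        (MulEquiv.subgroupCongr (map_congr_autGroup hψQm hψQ))
    have h1 : ε a ∈ pCore p ↥(F.autGroup V) := by
      rw [← Cfsg.Agent.H29.pCore_map_equiv p ε]
      exact ⟨a, ha, rfl⟩
    exact ⟨ε a, h1, rfl⟩
  · intro hI
    apply hαI
    obtain ⟨v, hv, H⟩ := (mem_inn_iff _).1 hI
    rw [← hψQ] at hv
    obtain ⟨q, hq, rfl⟩ := hψQm.mem_imgS.1 hv
    refine (mem_inn_iff α).2 ⟨q, hq, fun x => ?_⟩
    apply hψQm.injOn (α x).2 (Q.mul_mem (Q.mul_mem hq x.2) (Q.inv_mem hq))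
    rw [← hkey, H, isoEquiv_apply, hψQm.map_mul (Q.mul_mem hq x.2) (Q.inv_mem hq),
      hψQm.map_mul hq x.2, hψQm.map_inv hq]

/-- The key step: a class all of whose strictly larger subgroups have saturated classes, through
which the system is generated, and which satisfies the `O_p` condition when centric, is saturated. -/
theorem key [Finite S] {p : ℕ} [Fact p.Prime] (hS : IsPGroup p S) {F : FusionSystem S}
    {P : Subgroup Ω} (hPS : P < S)
    (hbig : ∀ T : Subgroup Ω, T ≤ S → Nat.card P < Nat.card T → SatClass F p T)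
    (hgen : ∀ E : FusionSystem S, (∀ Q : Subgroup Ω, ¬ F.IsConj P Q → F.Hom Q ⊆ E.Hom Q) → F ≤ E)
    (hstar : F.IsCentric P → ∃ Q, F.IsConj P Q ∧
      ¬ (autInducedBy S Q ⊓ (pCore p ↥(F.autGroup Q)).map (F.autGroup Q).subtype ≤ Inn Q)) :
    SatClass F p P := by
  obtain ⟨V, hV, hVS, hVfn⟩ := exists_fullyNormalized_conj F hPS.le
  have hVmax : ∀ Q, F.IsConj P Q → Nat.card (normalizerIn S Q) ≤ Nat.card (normalizerIn S V) :=
    fun Q hQ => hVfn Q (isConj_trans (isConj_symm hV) hQ)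
  have hcardV : Nat.card V = Nat.card P := isConj_card hV
  have hK : ∀ T Q : Subgroup Ω, Q ≤ T → T ≤ normalizerIn S Q → Nat.card P < Nat.card T →
      ∃ (T' Q' : Subgroup Ω) (f₀ : Ω → Ω), Mor F T f₀ ∧ imgS T f₀ = T' ∧ imgS Q f₀ = Q' ∧
        ∀ (T₁ Q₁ : Subgroup Ω) (g : Ω → Ω), Q₁ ≤ T₁ → T₁ ≤ normalizerIn S Q₁ → Mor F T₁ g →
          imgS T₁ g = T' → imgS Q₁ g = Q' →
          ∃ ψ, Mor F (normalizerIn S T₁ ⊓ normalizerIn S Q₁) ψ ∧ imgS T₁ ψ = T' ∧
            imgS Q₁ ψ = Q' := by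
    intro T Q hQT hTN hcard
    obtain ⟨T', Q', f₀, hf₀, hT', hQ', hmp⟩ :=
      Cfsg.Agent.Lib.Helper30.BC.exists_maxPair hS (hbig T (hTN.trans inf_le_left) hcard) hQT hTN
    exact ⟨T', Q', f₀, hf₀, hT', hQ', fun T₁ Q₁ g h1 h2 h3 h4 h5 =>
      Cfsg.Agent.Lib.Helper30.BC.maxPair_extend hS hmp h1 h2 h3 h4 h5⟩
  have hrcv : ∀ Q, F.IsConj P Q → Rcv F Q V :=
    Cfsg.Agent.H24.BC.rcv_max hS hPS hK hgen hV hVmax
  have hE : F.IsNormalizerSystem V (Cfsg.Agent.H89.normalizerSystem F V hVS) :=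
    Cfsg.Agent.H89.normalizerSystem_isNormalizerSystem F V hVS
  generalize Cfsg.Agent.H89.normalizerSystem F V hVS = E at hE
  have hVn : E.IsNormal V := Cfsg.Agent.H88.normalizerSystem_isNormal hVS hE
  haveI : Finite (normalizerIn S V) := finite_of_le (S := S) inf_le_left
  have hN : IsPGroup p (normalizerIn S V) := hS.to_le inf_le_left
  have hover : ∀ X : Subgroup Ω, V < X → X ≤ normalizerIn S V → SatClass E p X := by
    intro X hVX hXN
    have hXS : X ≤ S := hXN.trans inf_le_left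
    haveI : Finite X := finite_of_le hXS
    have hc : Nat.card P < Nat.card X := by
      rw [← hcardV]
      exact card_lt_card_of_lt hVX
    obtain ⟨T', P', f₀, hf₀, hT', hP', hmp⟩ :=
      Cfsg.Agent.Lib.Helper30.BC.exists_maxPair hS (hbig X hXS hc) hVX.le hXN
    have hVP' : F.IsConj V P' := isConj_iff.2 ⟨f₀, hf₀.restrict hVX.le, hP'⟩
    obtain ⟨ψ, hψ, hψP⟩ := hrcv P' (isConj_trans hV hVP')
    exact Cfsg.Agent.H24.BC.normalizer_satClass hS hVS hE hVX.le hXN hf₀ hT' hP' hmp hψ hψP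
  have hgenE := Cfsg.Agent.H92.BC.normalizer_gen hS hPS hgen hV hrcv hE
  have hstarE : ¬ centralizerIn (normalizerIn S V) V ≤ V ∨
      ¬ (autInducedBy (normalizerIn S V) V ⊓
        (pCore p ↥(E.autGroup V)).map (E.autGroup V).subtype ≤ Inn V) := by
    by_cases hc : F.IsCentric P
    · right
      obtain ⟨Q, hQ, hQstar⟩ := hstar hc
      obtain ⟨ψ, hψ, hψQ⟩ := hrcv Q hQ
      have h1 := star_transport (isConj_le_right hQ) hψ hψQ hQstar
      have hEF : E.autGroup V = F.autGroup V := by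
        ext α
        rw [mem_autGroup_iff (le_normalizerIn hVS), mem_autGroup_iff hVS,
          Cfsg.Agent.H88.mor_normalizerSystem_iff hE]
        constructor
        · rintro ⟨-, -, f', hf', hf'α, -⟩
          exact (hf'.restrict le_sup_left).congr hf'α
        · intro hα
          refine ⟨le_normalizerIn hVS, fun x hx => le_normalizerIn hVS (autFun_mem α hx),
            autFun V α, ?_, fun x _ => rfl, imgS_autFun hα⟩
          rw [sup_idem]
          exact hα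
      have hAut : autInducedBy (normalizerIn S V) V = autInducedBy S V := by
        apply le_antisymm (autInducedBy_mono inf_le_left V)
        intro α hα
        obtain ⟨g, hg, H⟩ := (mem_autInducedBy_iff S V α).1 hα
        exact (mem_autInducedBy_iff _ V α).2
          ⟨g, mem_normalizerIn_iff.2 ⟨hg, mem_normalizer_of_induces H⟩, H⟩
      rw [hEF, hAut]
      exact h1
    · left
      have hc' : ∃ Q, F.IsConj P Q ∧ ¬ centralizerIn S Q ≤ Q := by
        by_contra hcon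
        apply hc
        refine ⟨hPS.le, fun Q hQ => ?_⟩
        by_contra hQc
        exact hcon ⟨Q, hQ, hQc⟩
      obtain ⟨Q, hQ, hQc⟩ := hc'
      obtain ⟨ψ, hψ, hψQ⟩ := hrcv Q hQ
      have hQS : Q ≤ S := isConj_le_right hQ
      have hQN : Q ≤ normalizerIn S Q := le_normalizerIn hQS
      rw [SetLike.not_le_iff_exists] at hQc ⊢
      obtain ⟨c, hc1, hc2⟩ := hQc
      have hcN : c ∈ normalizerIn S Q := centralizerIn_le_normalizerIn S Q hc1
      have hcS : ψ c ∈ centralizerIn S V := by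
        rw [mem_centralizerIn_iff]
        refine ⟨hψ.mem hcN, fun v hv => ?_⟩
        rw [← hψQ] at hv
        obtain ⟨q, hq, rfl⟩ := (hψ.restrict hQN).mem_imgS.1 hv
        rw [← hψ.map_mul hcN (hQN hq), ← hψ.map_mul (hQN hq) hcN,
          (mem_centralizerIn_iff.1 hc1).2 q hq]
      refine ⟨ψ c, ?_, ?_⟩
      · exact mem_centralizerIn_iff.2
          ⟨centralizerIn_le_normalizerIn S V hcS, (mem_centralizerIn_iff.1 hcS).2⟩
      · intro hcV
        rw [← hψQ] at hcV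
        obtain ⟨q, hq, hqc⟩ := (hψ.restrict hQN).mem_imgS.1 hcV
        exact hc2 (hψ.injOn (hQN hq) hcN hqc ▸ hq)
  obtain ⟨V₀, hVV₀, hV₀N, hinv, hext⟩ := exists_ext_overgroup hN hVn hover hgenE hstarE
  obtain ⟨hfa, hrc⟩ :=
    Cfsg.Agent.H67.BC.sat_of_ext_overgroup hN hVn hover hVV₀ hV₀N hinv hext
  obtain ⟨hfa', hrc'⟩ :=
    Cfsg.Agent.H67.BC.sat_of_normalizer hS hV hrcv hE hfa hrc
  exact ⟨V, hV, hfa', hrc'⟩

theorem finite_subgroups_le [Finite S] : {P : Subgroup Ω | P ≤ S}.Finite := by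
  have hinj : Set.InjOn (fun P : Subgroup Ω => P.subgroupOf S) {P : Subgroup Ω | P ≤ S} := by
    intro P hP Q hQ h
    have h' := Subgroup.subgroupOf_inj.1 h
    rw [inf_eq_left.2 (show P ≤ S from hP), inf_eq_left.2 (show Q ≤ S from hQ)] at h'
    exact h'
  exact Set.Finite.of_finite_image (Set.toFinite _) hinj

/-- The saturation criterion of Broto–Castellana–Grodal–Levi–Oliver. -/
theorem bcglo [Finite S] {p : ℕ} [Fact p.Prime] (hS : IsPGroup p S) (F : FusionSystem S)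
    (ℋ : Set (Subgroup Ω)) (hℋconj : ∀ P ∈ ℋ, ∀ Q, F.IsConj P Q → Q ∈ ℋ)
    (hsat : ∀ P ∈ ℋ, ∃ Q, F.IsConj P Q ∧ F.IsFullyAutomized p Q ∧ F.IsReceptive Q)
    (hgen : ∀ E : FusionSystem S, (∀ P ∈ ℋ, F.Hom P ⊆ E.Hom P) → F ≤ E)
    (hstar : ∀ P : Subgroup Ω, F.IsCentric P → P ∉ ℋ → ∃ Q, F.IsConj P Q ∧
      ¬ (autInducedBy S Q ⊓ (pCore p ↥(F.autGroup Q)).map (F.autGroup Q).subtype ≤ Inn Q)) :
    F.IsSaturated p := by
  obtain ⟨n, hn⟩ : ∃ n, Set.ncard {P : Subgroup Ω | P ≤ S ∧ P ∉ ℋ} = n := ⟨_, rfl⟩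
  induction n using Nat.strong_induction_on generalizing ℋ with
  | _ n ih =>
  have hfin : {P : Subgroup Ω | P ≤ S ∧ P ∉ ℋ}.Finite :=
    finite_subgroups_le.subset (fun P hP => hP.1)
  by_cases hne : {P : Subgroup Ω | P ≤ S ∧ P ∉ ℋ}.Nonempty
  · obtain ⟨P, ⟨hPS, hPℋ⟩, hmax⟩ := Set.exists_max_image _ (fun P : Subgroup Ω => Nat.card P) hfin hne
    have hPlt : P < S := by
      refine lt_of_le_of_ne hPS (fun hPeq => ?_)
      subst hPeq
      have hcen : F.IsCentric P := by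
        refine ⟨le_refl _, fun Q hQ => ?_⟩
        have hQS := isConj_le_right hQ
        have : Q = P := Subgroup.eq_of_le_of_card_ge hQS (isConj_card hQ).ge
        rw [this]
        exact inf_le_left
      obtain ⟨Q, hQ, hQstar⟩ := hstar P hcen hPℋ
      apply hQstar
      have hQS := isConj_le_right hQ
      have hQP : Q = P := Subgroup.eq_of_le_of_card_ge hQS (isConj_card hQ).ge
      subst hQP
      intro α hα
      obtain ⟨g, hg, H⟩ := (mem_autInducedBy_iff Q Q α).1 hα.1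
      exact (mem_inn_iff α).2 ⟨g, hg, H⟩
    have hbig : ∀ T : Subgroup Ω, T ≤ S → Nat.card P < Nat.card T → SatClass F p T := by
      intro T hTS hcard
      have hTℋ : T ∈ ℋ := by
        by_contra hT
        exact absurd (hmax T ⟨hTS, hT⟩) (not_le.2 hcard)
      exact hsat T hTℋ
    have hgen' : ∀ E : FusionSystem S, (∀ Q : Subgroup Ω, ¬ F.IsConj P Q → F.Hom Q ⊆ E.Hom Q) →
        F ≤ E := by
      intro E hE
      exact hgen E (fun Q hQ => hE Q (fun hPQ => hPℋ (hℋconj Q hQ P (isConj_symm hPQ))))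
    obtain ⟨V, hPV, hVfa, hVrc⟩ := key hS hPlt hbig hgen' (fun hc => hstar P hc hPℋ)
    refine ih _ ?_ (ℋ ∪ {Q | F.IsConj P Q}) ?_ ?_ ?_ ?_ rfl
    · rw [← hn]
      apply Set.ncard_lt_ncard _ hfin
      refine ⟨fun Q hQ => ⟨hQ.1, fun h => hQ.2 (Or.inl h)⟩, fun hsub => ?_⟩
      exact (hsub ⟨hPS, hPℋ⟩).2 (Or.inr (isConj_refl F hPS))
    · rintro Q (hQ | hQ) R hQR
      · exact Or.inl (hℋconj Q hQ R hQR)
      · exact Or.inr (isConj_trans hQ hQR)
    · rintro Q (hQ | hQ)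
      · exact hsat Q hQ
      · exact ⟨V, isConj_trans (isConj_symm hQ) hPV, hVfa, hVrc⟩
    · intro E hE
      exact hgen E (fun Q hQ => hE Q (Or.inl hQ))
    · intro Q hQc hQ
      exact hstar Q hQc (fun h => hQ (Or.inl h))
  · intro P hP
    have hPℋ : P ∈ ℋ := by
      by_contra h
      exact hne ⟨P, hP, h⟩
    exact hsat P hPℋ

end Cfsg.Agent.H87
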