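import Cfsg.Agent.H87.PrimeIdx
import Cfsg.Agent.H87.CentricExt
import Cfsg.Agent.H87.BCMain
import Cfsg.Agent.H67.PIdxExt
import Cfsg.Agent.H67.PIdxSat

set_option autoImplicit false

/-!
Existence of the least saturated subsystem of index prime to `p` of a saturated fusion system
(Broto–Castellana–Grodal–Levi–Oliver II, Theorem 5.4), by the saturation criterion.
-/

namespace Cfsg.Agent.H87

open Cfsg Cfsg.FusionSystem Cfsg.Agent.H86

variable {Ω : Type*} [Group Ω] {S : Subgroup Ω}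

/-- `D` contains the subgroups generated by the `p`-elements of `Aut_F(P)`, `P` centric. -/
def Gen0 (p : ℕ) (F D : FusionSystem S) : Prop :=
  ∀ P : Subgroup Ω, F.IsCentric P →
    (Subgroup.closure {α : ↥(F.autGroup P) | ∃ k : ℕ, orderOf α = p ^ k}).map
      (F.autGroup P).subtype ≤ D.autGroup P

/-- The subsystem of `F` generated by the `p`-elements of the groups `Aut_F(P)`, `P` centric. -/
def e0Sys (p : ℕ) (F : FusionSystem S) : FusionSystem S :=
  Cfsg.Agent.H88.subSys F (fun P f => ∀ D : FusionSystem S, Gen0 p F D → Mor D P f)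
    (fun _ _ _ _ hfg h D hD => (h D hD).congr hfg)
    (fun _ _ hP hg D _ => Mor.conj D hP hg)
    (fun _ _ _ _ _ _ hfR h h' D hD => (h D hD).comp (h' D hD) hfR)
    (fun _ _ _ h D hD => (h D hD).inv)

theorem mor_e0Sys_iff {p : ℕ} {F : FusionSystem S} {P : Subgroup Ω} {f : Ω → Ω} :
    Mor (e0Sys p F) P f ↔ Mor F P f ∧ ∀ D : FusionSystem S, Gen0 p F D → Mor D P f :=
  Cfsg.Agent.H88.mor_subSys_iff

theorem gen0_e0Sys (p : ℕ) (F : FusionSystem S) : Gen0 p F (e0Sys p F) := by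
  intro P hP
  rintro _ ⟨α, hα, rfl⟩
  show (α : MulAut P) ∈ (e0Sys p F).autGroup P
  rw [mem_autGroup_iff hP.1, mor_e0Sys_iff]
  refine ⟨(mem_autGroup_iff hP.1 _).1 α.2, fun D hD => ?_⟩
  exact (mem_autGroup_iff hP.1 _).1 (hD P hP ⟨α, hα, rfl⟩)

theorem e0Sys_subsystem (p : ℕ) (F : FusionSystem S) : (e0Sys p F).IsSubsystemOf F :=
  fun _ _ h => h.1

theorem e0Sys_autInv (p : ℕ) (F : FusionSystem S) : AutInv (e0Sys p F) F := by
  intro P f a hPS hf ha haS
  have h0 : Gen0 p F (invSys (e0Sys p F) F) := invSys_contains (gen0_e0Sys p F)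
  have h1 : Mor (invSys (e0Sys p F) F) P f := (mor_e0Sys_iff.1 hf).2 _ h0
  obtain ⟨χ, hχ, hχeq⟩ := invSys_autInv (e0Sys p F) F P f a hPS h1 ha haS
  exact ⟨χ, mor_of_invSys hχ, hχeq⟩

/-- The generators of `Aut⁰_F(S)`: the automorphisms of `S` in `F` restricting on some centric
subgroup to a map of `e0Sys`. -/
def A0Gen (p : ℕ) (F : FusionSystem S) (a : Ω → Ω) : Prop :=
  Mor F S a ∧ imgS S a = S ∧ ∃ P : Subgroup Ω, F.IsCentric P ∧ Mor (e0Sys p F) P a

def GenA (p : ℕ) (F D : FusionSystem S) : Prop := ∀ a : Ω → Ω, A0Gen p F a → Mor D S a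

/-- The subsystem generated by `e0Sys` and `Aut⁰_F(S)`. -/
def opSys (p : ℕ) (F : FusionSystem S) : FusionSystem S :=
  Cfsg.Agent.H88.subSys F
    (fun P f => ∀ D : FusionSystem S, Gen0 p F D → GenA p F D → Mor D P f)
    (fun _ _ _ _ hfg h D hD hA => (h D hD hA).congr hfg)
    (fun _ _ hP hg D _ _ => Mor.conj D hP hg)
    (fun _ _ _ _ _ _ hfR h h' D hD hA => (h D hD hA).comp (h' D hD hA) hfR)
    (fun _ _ _ h D hD hA => (h D hD hA).inv)

theorem mor_opSys_iff {p : ℕ} {F : FusionSystem S} {P : Subgroup Ω} {f : Ω → Ω} :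
    Mor (opSys p F) P f ↔
      Mor F P f ∧ ∀ D : FusionSystem S, Gen0 p F D → GenA p F D → Mor D P f :=
  Cfsg.Agent.H88.mor_subSys_iff

theorem opSys_subsystem (p : ℕ) (F : FusionSystem S) : (opSys p F).IsSubsystemOf F :=
  fun _ _ h => h.1

theorem e0Sys_le_opSys {p : ℕ} {F : FusionSystem S} {P : Subgroup Ω} {f : Ω → Ω}
    (h : Mor (e0Sys p F) P f) : Mor (opSys p F) P f := by
  rw [mor_opSys_iff]
  obtain ⟨h1, h2⟩ := mor_e0Sys_iff.1 h
  exact ⟨h1, fun D hD _ => h2 D hD⟩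

theorem gen0_opSys (p : ℕ) (F : FusionSystem S) : Gen0 p F (opSys p F) := by
  intro P hP
  rintro _ ⟨α, hα, rfl⟩
  show (α : MulAut P) ∈ (opSys p F).autGroup P
  rw [mem_autGroup_iff hP.1]
  apply e0Sys_le_opSys
  exact (mem_autGroup_iff hP.1 _).1 (gen0_e0Sys p F P hP ⟨α, hα, rfl⟩)

theorem genA_opSys (p : ℕ) (F : FusionSystem S) : GenA p F (opSys p F) := by
  intro a ha
  rw [mor_opSys_iff]
  exact ⟨ha.1, fun D _ hA => hA a ha⟩

theorem opSys_le {p : ℕ} {F D : FusionSystem S} (h0 : Gen0 p F D) (hA : GenA p F D)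
    {P : Subgroup Ω} {f : Ω → Ω} (h : Mor (opSys p F) P f) : Mor D P f :=
  (mor_opSys_iff.1 h).2 D h0 hA

theorem e0Sys_autInv_opSys (p : ℕ) (F : FusionSystem S) : AutInv (e0Sys p F) (opSys p F) := by
  intro P f a hPS hf ha haS
  exact e0Sys_autInv p F P f a hPS hf (mor_of_subsystem (opSys_subsystem p F) ha) haS

/-- The maps of `opSys` in normal form: an element of `Aut_{opSys}(S)` after a map of `e0Sys`. -/
def nfSys (p : ℕ) (F : FusionSystem S) : FusionSystem S :=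
  Cfsg.Agent.H88.subSys (opSys p F) (FrMor (e0Sys p F) (opSys p F))
    (fun _ _ _ _ hfg h => h.congr hfg)
    (fun _ _ hP hg => frMor_of_mor le_rfl (Mor.conj (e0Sys p F) hP hg))
    (fun _ _ _ _ _ hg hfR h h' => h.comp (e0Sys_autInv_opSys p F) h' hfR hg.le)
    (fun _ _ hf h => h.inv (e0Sys_autInv_opSys p F) le_rfl hf)

theorem opSys_frMor {p : ℕ} {F : FusionSystem S} {P : Subgroup Ω} {f : Ω → Ω}
    (h : Mor (opSys p F) P f) : FrMor (e0Sys p F) (opSys p F) P f := by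
  have h0 : Gen0 p F (nfSys p F) := by
    intro P hP
    rintro _ ⟨α, hα, rfl⟩
    show (α : MulAut P) ∈ (nfSys p F).autGroup P
    have h1 : Mor (e0Sys p F) P (autFun P (α : MulAut P)) :=
      (mem_autGroup_iff hP.1 _).1 (gen0_e0Sys p F P hP ⟨α, hα, rfl⟩)
    rw [mem_autGroup_iff hP.1]
    exact Cfsg.Agent.H88.mor_subSys_iff.2 ⟨e0Sys_le_opSys h1, frMor_of_mor le_rfl h1⟩
  have hA : GenA p F (nfSys p F) := by
    intro a ha
    have h1 : Mor (opSys p F) S a := genA_opSys p F a ha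
    exact Cfsg.Agent.H88.mor_subSys_iff.2 ⟨h1, frMor_of_aut (e0Sys p F) le_rfl h1 ha.2.1⟩
  exact (Cfsg.Agent.H88.mor_subSys_iff.1 (opSys_le h0 hA h)).2

/-- An automorphism of `S` in `F` that restricts to a map of `opSys` on a centric subgroup is a map
of `opSys`. -/
theorem opSys_closed {p : ℕ} {F : FusionSystem S} {a : Ω → Ω} {P : Subgroup Ω} (ha : Mor F S a)
    (haS : imgS S a = S) (hP : F.IsCentric P) (haP : Mor (opSys p F) P a) :
    Mor (opSys p F) S a := by
  obtain ⟨b, f₀, hb, hbS, hf₀, hab⟩ := opSys_frMor haP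
  have hbinv : Mor (opSys p F) S (invOn S b) := by
    have := hb.inv
    rwa [hbS] at this
  have hbinvF : Mor F S (invOn S b) := mor_of_subsystem (opSys_subsystem p F) hbinv
  have hc : Mor F S (invOn S b ∘ a) := ha.comp hbinvF (fun x hx => ha.mem hx)
  have hcS : imgS S (invOn S b ∘ a) = S := by
    rw [ha.imgS_comp hbinvF (fun x hx => ha.mem hx), haS]
    have := hb.imgS_inv
    rwa [hbS] at this
  have hcP : Mor (e0Sys p F) P (invOn S b ∘ a) := hf₀.congr (fun x hx => by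
    show f₀ x = invOn S b (a x)
    rw [hab x hx, invOn_apply hb.injOn (hf₀.mem hx)])
  have hc' : Mor (opSys p F) S (invOn S b ∘ a) := genA_opSys p F _ ⟨hc, hcS, P, hP, hcP⟩
  exact (hc'.comp hb (fun x hx => hc.mem hx)).congr (fun x hx => by
    show b (invOn S b (a x)) = a x
    exact hb.apply_invOn (by rw [hbS]; exact ha.mem hx))

theorem isCentric_self [Finite S] (F : FusionSystem S) : F.IsCentric S := by
  refine ⟨le_refl _, fun Q hQ => ?_⟩
  have hQS := isConj_le_right hQ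
  have : Q = S := Subgroup.eq_of_le_of_card_ge hQS (isConj_card hQ).ge
  rw [this]
  exact inf_le_left

/-- Existence of the least saturated subsystem of index prime to `p`. -/
theorem exists_pPrimeResidual [Finite S] {p : ℕ} [Fact p.Prime] (hS : IsPGroup p S)
    (F : FusionSystem S) (hF : F.IsSaturated p) : ∃ E : FusionSystem S, F.IsPPrimeResidual p E := by
  obtain ⟨-, hfr0, -⟩ :=
    primeIdx_main hS hF (e0Sys p F) (e0Sys_subsystem p F) (gen0_e0Sys p F)
  obtain ⟨hidx, -, hcen⟩ :=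
    primeIdx_main hS hF (opSys p F) (opSys_subsystem p F) (gen0_opSys p F)
  have hfr : ∀ (P : Subgroup Ω) (f : Ω → Ω), Mor F P f →
      ∃ a f₀, Mor F S a ∧ imgS S a = S ∧ Mor (opSys p F) P f₀ ∧ ∀ x ∈ P, f x = a (f₀ x) := by
    intro P f hf
    obtain ⟨φ, hφ, hφf⟩ := hf
    obtain ⟨α, hα, φ₀, hφ₀, hα0⟩ := hfr0 P φ hφ
    have ha := (mem_autGroup_iff le_rfl α).1 hα
    refine ⟨autFun S α, extFun P φ₀, ha, imgS_autFun ha, e0Sys_le_opSys (mor_extFun hφ₀),
      fun x hx => ?_⟩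
    have hx0 : φ₀ ⟨x, hx⟩ ∈ S := ((e0Sys p F).le_of_mem hφ₀).2 _
    rw [← hφf ⟨x, hx⟩, hα0 ⟨x, hx⟩ hx0, extFun_of_mem _ _ hx, autFun_of_mem α hx0]
  refine ⟨opSys p F, ?_, hidx, ?_⟩
  · apply bcglo hS (opSys p F) {P | F.IsCentric P}
    · intro P hP Q hPQ
      obtain ⟨f, hf, hfQ⟩ := isConj_iff.1 hPQ
      exact isCentric_of_isConj hP
        (isConj_iff.2 ⟨f, mor_of_subsystem (opSys_subsystem p F) hf, hfQ⟩)
    · intro P hP
      exact Cfsg.Agent.H67.PIdx.satClass_of_frattini hS hF (opSys_subsystem p F) hfr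
        (fun a P ha haS hP haP => opSys_closed ha haS hP haP) hP
    · intro D hD
      rw [fusionSystem_le_iff]
      intro P f hf
      have hmor : ∀ (P : Subgroup Ω), F.IsCentric P → ∀ f, Mor (opSys p F) P f → Mor D P f := by
        rintro P hP f ⟨φ, hφ, hφf⟩
        exact ⟨φ, hD P hP hφ, hφf⟩
      refine opSys_le ?_ ?_ hf
      · intro P hP α hα
        rw [mem_autGroup_iff hP.1]
        exact hmor P hP _ ((mem_autGroup_iff hP.1 _).1 (gen0_opSys p F P hP hα))
      · intro a ha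
        exact hmor S (isCentric_self F) a (genA_opSys p F a ha)
    · intro P hPc hPn
      exact absurd ((hcen P).1 hPc) hPn
  · intro D hD hDidx
    have h0 : Gen0 p F D := fun P hP => hDidx.2 P hP.1
    have hA : GenA p F D := by
      rintro a ⟨ha, haS, P, hP, haP⟩
      exact Cfsg.Agent.H67.PIdx.mor_top_of_mor_centric hS hF hD hDidx.1 ha haS hP ((mor_e0Sys_iff.1 haP).2 D h0)
    exact fusionSystem_le_iff.2 (fun P f hf => opSys_le h0 hA hf)

end Cfsg.Agent.H87
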