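import Cfsg.Agent.H86.FusChain
import Cfsg.Agent.H86.FusSat
import Cfsg.Agent.H86.GrpLemmas
import Cfsg.Agent.H89.Series
import Cfsg.Agent.H90.NormalAut

set_option autoImplicit false

namespace Cfsg.Agent.H87

open Cfsg Cfsg.FusionSystem Cfsg.Agent.H86

variable {Ω : Type*} [Group Ω] {S : Subgroup Ω}

/-- If `Q₁` is normal in a saturated `F` and `Aut_F(Q₁)` is a `p`-group, then every map of `F` on a
subgroup of `Q₁` is conjugation by an element of `S`. -/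
theorem conj_of_normal_autPGroup [Finite S] {p : ℕ} [Fact p.Prime] (hS : IsPGroup p S)
    {F : FusionSystem S} (hF : F.IsSaturated p) {Q₁ : Subgroup Ω} (hQ₁ : F.IsNormal Q₁)
    (hAut : IsPGroup p ↥(F.autGroup Q₁)) {P : Subgroup Ω} (hP : P ≤ Q₁) {f : Ω → Ω} (hf : Mor F P f) :
    ∃ s ∈ S, ∀ x ∈ P, f x = s * x * s⁻¹ := by
  have hQ₁S : Q₁ ≤ S := hQ₁.1
  have hQ₁sc : F.StronglyClosed Q₁ := IsNormal.stronglyClosed hQ₁
  have hQ₁wc : F.WeaklyClosed Q₁ := Cfsg.Agent.H89.weaklyClosed_of_stronglyClosed hQ₁sc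
  have hQ₁fn : F.IsFullyNormalized Q₁ := by
    refine ⟨hQ₁S, fun R hR => ?_⟩
    obtain ⟨g, hg, rfl⟩ := isConj_iff.1 hR
    rw [(weaklyClosed_iff.1 hQ₁wc).2 g hg]
  have hQ₁fa := (saturated_fullyNormalized hS hF hQ₁fn).2
  have hAutEq : F.autGroup Q₁ ≤ autInducedBy S Q₁ := by
    obtain ⟨R, hR⟩ := hQ₁fa.2
    have h1 := sylow_eq_top_of_isPGroup hAut R
    rw [hR] at h1
    exact Subgroup.subgroupOf_eq_top.1 h1
  obtain ⟨g, hg, hgimg, hgf⟩ := (Cfsg.Agent.H90.isNormal_iff_extends_aut hS hF hQ₁S).1 hQ₁ P hP f hf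
  have hα : mkAut hg hgimg ∈ F.autGroup Q₁ := mkAut_mem hg hgimg
  obtain ⟨s, hs, hsα⟩ := (mem_autInducedBy_iff S Q₁ _).1 (hAutEq hα)
  refine ⟨s, hs, fun x hx => ?_⟩
  rw [← hgf x hx]
  have := hsα ⟨x, hP hx⟩
  rw [mkAut_apply] at this
  exact this

/-- A strongly closed subgroup `Q` with a subgroup `Q₁` normal in `F` such that `Q/Q₁` is abelian and
`Aut_F(Q₁)` is a `p`-group is normal in `F`. -/
theorem isNormal_of_abelian_over_normal [Finite S] {p : ℕ} [Fact p.Prime] (hS : IsPGroup p S)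
    {F : FusionSystem S} (hF : F.IsSaturated p) {Q Q₁ : Subgroup Ω} (hQ : F.StronglyClosed Q)
    (hQ₁Q : Q₁ ≤ Q) (hQ₁ : F.IsNormal Q₁) (hab : ⁅Q, Q⁆ ≤ Q₁) (hAut : IsPGroup p ↥(F.autGroup Q₁)) :
    F.IsNormal Q := by
  have hQS : Q ≤ S := hQ.1
  have hQ₁S : Q₁ ≤ S := hQ₁.1
  have hQ₁sc : F.StronglyClosed Q₁ := IsNormal.stronglyClosed hQ₁
  haveI : Group.IsNilpotent S := hS.isNilpotent
  obtain ⟨c, hc⟩ := Group.IsNilpotent.nilpotent (G := S)
  have hKle : ∀ j, Q₁ ⊓ (Subgroup.upperCentralSeries S j).map S.subtype ≤ Q₁ := fun j => inf_le_left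
  have hK0 : Q₁ ⊓ (Subgroup.upperCentralSeries S 0).map S.subtype = ⊥ := by
    rw [Subgroup.upperCentralSeries_zero, Subgroup.map_bot, inf_bot_eq]
  have hKc : Q₁ ⊓ (Subgroup.upperCentralSeries S c).map S.subtype = Q₁ := by
    rw [hc, ← MonoidHom.range_eq_map, Subgroup.range_subtype]
    exact inf_eq_left.2 hQ₁S
  have hKmono : ∀ a b, a ≤ b → Q₁ ⊓ (Subgroup.upperCentralSeries S a).map S.subtype ≤
      Q₁ ⊓ (Subgroup.upperCentralSeries S b).map S.subtype :=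
    fun a b hab => inf_le_inf_left _ (Subgroup.map_mono (Subgroup.upperCentralSeries_mono S hab))
  have hKnorm : ∀ j, ∀ s ∈ S, ∀ x ∈ Q₁ ⊓ (Subgroup.upperCentralSeries S j).map S.subtype,
      s * x * s⁻¹ ∈ Q₁ ⊓ (Subgroup.upperCentralSeries S j).map S.subtype := by
    rintro j s hs x ⟨hxQ, z, hz, rfl⟩
    refine ⟨stronglyClosed_conj_mem hQ₁sc hs hxQ, ⟨s, hs⟩ * z * ⟨s, hs⟩⁻¹, ?_, rfl⟩
    exact (inferInstance : (Subgroup.upperCentralSeries S j).Normal).conj_mem z hz ⟨s, hs⟩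
  have hKsc : ∀ j, F.StronglyClosed (Q₁ ⊓ (Subgroup.upperCentralSeries S j).map S.subtype) := by
    intro j
    rw [stronglyClosed_iff]
    refine ⟨(hKle j).trans hQ₁S, fun R f hR hf x hx => ?_⟩
    obtain ⟨s, hs, hsf⟩ := conj_of_normal_autPGroup hS hF hQ₁ hAut (hR.trans (hKle j)) hf
    rw [hsf x hx]
    exact hKnorm j s hs x (hR hx)
  refine isNormal_of_chain hS hF hQ
    (fun j => if j ≤ c then Q₁ ⊓ (Subgroup.upperCentralSeries S j).map S.subtype else Q) (c + 1) ?_ ?_ ?_ ?_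
  · simp only [Nat.zero_le, if_true]
    exact hK0
  · intro a b hab
    by_cases hb : b ≤ c
    · have ha : a ≤ c := hab.trans hb
      simp only [ha, hb, if_true]
      exact hKmono a b hab
    · by_cases ha : a ≤ c
      · simp only [ha, hb, if_true, if_false]
        exact (hKle a).trans hQ₁Q
      · simp only [ha, hb, if_false]
        exact le_rfl
  · have : ¬ (c + 1 ≤ c) := by omega
    simp only [this, if_false]
  · intro j hj
    by_cases hjc : j + 1 ≤ c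
    · have hj' : j ≤ c := by omega
      simp only [hjc, hj', if_true]
      refine ⟨hKsc (j + 1), ?_⟩
      rw [Subgroup.commutator_le]
      rintro x hx y ⟨hyQ, z, hz, rfl⟩
      rw [commutatorElement_def]
      refine ⟨?_, ?_⟩
      · exact Q₁.mul_mem (stronglyClosed_conj_mem hQ₁sc (hQS hx) hyQ) (Q₁.inv_mem hyQ)
      · have h1 := (Subgroup.mem_upperCentralSeries_succ_iff.1 hz) ⟨x, hQS hx⟩
        have h2 := (Subgroup.upperCentralSeries S j).inv_mem h1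
        refine ⟨_, h2, ?_⟩
        rw [commutatorElement_def]
        show ((z * ⟨x, hQS hx⟩ * z⁻¹ * (⟨x, hQS hx⟩ : S)⁻¹)⁻¹ : S).1 = x * (z : Ω) * x⁻¹ * (z : Ω)⁻¹
        simp [mul_assoc]
    · have hj' : j = c := by omega
      subst hj'
      have h1 : ¬ (j + 1 ≤ j) := by omega
      simp only [h1, if_false, le_refl, if_true]
      refine ⟨hQ, ?_⟩
      rw [hKc]
      exact hab

end Cfsg.Agent.H87
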