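import Mathlib
import Cfsg.Agent.H69.SymSylowE

set_option autoImplicit false

/-!
helper87: common tools for the pieces S5165-SNS / S5165-SNA (self-normalizing Sylow `2`-subgroups of
symmetric and alternating groups), on helper69's wreath model `wrSub 2 m Pm` / `liftHom 2 m r`.
-/

namespace Cfsg.Agent.H87.AltF

open Cfsg.Agent.H69

/-- If one Sylow subgroup is self-normalizing, all are. -/
theorem selfnorm_of_one {G : Type*} [Group G] [Finite G] {p : ℕ} [Fact p.Prime] (P0 P : Sylow p G)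
    (h : Subgroup.normalizer ((P0 : Subgroup G) : Set G) ≤ P0) :
    Subgroup.normalizer ((P : Subgroup G) : Set G) ≤ P := by
  obtain ⟨k, rfl⟩ := MulAction.exists_smul_eq G P0 P
  intro g hg
  have h1 : g • (k • P0) = k • P0 := Sylow.smul_eq_iff_mem_normalizer.mpr hg
  have h2 : (k⁻¹ * g * k) • P0 = P0 := by
    rw [mul_smul, mul_smul, h1, inv_smul_smul]
  have h3 : k⁻¹ * g * k ∈ (P0 : Subgroup G) := h (Sylow.smul_eq_iff_mem_normalizer.mp h2)
  rw [Sylow.coe_subgroup_smul, Subgroup.mem_pointwise_smul_iff_inv_smul_mem]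
  simpa [MulAut.smul_def] using h3

section model

variable (m : ℕ)

/-- permutations of `Fin m × ZMod 2` inducing a permutation in `Pm` on the first coordinate -/
def bpSub (Pm : Subgroup (Equiv.Perm (Fin m))) : Subgroup (Equiv.Perm (Fin m × ZMod 2)) where
  carrier := {w | ∃ τ ∈ Pm, ∀ y, (w y).1 = τ y.1}
  one_mem' := ⟨1, Pm.one_mem, fun y => rfl⟩
  mul_mem' := by
    rintro a b ⟨τ, hτ, ha⟩ ⟨τ', hτ', hb⟩
    refine ⟨τ * τ', Pm.mul_mem hτ hτ', fun y => ?_⟩
    show (a (b y)).1 = τ (τ' y.1)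
    rw [ha, hb]
  inv_mem' := by
    rintro a ⟨τ, hτ, ha⟩
    refine ⟨τ⁻¹, Pm.inv_mem hτ, fun y => ?_⟩
    have h1 := ha (a⁻¹ y)
    rw [Equiv.Perm.coe_inv, Equiv.apply_symm_apply] at h1
    rw [h1, Equiv.Perm.coe_inv, Equiv.Perm.coe_inv, Equiv.symm_apply_apply]

theorem mem_bpSub {Pm : Subgroup (Equiv.Perm (Fin m))} {w : Equiv.Perm (Fin m × ZMod 2)} :
    w ∈ bpSub m Pm ↔ ∃ τ ∈ Pm, ∀ y, (w y).1 = τ y.1 := Iff.rfl

theorem baseHom_mem_wrSub {Pm : Subgroup (Equiv.Perm (Fin m))} {τ : Equiv.Perm (Fin m)}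
    (hτ : τ ∈ Pm) : baseHom 2 m τ ∈ wrSub 2 m Pm := by
  unfold wrSub
  exact (le_sup_left : Pm.map (baseHom 2 m) ≤ _) (Subgroup.mem_map_of_mem _ hτ)

theorem fibHom_mem_wrSub (Pm : Subgroup (Equiv.Perm (Fin m)))
    (f : Multiplicative (Fin m → ZMod 2)) : fibHom 2 m f ∈ wrSub 2 m Pm := by
  unfold wrSub
  exact (le_sup_right : (fibHom 2 m).range ≤ _) ⟨f, rfl⟩

theorem wrSub_le_bpSub (Pm : Subgroup (Equiv.Perm (Fin m))) : wrSub 2 m Pm ≤ bpSub m Pm := by
  unfold wrSub
  refine sup_le ?_ ?_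
  · rintro _ ⟨τ, hτ, rfl⟩
    exact ⟨τ, hτ, fun y => rfl⟩
  · rintro _ ⟨f, rfl⟩
    exact ⟨1, Pm.one_mem, fun y => rfl⟩

theorem wrAlt_le_wrSub (Pm : Subgroup (Equiv.Perm (Fin m))) : wrAlt m Pm ≤ wrSub 2 m Pm := by
  unfold wrAlt wrSub
  refine sup_le le_sup_left ?_
  rintro _ ⟨f, -, rfl⟩
  exact (le_sup_right : (fibHom 2 m).range ≤ _) ⟨f, rfl⟩

/-- A permutation mapping each block `{(i,0),(i,1)}` into a block is a base permutation times a
fibrewise translation. -/
theorem exists_base_fib (h : Equiv.Perm (Fin m × ZMod 2))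
    (hK : ∀ i, (h (i, 1)).1 = (h (i, 0)).1) :
    ∃ (σ : Equiv.Perm (Fin m)) (f : Multiplicative (Fin m → ZMod 2)),
      h = baseHom 2 m σ * fibHom 2 m f := by
  classical
  have hinj : Function.Injective (fun i => (h (i, 0)).1) := by
    intro i i' hii
    have hii' : (h (i, 0)).1 = (h (i', 0)).1 := hii
    by_contra hne
    have h1 := hK i
    have key : ∀ a b c : ZMod 2, a = b ∨ a = c ∨ b = c := by decide
    rcases key (h (i, 0)).2 (h (i, 1)).2 (h (i', 0)).2 with e | e | e
    · have h2 : h (i, 0) = h (i, 1) := Prod.ext h1.symm e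
      have h3 := h.injective h2
      exact absurd (Prod.mk.inj h3).2 (by decide)
    · have h2 : h (i, 0) = h (i', 0) := Prod.ext hii' e
      have h3 := h.injective h2
      exact hne (Prod.mk.inj h3).1
    · have h2 : h (i, 1) = h (i', 0) := Prod.ext (h1.trans hii') e
      have h3 := h.injective h2
      exact absurd (Prod.mk.inj h3).2 (by decide)
  let σ : Equiv.Perm (Fin m) := Equiv.ofBijective _ (Finite.injective_iff_bijective.mp hinj)
  have hσ : ∀ i, σ i = (h (i, 0)).1 := fun i => rfl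
  refine ⟨σ, Multiplicative.ofAdd (fun i => (h (i, 0)).2), ?_⟩
  refine Equiv.ext fun y => ?_
  obtain ⟨i, x⟩ := y
  rw [Equiv.Perm.mul_apply, fibHom_apply, baseHom_apply, toAdd_ofAdd, hσ]
  have key2 : ∀ a b : ZMod 2, a ≠ b → a = 1 + b := by decide
  have hx : ∀ x : ZMod 2, x = 0 ∨ x = 1 := by decide
  rcases hx x with rfl | rfl
  · rw [zero_add]
  · refine Prod.ext (hK i) ?_
    show (h (i, 1)).2 = 1 + (h (i, 0)).2
    apply key2
    intro e
    have h2 : h (i, 1) = h (i, 0) := Prod.ext (hK i) e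
    have h3 := h.injective h2
    exact absurd (Prod.mk.inj h3).2 (by decide)

theorem base_fib_apply (σ : Equiv.Perm (Fin m)) (f : Multiplicative (Fin m → ZMod 2))
    (i : Fin m) (x : ZMod 2) :
    (baseHom 2 m σ * fibHom 2 m f) (i, x) = (σ i, x + Multiplicative.toAdd f i) := rfl

/-- The base component of a block permutation normalizing (under conjugation of base elements)
the wreath model normalizes `Pm`. -/
theorem sigma_mem_normalizer (Pm : Subgroup (Equiv.Perm (Fin m))) (σ : Equiv.Perm (Fin m))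
    (f : Multiplicative (Fin m → ZMod 2))
    (hconj : ∀ τ ∈ Pm, (baseHom 2 m σ * fibHom 2 m f) * baseHom 2 m τ *
      (baseHom 2 m σ * fibHom 2 m f)⁻¹ ∈ wrSub 2 m Pm) :
    σ ∈ Subgroup.normalizer (Pm : Set (Equiv.Perm (Fin m))) := by
  refine Subgroup.mem_normalizer_fintype fun τ hτ => ?_
  obtain ⟨τ', hτ', h1⟩ := wrSub_le_bpSub m Pm (hconj τ hτ)
  have h2 : σ * τ = τ' * σ := by
    refine Equiv.ext fun i => ?_
    have h3 := h1 ((baseHom 2 m σ * fibHom 2 m f) (i, 0))
    rw [Equiv.Perm.mul_apply, Equiv.Perm.mul_apply, Equiv.Perm.coe_inv, Equiv.symm_apply_apply,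
      baseHom_apply, base_fib_apply, base_fib_apply] at h3
    exact h3
  have h4 : σ * τ * σ⁻¹ = τ' := by rw [h2, mul_inv_cancel_right]
  have h5 : τ' ∈ (Pm : Set (Equiv.Perm (Fin m))) := hτ'
  rw [h4]
  exact h5

variable (r : ℕ)

/-- the embedding of the block part into `Fin (2 * m + r)` -/
noncomputable def iotaB (y : Fin m × ZMod 2) : Fin (2 * m + r) :=
  (finSplit 2 m r).symm (Sum.inl y)

theorem iotaB_injective : Function.Injective (iotaB m r) := by
  intro y y' h
  exact Sum.inl_injective ((finSplit 2 m r).symm.injective h)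

theorem liftHom_apply (w : Equiv.Perm (Fin m × ZMod 2)) (a : Fin (2 * m + r)) :
    liftHom 2 m r w a =
      (finSplit 2 m r).symm (Sum.map w id (finSplit 2 m r a)) := by
  unfold liftHom
  simp only [MonoidHom.coe_comp, MulEquiv.coe_toMonoidHom, Function.comp_apply]
  rfl

theorem liftHom_iotaB (w : Equiv.Perm (Fin m × ZMod 2)) (y : Fin m × ZMod 2) :
    liftHom 2 m r w (iotaB m r y) = iotaB m r (w y) := by
  rw [liftHom_apply]
  unfold iotaB
  rw [Equiv.apply_symm_apply]
  rfl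

theorem liftHom_of_notMem (w : Equiv.Perm (Fin m × ZMod 2)) (a : Fin (2 * m + r))
    (ha : a ∉ Set.range (iotaB m r)) : liftHom 2 m r w a = a := by
  rw [liftHom_apply]
  rcases hE : finSplit 2 m r a with y | k
  · exfalso
    apply ha
    refine ⟨y, ?_⟩
    unfold iotaB
    rw [← hE, Equiv.symm_apply_apply]
  · show (finSplit 2 m r).symm (Sum.inr k) = a
    rw [← hE, Equiv.symm_apply_apply]

/-- A permutation preserving the block part is a lift (when at most one point is left over). -/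
theorem exists_liftHom_eq (hr : r < 2) (g : Equiv.Perm (Fin (2 * m + r)))
    (hg : ∀ y, g (iotaB m r y) ∈ Set.range (iotaB m r)) : ∃ h, g = liftHom 2 m r h := by
  haveI : Subsingleton (Fin r) := by
    rw [← Fintype.card_le_one_iff_subsingleton, Fintype.card_fin]; omega
  have hmaps : Set.MapsTo ((finSplit 2 m r).permCongr g) (Set.range Sum.inl)
      (Set.range Sum.inl) := by
    rintro _ ⟨y, rfl⟩
    obtain ⟨y', hy'⟩ := hg y
    refine ⟨y', ?_⟩
    have h1 : (finSplit 2 m r).symm (Sum.inl y') = g ((finSplit 2 m r).symm (Sum.inl y)) := hy'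
    rw [Equiv.permCongr_apply, ← h1, Equiv.apply_symm_apply]
  obtain ⟨⟨h, k⟩, hk⟩ := Equiv.Perm.mem_sumCongrHom_range_of_perm_mapsTo_inl hmaps
  have hk1 : k = 1 := Subsingleton.elim _ _
  subst hk1
  refine ⟨h, ?_⟩
  refine Equiv.ext fun a => ?_
  rw [liftHom_apply]
  have h2 : Sum.map h id (finSplit 2 m r a) =
      (finSplit 2 m r).permCongr g (finSplit 2 m r a) := by
    rw [← hk]
    rfl
  rw [h2, Equiv.permCongr_apply, Equiv.symm_apply_apply, Equiv.symm_apply_apply]

/-- If a conjugate of a lift is a lift, the conjugating element maps moved block points to block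
points. -/
theorem conj_mapsTo (g : Equiv.Perm (Fin (2 * m + r))) (x w : Equiv.Perm (Fin m × ZMod 2))
    (hw : g * liftHom 2 m r x * g⁻¹ = liftHom 2 m r w) (y : Fin m × ZMod 2) (hy : x y ≠ y) :
    g (iotaB m r y) ∈ Set.range (iotaB m r) := by
  by_contra hcon
  have h1 := liftHom_of_notMem m r w _ hcon
  rw [← hw] at h1
  rw [Equiv.Perm.mul_apply, Equiv.Perm.mul_apply, Equiv.Perm.coe_inv, Equiv.symm_apply_apply,
    liftHom_iotaB] at h1
  exact hy (iotaB_injective m r (g.injective h1))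

end model

end Cfsg.Agent.H87.AltF
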