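import Mathlib
import Cfsg.Agent.H88.AltFDefs
import Cfsg.Agent.H69.SymSylowE
import Cfsg.Agent.H87.AltFSNLib

set_option autoImplicit false

/-!
helper87: piece S5165-SNA for helper88. Sylow `2`-subgroups of the alternating groups `A_n`,
`n ≥ 6`, are self-normalizing (given the statement for symmetric groups).
-/

namespace Cfsg.Agent.H87.AltF

open Cfsg Cfsg.Agent.H69

section fib

variable (m : ℕ)

/-- the transposition of the block `i` -/
noncomputable def fib1 (i : Fin m) : Equiv.Perm (Fin m × ZMod 2) :=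
  fibHom 2 m (Multiplicative.ofAdd (Pi.single i 1))

theorem fib1_apply_self (i : Fin m) (x : ZMod 2) : fib1 m i (i, x) = (i, x + 1) := by
  unfold fib1
  rw [fibHom_apply, toAdd_ofAdd, Pi.single_eq_same]

theorem fib1_apply_of_ne {i j : Fin m} (h : j ≠ i) (x : ZMod 2) : fib1 m i (j, x) = (j, x) := by
  unfold fib1
  rw [fibHom_apply, toAdd_ofAdd, Pi.single_eq_of_ne h, add_zero]

theorem sign_fib1 (i : Fin m) : Equiv.Perm.sign (fib1 m i) = -1 := by
  unfold fib1
  rw [sign_fibHom_two, Finset.prod_eq_single i]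
  · simp only [toAdd_ofAdd, Pi.single_eq_same]
    exact sign_addRight_one
  · intro b _ hb
    simp only [toAdd_ofAdd, Pi.single_eq_of_ne hb]
    simp
  · intro h
    exact absurd (Finset.mem_univ _) h

theorem fib2_mem_wrAlt (Pm : Subgroup (Equiv.Perm (Fin m))) (i l : Fin m) :
    fib1 m i * fib1 m l ∈ wrAlt m Pm := by
  unfold wrAlt
  refine (le_sup_right : (evenFib m).map (fibHom 2 m) ≤ _) ?_
  rw [mem_map_evenFib]
  refine ⟨?_, ?_⟩
  · unfold fib1
    rw [← map_mul]
    exact ⟨_, rfl⟩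
  · rw [map_mul, sign_fib1, sign_fib1]
    rfl

theorem fib2_apply_ne (i l : Fin m) (hil : i ≠ l) (q : Fin m × ZMod 2)
    (hq : q.1 = i ∨ q.1 = l) : (fib1 m i * fib1 m l) q ≠ q := by
  obtain ⟨j, x⟩ := q
  have key : ∀ z : ZMod 2, z + 1 ≠ z := by decide
  rw [Equiv.Perm.mul_apply]
  by_cases hjl : j = l
  · subst hjl
    rw [fib1_apply_self, fib1_apply_of_ne m (Ne.symm hil)]
    intro h1
    exact key x (Prod.mk.inj h1).2
  · rw [fib1_apply_of_ne m hjl]
    have hji : j = i := by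
      rcases hq with h | h
      · exact h
      · exact absurd h hjl
    subst hji
    rw [fib1_apply_self]
    intro h1
    exact key x (Prod.mk.inj h1).2

theorem fib2_apply_eq (i l : Fin m) (q : Fin m × ZMod 2) (hqi : q.1 ≠ i) (hql : q.1 ≠ l) :
    (fib1 m i * fib1 m l) q = q := by
  obtain ⟨j, x⟩ := q
  rw [Equiv.Perm.mul_apply, fib1_apply_of_ne m hql, fib1_apply_of_ne m hqi]

/-- the other point of the block of `y` -/
def partner (y : Fin m × ZMod 2) : Fin m × ZMod 2 := (y.1, y.2 + 1)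

theorem partner_ne (y : Fin m × ZMod 2) : partner m y ≠ y := by
  have key : ∀ z : ZMod 2, z + 1 ≠ z := by decide
  intro h1
  exact key y.2 (congrArg Prod.snd h1)

theorem eq_or_eq_partner (y y' : Fin m × ZMod 2) (h : y'.1 = y.1) : y' = y ∨ y' = partner m y := by
  have key : ∀ z z' : ZMod 2, z' = z ∨ z' = z + 1 := by decide
  rcases key y.2 y'.2 with h2 | h2
  · exact Or.inl (Prod.ext h h2)
  · exact Or.inr (Prod.ext h h2)

/-- The support of a block-preserving permutation is a union of blocks. -/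
theorem moved_partner (Pm : Subgroup (Equiv.Perm (Fin m))) (w : Equiv.Perm (Fin m × ZMod 2))
    (hw : w ∈ bpSub m Pm) (y : Fin m × ZMod 2) (hy : w y ≠ y) :
    w (partner m y) ≠ partner m y := by
  obtain ⟨τ, -, hτ⟩ := hw
  intro h1
  have h2 : τ y.1 = y.1 := by
    have h3 := hτ (partner m y)
    rw [h1] at h3
    exact h3.symm
  have h4 : (w y).1 = y.1 := by rw [hτ y, h2]
  rcases eq_or_eq_partner m y (w y) h4 with h5 | h5
  · exact hy h5
  · have h6 : w y = w (partner m y) := by rw [h5, h1]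
    exact partner_ne m y (w.injective h6).symm

/-- Key step for the alternating case: if conjugation by `h` maps the double block
transpositions into block-preserving permutations and `m ≥ 3`, then `h` maps blocks to blocks. -/
theorem blocks_of_double (hm : 3 ≤ m) (Pm : Subgroup (Equiv.Perm (Fin m)))
    (h : Equiv.Perm (Fin m × ZMod 2))
    (hconj : ∀ i l : Fin m, i ≠ l → h * (fib1 m i * fib1 m l) * h⁻¹ ∈ bpSub m Pm) :
    ∀ i, (h (i, 1)).1 = (h (i, 0)).1 := by
  intro i
  have hB : ∀ l : Fin m, i ≠ l → ∀ y : Fin m × ZMod 2, (h⁻¹ y).1 = i →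
      (h⁻¹ (partner m y)).1 = i ∨ (h⁻¹ (partner m y)).1 = l := by
    intro l hil y hy
    have h1 : (h * (fib1 m i * fib1 m l) * h⁻¹) y ≠ y := by
      rw [Equiv.Perm.mul_apply, Equiv.Perm.mul_apply]
      intro h2
      have h3 : (fib1 m i * fib1 m l) (h⁻¹ y) = h⁻¹ y := by
        apply h.injective
        rw [h2, Equiv.Perm.coe_inv, Equiv.apply_symm_apply]
      exact fib2_apply_ne m i l hil _ (Or.inl hy) h3
    have h4 := moved_partner m Pm _ (hconj i l hil) y h1
    by_contra hcon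
    push_neg at hcon
    apply h4
    rw [Equiv.Perm.mul_apply, Equiv.Perm.mul_apply, fib2_apply_eq m i l _ hcon.1 hcon.2,
      Equiv.Perm.coe_inv, Equiv.apply_symm_apply]
  obtain ⟨l, l', hil, hil', hll'⟩ : ∃ l l' : Fin m, i ≠ l ∧ i ≠ l' ∧ l ≠ l' := by
    have h3 : 2 < Fintype.card (Fin m) := by rw [Fintype.card_fin]; omega
    obtain ⟨a, b, c, hab, hac, hbc⟩ := Fintype.two_lt_card_iff.mp h3
    by_cases ha : i = a
    · exact ⟨b, c, ha ▸ hab, ha ▸ hac, hbc⟩
    · by_cases hb : i = b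
      · exact ⟨a, c, ha, hb ▸ hbc, hac⟩
      · by_cases hc : i = c
        · exact ⟨a, b, ha, hb, hab⟩
        · exact ⟨a, b, ha, hb, hab⟩
  have hy : (h⁻¹ (h (i, 0))).1 = i := by
    rw [Equiv.Perm.coe_inv, Equiv.symm_apply_apply]
  have h1 := hB l hil _ hy
  have h2 := hB l' hil' _ hy
  have h3 : (h⁻¹ (partner m (h (i, 0)))).1 = i := by
    rcases h1 with h1 | h1
    · exact h1
    · rcases h2 with h2 | h2
      · exact h2
      · exact absurd (h1.symm.trans h2) hll'
  have hx : ∀ x : ZMod 2, x = 0 ∨ x = 1 := by decide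
  have h4 : h⁻¹ (partner m (h (i, 0))) = (i, 1) := by
    rcases hx (h⁻¹ (partner m (h (i, 0)))).2 with h5 | h5
    · exfalso
      have h6 : h⁻¹ (partner m (h (i, 0))) = (i, 0) := Prod.ext h3 h5
      have h7 := congrArg h h6
      rw [Equiv.Perm.coe_inv, Equiv.apply_symm_apply] at h7
      exact partner_ne m _ h7
    · exact Prod.ext h3 h5
  have h8 := congrArg h h4
  rw [Equiv.Perm.coe_inv, Equiv.apply_symm_apply] at h8
  rw [← h8]
  rfl

end fib

theorem baseHom_mem_wrAlt (m : ℕ) {Pm : Subgroup (Equiv.Perm (Fin m))} {τ : Equiv.Perm (Fin m)}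
    (hτ : τ ∈ Pm) : baseHom 2 m τ ∈ wrAlt m Pm := by
  unfold wrAlt
  exact (le_sup_left : Pm.map (baseHom 2 m) ≤ _) (Subgroup.mem_map_of_mem _ hτ)

/-- The alternating wreath model over a self-normalizing subgroup is self-normalizing in `A_n`. -/
theorem selfnorm_model_alt (m r : ℕ) (hm : 3 ≤ m) (hr : r < 2)
    (Pm : Subgroup (Equiv.Perm (Fin m)))
    (hPm : Subgroup.normalizer (Pm : Set (Equiv.Perm (Fin m))) ≤ Pm)
    (hWle : (wrAlt m Pm).map (liftHom 2 m r) ≤ alternatingGroup (Fin (2 * m + r))) :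
    Subgroup.normalizer (((((wrAlt m Pm).map (liftHom 2 m r)).subgroupOf
        (alternatingGroup (Fin (2 * m + r))) : Subgroup (alternatingGroup (Fin (2 * m + r)))) :
        Set (alternatingGroup (Fin (2 * m + r))))) ≤
      ((wrAlt m Pm).map (liftHom 2 m r)).subgroupOf (alternatingGroup (Fin (2 * m + r))) := by
  intro g hg
  have hconj : ∀ x ∈ wrAlt m Pm, ∃ w ∈ wrAlt m Pm,
      (g : Equiv.Perm (Fin (2 * m + r))) * liftHom 2 m r x *
        (g : Equiv.Perm (Fin (2 * m + r)))⁻¹ = liftHom 2 m r w := by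
    intro x hx
    have hX : liftHom 2 m r x ∈ alternatingGroup (Fin (2 * m + r)) :=
      hWle (Subgroup.mem_map_of_mem _ hx)
    have h1 := (Subgroup.mem_normalizer_iff.mp hg ⟨liftHom 2 m r x, hX⟩).mp
      (Subgroup.mem_subgroupOf.mpr (Subgroup.mem_map_of_mem _ hx))
    obtain ⟨w, hw, hw2⟩ := Subgroup.mem_subgroupOf.mp h1
    exact ⟨w, hw, hw2.symm⟩
  have hmaps : ∀ y, (g : Equiv.Perm (Fin (2 * m + r))) (iotaB m r y) ∈
      Set.range (iotaB m r) := by
    rintro ⟨i, x⟩
    obtain ⟨l, hil⟩ : ∃ l : Fin m, i ≠ l := by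
      have h3 : 1 < Fintype.card (Fin m) := by rw [Fintype.card_fin]; omega
      obtain ⟨l, hl⟩ := Fintype.exists_ne_of_one_lt_card h3 i
      exact ⟨l, hl.symm⟩
    obtain ⟨w, -, hw⟩ := hconj _ (fib2_mem_wrAlt m Pm i l)
    exact conj_mapsTo m r _ _ w hw (i, x) (fib2_apply_ne m i l hil _ (Or.inl rfl))
  obtain ⟨h, hgh⟩ := exists_liftHom_eq m r hr _ hmaps
  have hconj' : ∀ x ∈ wrAlt m Pm, h * x * h⁻¹ ∈ wrAlt m Pm := by
    intro x hx
    obtain ⟨w, hw, hw2⟩ := hconj x hx
    rw [hgh, ← map_inv, ← map_mul, ← map_mul] at hw2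
    rw [liftHom_injective 2 m r hw2]
    exact hw
  have hK := blocks_of_double m hm Pm h (fun i l _ =>
    wrSub_le_bpSub m Pm (wrAlt_le_wrSub m Pm (hconj' _ (fib2_mem_wrAlt m Pm i l))))
  obtain ⟨σ, f, rfl⟩ := exists_base_fib m h hK
  have hσ : σ ∈ Subgroup.normalizer (Pm : Set (Equiv.Perm (Fin m))) :=
    sigma_mem_normalizer m Pm σ f
      (fun τ hτ => wrAlt_le_wrSub m Pm (hconj' _ (baseHom_mem_wrAlt m hτ)))
  have hsign : Equiv.Perm.sign (fibHom 2 m f) = 1 := by
    have h1 : Equiv.Perm.sign (g : Equiv.Perm (Fin (2 * m + r))) = 1 :=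
      Equiv.Perm.mem_alternatingGroup.mp g.2
    rw [hgh, sign_liftHom, map_mul, sign_baseHom_two, one_mul] at h1
    exact h1
  rw [Subgroup.mem_subgroupOf, hgh]
  refine Subgroup.mem_map_of_mem _ ?_
  unfold wrAlt
  exact Subgroup.mul_mem _
    ((le_sup_left : Pm.map (baseHom 2 m) ≤ _) (Subgroup.mem_map_of_mem _ (hPm hσ)))
    ((le_sup_right : (evenFib m).map (fibHom 2 m) ≤ _)
      ((mem_map_evenFib m _).mpr ⟨⟨f, rfl⟩, hsign⟩))

theorem selfNormAlt (h : Cfsg.Agent.H88.AltF.StmtSelfNormSym) :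
    Cfsg.Agent.H88.AltF.StmtSelfNormAlt := by
  intro n hn P
  obtain ⟨m, r, hr, rfl⟩ : ∃ m r, r < 2 ∧ n = 2 * m + r :=
    ⟨n / 2, n % 2, Nat.mod_lt _ (by norm_num), (Nat.div_add_mod n 2).symm⟩
  have hm3 : 3 ≤ m := by omega
  have hm : 0 < m := by omega
  obtain ⟨Pm⟩ : Nonempty (Sylow 2 (Equiv.Perm (Fin m))) := inferInstance
  have hWle : (wrAlt m (Pm : Subgroup _)).map (liftHom 2 m r) ≤
      alternatingGroup (Fin (2 * m + r)) := by
    rintro _ ⟨σ, hσ, rfl⟩
    rw [Equiv.Perm.mem_alternatingGroup, sign_liftHom]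
    exact Equiv.Perm.mem_alternatingGroup.mp (wrAlt_le m _ hσ)
  have hnt : Nontrivial (Fin (2 * m + r)) := by
    rw [← Fintype.one_lt_card_iff_nontrivial, Fintype.card_fin]; omega
  have hcardA : 2 * Nat.card (alternatingGroup (Fin (2 * m + r))) = (2 * m + r).factorial := by
    rw [two_mul_nat_card_alternatingGroup, Nat.card_eq_fintype_card, Fintype.card_perm,
      Fintype.card_fin]
  have hApos : Nat.card (alternatingGroup (Fin (2 * m + r))) ≠ 0 := Nat.card_pos.ne'
  have hfac : (Nat.card (alternatingGroup (Fin (2 * m + r)))).factorization 2 + 1 =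
      padicValNat 2 (m.factorial) + m := by
    have h1 : ((2 * m + r).factorial).factorization 2 = padicValNat 2 (m.factorial) + m := by
      rw [Nat.factorization_def _ Nat.prime_two, padicValNat_factorial_mul_add m hr,
        padicValNat_factorial_mul]
    rw [← h1, ← hcardA, Nat.factorization_mul (by norm_num) hApos]
    simp [Nat.prime_two.factorization, add_comm]
  have hcard : Nat.card (((wrAlt m (Pm : Subgroup _)).map (liftHom 2 m r)).subgroupOf
      (alternatingGroup (Fin (2 * m + r)))) =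
      2 ^ (Nat.card (alternatingGroup (Fin (2 * m + r)))).factorization 2 := by
    rw [Nat.card_congr (Subgroup.subgroupOfEquivOfLe hWle).toEquiv,
      Subgroup.card_map_of_injective (liftHom_injective 2 m r)]
    have h2 := card_wrAlt m hm (Pm : Subgroup _)
    have hPc : Nat.card (Equiv.Perm (Fin m)) = m.factorial := by
      rw [Nat.card_eq_fintype_card, Fintype.card_perm, Fintype.card_fin]
    rw [Sylow.card_eq_multiplicity, hPc, Nat.factorization_def _ Nat.prime_two, ← pow_add,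
      ← hfac, pow_succ] at h2
    exact Nat.eq_of_mul_eq_mul_right (by norm_num) h2
  refine selfnorm_of_one (Sylow.ofCard _ hcard) P ?_
  rw [Sylow.coe_ofCard]
  exact selfnorm_model_alt m r hm3 hr _ (h m Pm) hWle

example (h : ∀ (n : ℕ) (P : Sylow 2 (Equiv.Perm (Fin n))),
    Subgroup.normalizer ((P : Subgroup (Equiv.Perm (Fin n))) : Set (Equiv.Perm (Fin n))) ≤ P) :
    ∀ (n : ℕ), 6 ≤ n → ∀ (P : Sylow 2 (alternatingGroup (Fin n))),
    Subgroup.normalizer ((P : Subgroup (alternatingGroup (Fin n))) :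
      Set (alternatingGroup (Fin n))) ≤ P := selfNormAlt h

end Cfsg.Agent.H87.AltF
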