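import Mathlib
import Cfsg.Agent.H88.AltFDefs
import Cfsg.Agent.H69.SymSylowE
import Cfsg.Agent.H87.AltFSNLib

set_option autoImplicit false

/-!
helper87: piece S5165-SNS for helper88. Sylow `2`-subgroups of symmetric groups are
self-normalizing.
-/

namespace Cfsg.Agent.H87.AltF

open Cfsg Cfsg.Agent.H69

/-- The wreath model over a self-normalizing subgroup is self-normalizing. -/
theorem selfnorm_model (m r : ℕ) (hr : r < 2) (Pm : Subgroup (Equiv.Perm (Fin m)))
    (hPm : Subgroup.normalizer (Pm : Set (Equiv.Perm (Fin m))) ≤ Pm) :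
    Subgroup.normalizer ((((wrSub 2 m Pm).map (liftHom 2 m r) :
        Subgroup (Equiv.Perm (Fin (2 * m + r)))) : Set (Equiv.Perm (Fin (2 * m + r))))) ≤
      (wrSub 2 m Pm).map (liftHom 2 m r) := by
  intro g hg
  have hconj : ∀ x ∈ wrSub 2 m Pm, ∃ w ∈ wrSub 2 m Pm,
      g * liftHom 2 m r x * g⁻¹ = liftHom 2 m r w := by
    intro x hx
    have h1 := (Subgroup.mem_normalizer_iff.mp hg (liftHom 2 m r x)).mp
      (Subgroup.mem_map_of_mem _ hx)
    obtain ⟨w, hw, hw2⟩ := h1
    exact ⟨w, hw, hw2.symm⟩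
  have hmaps : ∀ y, g (iotaB m r y) ∈ Set.range (iotaB m r) := by
    rintro ⟨i, x⟩
    obtain ⟨w, -, hw⟩ := hconj _ (fibHom_mem_wrSub m Pm (Multiplicative.ofAdd (Pi.single i 1)))
    refine conj_mapsTo m r g _ w hw (i, x) ?_
    rw [fibHom_apply, toAdd_ofAdd, Pi.single_eq_same]
    intro h1
    have key : ∀ z : ZMod 2, z + 1 ≠ z := by decide
    exact key x (Prod.mk.inj h1).2
  obtain ⟨h, rfl⟩ := exists_liftHom_eq m r hr g hmaps
  have hconj' : ∀ x ∈ wrSub 2 m Pm, h * x * h⁻¹ ∈ wrSub 2 m Pm := by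
    intro x hx
    obtain ⟨w, hw, hw2⟩ := hconj x hx
    rw [← map_inv, ← map_mul, ← map_mul] at hw2
    rw [liftHom_injective 2 m r hw2]
    exact hw
  have hK : ∀ i, (h (i, 1)).1 = (h (i, 0)).1 := by
    intro i
    obtain ⟨τ, -, hτ⟩ := wrSub_le_bpSub m Pm
      (hconj' _ (fibHom_mem_wrSub m Pm (Multiplicative.ofAdd (Pi.single i 1))))
    have e1 := hτ (h (i, 0))
    rw [Equiv.Perm.mul_apply, Equiv.Perm.mul_apply, Equiv.Perm.coe_inv, Equiv.symm_apply_apply,
      fibHom_apply, toAdd_ofAdd, Pi.single_eq_same, zero_add] at e1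
    by_cases hp : h⁻¹ ((h (i, 0)).1, (h (i, 0)).2 + 1) = (i, 1)
    · have h1 : h (i, 1) = ((h (i, 0)).1, (h (i, 0)).2 + 1) := by
        rw [← hp, Equiv.Perm.coe_inv, Equiv.apply_symm_apply]
      rw [h1]
    · have e2 := hτ ((h (i, 0)).1, (h (i, 0)).2 + 1)
      have hq0 : h⁻¹ ((h (i, 0)).1, (h (i, 0)).2 + 1) ≠ (i, 0) := by
        intro h1
        have h2 := congrArg h h1
        rw [Equiv.Perm.coe_inv, Equiv.apply_symm_apply] at h2
        have h3 : (h (i, 0)).2 + 1 = (h (i, 0)).2 := congrArg Prod.snd h2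
        have key : ∀ z : ZMod 2, z + 1 ≠ z := by decide
        exact key _ h3
      have hq1 : (h⁻¹ ((h (i, 0)).1, (h (i, 0)).2 + 1)).1 ≠ i := by
        intro h1
        have hx : ∀ x : ZMod 2, x = 0 ∨ x = 1 := by decide
        rcases hx (h⁻¹ ((h (i, 0)).1, (h (i, 0)).2 + 1)).2 with h2 | h2
        · exact hq0 (Prod.ext h1 h2)
        · exact hp (Prod.ext h1 h2)
      rw [Equiv.Perm.mul_apply, Equiv.Perm.mul_apply, fibHom_apply, toAdd_ofAdd,
        Pi.single_eq_of_ne hq1, add_zero, Equiv.Perm.coe_inv, Equiv.apply_symm_apply] at e2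
      rw [e1]
      exact e2.symm
  obtain ⟨σ, f, rfl⟩ := exists_base_fib m h hK
  have hσ : σ ∈ Subgroup.normalizer (Pm : Set (Equiv.Perm (Fin m))) :=
    sigma_mem_normalizer m Pm σ f (fun τ hτ => hconj' _ (baseHom_mem_wrSub m hτ))
  exact Subgroup.mem_map_of_mem _
    (Subgroup.mul_mem _ (baseHom_mem_wrSub m (hPm hσ)) (fibHom_mem_wrSub m Pm f))

theorem sns_main : Cfsg.Agent.H88.AltF.StmtSelfNormSym := by
  intro n
  induction n using Nat.strong_induction_on with
  | _ n ih =>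
    intro P
    rcases Nat.eq_zero_or_pos n with rfl | hn
    · intro g _
      have h1 : g = 1 := Subsingleton.elim _ _
      rw [h1]
      exact Subgroup.one_mem _
    · obtain ⟨m, r, hr, rfl⟩ : ∃ m r, r < 2 ∧ n = 2 * m + r :=
        ⟨n / 2, n % 2, Nat.mod_lt _ (by norm_num), (Nat.div_add_mod n 2).symm⟩
      have hm : m < 2 * m + r := by omega
      obtain ⟨Pm⟩ : Nonempty (Sylow 2 (Equiv.Perm (Fin m))) := inferInstance
      have hPm := ih m hm Pm
      have hcard : Nat.card ((wrSub 2 m (Pm : Subgroup _)).map (liftHom 2 m r)) =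
          2 ^ (Nat.card (Equiv.Perm (Fin (2 * m + r)))).factorization 2 := by
        rw [Subgroup.card_map_of_injective (liftHom_injective 2 m r), card_wrSub,
          Sylow.card_eq_multiplicity]
        rw [Nat.card_eq_fintype_card, Nat.card_eq_fintype_card, Fintype.card_perm,
          Fintype.card_perm, Fintype.card_fin, Fintype.card_fin]
        rw [Nat.factorization_def _ Nat.prime_two, Nat.factorization_def _ Nat.prime_two,
          padicValNat_factorial_mul_add m hr, padicValNat_factorial_mul, pow_add]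
      refine selfnorm_of_one (Sylow.ofCard _ hcard) P ?_
      rw [Sylow.coe_ofCard]
      exact selfnorm_model m r hr _ hPm

example : ∀ (n : ℕ) (P : Sylow 2 (Equiv.Perm (Fin n))),
    Subgroup.normalizer ((P : Subgroup (Equiv.Perm (Fin n))) : Set (Equiv.Perm (Fin n))) ≤ P :=
  sns_main

end Cfsg.Agent.H87.AltF
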