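import Cfsg.Agent.H86.FusSat
import Cfsg.Agent.H87.Syl

set_option autoImplicit false

/-!
Definitions for the saturation criterion of Broto–Castellana–Grodal–Levi–Oliver (a fusion system
generated by, and saturated on, a conjugation-invariant family of subgroups that captures the centric
subgroups up to the `O_p` condition is saturated).
-/

namespace Cfsg.Agent.H87

open Cfsg Cfsg.FusionSystem Cfsg.Agent.H86

variable {Ω : Type*} [Group Ω] {S : Subgroup Ω}

/-- The class of `T` in the system contains a fully automized receptive member. -/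
def SatClass (F : FusionSystem S) (p : ℕ) (T : Subgroup Ω) : Prop :=
  ∃ Q, F.IsConj T Q ∧ F.IsFullyAutomized p Q ∧ F.IsReceptive Q

/-- Some map of the system defined on `N_S(P₁)` takes `P₁` onto `P₂`. -/
def Rcv (F : FusionSystem S) (P₁ P₂ : Subgroup Ω) : Prop :=
  ∃ ψ, Mor F (normalizerIn S P₁) ψ ∧ imgS P₁ ψ = P₂

/-- The automorphisms of `T` stabilizing `P` (as a set). -/
def stabAut (T P : Subgroup Ω) : Subgroup (MulAut T) where
  carrier := {α | ∀ x : T, (x : Ω) ∈ P ↔ ((α x : T) : Ω) ∈ P}
  mul_mem' := by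
    intro α β hα hβ x
    rw [MulAut.mul_apply, ← hα (β x), ← hβ x]
  one_mem' := fun x => Iff.rfl
  inv_mem' := by
    intro α hα x
    have h := hα (α⁻¹ x)
    rw [MulAut.apply_inv_self] at h
    exact h.symm

theorem mem_stabAut {T P : Subgroup Ω} {α : MulAut T} :
    α ∈ stabAut T P ↔ ∀ x : T, (x : Ω) ∈ P ↔ ((α x : T) : Ω) ∈ P := Iff.rfl

/-- A marked pair `P ≤ T` with `P` normal in `T`, `T` fully automized and receptive, and such that the
automorphisms of `T` induced by `N_S(T) ∩ N_S(P)` form a Sylow `p`-subgroup of the stabilizer of `P` in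
`Aut_F(T)`. -/
structure MaxPair (F : FusionSystem S) (p : ℕ) (T P : Subgroup Ω) : Prop where
  le : P ≤ T
  nor : T ≤ normalizerIn S P
  fa : F.IsFullyAutomized p T
  rc : F.IsReceptive T
  syl : IsSylIn p (autInducedBy (normalizerIn S T ⊓ normalizerIn S P) T)
    (F.autGroup T ⊓ stabAut T P)

end Cfsg.Agent.H87
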