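import Cfsg.Agent.H74.BTDefs
import Cfsg.Agent.H82.Irr

/-!
# S0997-B2GLOB (piece of helper74's team project)
-/

set_option autoImplicit false

namespace Cfsg.Agent.H87.BT

open Cfsg Cfsg.Agent.H21.BR Cfsg.Agent.H74.BT
open scoped ComplexConjugate

universe u

/-- A `p`-singular element is conjugate to a nontrivial element of `P`, and irreducible
characters take the same value there. -/
theorem sing_conj {G : Type u} [Group G] {p : ℕ} [Fact p.Prime] {P : Subgroup G}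
    (sing : ∀ g : G, p ∣ orderOf g → ∃ h : G, h * g * h⁻¹ ∈ P) (g : G) (hg : p ∣ orderOf g) :
    ∃ x ∈ P, x ≠ 1 ∧ ∀ χ : IrrCharacter G, (χ : G → ℂ) g = (χ : G → ℂ) x := by
  obtain ⟨h, hh⟩ := sing g hg
  refine ⟨h * g * h⁻¹, hh, ?_, fun χ => (Cfsg.Agent.H82.irr_conj χ g h).symm⟩
  intro h1
  have hg1 : g = 1 := by
    have : g = h⁻¹ * (h * g * h⁻¹) * h := by group
    rw [this, h1]; group
  rw [hg1, orderOf_one] at hg
  exact (Fact.out : p.Prime).one_lt.ne' (Nat.dvd_one.mp hg)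

theorem b2Glob : StB2Glob.{u} := by
  intro G _ _ p e _ P X Y δ θ₁ θ₂ St hB hStX hStY hint
  have h1Y : θ₁ ∈ Y := (hB.hY θ₁).mpr (Or.inl rfl)
  have h2Y : θ₂ ∈ Y := (hB.hY θ₂).mpr (Or.inr rfl)
  have hreal1 : ∀ g : G, conj ((θ₁ : G → ℂ) g) = (θ₁ : G → ℂ) g := by
    intro g
    by_cases hg : p ∣ orderOf g
    · obtain ⟨x, hxP, -, hx⟩ := sing_conj hB.sing g hg
      rw [hx θ₁]; exact hB.real₁ x hxP
    · obtain ⟨z, hz⟩ := hint g hg
      rw [hz]; simp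
  refine ⟨hreal1, ?_, ?_⟩
  · intro g
    by_cases hg : p ∣ orderOf g
    · obtain ⟨x, hxP, -, hx⟩ := sing_conj hB.sing g hg
      rw [hx θ₂]; exact hB.real₂ x hxP
    · rw [hB.b0.agree_Y θ₂ h2Y θ₁ h1Y g hg]; exact hreal1 g
  · intro g hg
    obtain ⟨x, hxP, hx1, hx⟩ := sing_conj hB.sing g hg
    rw [hx St, hx θ₁, hx θ₂]
    exact ⟨hB.b0.out_van St hStX hStY x hxP hx1, hB.hsum x hxP hx1, hB.hprod x hxP hx1⟩

example : Cfsg.Agent.H74.BT.StB2Glob.{u} := b2Glob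

end Cfsg.Agent.H87.BT
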