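import Cfsg.Agent.H74.BTDefs
import Cfsg.Agent.H82.Irr
import Cfsg.Agent.H21.BRSplit
import Cfsg.Agent.H87.BTB2Glob

/-!
# S0997-B2ID (piece of helper74's team project)
-/

set_option autoImplicit false

namespace Cfsg.Agent.H87.BT

open Cfsg Cfsg.Agent.H21.BR Cfsg.Agent.H74.BT
open scoped ComplexConjugate

universe u

theorem b2Id : StB2Id.{u} := by
  intro G _ _ p e _ P X Y δ θ₁ θ₂ hB θ hθ g
  have h1Y : θ₁ ∈ Y := (hB.hY θ₁).mpr (Or.inl rfl)
  have h2Y : θ₂ ∈ Y := (hB.hY θ₂).mpr (Or.inr rfl)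
  by_cases hg : p ∣ orderOf g
  · obtain ⟨x, hxP, hx1, hx⟩ := sing_conj hB.sing g hg
    have hs := hB.hsum x hxP hx1
    have hpr := hB.hprod x hxP hx1
    have hplus : ∑ χ ∈ plusSet X δ, (χ : G → ℂ) g = ((plusSet X δ).card : ℂ) := by
      have : ∀ χ ∈ plusSet X δ, (χ : G → ℂ) g = 1 := by
        intro χ hχ
        rw [mem_plusSet] at hχ
        rw [hx χ, hB.b0.val_X χ hχ.1 x hxP hx1, hχ.2.2]; simp
      rw [Finset.sum_congr rfl this, Finset.sum_const, nsmul_eq_mul, mul_one]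
    have hminus : ∑ ψ ∈ minusSet X δ, (ψ : G → ℂ) g = -((minusSet X δ).card : ℂ) := by
      have : ∀ χ ∈ minusSet X δ, (χ : G → ℂ) g = -1 := by
        intro χ hχ
        rw [mem_minusSet] at hχ
        rw [hx χ, hB.b0.val_X χ hχ.1 x hxP hx1, hχ.2]; simp
      rw [Finset.sum_congr rfl this, Finset.sum_const, nsmul_eq_mul]
      ring
    have hcard := card_X_split hB.b0
    have hcardC : (1 : ℂ) + ((plusSet X δ).card : ℂ) + ((minusSet X δ).card : ℂ) = (e : ℂ) := by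
      exact_mod_cast hcard
    rw [hplus, hminus, hx θ, hx θ₁, hx θ₂]
    rcases (hB.hY θ).mp hθ with h | h
    · rw [h]
      linear_combination ((θ₁ : G → ℂ) x) * hs - hpr - hcardC
    · rw [h]
      linear_combination ((θ₂ : G → ℂ) x) * hs - hpr - hcardC
  · have e1 : (θ₁ : G → ℂ) g = (θ : G → ℂ) g := hB.b0.agree_Y θ₁ h1Y θ hθ g hg
    have e2 : (θ₂ : G → ℂ) g = (θ : G → ℂ) g := hB.b0.agree_Y θ₂ h2Y θ hθ g hg
    have hrel := hB.b0.rel θ hθ g hg
    rw [sum_X_split hB.b0 (fun χ => (δ χ : ℂ) * (χ : G → ℂ) g)] at hrel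
    have hplus : ∑ χ ∈ plusSet X δ, (δ χ : ℂ) * (χ : G → ℂ) g =
        ∑ χ ∈ plusSet X δ, (χ : G → ℂ) g := by
      apply Finset.sum_congr rfl
      intro χ hχ
      rw [mem_plusSet] at hχ
      rw [hχ.2.2]; simp
    have hminus : ∑ χ ∈ minusSet X δ, (δ χ : ℂ) * (χ : G → ℂ) g =
        -∑ χ ∈ minusSet X δ, (χ : G → ℂ) g := by
      rw [← Finset.sum_neg_distrib]
      apply Finset.sum_congr rfl
      intro χ hχ
      rw [mem_minusSet] at hχ
      rw [hχ.2]; simp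
    have hone : ((one G : IrrCharacter G) : G → ℂ) g = 1 := rfl
    simp only [hplus, hminus, hB.b0.δ_one, hone] at hrel
    push_cast at hrel
    rw [e1, e2]
    linear_combination hrel

example : Cfsg.Agent.H74.BT.StB2Id.{u} := b2Id

end Cfsg.Agent.H87.BT
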