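import Cfsg.Agent.H74.BTDefs
import Cfsg.Agent.H16.BRTypeA
import Cfsg.Agent.H21.BRSplit

/-!
# S0997-B2TWO (piece of helper74's team project)
-/

set_option autoImplicit false

namespace Cfsg.Agent.H87.BT

open Cfsg Cfsg.Agent.H21.BR Cfsg.Agent.H74.BT
open scoped ComplexConjugate

universe u

theorem sq_ne_prime_mul_sq {p a b : ℕ} (hp : p.Prime) (hb : b ≠ 0) : a ^ 2 ≠ p * b ^ 2 := by
  intro h
  haveI := Fact.mk hp
  have ha : a ≠ 0 := by
    rintro rfl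
    have h0 : p * b ^ 2 ≠ 0 := mul_ne_zero hp.ne_zero (pow_ne_zero 2 hb)
    exact h0 (by simpa using h.symm)
  have h1 := congrArg (padicValNat p) h
  rw [padicValNat.pow a 2, padicValNat.mul hp.ne_zero (pow_ne_zero 2 hb), padicValNat_self,
    padicValNat.pow b 2] at h1
  omega

theorem b2Two : StB2Two.{u} := by
  intro G _ _ p e _ P X Y δ θ₁ θ₂ hB
  classical
  have hp : p.Prime := Fact.out
  have hpe : p = 2 * e + 1 := by
    have h1 := hB.he
    have h2 := hp.two_le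
    omega
  have hpC : (p : ℂ) ≠ 0 := by exact_mod_cast hp.ne_zero
  haveI : Fintype P := Fintype.ofFinite P
  have hch1 : IsCharacter G (θ₁ : G → ℂ) := Cfsg.Agent.H4.isCharacter_of_isIrrCharacter θ₁.2
  have hch2 : IsCharacter G (θ₂ : G → ℂ) := Cfsg.Agent.H4.isCharacter_of_isIrrCharacter θ₂.2
  obtain ⟨w₁, hw₁⟩ := Cfsg.Agent.H16.BR.psum_character_nat P p hp.pos hB.cardP _ hch1
  obtain ⟨w₂, hw₂⟩ := Cfsg.Agent.H16.BR.psum_character_nat P p hp.pos hB.cardP _ hch2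
  -- sum of both
  have hboth : ∑ᶠ x : ↥P, ((θ₁ : G → ℂ) (x : G) + (θ₂ : G → ℂ) (x : G)) = 2 * (p : ℂ) := by
    have h1 := psum_const P p hp.pos hB.cardP (fun x => (θ₁ : G → ℂ) x + (θ₂ : G → ℂ) x) 1
      (fun x hx hx1 => hB.hsum x hx hx1)
    rw [h1]
    beta_reduce
    rw [Cfsg.Agent.H16.BR.irr_one_cast, Cfsg.Agent.H16.BR.irr_one_cast, hB.deg₁, hB.deg₂, hpe]
    push_cast; ring
  have hw12 : w₁ + w₂ = 2 := by
    have h1 : ∑ᶠ x : ↥P, ((θ₁ : G → ℂ) (x : G) + (θ₂ : G → ℂ) (x : G)) =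
        ∑ᶠ x : ↥P, (θ₁ : G → ℂ) (x : G) + ∑ᶠ x : ↥P, (θ₂ : G → ℂ) (x : G) :=
      finsum_add_distrib (Set.toFinite _) (Set.toFinite _)
    rw [hboth, hw₁, hw₂] at h1
    have h2 : ((w₁ + w₂ : ℕ) : ℂ) = 2 := by
      push_cast
      have h3 : (p : ℂ) * ((w₁ : ℂ) + (w₂ : ℂ)) = (p : ℂ) * 2 := by linear_combination -h1
      exact mul_left_cancel₀ hpC h3
    exact_mod_cast h2
  haveI : Nontrivial P := by
    rw [← Finite.one_lt_card_iff_nontrivial, hB.cardP]; exact hp.one_lt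
  obtain ⟨x₀, hx₀⟩ := exists_ne (1 : P)
  have hkey : ∀ x : P, x ≠ 1 → (2 * (θ₁ : G → ℂ) (x : G) - 1) ^ 2 = (p : ℂ) := by
    intro x hx
    have hx' : (x : G) ≠ 1 := fun h => hx (Subtype.ext h)
    have hs := hB.hsum x x.2 hx'
    have hpr := hB.hprod x x.2 hx'
    rw [hpe]; push_cast
    linear_combination (4 * (θ₁ : G → ℂ) (x : G)) * hs - 2 * hpr
  obtain ⟨r, hr⟩ : ∃ r : ℂ, r = 2 * (θ₁ : G → ℂ) (x₀ : G) - 1 := ⟨_, rfl⟩
  have hr2 : r ^ 2 = (p : ℂ) := by rw [hr]; exact hkey x₀ hx₀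
  have hr0 : r ≠ 0 := by
    intro h0
    rw [h0] at hr2
    exact hpC (by rw [← hr2]; ring)
  -- signs
  obtain ⟨s, hsdef⟩ : ∃ s : P → ℤ, ∀ x : P, s x =
      if x = 1 then 0 else if 2 * (θ₁ : G → ℂ) (x : G) - 1 = r then 1 else -1 :=
    ⟨fun x => if x = 1 then 0 else if 2 * (θ₁ : G → ℂ) (x : G) - 1 = r then 1 else -1,
      fun x => rfl⟩
  have hs : ∀ x : P, 2 * (θ₁ : G → ℂ) (x : G) - 1 =
      (s x : ℂ) * r + (if x = 1 then (p : ℂ) else 0) := by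
    intro x
    by_cases hx : x = 1
    · rw [hsdef]
      simp only [hx, if_true]
      rw [OneMemClass.coe_one, Cfsg.Agent.H16.BR.irr_one_cast, hB.deg₁, hpe]
      push_cast; ring
    · by_cases hxr : 2 * (θ₁ : G → ℂ) (x : G) - 1 = r
      · rw [hsdef]
        simp only [if_neg hx, if_pos hxr]
        push_cast; linear_combination hxr
      · have h2 := hkey x hx
        have h3 : 2 * (θ₁ : G → ℂ) (x : G) - 1 = -r := by
          have h5 : (2 * (θ₁ : G → ℂ) (x : G) - 1 - r) * (2 * (θ₁ : G → ℂ) (x : G) - 1 + r) = 0 := by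
            linear_combination h2 - hr2
          rcases mul_eq_zero.mp h5 with h4 | h4
          · exact absurd (sub_eq_zero.mp h4) hxr
          · linear_combination h4
        rw [hsdef]
        simp only [if_neg hx, if_neg hxr]
        push_cast; rw [h3]; ring
  have hs_nonneg : ∀ x : P, s x ≠ -1 → 0 ≤ s x := by
    intro x hx
    rw [hsdef] at hx ⊢
    by_cases h1 : x = 1
    · rw [if_pos h1]
    · rw [if_neg h1] at hx ⊢
      by_cases h2 : 2 * (θ₁ : G → ℂ) (x : G) - 1 = r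
      · rw [if_pos h2]; norm_num
      · rw [if_neg h2] at hx; exact absurd rfl hx
  have hs0 : s x₀ = 1 := by
    rw [hsdef]
    simp only [if_neg hx₀, if_pos hr.symm]
  -- the total
  have hsum : ((∑ x : P, s x : ℤ) : ℂ) * r = 2 * (p : ℂ) * ((w₁ : ℂ) - 1) := by
    have h1 : ∑ x : P, (2 * (θ₁ : G → ℂ) (x : G) - 1) =
        ∑ x : P, ((s x : ℂ) * r + (if x = 1 then (p : ℂ) else 0)) :=
      Finset.sum_congr rfl (fun x _ => hs x)
    rw [Finset.sum_sub_distrib, ← Finset.mul_sum, ← finsum_eq_sum_of_fintype, hw₁,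
      Finset.sum_add_distrib, ← Finset.sum_mul, Finset.sum_ite_eq' Finset.univ (1 : P) (fun _ => (p : ℂ)),
      if_pos (Finset.mem_univ _), Finset.sum_const, Finset.card_univ, ← Nat.card_eq_fintype_card,
      hB.cardP, nsmul_eq_mul, mul_one] at h1
    push_cast
    linear_combination -h1
  obtain ⟨S, hS⟩ : ∃ S : ℤ, S = ∑ x : P, s x := ⟨_, rfl⟩
  rw [← hS] at hsum
  have hsq : S ^ 2 = (p : ℤ) * (2 * ((w₁ : ℤ) - 1)) ^ 2 := by
    have h1 : ((S : ℂ) * r) ^ 2 = (2 * (p : ℂ) * ((w₁ : ℂ) - 1)) ^ 2 := by rw [hsum]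
    rw [mul_pow, hr2] at h1
    have h2 : (p : ℂ) * (S : ℂ) ^ 2 = (p : ℂ) * ((p : ℂ) * (2 * ((w₁ : ℂ) - 1)) ^ 2) := by
      linear_combination h1
    have h3 := mul_left_cancel₀ hpC h2
    exact_mod_cast h3
  have hw1 : w₁ = 1 := by
    by_contra hne
    have hb : (2 * ((w₁ : ℤ) - 1)).natAbs ≠ 0 := by
      rw [Int.natAbs_ne_zero]
      intro h0
      apply hne
      omega
    have h4 := congrArg Int.natAbs hsq
    rw [Int.natAbs_pow, Int.natAbs_mul, Int.natAbs_pow, Int.natAbs_natCast] at h4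
    exact sq_ne_prime_mul_sq hp hb h4
  have hw2 : w₂ = 1 := by omega
  have hS0 : S = 0 := by
    rw [hw1] at hsum
    have h1 : (S : ℂ) * r = 0 := by rw [hsum]; push_cast; ring
    rcases mul_eq_zero.mp h1 with h2 | h2
    · exact_mod_cast h2
    · exact absurd h2 hr0
  have hex : ∃ x₂ : P, s x₂ = -1 := by
    by_contra hcon
    push_neg at hcon
    have h1 : s x₀ ≤ ∑ x : P, s x :=
      Finset.single_le_sum (fun x _ => hs_nonneg x (hcon x)) (Finset.mem_univ x₀)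
    rw [← hS, hS0, hs0] at h1
    omega
  obtain ⟨x₂, hx₂⟩ := hex
  have hx₂1 : x₂ ≠ 1 := by
    intro h1
    rw [hsdef] at hx₂
    simp only [h1, if_true] at hx₂
    omega
  have hA : 2 * (θ₁ : G → ℂ) (x₂ : G) - 1 = -(2 * (θ₁ : G → ℂ) (x₀ : G) - 1) := by
    have h1 := hs x₂
    rw [hx₂, if_neg hx₂1, hr] at h1
    rw [h1]; push_cast; ring
  have hx0' : (x₀ : G) ≠ 1 := fun h => hx₀ (Subtype.ext h)
  have hx2' : (x₂ : G) ≠ 1 := fun h => hx₂1 (Subtype.ext h)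
  have hsum0 := hB.hsum x₀ x₀.2 hx0'
  have hsum2 := hB.hsum x₂ x₂.2 hx2'
  refine ⟨⟨x₀, x₀.2, x₂, x₂.2, hx0', hx2', ?_, ?_⟩, ?_, ?_⟩
  · linear_combination (1 / 2 : ℂ) * hA - hsum0
  · linear_combination hsum2 - (1 / 2 : ℂ) * hA
  · rw [hw₁, hw1]; simp
  · rw [hw₂, hw2]; simp

example : Cfsg.Agent.H74.BT.StB2Two.{u} := b2Two

end Cfsg.Agent.H87.BT
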