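import Cfsg.Agent.H87.Layer

set_option autoImplicit false

/-!
The image of a subnormal subsystem (in particular of a component) under a map of the ambient
saturated fusion system is again subnormal (a component).
-/

namespace Cfsg.Agent.H87

open Cfsg Cfsg.FusionSystem Cfsg.Agent.H86 Cfsg.Agent.H90

universe u

section

variable {Ω Ω' Ω'' : Type*} [Group Ω] [Group Ω'] [Group Ω''] {S : Subgroup Ω} {S' : Subgroup Ω'}
  {S'' : Subgroup Ω''}

theorem jF_trans (e : S ≃* S') (e' : S' ≃* S'') {x : Ω} (hx : x ∈ S) :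
    jF (e.trans e') x = jF e' (jF e x) := by
  rw [jF_of_mem (e.trans e') hx, jF_of_mem e hx, jF_of_mem e' (e ⟨x, hx⟩).2]
  rfl

theorem trSub_trans (e : S ≃* S') (e' : S' ≃* S'') (P : Subgroup Ω) :
    trSub (e.trans e') P = trSub e' (trSub e P) := by
  ext y
  rw [mem_trSub, mem_trSub]
  constructor
  · rintro ⟨x, hxS, hxP, rfl⟩
    exact ⟨jF e x, jF_mem e hxS, jF_mem_trSub e hxS hxP, (jF_trans e e' hxS).symm⟩
  · rintro ⟨z, -, hz, rfl⟩
    obtain ⟨x, hxS, hxP, rfl⟩ := (mem_trSub e).1 hz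
    exact ⟨x, hxS, hxP, jF_trans e e' hxS⟩

/-- Isomorphisms of fusion systems compose. -/
theorem FusIso.trans {F : FusionSystem S} {F' : FusionSystem S'} {F'' : FusionSystem S''}
    {e : S ≃* S'} {e' : S' ≃* S''} (h : FusIso F F' e) (h' : FusIso F' F'' e') :
    FusIso F F'' (e.trans e') := by
  intro P f hP hf
  have hP' : trSub e P ≤ S' := trSub_le e P
  have hf' : ∀ y ∈ trSub e P, (jF e ∘ f ∘ jF e.symm) y ∈ S' := fun y hy =>
    jF_mem e (hf _ (jF_symm_mem e hP hy))
  rw [h P f hP hf, h' (trSub e P) _ hP' hf', trSub_trans]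
  have hcongr : ∀ y ∈ trSub e' (trSub e P),
      (jF e' ∘ (jF e ∘ f ∘ jF e.symm) ∘ jF e'.symm) y =
        (jF (e.trans e') ∘ f ∘ jF (e.trans e').symm) y := by
    intro y hy
    have hyS'' : y ∈ S'' := trSub_le e' _ hy
    have h1 : jF e'.symm y ∈ trSub e P := jF_symm_mem e' hP' hy
    have h2 : jF e.symm (jF e'.symm y) ∈ P := jF_symm_mem e hP h1
    have h3 : jF (e.trans e').symm y = jF e.symm (jF e'.symm y) := jF_trans e'.symm e.symm hyS''
    show jF e' (jF e (f (jF e.symm (jF e'.symm y)))) = jF (e.trans e') (f (jF (e.trans e').symm y))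
    rw [h3, jF_trans e e' (hf _ h2)]
  constructor
  · intro hm
    exact hm.congr hcongr
  · intro hm
    exact hm.congr (fun y hy => (hcongr y hy).symm)

/-- A system is isomorphic to itself along an automorphism of `S` that is a map of the system. -/
theorem fusIso_self_of_mor {F : FusionSystem S} (e : S ≃* S) (h : Mor F S (jF e))
    (h' : Mor F S (jF e.symm)) : FusIso F F e := by
  refine fusIso_of_mor_both (fun P f hf => ?_) (fun P f hf => ?_)
  · have hP : P ≤ S := hf.le
    have h1 : Mor F (trSub e P) (jF e.symm) := h'.restrict (trSub_le e P)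
    have h2 : Mor F (trSub e P) (f ∘ jF e.symm) := h1.comp hf (fun y hy => jF_symm_mem e hP hy)
    exact h2.comp h (fun y hy => hf.mem (jF_symm_mem e hP hy))
  · have hP : P ≤ S := hf.le
    have h1 : Mor F (trSub e.symm P) (jF e) := h.restrict (trSub_le e.symm P)
    have h2 : Mor F (trSub e.symm P) (f ∘ jF e) :=
      h1.comp hf (fun y hy => jF_symm_mem e.symm hP hy)
    exact h2.comp h' (fun y hy => hf.mem (jF_symm_mem e.symm hP hy))

/-- The inverse of an automorphism that is a map of the system is a map of the system. -/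
theorem mor_jF_symm [Finite S] {U : Subgroup Ω} {F : FusionSystem S} (α : U ≃* U)
    (hm : Mor F U (jF α)) : Mor F U (jF α.symm) := by
  haveI : Finite U := finite_of_le hm.le
  have h1 := hm.inv
  have h2 : imgS U (jF α) = U := imgS_eq_of_maps hm (fun x hx => jF_mem α hx)
  have h3 : ∀ y ∈ U, invOn U (jF α) y = jF α.symm y := by
    intro y hy
    have hy' : y ∈ imgS U (jF α) := by rw [h2]; exact hy
    apply hm.injOn (hm.invOn_mem hy') (jF_mem α.symm hy)
    rw [hm.apply_invOn hy', jF_jF_symm α hy]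
  rw [h2] at h1
  exact h1.congr h3

/-- An invariant subsystem is carried to itself by the automorphisms of its underlying subgroup
that are maps of the ambient system. -/
theorem fusIso_of_autInv {U : Subgroup Ω} {D : FusionSystem U} {F : FusionSystem S}
    (hI : AutInv D F) (α : U ≃* U) (hα : Mor F U (jF α)) (hα' : Mor F U (jF α.symm)) :
    FusIso D D α := by
  have push : ∀ (β : U ≃* U), Mor F U (jF β) → ∀ (P : Subgroup Ω) (f : Ω → Ω), Mor D P f →
      Mor D (trSub β P) (jF β ∘ f ∘ jF β.symm) := by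
    intro β hβ P f hf
    have hP : P ≤ U := hf.le
    have himgU : imgS U (jF β) = U := by
      ext y
      rw [hβ.mem_imgS]
      constructor
      · rintro ⟨x, hx, rfl⟩
        exact jF_mem β hx
      · intro hy
        exact ⟨jF β.symm y, jF_mem β.symm hy, jF_jF_symm β hy⟩
    have himgP : imgS P (jF β) = trSub β P := by
      ext y
      rw [(hβ.restrict hP).mem_imgS, mem_trSub]
      constructor
      · rintro ⟨x, hx, rfl⟩
        exact ⟨x, hP hx, hx, rfl⟩
      · rintro ⟨x, -, hx, rfl⟩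
        exact ⟨x, hx, rfl⟩
    obtain ⟨χ, hχ, hχeq⟩ := hI P f (jF β) hP hf hβ himgU
    rw [himgP] at hχ
    refine hχ.congr (fun y hy => ?_)
    obtain ⟨x, hxU, hxP, rfl⟩ := (mem_trSub β).1 hy
    show χ (jF β x) = jF β (f (jF β.symm (jF β x)))
    rw [jF_symm_jF β hxU, hχeq x hxP]
  exact fusIso_of_mor_both (push α hα) (push α.symm hα')

end

/-- The image of a subnormal subsystem under a map of the ambient saturated system is subnormal. -/
theorem subnormal_conj {p : ℕ} {Ω : Type u} [Group Ω] {T S : Subgroup Ω} {C : FusionSystem T}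
    {F : FusionSystem S} (hsub : C.IsSubnormalIn F p) :
    Fact p.Prime → Finite S → F.IsSaturated p → ∀ (g : Ω → Ω), Mor F T g →
      ∀ {T₂ : Subgroup Ω} (E : FusionSystem T₂) (e : T ≃* T₂),
        (∀ x : T, ((e x : T₂) : Ω) = g x) → FusIso C E e → E.IsSubnormalIn F p := by
  induction hsub with
  | refl F p =>
    intro hp hfin hF g hg T₂ E e he hiso
    haveI := hfin
    have hT₂ : T₂ = T := by
      have h1 : imgS T g = T := imgS_eq_of_maps hg (fun x hx => hg.mem hx)
      rw [← h1]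
      ext y
      rw [hg.mem_imgS]
      constructor
      · intro hy
        refine ⟨((e.symm ⟨y, hy⟩ : T) : Ω), (e.symm ⟨y, hy⟩).2, ?_⟩
        rw [← he]
        simp
      · rintro ⟨x, hx, rfl⟩
        rw [← he ⟨x, hx⟩]
        exact (e ⟨x, hx⟩).2
    subst hT₂
    have hje : ∀ x ∈ T₂, jF e x = g x := fun x hx => by rw [jF_of_mem e hx, he]
    have hm : Mor F T₂ (jF e) := hg.congr (fun x hx => (hje x hx).symm)
    have hm' : Mor F T₂ (jF e.symm) := mor_jF_symm e hm
    have hself : FusIso F F e := fusIso_self_of_mor e hm hm'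
    have hEF : E = F := by
      apply fusionSystem_ext_mor
      intro P f hP hf
      rw [hiso.symm P f hP hf, hself.symm P f hP hf]
    rw [hEF]
    exact IsSubnormalIn.refl F p
  | step hCD hDF ih =>
    rename_i T U S C D F p
    intro hp hfin hF g hg T₂ E e he hiso
    haveI := hp
    haveI := hfin
    have hU : U ≤ S := hDF.1.2.2.2.1.1
    haveI : Finite U := finite_of_le hU
    have hTU : T ≤ U := Cfsg.Agent.H88.subnormal_le hCD
    obtain ⟨-, -, hI, hFr⟩ := (isInvariantIn_iff hU).1 hDF.1.2.2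
    obtain ⟨a, g₀, ha, haU, hg₀, hga⟩ := hFr T g hTU hg
    obtain ⟨α, hαdef⟩ : ∃ α : U ≃* U, α = mkAut ha haU := ⟨_, rfl⟩
    have hαa : ∀ x ∈ U, jF α x = a x := fun x hx => by
      rw [jF_of_mem α hx, hαdef, mkAut_apply]
    have hm : Mor F U (jF α) := ha.congr (fun x hx => (hαa x hx).symm)
    have hm' : Mor F U (jF α.symm) := mor_jF_symm α hm
    have hDD : FusIso D D α := fusIso_of_autInv hI α hm hm'
    have hT₂U : T₂ ≤ U := by
      intro y hy
      have h1 : y = g ((e.symm ⟨y, hy⟩ : T) : Ω) := by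
        rw [← he]
        simp
      rw [h1, hga _ (e.symm ⟨y, hy⟩).2]
      have h2 := ha.mem_imgS_of_mem (hg₀.mem (e.symm ⟨y, hy⟩).2)
      rwa [haU] at h2
    obtain ⟨T₁, hT₁U, E₁, hE₁⟩ := exists_sysIso_pull α hT₂U E
    obtain ⟨rfl, hE₁2⟩ := hE₁
    have hE₁' : SysIso α E₁ E := ⟨rfl, hE₁2⟩
    have hiso₁ : FusIso E₁ E (eSub α hT₁U) := SysIso.fusIso_eSub hT₁U hE₁'
    have hCE₁ : FusIso C E₁ (e.trans (eSub α hT₁U).symm) := hiso.trans hiso₁.symm
    have he₁ : ∀ x : T, (((e.trans (eSub α hT₁U).symm) x : T₁) : Ω) = g₀ x := by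
      intro x
      show (((eSub α hT₁U).symm (e x) : T₁) : Ω) = g₀ x
      rw [eSub_symm_apply, he, hga x x.2, ← hαa _ (hg₀.mem x.2), jF_symm_jF α (hg₀.mem x.2)]
    have hDsat : D.IsSaturated p := hDF.1.1
    have hE₁D : E₁.IsSubnormalIn D p := ih hp inferInstance hDsat g₀ hg₀ E₁ _ he₁ hCE₁
    have hED : E.IsSubnormalIn D p :=
      subnormal_of_sysIso hE₁D hp D α.symm hDD.symm hDsat E (trSub_le α T₁) (hE₁'.symm hT₁U)
    exact IsSubnormalIn.step hED hDF

/-- The image of a component under a map of the ambient saturated system is a component. -/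
theorem component_conj {Ω : Type u} [Group Ω] {S : Subgroup Ω} [Finite S] {p : ℕ} [Fact p.Prime]
    {F : FusionSystem S} (hF : F.IsSaturated p) {T : Subgroup Ω} {C : FusionSystem T}
    (hC : C.IsComponentIn F p) (γ : T →* Ω) (hγ : γ ∈ F.Hom T) (E : FusionSystem γ.range)
    (hE : C.IsFactorSystem ⊥ γ E) : E.IsComponentIn F p := by
  obtain ⟨hCsub, hCqs⟩ := hC
  have hTS : T ≤ S := Cfsg.Agent.H88.subnormal_le hCsub
  haveI : Finite T := finite_of_le hTS
  have hinj : Function.Injective γ := by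
    rw [injective_iff_map_eq_one]
    intro s hs
    have h1 := (hE.2.1 s).1 hs
    exact Subtype.ext (Subgroup.mem_bot.1 h1)
  obtain ⟨e, hedef⟩ : ∃ e : T ≃* γ.range, e = MonoidHom.ofInjective hinj := ⟨_, rfl⟩
  have heγ : ∀ x : T, ((e x : γ.range) : Ω) = γ x := by
    intro x
    rw [hedef]
    rfl
  have he : ∀ x : T, ((e x : γ.range) : Ω) = extFun T γ x := by
    intro x
    rw [heγ, extFun_apply]
  have hje : ∀ (x : Ω) (hx : x ∈ T), jF e x = γ ⟨x, hx⟩ := fun x hx => by
    rw [jF_of_mem e hx, heγ]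
  have hpre : ∀ P : Subgroup Ω, P ≤ T → preimageAlong γ (trSub e P) = P := by
    intro P hP
    ext x
    rw [Cfsg.Agent.H88.mem_preimageAlong]
    constructor
    · rintro ⟨hx, h1⟩
      rw [← hje x hx] at h1
      have h2 := jF_symm_mem e hP h1
      rwa [jF_symm_jF e hx] at h2
    · intro hx
      refine ⟨hP hx, ?_⟩
      rw [← hje x (hP hx)]
      exact jF_mem_trSub e (hP hx) hx
  have hiso : FusIso C E e := by
    intro P f hP hf
    rw [mor_factor_iff hE, hpre P hP]
    constructor
    · intro hm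
      refine ⟨trSub_le e P, f, hm, fun x hx hfx _ => ?_⟩
      show jF e (f (jF e.symm (γ ⟨x, hx⟩))) = γ ⟨f x, hfx⟩
      rw [← hje x hx, jF_symm_jF e hx, hje (f x) hfx]
    · rintro ⟨-, f', hf', hcomp⟩
      refine hf'.congr (fun x hx => ?_)
      have hxT : x ∈ T := hP hx
      have hfx : f' x ∈ T := hf'.mem hx
      have h1 := hcomp x hxT hfx (by rw [← hje x hxT]; exact jF_mem_trSub e hxT hx)
      have h2 : (jF e ∘ f ∘ jF e.symm) (γ ⟨x, hxT⟩) = jF e (f x) := by
        show jF e (f (jF e.symm (γ ⟨x, hxT⟩))) = jF e (f x)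
        rw [← hje x hxT, jF_symm_jF e hxT]
      rw [h2, ← hje (f' x) hfx] at h1
      exact (jF_injOn e (hf x hx) hfx h1).symm
  exact ⟨subnormal_conj hCsub inferInstance inferInstance hF (extFun T γ) (mor_extFun hγ) E e he hiso,
    hiso.quasisimple hCqs⟩

end Cfsg.Agent.H87
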