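import Cfsg.Agent.H6.DcDefs

/-!
# DC-FAITH (piece of helper6's team project S2132)
-/

set_option autoImplicit false

namespace Cfsg.Agent.H87.Dc

open Equiv Cfsg.Agent.H6.Dc

theorem map_or_compl (σ : Perm (Fin 8)) (h : ∀ S : Bis, bimg σ S.1 = S.1)
    (T : Finset (Fin 8)) (hT : T.card = 4) :
    T.map σ.toEmbedding = T ∨ T.map σ.toEmbedding = Tᶜ := by
  by_cases h0 : (0 : Fin 8) ∈ T
  · have h1 := h ⟨T, hT, h0⟩
    simp only [bimg] at h1
    split_ifs at h1 with h2
    · exact Or.inl h1
    · right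
      apply compl_injective
      rw [compl_compl]; exact h1
  · have hc : (Tᶜ).card = 4 := by
      rw [Finset.card_compl, hT, Fintype.card_fin]
    have h0' : (0 : Fin 8) ∈ Tᶜ := Finset.mem_compl.mpr h0
    have h1 := h ⟨Tᶜ, hc, h0'⟩
    have hmap : (Tᶜ).map σ.toEmbedding = (T.map σ.toEmbedding)ᶜ := by
      ext x
      simp [Finset.mem_map_equiv]
    simp only [bimg] at h1
    rw [hmap] at h1
    split_ifs at h1 with h2
    · left; exact compl_injective h1
    · right; rwa [compl_compl] at h1

theorem inv_of_mem (σ : Perm (Fin 8)) (h : ∀ S : Bis, bimg σ S.1 = S.1) {i j : Fin 8}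
    (hij : σ i = j) (T : Finset (Fin 8)) (hT : T.card = 4) (hi : i ∈ T) (hj : j ∈ T) :
    ∀ x ∈ T, σ x ∈ T := by
  have hmap : T.map σ.toEmbedding = T := by
    rcases map_or_compl σ h T hT with h1 | h1
    · exact h1
    · exfalso
      have h2 : j ∈ T.map σ.toEmbedding := by
        rw [← hij]; exact Finset.mem_map_of_mem σ.toEmbedding hi
      rw [h1] at h2
      exact (Finset.mem_compl.mp h2) hj
  intro x hx
  have h2 : σ x ∈ T.map σ.toEmbedding := Finset.mem_map_of_mem σ.toEmbedding hx
  rwa [hmap] at h2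

theorem exists_four (B A : Finset (Fin 8)) (hB : B.card ≤ 4) (hAB : Disjoint B A)
    (hA : A.card ≤ 4) : ∃ T : Finset (Fin 8), T.card = 4 ∧ B ⊆ T ∧ Disjoint T A := by
  have hR : 4 - B.card ≤ ((A ∪ B)ᶜ).card := by
    rw [Finset.card_compl, Fintype.card_fin]
    have h1 := Finset.card_union_le A B
    omega
  obtain ⟨U, hU, hUc⟩ := Finset.exists_subset_card_eq hR
  have hBU : Disjoint B U := by
    rw [Finset.disjoint_left]
    intro x hxB hxU
    have h1 := hU hxU
    rw [Finset.mem_compl, Finset.mem_union] at h1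
    exact h1 (Or.inr hxB)
  refine ⟨B ∪ U, ?_, Finset.subset_union_left, ?_⟩
  · rw [Finset.card_union_of_disjoint hBU, hUc]; omega
  · rw [Finset.disjoint_union_left]
    refine ⟨hAB, ?_⟩
    rw [Finset.disjoint_left]
    intro x hxU hxA
    have h1 := hU hxU
    rw [Finset.mem_compl, Finset.mem_union] at h1
    exact h1 (Or.inl hxA)

theorem faith : StFaith := by
  intro σ hσ h
  by_contra hne
  obtain ⟨i, hi⟩ : ∃ i, σ i ≠ i := by
    by_contra hcon
    push_neg at hcon
    exact hne (Equiv.ext hcon)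
  obtain ⟨j, hj⟩ : ∃ j, σ i = j := ⟨_, rfl⟩
  have hij : i ≠ j := fun e => hi (hj.trans e.symm)
  have hji : σ j = i := by
    by_contra hm
    have hmj : σ j ≠ j := fun e => hij (σ.injective (hj.trans e.symm))
    obtain ⟨T, hT, hBT, hTA⟩ := exists_four {i, j} {σ j} (le_trans Finset.card_le_two (by norm_num))
      (by rw [Finset.disjoint_singleton_right]; simp [hm, hmj]) (by simp)
    have h1 := inv_of_mem σ h hj T hT (hBT (by simp)) (hBT (by simp)) j (hBT (by simp))
    exact (Finset.disjoint_left.mp hTA h1) (Finset.mem_singleton_self _)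
  have hfix : ∀ k, k ≠ i → k ≠ j → σ k = k := by
    intro k hki hkj
    by_contra hl
    have hli : σ k ≠ i := fun e => hkj (σ.injective (e.trans hji.symm))
    have hlj : σ k ≠ j := fun e => hki (σ.injective (e.trans hj.symm))
    obtain ⟨T, hT, hBT, hTA⟩ := exists_four {i, j, k} {σ k}
      (le_trans Finset.card_le_three (by norm_num))
      (by rw [Finset.disjoint_singleton_right]; simp [hl, hli, hlj]) (by simp)
    have h1 := inv_of_mem σ h hj T hT (hBT (by simp)) (hBT (by simp)) k (hBT (by simp))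
    exact (Finset.disjoint_left.mp hTA h1) (Finset.mem_singleton_self _)
  have hσ' : σ = Equiv.swap i j := by
    refine Equiv.ext (fun x => ?_)
    by_cases hxi : x = i
    · rw [hxi, Equiv.swap_apply_left]; exact hj
    · by_cases hxj : x = j
      · rw [hxj, Equiv.swap_apply_right]; exact hji
      · rw [Equiv.swap_apply_of_ne_of_ne hxi hxj]; exact hfix x hxi hxj
  rw [Equiv.Perm.mem_alternatingGroup, hσ', Equiv.Perm.sign_swap hij] at hσ
  exact absurd hσ (by decide)

example : Cfsg.Agent.H6.Dc.StFaith := faith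

end Cfsg.Agent.H87.Dc
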