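import Cfsg.Agent.H6.DcDefs

/-!
# DC-MAIN (piece of helper6's team project S2132)
-/

set_option autoImplicit false

namespace Cfsg.Agent.H87.Dc

open Equiv Cfsg.Agent.H6.Dc

theorem main (hAct : StAct) (hFaith : StFaith) (hBCard : StBCard) (hGen : StGen)
    (hAbs : StAbs) : StMain := by
  intro C _ _ Y _ _ lam t g c1 c2 hY hlam hinj ht hcent htY hgg hc1 hc2 hcard
  have hcardBis : Fintype.card Bis = 35 := hBCard
  obtain ⟨hA1, hA2, hA3⟩ := hAct
  -- the action on Bis
  let bact : Perm (Fin 8) → Bis → Bis := fun σ S => ⟨bimg σ S.1, hA1 σ S⟩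
  have bact_one : ∀ S, bact 1 S = S := fun S => Subtype.ext (hA2 S)
  have bact_mul : ∀ σ τ S, bact (σ * τ) S = bact σ (bact τ S) :=
    fun σ τ S => Subtype.ext (hA3 σ τ S)
  let B : Perm (Fin 8) →* Perm Bis :=
    { toFun := fun σ => ⟨bact σ, bact σ⁻¹,
        fun S => by rw [← bact_mul, inv_mul_cancel, bact_one],
        fun S => by rw [← bact_mul, mul_inv_cancel, bact_one]⟩
      map_one' := Equiv.ext (fun S => bact_one S)
      map_mul' := fun σ τ => Equiv.ext (fun S => bact_mul σ τ S) }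
  have hB : ∀ σ S, (B σ S).1 = bimg σ S.1 := fun σ S => rfl
  -- e : Y ≃ Bis
  let lam' : Y → Bis := fun y => ⟨lam y, hlam y⟩
  have hlam'inj : Function.Injective lam' := fun y₁ y₂ h12 => hinj (congrArg Subtype.val h12)
  have hbij : Function.Bijective lam' := by
    rw [Fintype.bijective_iff_injective_and_card]
    exact ⟨hlam'inj, by rw [hY, hcardBis]⟩
  let e : Y ≃ Bis := Equiv.ofBijective lam' hbij
  have he : ∀ y, (e y).1 = lam y := fun y => rfl
  let βt : Perm (Fin 8) →* Perm Y :=
    { toFun := fun σ => (e.trans (B σ)).trans e.symm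
      map_one' := by
        refine Equiv.ext (fun y => ?_)
        simp
      map_mul' := fun σ τ => by
        refine Equiv.ext (fun y => ?_)
        simp }
  have hβt : ∀ σ y, βt σ y = e.symm (B σ (e y)) := fun σ y => rfl
  let ρ : C →* Perm Y := MulAction.toPermHom C Y
  have hρ : ∀ c y, ρ c y = c • y := fun c y => rfl
  have hgen : ∀ (a : Perm (Fin 8)) (c : C), (∀ y : Y, lam (c • y) = bimg a (lam y)) →
      βt a = ρ c := by
    intro a c hc
    refine Equiv.ext (fun y => ?_)
    rw [hβt, hρ, Equiv.symm_apply_eq]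
    apply Subtype.ext
    rw [hB, he, he]
    exact (hc y).symm
  let β : alternatingGroup (Fin 8) →* Perm Y := βt.comp (alternatingGroup (Fin 8)).subtype
  have hβ : ∀ a : alternatingGroup (Fin 8), β a = βt a.1 := fun a => rfl
  have hβinj : Function.Injective β := by
    rw [injective_iff_map_eq_one]
    intro a ha
    rw [hβ] at ha
    have h1 : ∀ S : Bis, bimg a.1 S.1 = S.1 := by
      intro S
      have h2 : βt a.1 (e.symm S) = e.symm S := by rw [ha]; rfl
      rw [hβt, Equiv.apply_symm_apply] at h2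
      have h5 := e.symm.injective h2
      rw [← hB]
      exact congrArg Subtype.val h5
    exact Subtype.ext (hFaith a.1 a.2 h1)
  have hrange : ∀ a, β a ∈ ρ.range := by
    have hH := hGen (ρ.range.comap βt)
      (by rw [Subgroup.mem_comap, hgen a1 c1 hc1]; exact ⟨c1, rfl⟩)
      (by rw [Subgroup.mem_comap, hgen a2 c2 hc2]; exact ⟨c2, rfl⟩)
    intro a
    exact hH a.2
  have hρt : ρ t = 1 := Equiv.ext (fun y => htY y)
  exact hAbs C Y ρ β t g hβinj hrange ht hcent hρt hgg hcard

example (hAct : Cfsg.Agent.H6.Dc.StAct) (hFaith : Cfsg.Agent.H6.Dc.StFaith)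
    (hBCard : Cfsg.Agent.H6.Dc.StBCard) (hGen : Cfsg.Agent.H6.Dc.StGen)
    (hAbs : Cfsg.Agent.H6.Dc.StAbs) : Cfsg.Agent.H6.Dc.StMain :=
  main hAct hFaith hBCard hGen hAbs

end Cfsg.Agent.H87.Dc
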