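import Mathlib
import Cfsg.Agent.H59.Fx2Defs

/-!
# FX-NORMAL (helper87, for helper59's S3390 project)
-/

set_option autoImplicit false

namespace Cfsg.Agent.H87.Fx2

open Cfsg.Agent.H59.Fx2

universe u v

theorem normal : StNormal.{u, v} := by
  intro G _ _ Ω _ _ S α β h hT
  classical
  haveI : Fact (Nat.Prime 2) := ⟨Nat.prime_two⟩
  have hN_mul : ∀ s ∈ S, ∀ s' ∈ S, (s • α = α ∨ s • α = β) → (s' • α = α ∨ s' • α = β) →
      ((s * s') • α = α ∨ (s * s') • α = β) := by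
    intro s hs s' hs' h1 h2
    rw [mul_smul]
    rcases h2 with h2 | h2
    · rw [h2]; exact h1
    · rw [h2]
      rcases h1 with h1 | h1
      · right; exact h.fixβ hs h1
      · left; exact h.swapβ hs h1
  have hN_inv : ∀ s ∈ S, (s • α = α ∨ s • α = β) → (s⁻¹ • α = α ∨ s⁻¹ • α = β) := by
    intro s hs h1
    rcases h1 with h1 | h1
    · left; rw [inv_smul_eq_iff, h1]
    · right; rw [inv_smul_eq_iff, h.swapβ hs h1]
  let N : Subgroup ↥S :=
    { carrier := {s | (s : G) • α = α ∨ (s : G) • α = β}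
      mul_mem' := fun {a b} ha hb => hN_mul a.1 a.2 b.1 b.2 ha hb
      one_mem' := Or.inl (one_smul _ _)
      inv_mem' := fun {a} ha => hN_inv a.1 a.2 ha }
  have hNmem : ∀ s : ↥S, s ∈ N ↔ ((s : G) • α = α ∨ (s : G) • α = β) := fun s => Iff.rfl
  by_contra hcon
  have hlt : N < ⊤ := by
    rw [lt_top_iff_ne_top]
    intro htop
    apply hcon
    intro s hs
    have h1 : (⟨s, hs⟩ : ↥S) ∈ N := htop ▸ Subgroup.mem_top _
    exact h1
  haveI : Group.IsNilpotent ↥S := IsPGroup.isNilpotent h.pg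
  have hnc := Group.normalizerCondition_of_isNilpotent (G := ↥S)
  have hlt2 := hnc N hlt
  obtain ⟨s, hsn, hsN⟩ := SetLike.exists_of_lt hlt2
  have hsn' : ∀ n, n ∈ N ↔ s * n * s⁻¹ ∈ N := Subgroup.mem_normalizer_iff.mp hsn
  have hA : ∀ t ∈ S, t ≠ 1 → t • α = α → ((s : G) * t * (s : G)⁻¹) • α ≠ α := by
    intro t htS ht1 htα hfix
    apply hsN
    have h1 : t • ((s : G)⁻¹ • α) = (s : G)⁻¹ • α := by
      have h0 : (s : G)⁻¹ • (((s : G) * t * (s : G)⁻¹) • α) = (s : G)⁻¹ • α := by rw [hfix]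
      rw [mul_smul, mul_smul, inv_smul_smul] at h0
      exact h0
    have h2 := h.fixT t htS ht1 htα _ h1
    have h3 : s⁻¹ ∈ N := (hNmem _).mpr (by simpa using h2)
    have h4 := N.inv_mem h3
    rwa [inv_inv] at h4
  have hB : ∀ t ∈ S, t ≠ 1 → t • α = α → ((s : G) * t * (s : G)⁻¹) • α = β := by
    intro t htS ht1 htα
    have hmem : (⟨t, htS⟩ : ↥S) ∈ N := Or.inl htα
    have h1 := (hsn' _).mp hmem
    rcases h1 with h1 | h1
    · exact absurd h1 (hA t htS ht1 htα)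
    · exact h1
  obtain ⟨t₁, ht₁S, ht₁1, ht₁α, -⟩ := h.exT
  have hex : ∃ t₂ ∈ S, t₂ • α = α ∧ t₂ ≠ 1 ∧ t₂ ≠ t₁ := by
    by_contra hno
    push_neg at hno
    have hsub : ((S ⊓ MulAction.stabilizer G α : Subgroup G) : Set G) ⊆ {1, t₁} := by
      intro x hx
      by_cases hx1 : x = 1
      · left; exact hx1
      · right; exact hno x hx.1 hx.2 hx1
    have hc : Nat.card ↥(S ⊓ MulAction.stabilizer G α) ≤ 2 := by
      have h1 : Nat.card ↥(S ⊓ MulAction.stabilizer G α)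
          = ((S ⊓ MulAction.stabilizer G α : Subgroup G) : Set G).ncard := Nat.card_coe_set_eq _
      rw [h1]
      calc ((S ⊓ MulAction.stabilizer G α : Subgroup G) : Set G).ncard
          ≤ ({1, t₁} : Set G).ncard := Set.ncard_le_ncard hsub (Set.toFinite _)
        _ ≤ ({t₁} : Set G).ncard + 1 := Set.ncard_insert_le _ _
        _ = 2 := by rw [Set.ncard_singleton]
    omega
  obtain ⟨t₂, ht₂S, ht₂α, ht₂1, ht₂ne⟩ := hex
  have h1 := hB t₁ ht₁S ht₁1 ht₁α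
  have h2 := hB t₂ ht₂S ht₂1 ht₂α
  have ht : t₁⁻¹ * t₂ ≠ 1 := by
    intro h3
    apply ht₂ne
    exact (inv_mul_eq_one.mp h3).symm
  have htα : (t₁⁻¹ * t₂) • α = α := by
    rw [mul_smul, ht₂α, inv_smul_eq_iff, ht₁α]
  have h3 := hB _ (S.mul_mem (S.inv_mem ht₁S) ht₂S) ht htα
  have h4 : (s : G) * (t₁⁻¹ * t₂) * (s : G)⁻¹
      = ((s : G) * t₁ * (s : G)⁻¹)⁻¹ * ((s : G) * t₂ * (s : G)⁻¹) := by group
  have h5 : (((s : G) * t₁ * (s : G)⁻¹)⁻¹ * ((s : G) * t₂ * (s : G)⁻¹)) • α = α := by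
    rw [mul_smul, h2, inv_smul_eq_iff, h1]
  rw [h4, h5] at h3
  exact h.ne h3.symm

example : Cfsg.Agent.H59.Fx2.StNormal.{u, v} := Cfsg.Agent.H87.Fx2.normal

end Cfsg.Agent.H87.Fx2
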