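import Mathlib
import Cfsg.Agent.H59.Fx2Defs

/-!
# FX-OMEGA (helper87, for helper59's S3390 project)
-/

set_option autoImplicit false

namespace Cfsg.Agent.H87.Fx2

open Cfsg.Agent.H59.Fx2

universe u v

theorem omega : StOmega.{u, v} := by
  intro G _ _ Ω _ _ S α β h hI hF
  classical
  haveI : Fact (Nat.Prime 2) := ⟨Nat.prime_two⟩
  unfold Free at hF
  push_neg at hF
  obtain ⟨ω, hωα, hωβ, y, hyS, hyω, hy1⟩ := hF
  have hyα : y • α = β := by
    rcases hI y hyS with h1 | h1
    · exfalso
      rcases h.fixT y hyS hy1 h1 ω hyω with h2 | h2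
      · exact hωα h2
      · exact hωβ h2
    · exact h1
  have hyβ : y • β = α := h.swapβ hyS hyα
  have hyy : y * y = 1 := by
    by_contra hne
    have h1 : (y * y) • α = α := by rw [mul_smul, hyα, hyβ]
    have h2 : (y * y) • ω = ω := by rw [mul_smul, hyω, hyω]
    rcases h.fixT (y * y) (S.mul_mem hyS hyS) hne h1 ω h2 with h3 | h3
    · exact hωα h3
    · exact hωβ h3
  have hyinv : y⁻¹ = y := inv_eq_of_mul_eq_one_left hyy
  have hmove : ∀ c ∈ S, c ≠ 1 → c • α = α → c • ω ≠ ω := by
    intro c hcS hc1 hcα hcω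
    rcases h.fixT c hcS hc1 hcα ω hcω with h3 | h3
    · exact hωα h3
    · exact hωβ h3
  let T : Subgroup G := S ⊓ MulAction.stabilizer G α
  have hconj : ∀ t : ↥T, y * t.1 * y⁻¹ ∈ T := by
    intro t
    refine ⟨S.mul_mem (S.mul_mem hyS t.2.1) (S.inv_mem hyS), ?_⟩
    show (y * t.1 * y⁻¹) • α = α
    have ht : t.1 • α = α := t.2.2
    rw [mul_smul, mul_smul, hyinv, hyα, h.fixβ t.2.1 ht, hyβ]
  let f : ↥T → ↥T := fun t => ⟨y * t.1 * y⁻¹, hconj t⟩
  have hf : Function.Involutive f := by
    intro t
    apply Subtype.ext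
    show y * (y * t.1 * y⁻¹) * y⁻¹ = t.1
    rw [hyinv]
    calc y * (y * t.1 * y) * y = (y * y) * t.1 * (y * y) := by group
      _ = t.1 := by rw [hyy, one_mul, mul_one]
  let σ : Equiv.Perm ↥T := hf.toPerm f
  have hσ : σ ^ 2 ^ 1 = 1 := by
    rw [pow_one, sq]
    ext t
    exact congrArg Subtype.val (hf t)
  haveI : Fintype ↥T := Fintype.ofFinite _
  have hT2 : 2 ∣ Fintype.card ↥T := by
    have hpT : IsPGroup 2 ↥T := h.pg.to_le inf_le_left
    rcases hpT.card_eq_or_dvd with h1 | h1
    · exfalso
      exact h.nt (Subgroup.eq_bot_of_card_eq _ h1)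
    · rwa [Nat.card_eq_fintype_card] at h1
  have hσ1 : σ 1 = 1 := by
    apply Subtype.ext
    show y * 1 * y⁻¹ = 1
    group
  obtain ⟨c, hc, hc1⟩ := Equiv.Perm.exists_fixed_point_of_prime' hT2 hσ hσ1
  have hcS : c.1 ∈ S := c.2.1
  have hcα : c.1 • α = α := c.2.2
  have hcne : c.1 ≠ 1 := fun h0 => hc1 (Subtype.ext h0)
  have hcy : y * c.1 = c.1 * y := by
    have h0 : y * c.1 * y⁻¹ = c.1 := congrArg Subtype.val hc
    calc y * c.1 = (y * c.1 * y⁻¹) * y := by group
      _ = c.1 * y := by rw [h0]
  have huniq : ∀ c' ∈ S, c' • α = α → y * c' = c' * y → c' = 1 ∨ c' = c.1 := by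
    intro c' hc'S hc'α hc'y
    by_cases hc'1 : c' = 1
    · left; exact hc'1
    right
    have e1 : y • (c.1 • ω) = c.1 • ω := by rw [← mul_smul, hcy, mul_smul, hyω]
    have e2 : y • (c' • ω) = c' • ω := by rw [← mul_smul, hc'y, mul_smul, hyω]
    have e3 : ω ≠ c.1 • ω := fun h0 => hmove c.1 hcS hcne hcα h0.symm
    rcases fix_three (h.fix2 y hy1) e3 hyω e1 e2 with h3 | h3
    · exact absurd h3 (hmove c' hc'S hc'1 hc'α)
    · by_contra hne
      have h4 : (c.1⁻¹ * c') • ω = ω := by rw [mul_smul, h3, inv_smul_smul]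
      have h5 : (c.1⁻¹ * c') • α = α := by rw [mul_smul, hc'α, inv_smul_eq_iff, hcα]
      have h6 : c.1⁻¹ * c' ≠ 1 := fun h0 => hne (inv_mul_eq_one.mp h0).symm
      exact hmove _ (S.mul_mem (S.inv_mem hcS) hc'S) h6 h5 h4
  let y' : ↥S := ⟨y, hyS⟩
  let c' : ↥S := ⟨c.1, hcS⟩
  refine ⟨y', ?_, hyα, ?_⟩
  · apply orderOf_eq_prime
    · apply Subtype.ext
      show y ^ 2 = 1
      rw [sq, hyy]
    · intro h0
      exact hy1 (congrArg Subtype.val h0)
  · have hset : ((Subgroup.centralizer ({y'} : Set ↥S) : Subgroup ↥S) : Set ↥S)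
        = {1, c', y', y' * c'} := by
      ext s
      simp only [SetLike.mem_coe, Subgroup.mem_centralizer_iff, Set.mem_singleton_iff, forall_eq,
        Set.mem_insert_iff]
      constructor
      · intro hs
        have hs' : y * s.1 = s.1 * y := congrArg Subtype.val hs
        rcases hI s.1 s.2 with h1 | h1
        · rcases huniq s.1 s.2 h1 hs' with h2 | h2
          · left; exact Subtype.ext h2
          · right; left; exact Subtype.ext h2
        · have h2 : (y * s.1) • α = α := by rw [mul_smul, h1, hyβ]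
          have h3 : y * (y * s.1) = (y * s.1) * y := by rw [mul_assoc, hs']
          rcases huniq (y * s.1) (S.mul_mem hyS s.2) h2 h3 with h4 | h4
          · right; right; left
            apply Subtype.ext
            show s.1 = y
            rw [← hyinv]; exact eq_inv_of_mul_eq_one_right h4
          · right; right; right
            apply Subtype.ext
            show s.1 = y * c.1
            calc s.1 = (y * y) * s.1 := by rw [hyy, one_mul]
              _ = y * (y * s.1) := by group
              _ = y * c.1 := by rw [h4]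
      · rintro (rfl | rfl | rfl | rfl)
        · simp
        · exact Subtype.ext hcy
        · rfl
        · apply Subtype.ext
          show y * (y * c.1) = (y * c.1) * y
          rw [mul_assoc, hcy]
    have hcard : Nat.card ↥(Subgroup.centralizer ({y'} : Set ↥S))
        = ((Subgroup.centralizer ({y'} : Set ↥S) : Subgroup ↥S) : Set ↥S).ncard :=
      Nat.card_coe_set_eq _
    rw [hcard, hset]
    have d1 : (1 : ↥S) ∉ ({c', y', y' * c'} : Set ↥S) := by
      simp only [Set.mem_insert_iff, Set.mem_singleton_iff, not_or]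
      refine ⟨?_, ?_, ?_⟩
      · intro h0; exact hcne (congrArg Subtype.val h0).symm
      · intro h0; exact hy1 (congrArg Subtype.val h0).symm
      · intro h0
        have h1 : y * c.1 = 1 := (congrArg Subtype.val h0).symm
        have h2 : (y * c.1) • α = β := by rw [mul_smul, hcα, hyα]
        rw [h1, one_smul] at h2
        exact h.ne h2.symm
    have d2 : c' ∉ ({y', y' * c'} : Set ↥S) := by
      simp only [Set.mem_insert_iff, Set.mem_singleton_iff, not_or]
      refine ⟨?_, ?_⟩
      · intro h0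
        have h1 : c.1 = y := congrArg Subtype.val h0
        have h2 : y • α = α := h1 ▸ hcα
        exact h.ne (hyα.symm.trans h2)
      · intro h0
        have h1 : c.1 = y * c.1 := congrArg Subtype.val h0
        exact hy1 (right_eq_mul.mp h1)
    have d3 : y' ≠ y' * c' := by
      intro h0
      have h1 : y = y * c.1 := congrArg Subtype.val h0
      exact hcne (left_eq_mul.mp h1)
    rw [Set.ncard_insert_of_notMem d1, Set.ncard_insert_of_notMem d2, Set.ncard_pair d3]

example : Cfsg.Agent.H59.Fx2.StOmega.{u, v} := Cfsg.Agent.H87.Fx2.omega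

end Cfsg.Agent.H87.Fx2
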