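import Cfsg.Agent.H87.QSTransport

set_option autoImplicit false

/-!
The layer of a saturated fusion system is invariant under the automorphisms of the system.
-/

namespace Cfsg.Agent.H87

open Cfsg Cfsg.FusionSystem Cfsg.Agent.H86 Cfsg.Agent.H90

universe u₁

section

variable {Ω : Type u₁} [Group Ω] {S : Subgroup Ω}

theorem imageAlong_eq_trSub (α : S ≃* S) (P : Subgroup Ω) :
    imageAlong (S.subtype.comp α.toMonoidHom) P = trSub α P := by
  unfold imageAlong trSub
  exact (Subgroup.map_map _ _ _).symm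

/-- A morphism of fusion systems given by an automorphism of `S` pushes maps forward. -/
theorem mor_push_of_isMorphism {F : FusionSystem S} (α : S ≃* S)
    (hα : F.IsMorphism F (S.subtype.comp α.toMonoidHom)) {P : Subgroup Ω} {f : Ω → Ω}
    (hf : Mor F P f) : Mor F (trSub α P) (jF α ∘ f ∘ jF α.symm) := by
  obtain ⟨φ, hφ, hφf⟩ := hf
  obtain ⟨φ', hφ', hP, hφS, hP', hind⟩ := hα.2 P φ hφ
  have hm : Mor F (imageAlong (S.subtype.comp α.toMonoidHom) P) (jF α ∘ f ∘ jF α.symm) := by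
    refine (mor_extFun hφ').congr (fun y hy => ?_)
    obtain ⟨s, hs, rfl⟩ := hy
    have hsP : (s : Ω) ∈ P := Subgroup.mem_subgroupOf.1 hs
    rw [extFun_of_mem _ φ' ⟨s, hs, rfl⟩]
    have h1 := hind ⟨s, hsP⟩
    have e1 : (S.subtype.comp α.toMonoidHom) s = jF α (s : Ω) := by
      rw [jF_of_mem α s.2]
      rfl
    have e3 : jF α (f (jF α.symm ((S.subtype.comp α.toMonoidHom) s))) =
        (S.subtype.comp α.toMonoidHom) ⟨φ ⟨s, hsP⟩, hφS ⟨s, hsP⟩⟩ := by
      rw [e1, jF_symm_jF α s.2, ← hφf ⟨s, hsP⟩, jF_of_mem α (hφS ⟨s, hsP⟩)]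
      rfl
    exact h1.trans e3.symm
  rwa [imageAlong_eq_trSub] at hm

/-- An automorphism of `S` that, with its inverse, is a morphism of `F` is an isomorphism of
fusion systems from `F` to itself. -/
theorem fusIso_of_isMorphism {F : FusionSystem S} (α : S ≃* S)
    (hα : F.IsMorphism F (S.subtype.comp α.toMonoidHom))
    (hα' : F.IsMorphism F (S.subtype.comp α.symm.toMonoidHom)) : FusIso F F α :=
  fusIso_of_mor_both (fun _ _ hf => mor_push_of_isMorphism α hα hf)
    (fun _ _ hf => mor_push_of_isMorphism α.symm hα' hf)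

/-- The layer is contained in its image under an automorphism of the system. -/
theorem layer_invariant [Finite S] {p : ℕ} [Fact p.Prime] {F : FusionSystem S}
    (hF : F.IsSaturated p) (α : S ≃* S) (h : FusIso F F α) {T : Subgroup Ω} (E : FusionSystem T)
    (hE : E.IsLayerOf F p) :
    T ≤ trSub α T ∧ ∀ (P : Subgroup Ω) (f : Ω → Ω), Mor E P f →
      Mor E (trSub α.symm P) (jF α.symm ∘ f ∘ jF α) := by
  obtain ⟨hEn, hcomp, hmin⟩ := hE
  have hT : T ≤ S := hEn.1.2.2.2.1.1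
  obtain ⟨T₂, hT₂, E₂, hE₂⟩ := exists_sysIso_pull α.symm hT E
  have hE₂n : E₂.IsNormalIn F p := hE₂.normalIn h.symm hF hT₂ hEn
  have hcomp₂ : ∀ (U : Subgroup Ω) (C : FusionSystem U), C.IsComponentIn F p →
      C.IsSubsystemOf E₂ := by
    rintro U C ⟨hCsub, hCqs⟩
    have hU : U ≤ S := Cfsg.Agent.H88.subnormal_le hCsub
    obtain ⟨U₂, hU₂, C₂, hC₂⟩ := exists_sysIso_pull α hU C
    have hC₂sub : C₂.IsSubnormalIn F p :=
      subnormal_of_sysIso hCsub inferInstance F α h hF C₂ hU₂ hC₂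
    have hC₂qs : C₂.Quasisimple p := by
      obtain ⟨rfl, hC₂'⟩ := hC₂
      have hiso : FusIso C₂ C (eSub α hU₂) := SysIso.fusIso_eSub hU₂ ⟨rfl, hC₂'⟩
      haveI : Finite (trSub α U₂) := finite_of_le hU
      exact hiso.symm.quasisimple hCqs
    have hC₂E : C₂.IsSubsystemOf E := hcomp U₂ C₂ ⟨hC₂sub, hC₂qs⟩
    intro P φ hφ
    have hm := mor_extFun hφ
    have hPS : P ≤ S := hm.le.trans hU
    have h1 := (hC₂.symm hU₂).mor hm
    have h2 : Mor E (trSub α.symm P) (jF α.symm ∘ extFun P φ ∘ jF α) := mor_of_subsystem hC₂E h1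
    have hP : P ≤ T₂ := by
      rw [← trSub_le_trSub_iff α.symm hPS hT₂, hE₂.1]
      exact h2.le
    have hfT₂ : ∀ x ∈ P, extFun P φ x ∈ T₂ := by
      intro x hx
      have hxS : x ∈ S := hPS hx
      have h3 := h2.mem (jF_mem_trSub α.symm hxS hx)
      have h4 : (jF α.symm ∘ extFun P φ ∘ jF α) (jF α.symm x) = jF α.symm (extFun P φ x) := by
        show jF α.symm (extFun P φ (jF α (jF α.symm x))) = _
        rw [jF_jF_symm α hxS]
      rw [h4, ← hE₂.1] at h3
      have h5 := jF_symm_mem α.symm hT₂ h3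
      have hfxS : extFun P φ x ∈ S := hU (hm.mem hx)
      have h6 : jF α.symm.symm (jF α.symm (extFun P φ x)) = extFun P φ x := jF_jF_symm α hfxS
      rwa [h6] at h5
    exact hom_of_mor_extFun ((hE₂.2 P _ hP hfT₂).2 h2)
  have hsub : E.IsSubsystemOf E₂ := hmin T₂ E₂ hE₂n hcomp₂
  have hTT₂ : T ≤ T₂ := (mor_of_subsystem hsub (Mor.id E le_rfl)).le
  have hT₂eq : trSub α T = T₂ := by
    rw [← hE₂.1]
    exact trSub_trSub_symm α hT₂
  refine ⟨by rw [hT₂eq]; exact hTT₂, fun P f hf => ?_⟩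
  exact hE₂.mor (mor_of_subsystem hsub hf)

/-- The layer is a characteristic subsystem. -/
theorem layer_characteristic [Finite S] (p : ℕ) [Fact p.Prime] (F : FusionSystem S)
    (hF : F.IsSaturated p) (α : S ≃* S) (hα : F.IsMorphism F (S.subtype.comp α.toMonoidHom))
    (hα' : F.IsMorphism F (S.subtype.comp α.symm.toMonoidHom)) {T : Subgroup Ω}
    (E : FusionSystem T) (hE : E.IsLayerOf F p) :
    imageAlong (S.subtype.comp α.toMonoidHom) T = T ∧
      ∀ (P : Subgroup Ω) (φ : P →* Ω), φ ∈ E.Hom P →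
        ∀ φ' : ↥(imageAlong (S.subtype.comp α.toMonoidHom) P) →* Ω,
          InducedAlong (S.subtype.comp α.toMonoidHom) φ φ' →
            φ' ∈ E.Hom (imageAlong (S.subtype.comp α.toMonoidHom) P) := by
  have h : FusIso F F α := fusIso_of_isMorphism α hα hα'
  have hT : T ≤ S := hE.1.1.2.2.2.1.1
  obtain ⟨h1, -⟩ := layer_invariant hF α h E hE
  obtain ⟨-, h2⟩ := layer_invariant hF α.symm h.symm E hE
  constructor
  · rw [imageAlong_eq_trSub]
    haveI : Finite (trSub α T) := finite_of_le (trSub_le α T)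
    have hcard : Nat.card (trSub α T) = Nat.card T := (Nat.card_congr (eSub α hT).toEquiv).symm
    exact (Subgroup.eq_of_le_of_card_ge h1 hcard.le).symm
  · intro P φ hφ φ' hind
    have hm := mor_extFun hφ
    have h3 : Mor E (trSub α P) (jF α ∘ extFun P φ ∘ jF α.symm) := h2 P _ hm
    have key : ∀ (Q : Subgroup Ω) (_ : Q = trSub α P) (ψ' : Q →* Ω),
        (∀ y : Q, ψ' y = (jF α ∘ extFun P φ ∘ jF α.symm) y) → ψ' ∈ E.Hom Q := by
      intro Q hQ ψ' hψ'
      subst hQ
      obtain ⟨ψ, hψ, hψf⟩ := h3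
      have : ψ = ψ' := by
        ext y
        rw [hψf, hψ']
      rwa [this] at hψ
    apply key _ (imageAlong_eq_trSub α P) φ'
    intro y
    obtain ⟨hP, hφS, hP', hi⟩ := hind
    obtain ⟨s, hs, hsy⟩ := y.2
    have hsP : (s : Ω) ∈ P := Subgroup.mem_subgroupOf.1 hs
    have h4 := hi ⟨s, hsP⟩
    have e1 : (y : Ω) = jF α (s : Ω) := by
      rw [← hsy, jF_of_mem α s.2]
      rfl
    have e2 : y = ⟨(S.subtype.comp α.toMonoidHom) ⟨(s : Ω), hP hsP⟩, hP' ⟨s, hsP⟩⟩ :=
      Subtype.ext hsy.symm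
    show φ' y = jF α (extFun P φ (jF α.symm (y : Ω)))
    rw [e1, jF_symm_jF α s.2, extFun_of_mem P φ hsP, jF_of_mem α (hφS ⟨s, hsP⟩), e2]
    exact h4

end

end Cfsg.Agent.H87
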