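import Cfsg.Agent.H43.MCDefs

/-!
# S3905-BETACL (piece of helper43's team project)
-/

set_option autoImplicit false

namespace Cfsg.Agent.H87.MC

open Cfsg.Agent.H43.MC

universe u

theorem coatom_eq_of_le {G : Type u} [Group G] {A B : Subgroup G} (hA : IsCoatom A)
    (hB : IsCoatom B) (hAB : A ≤ B) : A = B := by
  rcases eq_or_lt_of_le hAB with h | h
  · exact h
  · exact absurd (hA.2 _ h) hB.1

theorem commute_of_mem_cent {G : Type u} [Group G] {x g : G}
    (h : g ∈ Subgroup.centralizer ({x} : Set G)) : Commute g x :=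
  mem_cent_singleton.mp h

theorem mem_cent_of_commute {G : Type u} [Group G] {x g : G}
    (h : Commute g x) : g ∈ Subgroup.centralizer ({x} : Set G) :=
  mem_cent_singleton.mpr h

theorem betaCL (hS : StSplit.{u}) : StBetaCL.{u} := by
  intro G _ _ N _ h p x y hce c hcN hcx hcZ
  obtain ⟨hp, hxN, hxZ, ⟨k, hxo⟩, hyN, hyZ, hxy, hyo⟩ := hce
  have hcoX := h x hxN hxZ
  have hcoY := h y hyN hyZ
  have hcoC := h c hcN hcZ
  have hcop : (orderOf x).Coprime (orderOf y) := by
    rw [hxo]; exact Nat.Coprime.pow_left k hyo.symm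
  have hXY : Subgroup.centralizer ({x} : Set G) = Subgroup.centralizer ({y} : Set G) :=
    coatom_eq_of_le hcoX hcoY (lemK h hxN hxZ hyN hxy hcop)
  have hcy : Commute c y := by
    have : c ∈ Subgroup.centralizer ({y} : Set G) := by
      rw [← hXY]; exact mem_cent_of_commute hcx
    exact commute_of_mem_cent this
  obtain ⟨a, b, hab, ⟨j, hao⟩, hbo⟩ := hS G p hp c
  have haN : c ^ a ∈ N := N.pow_mem hcN a
  have hbN : c ^ b ∈ N := N.pow_mem hcN b
  have hax : Commute (c ^ a) x := hcx.pow_left a
  have hbx : Commute (c ^ b) x := hcx.pow_left b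
  have hay : Commute (c ^ a) y := hcy.pow_left a
  have hby : Commute (c ^ b) y := hcy.pow_left b
  have habc : Commute (c ^ a) (c ^ b) := (Commute.refl c).pow_pow a b
  have hcopab : (orderOf (c ^ a)).Coprime (orderOf (c ^ b)) := by
    rw [hao]; exact Nat.Coprime.pow_left j hbo.symm
  -- the key inclusion
  have key : ∀ M : Subgroup G, M ≤ Subgroup.centralizer ({c ^ a} : Set G) →
      M ≤ Subgroup.centralizer ({c ^ b} : Set G) → M ≤ Subgroup.centralizer ({c} : Set G) := by
    intro M h1 h2 g hg
    have ha' : Commute g (c ^ a) := commute_of_mem_cent (h1 hg)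
    have hb' : Commute g (c ^ b) := commute_of_mem_cent (h2 hg)
    apply mem_cent_of_commute
    rw [hab]
    exact ha'.mul_right hb'
  have hor : c ^ a ∉ Subgroup.centralizer (N : Set G) ∨
      c ^ b ∉ Subgroup.centralizer (N : Set G) := by
    by_contra hcon
    push_neg at hcon
    apply hcZ
    rw [hab]
    exact Subgroup.mul_mem _ hcon.1 hcon.2
  rcases hor with haZ | hbZ
  · have hcoA := h (c ^ a) haN haZ
    have hcopay : (orderOf (c ^ a)).Coprime (orderOf y) := by
      rw [hao]; exact Nat.Coprime.pow_left j hyo.symm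
    have h1 : Subgroup.centralizer ({c ^ a} : Set G) = Subgroup.centralizer ({y} : Set G) :=
      coatom_eq_of_le hcoA hcoY (lemK h haN haZ hyN hay hcopay)
    have h2 : Subgroup.centralizer ({c ^ a} : Set G) ≤ Subgroup.centralizer ({c ^ b} : Set G) :=
      lemK h haN haZ hbN habc hcopab
    have h3 : Subgroup.centralizer ({x} : Set G) ≤ Subgroup.centralizer ({c} : Set G) := by
      apply key
      · rw [h1, hXY]
      · rw [hXY, ← h1]; exact h2
    exact (coatom_eq_of_le hcoX hcoC h3).symm
  · have hcoB := h (c ^ b) hbN hbZ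
    have hcopbx : (orderOf (c ^ b)).Coprime (orderOf x) := by
      rw [hxo]; exact Nat.Coprime.pow_right k hbo
    have h1 : Subgroup.centralizer ({c ^ b} : Set G) = Subgroup.centralizer ({x} : Set G) :=
      coatom_eq_of_le hcoB hcoX (lemK h hbN hbZ hxN hbx hcopbx)
    have h2 : Subgroup.centralizer ({c ^ b} : Set G) ≤ Subgroup.centralizer ({c ^ a} : Set G) :=
      lemK h hbN hbZ haN habc.symm hcopab.symm
    have h3 : Subgroup.centralizer ({x} : Set G) ≤ Subgroup.centralizer ({c} : Set G) := by
      apply key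
      · rw [← h1]; exact h2
      · rw [h1]
    exact (coatom_eq_of_le hcoX hcoC h3).symm

example (hS : StSplit.{u}) : StBetaCL.{u} := betaCL hS

end Cfsg.Agent.H87.MC
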