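import Cfsg.Agent.H43.MCDefs

/-!
# S3905-BETAN (piece of helper43's team project)
-/

set_option autoImplicit false

namespace Cfsg.Agent.H87.MC

open Cfsg.Agent.H43.MC

universe u

/-- `ZN N` is invariant under conjugation when `N` is normal. -/
theorem conj_mem_ZN {G : Type u} [Group G] {N : Subgroup G} [N.Normal] {z : G}
    (hz : z ∈ ZN N) (g : G) : g * z * g⁻¹ ∈ ZN N := by
  rw [mem_ZN] at hz ⊢
  obtain ⟨hzN, hzC⟩ := hz
  refine ⟨‹N.Normal›.conj_mem z hzN g, ?_⟩
  rw [mem_cent_set] at hzC ⊢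
  intro n hn
  have h1 : g⁻¹ * n * g ∈ N := by
    have := ‹N.Normal›.conj_mem n hn g⁻¹
    simpa using this
  have h2 := hzC _ h1
  calc n * (g * z * g⁻¹) = g * ((g⁻¹ * n * g) * z) * g⁻¹ := by group
    _ = g * (z * (g⁻¹ * n * g)) * g⁻¹ := by rw [h2]
    _ = g * z * g⁻¹ * n := by group

/-- A `p'`-element with a `p`-power power in a subgroup lies in it. -/
theorem mem_of_pow_mem_of_coprime {G : Type u} [Group G] (K : Subgroup G) {y : G} {p j : ℕ}
    (hcop : (orderOf y).Coprime p) (hy : y ^ (p ^ j) ∈ K) : y ∈ K := by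
  by_cases h0 : orderOf y = 0
  · rw [h0] at hcop
    have hp1 : p = 1 := by simpa using hcop
    subst hp1
    simpa using hy
  by_cases h1 : orderOf y = 1
  · rw [orderOf_eq_one_iff] at h1
    rw [h1]; exact K.one_mem
  have hlt : 1 < orderOf y := by omega
  obtain ⟨m, -, hm⟩ := Nat.exists_mul_mod_eq_one_of_coprime
    (Nat.Coprime.pow_right j hcop).symm hlt
  have hxm : (y ^ (p ^ j)) ^ m = y := by
    rw [← pow_mul, ← pow_mod_orderOf, hm, pow_one]
  rw [← hxm]
  exact K.pow_mem hy m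

theorem betaN (hCL : StBetaCL.{u}) : StBetaN.{u} := by
  intro G _ _ N _ h p x y hce hM
  have hCLx := hCL G N h p x y hce
  obtain ⟨hp, hxN, hxZ, ⟨k, hxo⟩, hyN, hyZ, hxy, hyo⟩ := hce
  -- C is abelian
  have hCab : ∀ c ∈ N, Commute c x → ∀ d ∈ N, Commute d x → Commute c d := by
    intro c hcN hcx d hdN hdx
    by_cases hcZ : c ∈ Subgroup.centralizer (N : Set G)
    · rw [mem_cent_set] at hcZ
      exact (hcZ d hdN).symm
    · have heq := hCLx c hcN hcx hcZ
      have hd : d ∈ Subgroup.centralizer ({c} : Set G) := by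
        rw [heq]; exact mem_cent_singleton.mpr hdx
      exact (mem_cent_singleton.mp hd).symm
  -- pick t
  have hex : ∃ t ∈ N, ¬ Commute t x := by
    by_contra hcon
    push_neg at hcon
    apply hxZ
    rw [mem_cent_set]
    intro n hn
    exact hcon n hn
  obtain ⟨t, htN, htx⟩ := hex
  have htZ : t ∉ Subgroup.centralizer (N : Set G) := by
    intro hc
    rw [mem_cent_set] at hc
    exact htx (hc x hxN).symm
  -- the subgroup Lp
  let Lp : Subgroup G :=
    { carrier := {c | c ∈ N ∧ Commute c x ∧ ∃ j : ℕ, c ^ (p ^ j) ∈ ZN N}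
      one_mem' := ⟨N.one_mem, Commute.one_left x, 0, by simpa using (ZN N).one_mem⟩
      mul_mem' := by
        rintro c d ⟨hcN, hcx, j, hcj⟩ ⟨hdN, hdx, i, hdi⟩
        refine ⟨N.mul_mem hcN hdN, hcx.mul_left hdx, j + i, ?_⟩
        have hcd : Commute c d := hCab c hcN hcx d hdN hdx
        rw [hcd.mul_pow]
        refine (ZN N).mul_mem ?_ ?_
        · rw [pow_add, pow_mul]; exact (ZN N).pow_mem hcj _
        · rw [pow_add, mul_comm, pow_mul]; exact (ZN N).pow_mem hdi _
      inv_mem' := by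
        rintro c ⟨hcN, hcx, j, hcj⟩
        refine ⟨N.inv_mem hcN, hcx.inv_left, j, ?_⟩
        rw [inv_pow]; exact (ZN N).inv_mem hcj }
  have hLpN : Lp ≤ N := fun c hc => hc.1
  have hxLp : x ∈ Lp := by
    refine ⟨hxN, Commute.refl x, k, ?_⟩
    rw [← hxo, pow_orderOf_eq_one]; exact (ZN N).one_mem
  have hLpnorm : ∀ g : G, ∀ l ∈ Lp, g * l * g⁻¹ ∈ Lp := by
    rintro g l ⟨hlN, hlx, j, hlj⟩
    refine ⟨‹N.Normal›.conj_mem l hlN g, ?_, j, ?_⟩
    · have : g * l * g⁻¹ ∈ Subgroup.centralizer ({x} : Set G) :=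
        hM.conj_mem l (mem_cent_singleton.mpr hlx) g
      exact mem_cent_singleton.mp this
    · rw [conj_pow]; exact conj_mem_ZN hlj g
  rcases f6 h htN htZ Lp hLpN (fun m _ l hl => hLpnorm m l hl) with h1 | h2
  · have := h1 hxLp
    rw [mem_cent_singleton] at this
    exact htx this.symm
  · obtain ⟨l, hl, c, hcN, hct, hylc⟩ := h2 y hyN
    obtain ⟨hlN, hlx, j, hlj⟩ := hl
    have hc : c = l⁻¹ * y := by rw [hylc]; group
    have hcx : Commute c x := by
      rw [hc]; exact hlx.inv_left.mul_left hxy.symm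
    have hcZ : c ∈ Subgroup.centralizer (N : Set G) := by
      by_contra hcZ
      have heq := hCLx c hcN hcx hcZ
      have htc : t ∈ Subgroup.centralizer ({c} : Set G) := by
        rw [mem_cent_singleton]
        exact (mem_cent_singleton.mp hct).symm
      rw [heq] at htc
      exact htx (mem_cent_singleton.mp htc)
    have hlc : Commute l c := by
      rw [mem_cent_set] at hcZ
      exact hcZ l hlN
    have hyj : y ^ (p ^ j) ∈ Subgroup.centralizer (N : Set G) := by
      rw [hylc, hlc.mul_pow]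
      exact Subgroup.mul_mem _ hlj.2 (Subgroup.pow_mem _ hcZ _)
    exact hyZ (mem_of_pow_mem_of_coprime _ hyo hyj)

example (hCL : StBetaCL.{u}) : StBetaN.{u} := betaN hCL

end Cfsg.Agent.H87.MC
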