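import Cfsg.Agent.H87.PrimeIdx
import Cfsg.Agent.H87.CentricExt

set_option autoImplicit false

/-!
Towards Oliver's lemma on subsystems of index prime to `p` attached to a quotient of `Aut_F(T)`:
definitions and the algebra of maps of the form "an element of `K` after a map of `E`".
-/

namespace Cfsg.Agent.H87

open Cfsg Cfsg.FusionSystem Cfsg.Agent.H86

variable {Ω : Type*} [Group Ω] {S T : Subgroup Ω}

/-- The Frattini condition (over the same `S`) gives index prime to `p`. -/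
theorem primeToPIndex_of_frattini [Finite S] {p : ℕ} [Fact p.Prime] (hS : IsPGroup p S)
    {F : FusionSystem S} (hF : F.IsSaturated p) (E : FusionSystem S) (hEF : E.IsSubsystemOf F)
    (hfr : ∀ (P : Subgroup Ω) (f : Ω → Ω), Mor F P f →
      ∃ a f₀, Mor F S a ∧ imgS S a = S ∧ Mor E P f₀ ∧ ∀ x ∈ P, f x = a (f₀ x)) :
    E.HasPrimeToPIndexIn F p := by
  refine ⟨hEF, fun P hP => ?_⟩
  rw [MonoidHom.map_closure, Subgroup.closure_le]
  rintro _ ⟨α, ⟨k, hk⟩, rfl⟩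
  show (α : MulAut P) ∈ E.autGroup P
  haveI : Finite P := finite_of_le hP
  obtain ⟨Q', hPQ', hQ'n⟩ := exists_fullyNormalized_conj F hP
  obtain ⟨-, hQ'a⟩ := saturated_fullyNormalized hS hF hQ'n
  obtain ⟨f₁, hf₁, himg₁⟩ := isConj_iff.1 hPQ'
  have hUle : Subgroup.zpowers (α : MulAut P) ≤ F.autGroup P := (Subgroup.zpowers_le).2 α.2
  have hUp : IsPGroup p (Subgroup.zpowers (α : MulAut P)) := by
    apply IsPGroup.of_card (n := k)
    rw [Nat.card_zpowers, Subgroup.orderOf_coe, hk]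
  obtain ⟨f, hf, himg, hUf⟩ := exists_mor_rel hQ'a hf₁ himg₁ hUle hUp
  obtain ⟨g, hg, hrel⟩ := hUf _ (Subgroup.mem_zpowers _)
  obtain ⟨a, f₀, ha, haS, hf₀, hfa⟩ := hfr P f hf
  have hainv : Mor F S (invOn S a) := by
    have := ha.inv
    rwa [haS] at this
  have hg' : invOn S a g ∈ S := ha.invOn_mem (by rw [haS]; exact hg)
  refine mem_autGroup_of_rel hf₀ hg' (fun x hx => ?_)
  have hx' := autFun_mem (α : MulAut P) hx
  have h1 := hrel x hx
  rw [hfa x hx, hfa _ hx'] at h1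
  have hf₀x : f₀ x ∈ S := hf₀.mem hx
  have h2 : invOn S a (g * a (f₀ x) * g⁻¹) = invOn S a g * f₀ x * (invOn S a g)⁻¹ := by
    rw [hainv.map_mul (S.mul_mem hg (ha.mem hf₀x)) (S.inv_mem hg),
      hainv.map_mul hg (ha.mem hf₀x), hainv.map_inv hg, invOn_apply_of_mem ha hf₀x]
  rw [← h2, h1, invOn_apply_of_mem ha (hf₀.mem hx')]

/-- The data of Oliver's lemma: `E` saturated and invariant in the saturated system `F`, and a normal
subgroup `K` of `Aut_F(T)` containing `Aut_E(T)` with quotient of order prime to `p`. -/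
structure KCfg (p : ℕ) (F : FusionSystem S) (E : FusionSystem T) (K : Subgroup (MulAut T)) :
    Prop where
  satF : F.IsSaturated p
  satE : E.IsSaturated p
  sub : E.IsSubsystemOf F
  closed : F.StronglyClosed T
  autInv : AutInv E F
  frat : Frat E F
  le : K ≤ F.autGroup T
  conj : ∀ a ∈ F.autGroup T, ∀ k ∈ K, a * k * a⁻¹ ∈ K
  autE : E.autGroup T ≤ K
  root : ∀ a ∈ F.autGroup T, ∀ n : ℕ, a ^ (p ^ n) ∈ K → a ∈ K

/-- `f` on `W` is an element of `K` after a map of `E`. -/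
def KE (E : FusionSystem T) (K : Subgroup (MulAut T)) (W : Subgroup Ω) (f : Ω → Ω) : Prop :=
  ∃ k ∈ K, ∃ f₀, Mor E W f₀ ∧ ∀ x ∈ W, f x = autFun T k (f₀ x)

section

variable {p : ℕ} {F : FusionSystem S} {E : FusionSystem T} {K : Subgroup (MulAut T)}

theorem KCfg.leTS (h : KCfg p F E K) : T ≤ S := h.closed.1

theorem KCfg.morK (h : KCfg p F E K) {k : MulAut T} (hk : k ∈ K) : Mor F T (autFun T k) :=
  (mem_autGroup_iff h.leTS k).1 (h.le hk)

theorem KCfg.mapsT (h : KCfg p F E K) {R : Subgroup Ω} {f : Ω → Ω} (hR : R ≤ T) (hf : Mor F R f)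
    {x : Ω} (hx : x ∈ R) : f x ∈ T :=
  (stronglyClosed_iff.1 h.closed).2 R f hR hf x hx

theorem KE.congr {W : Subgroup Ω} {f g : Ω → Ω} (h : KE E K W f) (hfg : ∀ x ∈ W, f x = g x) :
    KE E K W g := by
  obtain ⟨k, hk, f₀, hf₀, hfk⟩ := h
  exact ⟨k, hk, f₀, hf₀, fun x hx => by rw [← hfg x hx]; exact hfk x hx⟩

theorem KE.restrict {W V : Subgroup Ω} {f : Ω → Ω} (h : KE E K W f) (hVW : V ≤ W) :
    KE E K V f := by
  obtain ⟨k, hk, f₀, hf₀, hfk⟩ := h
  exact ⟨k, hk, f₀, hf₀.restrict hVW, fun x hx => hfk x (hVW hx)⟩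

theorem ke_of_mor {W : Subgroup Ω} {f : Ω → Ω} (hf : Mor E W f) : KE E K W f :=
  ⟨1, K.one_mem, f, hf, fun x hx => (autFun_one (hf.mem hx)).symm⟩

theorem KE.comp (h : KCfg p F E K) {P Q : Subgroup Ω} {f g : Ω → Ω} (hf : KE E K P f)
    (hg : KE E K Q g) (hPQ : ∀ x ∈ P, f x ∈ Q) (hQT : Q ≤ T) : KE E K P (g ∘ f) := by
  obtain ⟨k₁, hk₁, f₀, hf₀, hfa⟩ := hf
  obtain ⟨k₂, hk₂, g₀, hg₀, hgb⟩ := hg
  have hainv : Mor F T (autFun T k₁⁻¹) := h.morK (K.inv_mem hk₁)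
  have hainvT : imgS T (autFun T k₁⁻¹) = T := imgS_autFun hainv
  obtain ⟨χ, hχ, hχeq⟩ := h.autInv Q g₀ (autFun T k₁⁻¹) hQT hg₀ hainv hainvT
  have hf₀T : ∀ x ∈ P, f₀ x ∈ T := fun x hx => hf₀.mem hx
  have haQ : ∀ x ∈ P, autFun T k₁ (f₀ x) ∈ Q := fun x hx => by
    rw [← hfa x hx]
    exact hPQ x hx
  have hmaps : ∀ x ∈ P, f₀ x ∈ imgS Q (autFun T k₁⁻¹) := by
    intro x hx
    have h2 : autFun T k₁⁻¹ (autFun T k₁ (f₀ x)) = f₀ x := autFun_inv_apply k₁ (hf₀T x hx)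
    rw [← h2]
    exact (hainv.restrict hQT).mem_imgS_of_mem (haQ x hx)
  refine ⟨k₂ * k₁, K.mul_mem hk₂ hk₁, χ ∘ f₀, hf₀.comp hχ hmaps, fun x hx => ?_⟩
  show g (f x) = autFun T (k₂ * k₁) (χ (f₀ x))
  have h1 := haQ x hx
  have h2 : autFun T k₁⁻¹ (autFun T k₁ (f₀ x)) = f₀ x := autFun_inv_apply k₁ (hf₀T x hx)
  have h3 := hχeq _ h1
  rw [h2] at h3
  have h4 : g₀ (autFun T k₁ (f₀ x)) ∈ T := hg₀.mem h1
  have h5 : χ (f₀ x) ∈ T := hχ.mem (hmaps x hx)
  rw [autFun_mul _ _ h5, h3, autFun_apply_inv k₁ h4, hfa x hx, hgb _ h1]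

theorem KE.inv (h : KCfg p F E K) {P : Subgroup Ω} {f : Ω → Ω} (hf : KE E K P f)
    (hfm : Mor F P f) : KE E K (imgS P f) (invOn P f) := by
  obtain ⟨k, hk, f₀, hf₀, hfa⟩ := hf
  have hPT : P ≤ T := hf₀.le
  have ha : Mor F T (autFun T k) := h.morK hk
  have haT : imgS T (autFun T k) = T := imgS_autFun ha
  obtain ⟨χ, hχ, hχeq⟩ := h.autInv (imgS P f₀) (invOn P f₀) (autFun T k) hf₀.imgS_le hf₀.inv ha haT
  have hf₀F : Mor F P f₀ := mor_of_subsystem h.sub hf₀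
  have himg : imgS (imgS P f₀) (autFun T k) = imgS P f := by
    rw [← hf₀F.imgS_comp ha (fun x hx => hf₀.mem hx)]
    exact Mor.imgS_congr (hf₀F.comp ha (fun x hx => hf₀.mem hx)) (fun x hx => (hfa x hx).symm)
  rw [himg] at hχ
  refine ⟨k⁻¹, K.inv_mem hk, χ, hχ, fun y hy => ?_⟩
  obtain ⟨x, hx, rfl⟩ := hfm.mem_imgS.1 hy
  rw [invOn_apply hfm.injOn hx, hfa x hx, hχeq _ (hf₀.mem_imgS_of_mem hx),
    invOn_apply hf₀.injOn hx, autFun_inv_apply k (hPT hx)]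

theorem ke_conj [Finite S] [Fact p.Prime] (h : KCfg p F E K) (hS : IsPGroup p S)
    {W : Subgroup Ω} (hWT : W ≤ T) {g : Ω} (hg : g ∈ S) :
    KE E K W (fun x => g * x * g⁻¹) := by
  have hTS := h.leTS
  have hc : Mor F T (fun x => g * x * g⁻¹) := Mor.conj F hTS hg
  have hcT : imgS T (fun x => g * x * g⁻¹) = T := by
    apply le_antisymm
    · intro y hy
      obtain ⟨x, hx, rfl⟩ := hc.mem_imgS.1 hy
      exact h.mapsT le_rfl hc hx
    · intro y hy
      have hc' : Mor F T (fun x => g⁻¹ * x * g⁻¹⁻¹) := Mor.conj F hTS (S.inv_mem hg)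
      have h1 : g⁻¹ * y * g⁻¹⁻¹ ∈ T := h.mapsT le_rfl hc' hy
      rw [hc.mem_imgS]
      exact ⟨g⁻¹ * y * g⁻¹⁻¹, h1, by group⟩
  have hkF : mkAut hc hcT ∈ F.autGroup T := mkAut_mem hc hcT
  obtain ⟨n, hn⟩ := (IsPGroup.iff_orderOf.1 hS) ⟨g, hg⟩
  have hgn : g ^ (p ^ n) = 1 := by
    have h1 : (⟨g, hg⟩ : S) ^ (p ^ n) = 1 := by rw [← hn]; exact pow_orderOf_eq_one _
    have h2 := congrArg (fun s : S => (s : Ω)) h1
    simpa using h2
  have hpow : ∀ m : ℕ, ∀ t : T, (((mkAut hc hcT) ^ m) t : Ω) = g ^ m * (t : Ω) * (g ^ m)⁻¹ := by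
    intro m
    induction m with
    | zero => intro t; simp
    | succ m ih =>
      intro t
      rw [pow_succ', MulAut.mul_apply, mkAut_apply, ih t, pow_succ']
      group
  have hk : mkAut hc hcT ∈ K := by
    apply h.root _ hkF n
    have : (mkAut hc hcT) ^ (p ^ n) = 1 := by
      ext t
      rw [hpow, hgn]
      simp
    rw [this]
    exact K.one_mem
  refine ⟨mkAut hc hcT, hk, fun x => x, Mor.id E hWT, fun x hx => ?_⟩
  rw [autFun_mkAut hc hcT (hWT hx)]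

theorem imgS_inf_closed (h : KCfg p F E K) {P : Subgroup Ω} {f : Ω → Ω} (hf : Mor F P f) :
    imgS P f ⊓ T = imgS (P ⊓ T) f := by
  have hfr := hf.restrict (inf_le_left : P ⊓ T ≤ P)
  ext y
  constructor
  · rintro ⟨hy, hyT⟩
    obtain ⟨x, hx, rfl⟩ := hf.mem_imgS.1 hy
    have h1 : Mor F (imgS P f ⊓ T) (invOn P f) := hf.inv.restrict inf_le_left
    have h2 : invOn P f (f x) ∈ T := h.mapsT inf_le_right h1 ⟨hy, hyT⟩
    rw [invOn_apply hf.injOn hx] at h2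
    exact hfr.mem_imgS_of_mem ⟨hx, h2⟩
  · intro hy
    obtain ⟨x, hx, rfl⟩ := hfr.mem_imgS.1 hy
    exact ⟨hf.mem_imgS_of_mem hx.1, h.mapsT inf_le_right hfr hx⟩

/-- The fusion system of the maps of `F` whose restriction to `T` is in `K·E`. -/
def dSys [Finite S] [Fact p.Prime] (h : KCfg p F E K) (hS : IsPGroup p S) : FusionSystem S :=
  Cfsg.Agent.H88.subSys F (fun U f => KE E K (U ⊓ T) f)
    (fun _ _ _ _ hfg hk => hk.congr (fun x hx => hfg x hx.1))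
    (fun _ _ _ hg => ke_conj h hS inf_le_right hg)
    (fun P R f g hf _ hfR hkf hkg => hkf.comp h hkg
      (fun x hx => ⟨hfR x hx.1, h.mapsT inf_le_right (hf.restrict inf_le_left) hx⟩) inf_le_right)
    (fun P f hf hkf => by
      have h1 := hkf.inv h (hf.restrict inf_le_left)
      rw [← imgS_inf_closed h hf] at h1
      refine h1.congr (fun y hy => ?_)
      obtain ⟨x, hx, rfl⟩ := (hf.restrict (inf_le_left : P ⊓ T ≤ P)).mem_imgS.1
        (by rw [← imgS_inf_closed h hf]; exact hy)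
      rw [invOn_apply (hf.restrict (inf_le_left : P ⊓ T ≤ P)).injOn hx,
        invOn_apply hf.injOn hx.1])

/-- The generators: maps of `F` on subgroups meeting `T` in an `E`-centric subgroup, whose restriction
to `T` is in `K·E`. -/
def GenK (F : FusionSystem S) (E : FusionSystem T) (K : Subgroup (MulAut T)) (U : Subgroup Ω)
    (f : Ω → Ω) : Prop :=
  Mor F U f ∧ E.IsCentric (U ⊓ T) ∧ KE E K (U ⊓ T) f

/-- The subsystem generated by the generators. -/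
def kSys (F : FusionSystem S) (E : FusionSystem T) (K : Subgroup (MulAut T)) : FusionSystem S :=
  Cfsg.Agent.H88.subSys F
    (fun P f => ∀ D : FusionSystem S, (∀ U g, GenK F E K U g → Mor D U g) → Mor D P f)
    (fun _ _ _ _ hfg h D hD => (h D hD).congr hfg)
    (fun _ _ hP hg D _ => Mor.conj D hP hg)
    (fun _ _ _ _ _ _ hfR h h' D hD => (h D hD).comp (h' D hD) hfR)
    (fun _ _ _ h D hD => (h D hD).inv)

theorem mor_kSys_iff {P : Subgroup Ω} {f : Ω → Ω} :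
    Mor (kSys F E K) P f ↔
      Mor F P f ∧ ∀ D : FusionSystem S, (∀ U g, GenK F E K U g → Mor D U g) → Mor D P f :=
  Cfsg.Agent.H88.mor_subSys_iff

theorem kSys_subsystem (F : FusionSystem S) (E : FusionSystem T) (K : Subgroup (MulAut T)) :
    (kSys F E K).IsSubsystemOf F := fun _ _ h => h.1

theorem mor_kSys_of_gen {U : Subgroup Ω} {f : Ω → Ω} (h : GenK F E K U f) :
    Mor (kSys F E K) U f :=
  mor_kSys_iff.2 ⟨h.1, fun _ hD => hD U f h⟩

theorem kSys_le {D : FusionSystem S} (hD : ∀ U g, GenK F E K U g → Mor D U g) {P : Subgroup Ω}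
    {f : Ω → Ω} (h : Mor (kSys F E K) P f) : Mor D P f :=
  (mor_kSys_iff.1 h).2 D hD

theorem ke_of_mor_kSys [Finite S] [Fact p.Prime] (h : KCfg p F E K) (hS : IsPGroup p S)
    {U : Subgroup Ω} {f : Ω → Ω} (hf : Mor (kSys F E K) U f) : KE E K (U ⊓ T) f :=
  (Cfsg.Agent.H88.mor_subSys_iff.1
    (kSys_le (D := dSys h hS) (fun _ _ hg => Cfsg.Agent.H88.mor_subSys_iff.2 ⟨hg.1, hg.2.2⟩) hf)).2

end

end Cfsg.Agent.H87
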