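import Cfsg.Agent.H87.OlBase
import Cfsg.Agent.H89.NotCentric
import Cfsg.Agent.H28.OliverSurj

set_option autoImplicit false

/-!
The Frattini condition for the generated system of Oliver's lemma, by Alperin's fusion theorem.
-/

namespace Cfsg.Agent.H87

open Cfsg Cfsg.FusionSystem Cfsg.Agent.H86

variable {Ω : Type*} [Group Ω] {S T : Subgroup Ω}

/-- An essential subgroup meets `T` in an `E`-centric subgroup. -/
theorem isCentric_inf_of_essential [Finite S] {p : ℕ} [Fact p.Prime] {F : FusionSystem S}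
    {E : FusionSystem T} {K : Subgroup (MulAut T)} (h : KCfg p F E K) (hS : IsPGroup p S)
    {P : Subgroup Ω} (hP : F.IsEssential p P) : E.IsCentric (P ⊓ T) := by
  by_contra hn
  obtain ⟨f, hf, d, hdT, hdC, hdN, hdU⟩ :=
    Cfsg.Agent.H89.exists_conj_centralizer_not_le hS h.satF E h.sub h.closed hP.1.1 hn
  obtain ⟨φ, hφ, hφf⟩ := id hf
  have hrange : φ.range = imgS P f := by
    rw [← Mor.imgS_eq_range hφ]
    exact Mor.imgS_congr (mor_extFun hφ) (fun x hx => by rw [extFun_of_mem P φ hx, hφf])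
  have hrad := radical_of_essential hS hP
  have main : ∀ R : Subgroup Ω, R = imgS P f → R ≤ S →
      ∃ x ∈ S ⊓ Subgroup.normalizer (R : Set Ω), x ∉ R ∧
        ∃ α ∈ ((pCore p ↥(F.autGroup R)).map (F.autGroup R).subtype : Subgroup (MulAut ↥R)),
          ∀ y : ↥R, ((α y : ↥R) : Ω) = x * (y : Ω) * x⁻¹ := by
    rintro R rfl hRS
    obtain ⟨α, hα⟩ := exists_conjAut hdN
    exact ⟨d, ⟨h.closed.1 hdT, hdN⟩, hdU, α,
      Cfsg.Agent.H89.conj_mem_pCore_of_centralizes hS h.closed hRS hdT hdC hα, hα⟩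
  have hRS : φ.range ≤ S := Cfsg.Agent.H89.range_le F hφ
  obtain ⟨x, hx, hxR, α, hα, hαx⟩ := main φ.range hrange hRS
  have hinn := Cfsg.Agent.H89.mem_inn_of_radical_conj hrad hφ hα
  have hC : centralizerIn S φ.range ≤ φ.range := hP.1.2 _ ⟨φ, hφ, rfl⟩
  exact hxR (mem_of_induces_inner hRS hC hx.1 hαx hinn)

/-- The Frattini condition for the generated system. -/
theorem kSys_frat' [Finite S] {p : ℕ} [Fact p.Prime] {F : FusionSystem S} {E : FusionSystem T}
    {K : Subgroup (MulAut T)} (h : KCfg p F E K) (hS : IsPGroup p S)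
    (hAI : AutInv (kSys F E K) F) :
    ∀ (P : Subgroup Ω) (f : Ω → Ω), Mor F P f →
      ∃ a f₀, Mor F S a ∧ imgS S a = S ∧ Mor (kSys F E K) P f₀ ∧ ∀ x ∈ P, f x = a (f₀ x) := by
  have hTS := h.leTS
  haveI : Finite T := finite_of_le hTS
  let frSys : FusionSystem S := Cfsg.Agent.H88.subSys F (FrMor (kSys F E K) F)
    (fun _ _ _ _ hfg hk => hk.congr hfg)
    (fun _ _ hP hg => frMor_of_mor le_rfl (Mor.conj (kSys F E K) hP hg))
    (fun _ _ _ _ _ hg hfR hk hk' => hk.comp hAI hk' hfR hg.le)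
    (fun _ _ hf hk => hk.inv hAI le_rfl hf)
  have hE : ∀ P : Subgroup Ω, (P = S ∨ F.IsEssential p P) → F.autGroup P ≤ frSys.autGroup P := by
    intro P hP γ hγ
    have hPS : P ≤ S := by
      rcases hP with rfl | hP
      · exact le_rfl
      · exact hP.1.1
    have hg : Mor F P (autFun P γ) := (mem_autGroup_iff hPS γ).1 hγ
    rw [mem_autGroup_iff hPS]
    refine Cfsg.Agent.H88.mor_subSys_iff.2 ⟨hg, ?_⟩
    have hcen : E.IsCentric (P ⊓ T) := by
      rcases hP with rfl | hP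
      · rw [inf_eq_right.2 hTS]
        exact Cfsg.Agent.H90.isCentric_top E
      · exact isCentric_inf_of_essential h hS hP
    obtain ⟨a, g₀, ha, haT, hg₀, hga⟩ :=
      h.frat (P ⊓ T) _ inf_le_right (hg.restrict inf_le_left)
    obtain ⟨α, hα, hαS, k, hk, hαk⟩ :=
      Cfsg.Agent.H28.Oliver.exists_aut_top hS h.satF h.closed h.conj h.root ha haT
    have hαinv : Mor F S (invOn S α) := by
      have := hα.inv
      rwa [hαS] at this
    have hf₁ : Mor F P (invOn S α ∘ autFun P γ) := hg.comp hαinv (fun x hx => hg.mem hx)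
    refine ⟨α, invOn S α ∘ autFun P γ, hα, hαS, mor_kSys_of_gen ⟨hf₁, hcen, ?_⟩, fun x hx => ?_⟩
    · refine ⟨k⁻¹, K.inv_mem hk, g₀, hg₀, fun x hx => ?_⟩
      show invOn S α (autFun P γ x) = autFun T k⁻¹ (g₀ x)
      have hx0 : g₀ x ∈ T := hg₀.mem hx
      have h1 : autFun T k⁻¹ (g₀ x) ∈ T := autFun_mem _ hx0
      have h2 := hαk _ h1
      rw [autFun_apply_inv k hx0] at h2
      rw [hga x hx, ← h2, invOn_apply hα.injOn (hTS h1)]
    · show autFun P γ x = α (invOn S α (autFun P γ x))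
      rw [hα.apply_invOn (by rw [hαS]; exact hg.mem hx)]
  intro P f hf
  exact (Cfsg.Agent.H88.mor_subSys_iff.1 (alperin hS h.satF frSys hE P f hf)).2

end Cfsg.Agent.H87
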