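import Cfsg.Agent.H87.OlBase
import Cfsg.Agent.H87.BCMain
import Cfsg.Agent.H89.NotCentric
import Cfsg.Agent.H28.OliverSurj
import Cfsg.Agent.H28.OliverNormalTop
import Cfsg.Agent.H67.PIdxSatFam
import Cfsg.Agent.H89.OliverDetect
import Cfsg.Agent.H87.OlFrat
import Cfsg.Agent.H5.OliverStar
import Cfsg.Agent.H16.OliverAutInv

set_option autoImplicit false

/-!
Oliver's lemma: a quotient of `Aut_F(T)` of order prime to `p` killing `Aut_E(T)`, for a normal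
subsystem `E` over `T`, gives a proper normal subsystem of index prime to `p` containing `E`.
-/

namespace Cfsg.Agent.H87

open Cfsg Cfsg.FusionSystem Cfsg.Agent.H86

variable {Ω : Type*} [Group Ω] {S T : Subgroup Ω}

section

variable {p : ℕ} {F : FusionSystem S} {E : FusionSystem T} {K : Subgroup (MulAut T)}

/-- `E` is contained in the generated system, by Alperin's theorem in `E`. -/
theorem sub_kSys [Finite S] [Fact p.Prime] (h : KCfg p F E K) (hS : IsPGroup p S) :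
    E.IsSubsystemOf (kSys F E K) := by
  have hTS := h.leTS
  haveI : Finite T := finite_of_le hTS
  have hTp : IsPGroup p T := hS.to_le hTS
  let D' : FusionSystem T := Cfsg.Agent.H88.subSys E (fun P f => Mor (kSys F E K) P f)
    (fun _ _ _ _ hfg hk => hk.congr hfg)
    (fun _ _ hP hg => Mor.conj (kSys F E K) (hP.trans hTS) (hTS hg))
    (fun _ _ _ _ _ _ hfR hk hk' => hk.comp hk' hfR)
    (fun _ _ _ hk => hk.inv)
  have hE' : ∀ P : Subgroup Ω, (P = T ∨ E.IsEssential p P) → E.autGroup P ≤ D'.autGroup P := by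
    intro P hP γ hγ
    have hPc : E.IsCentric P := by
      rcases hP with rfl | hP
      · exact Cfsg.Agent.H90.isCentric_top E
      · exact hP.1
    have hPT : P ≤ T := hPc.1
    have hγm : Mor E P (autFun P γ) := (mem_autGroup_iff hPT γ).1 hγ
    rw [mem_autGroup_iff hPT]
    refine Cfsg.Agent.H88.mor_subSys_iff.2 ⟨hγm, mor_kSys_of_gen ⟨mor_of_subsystem h.sub hγm, ?_, ?_⟩⟩
    · rw [inf_eq_left.2 hPT]
      exact hPc
    · exact ke_of_mor (hγm.restrict inf_le_left)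
  have hall := alperin hTp h.satE D' hE'
  intro P φ hφ
  have h1 : Mor (kSys F E K) P (extFun P φ) :=
    (Cfsg.Agent.H88.mor_subSys_iff.1 (hall P _ (mor_extFun hφ))).2
  exact Cfsg.Agent.H90.mem_hom_of_mor h1

/-- A map of `F` on `N` whose restriction to a member `R` of the family is a map of the generated
system is a map of the generated system. -/
theorem kSys_closed [Finite S] [Fact p.Prime] (h : KCfg p F E K) (hS : IsPGroup p S)
    {R N : Subgroup Ω} {ψ : Ω → Ω} (hR : E.IsCentric (R ⊓ T)) (hRN : R ≤ N) (hψ : Mor F N ψ)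
    (hψR : Mor (kSys F E K) R ψ) : Mor (kSys F E K) N ψ := by
  have hTS := h.leTS
  have hNc : E.IsCentric (N ⊓ T) := isCentric_of_le hR (inf_le_inf_right T hRN) inf_le_right
  refine mor_kSys_of_gen ⟨hψ, hNc, ?_⟩
  obtain ⟨a, ψ₀, ha, haT, hψ₀, hψa⟩ := h.frat (N ⊓ T) ψ inf_le_right (hψ.restrict inf_le_left)
  obtain ⟨k, hk, f₀, hf₀, hfk⟩ := ke_of_mor_kSys h hS hψR
  have hRT : R ⊓ T ≤ N ⊓ T := inf_le_inf_right T hRN
  have hψ₀R : Mor E (R ⊓ T) ψ₀ := hψ₀.restrict hRT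
  have hkm : Mor F T (autFun T k⁻¹) := h.morK (K.inv_mem hk)
  have haTm : ∀ x ∈ T, a x ∈ T := fun x hx => by
    rw [← haT]
    exact ha.mem_imgS_of_mem hx
  have hb : Mor F T (autFun T k⁻¹ ∘ a) := ha.comp hkm haTm
  have hbT : imgS T (autFun T k⁻¹ ∘ a) = T := by
    rw [ha.imgS_comp hkm haTm, haT]
    exact imgS_autFun hkm
  have hWc : E.IsCentric (imgS (R ⊓ T) ψ₀) :=
    isCentric_of_isConj hR (isConj_iff.2 ⟨ψ₀, hψ₀R, rfl⟩)
  have hbW : Mor E (imgS (R ⊓ T) ψ₀) (autFun T k⁻¹ ∘ a) := by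
    have h1 : Mor E (imgS (R ⊓ T) ψ₀) (f₀ ∘ invOn (R ⊓ T) ψ₀) :=
      hψ₀R.inv.comp hf₀ (fun y hy => hψ₀R.invOn_mem hy)
    refine h1.congr (fun y hy => ?_)
    obtain ⟨x, hx, rfl⟩ := hψ₀R.mem_imgS.1 hy
    show f₀ (invOn (R ⊓ T) ψ₀ (ψ₀ x)) = autFun T k⁻¹ (a (ψ₀ x))
    rw [invOn_apply hψ₀R.injOn hx, ← hψa x (hRT hx), hfk x hx, autFun_inv_apply k (hf₀.mem hx)]
  obtain ⟨k', hk', hbk'⟩ := Cfsg.Agent.H89.Oliver.detect hS h.satE h.sub h.closed h.autInv h.frat h.le h.conj h.autE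
    h.root hWc hb hbT hbW
  refine ⟨k * k', K.mul_mem hk hk', ψ₀, hψ₀, fun x hx => ?_⟩
  have hxT : ψ₀ x ∈ T := hψ₀.mem hx
  have h2 := hbk' (ψ₀ x) hxT
  rw [hψa x hx, autFun_mul _ _ hxT, ← h2]
  show a (ψ₀ x) = autFun T k (autFun T k⁻¹ (a (ψ₀ x)))
  rw [autFun_apply_inv k (haTm _ hxT)]

end

/-- Oliver's lemma. -/
theorem oliver [Finite S] {p : ℕ} [Fact p.Prime] (hS : IsPGroup p S) (F : FusionSystem S)
    (hF : F.IsSaturated p) {T : Subgroup Ω} (hTS : T ≤ S) (E : FusionSystem T)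
    (hE : E.IsNormalIn F p) {Δ : Type*} [Group Δ] [Finite Δ] [Nontrivial Δ]
    (hΔ : (Nat.card Δ).Coprime p) (χ : ↥(F.autGroup T) →* Δ) (hχ : Function.Surjective χ)
    (hker : (E.autGroup T).subgroupOf (F.autGroup T) ≤ χ.ker) :
    ∃ F₀ : FusionSystem S, F₀.IsNormalIn F p ∧ ¬ (∀ P : Subgroup Ω, F₀.Hom P = F.Hom P) ∧
      E.IsSubsystemOf F₀ ∧
      (∀ α : MulAut ↥S, α ∈ F₀.autGroup S ↔ α ∈ F.autGroup S ∧ ∃ β : ↥(F.autGroup T), χ β = 1 ∧
        ∀ t : ↥T, (((β : MulAut ↥T) t : ↥T) : Ω) = ((α ⟨(t : Ω), hTS t.2⟩ : ↥S) : Ω)) ∧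
      ∀ R : FusionSystem S, F.IsPPrimeResidual p R → R.IsSubsystemOf F₀ := by
  classical
  haveI : Finite T := finite_of_le hTS
  obtain ⟨hEsub, hEcl, hEai, hEfr⟩ := (isInvariantIn_iff hTS).1 hE.1.2.2
  set K : Subgroup (MulAut T) := χ.ker.map (F.autGroup T).subtype with hK
  have hmemK : ∀ (a : MulAut T) (ha : a ∈ F.autGroup T), a ∈ K ↔ χ ⟨a, ha⟩ = 1 := by
    intro a ha
    constructor
    · rintro ⟨k', hk', hk'a⟩
      have : k' = ⟨a, ha⟩ := Subtype.ext hk'a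
      rw [← this]
      exact hk'
    · intro h1
      exact ⟨⟨a, ha⟩, h1, rfl⟩
  have hKF : K ≤ F.autGroup T := by
    rintro _ ⟨k', -, rfl⟩
    exact k'.2
  have hcfg : KCfg p F E K := by
    refine ⟨hF, hE.1.1, hEsub, hEcl, hEai, hEfr, hKF, ?_, ?_, ?_⟩
    · intro a ha k hk
      have hkF := hKF hk
      have h1 : χ ⟨k, hkF⟩ = 1 := (hmemK k hkF).1 hk
      have h2 : a * k * a⁻¹ ∈ F.autGroup T :=
        (F.autGroup T).mul_mem ((F.autGroup T).mul_mem ha hkF) ((F.autGroup T).inv_mem ha)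
      rw [hmemK _ h2]
      have h3 : (⟨a * k * a⁻¹, h2⟩ : F.autGroup T) = ⟨a, ha⟩ * ⟨k, hkF⟩ * ⟨a, ha⟩⁻¹ := rfl
      rw [h3, map_mul, map_mul, h1, mul_one, map_inv, mul_inv_cancel]
    · intro γ hγ
      have hγm : Mor E T (autFun T γ) := (mem_autGroup_iff le_rfl γ).1 hγ
      have hγF : γ ∈ F.autGroup T := (mem_autGroup_iff hTS γ).2 (mor_of_subsystem hEsub hγm)
      rw [hmemK γ hγF]
      exact hker (show (⟨γ, hγF⟩ : F.autGroup T) ∈ (E.autGroup T).subgroupOf (F.autGroup T) from hγ)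
    · intro a ha n han
      have hanF : a ^ (p ^ n) ∈ F.autGroup T := (F.autGroup T).pow_mem ha _
      have h1 : χ ⟨a ^ (p ^ n), hanF⟩ = 1 := (hmemK _ hanF).1 han
      have h2 : (⟨a ^ (p ^ n), hanF⟩ : F.autGroup T) = ⟨a, ha⟩ ^ (p ^ n) := rfl
      rw [h2, map_pow] at h1
      rw [hmemK a ha]
      have h3 : orderOf (χ ⟨a, ha⟩) ∣ p ^ n := orderOf_dvd_of_pow_eq_one h1
      have h4 : orderOf (χ ⟨a, ha⟩) ∣ Nat.card Δ := orderOf_dvd_natCard _
      have h5 : orderOf (χ ⟨a, ha⟩) = 1 :=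
        Nat.eq_one_of_dvd_coprimes (Nat.Coprime.pow_right n hΔ) h4 h3
      exact orderOf_eq_one_iff.1 h5
  have hfr := kSys_frat' hcfg hS (Cfsg.Agent.H16.Oliver.kSys_autInv hcfg hS)
  have hsub := kSys_subsystem F E K
  have hST : S ⊓ T = T := inf_eq_right.2 hTS
  have hℋ : ∀ P ∈ {U : Subgroup Ω | U ≤ S ∧ E.IsCentric (U ⊓ T)}, ∀ f, Mor F P f →
      imgS P f ∈ {U : Subgroup Ω | U ≤ S ∧ E.IsCentric (U ⊓ T)} := by
    intro P hP f hf
    refine ⟨hf.imgS_le, ?_⟩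
    rw [imgS_inf_closed hcfg hf]
    exact Cfsg.Agent.H16.Oliver.isCentric_imgS hcfg hP.2 (hf.restrict inf_le_left)
  have hsat : (kSys F E K).IsSaturated p := by
    apply bcglo hS (kSys F E K) {U : Subgroup Ω | U ≤ S ∧ E.IsCentric (U ⊓ T)}
    · intro U hU Q hUQ
      obtain ⟨f, hf, rfl⟩ := isConj_iff.1 hUQ
      exact hℋ U hU f (mor_of_subsystem hsub hf)
    · intro U hU
      exact Cfsg.Agent.H67.PIdx.satClass_of_frattini_family hS hF hsub hfr _ hℋ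
        (fun R hR N ψ hRN hψ hψR => kSys_closed hcfg hS hR.2 hRN hψ hψR) hU hU.1
    · intro D hD
      rw [fusionSystem_le_iff]
      intro P f hf
      refine kSys_le ?_ hf
      intro U g hg
      obtain ⟨φ, hφ, hφg⟩ := mor_kSys_of_gen hg
      exact ⟨φ, hD U ⟨hg.1.le, hg.2.1⟩ hφ, hφg⟩
    · intro P hPc hPn
      exact Cfsg.Agent.H5.Oliver.kSys_star hcfg hS hfr hPc (fun hc => hPn ⟨hPc.1, hc⟩)
  have hScl : F.StronglyClosed S := stronglyClosed_iff.2 ⟨le_rfl, fun R f _ hf x hx => hf.mem hx⟩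
  have hinv : (kSys F E K).IsInvariantIn F :=
    (isInvariantIn_iff le_rfl).2 ⟨hsub, hScl, Cfsg.Agent.H16.Oliver.kSys_autInv hcfg hS, fun P f _ hf => hfr P f hf⟩
  -- the automorphisms of `S` in the generated system
  have haut : ∀ α : MulAut ↥S, α ∈ (kSys F E K).autGroup S ↔ α ∈ F.autGroup S ∧
      ∃ β : ↥(F.autGroup T), χ β = 1 ∧
        ∀ t : ↥T, (((β : MulAut ↥T) t : ↥T) : Ω) = ((α ⟨(t : Ω), hTS t.2⟩ : ↥S) : Ω) := by
    intro α
    constructor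
    · intro hα
      have hαm : Mor (kSys F E K) S (autFun S α) := (mem_autGroup_iff le_rfl α).1 hα
      have hαF : α ∈ F.autGroup S := (mem_autGroup_iff le_rfl α).2 (mor_of_subsystem hsub hαm)
      refine ⟨hαF, ?_⟩
      have hke := ke_of_mor_kSys hcfg hS hαm
      rw [hST] at hke
      obtain ⟨k, hk, f₀, hf₀, hfk⟩ := hke
      have himg : imgS T f₀ = T :=
        Subgroup.eq_of_le_of_card_ge hf₀.imgS_le (le_of_eq hf₀.card_imgS.symm)
      have hγK : mkAut hf₀ himg ∈ K := hcfg.autE (mkAut_mem hf₀ himg)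
      have hkγ : k * mkAut hf₀ himg ∈ K := K.mul_mem hk hγK
      refine ⟨⟨k * mkAut hf₀ himg, hKF hkγ⟩, (hmemK _ (hKF hkγ)).1 hkγ, fun t => ?_⟩
      show ((k * mkAut hf₀ himg) t : Ω) = ((α ⟨(t : Ω), hTS t.2⟩ : ↥S) : Ω)
      rw [← autFun_apply (k * mkAut hf₀ himg) t, autFun_mul _ _ t.2, autFun_mkAut hf₀ himg t.2,
        ← hfk t t.2, autFun_of_mem α (hTS t.2)]
    · rintro ⟨hαF, β, hβ, hβα⟩
      rw [mem_autGroup_iff le_rfl]
      refine mor_kSys_of_gen ⟨(mem_autGroup_iff le_rfl α).1 hαF, ?_, ?_⟩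
      · rw [hST]
        exact Cfsg.Agent.H90.isCentric_top E
      · rw [hST]
        refine ⟨(β : MulAut T), ⟨β, hβ, rfl⟩, fun x => x, Mor.id E le_rfl, fun x hx => ?_⟩
        rw [autFun_of_mem α (hTS hx), autFun_of_mem _ hx]
        exact (hβα ⟨x, hx⟩).symm
  refine ⟨kSys F E K, Cfsg.Agent.H28.Oliver.isNormalIn_of_invariant_top hF hsat hinv, ?_,
    sub_kSys hcfg hS, haut, fun R hR => hR.2.2 (kSys F E K) hsat
      (primeToPIndex_of_frattini hS hF (kSys F E K) hsub hfr)⟩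
  -- properness
  intro hall
  obtain ⟨δ, hδ⟩ := exists_ne (1 : Δ)
  obtain ⟨β₀, hβ₀⟩ := hχ δ
  have ha : Mor F T (autFun T (β₀ : MulAut T)) := (mem_autGroup_iff hTS _).1 β₀.2
  have haT : imgS T (autFun T (β₀ : MulAut T)) = T := imgS_autFun ha
  obtain ⟨α, hα, hαS, k, hk, hαk⟩ :=
    Cfsg.Agent.H28.Oliver.exists_aut_top hS hF hEcl hcfg.conj hcfg.root ha haT
  have hαm : mkAut hα hαS ∈ (kSys F E K).autGroup S := by
    rw [mem_autGroup_iff le_rfl]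
    obtain ⟨φ, hφ, hφf⟩ := (mem_autGroup_iff le_rfl _).1 (mkAut_mem hα hαS)
    rw [← hall S] at hφ
    exact ⟨φ, hφ, hφf⟩
  obtain ⟨-, β, hβ, hβα⟩ := (haut _).1 hαm
  have hkF := hKF hk
  have h1 : β = β₀ * ⟨k, hkF⟩ := by
    apply Subtype.ext
    apply MulEquiv.ext
    intro t
    apply Subtype.ext
    rw [hβα t, mkAut_apply]
    show α (t : Ω) = (((β₀ : MulAut T) * k) t : Ω)
    rw [hαk t t.2, ← autFun_apply ((β₀ : MulAut T) * k) t, autFun_mul _ _ t.2]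
  rw [h1, map_mul, hβ₀, (hmemK k hkF).1 hk, mul_one] at hβ
  exact hδ hβ

end Cfsg.Agent.H87
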