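import Cfsg.Agent.H87.RedMain

set_option autoImplicit false

/-!
The reduction lemma, with the additional conclusion that `E` is normal in the subsystem found.
-/

namespace Cfsg.Agent.H87

open Cfsg Cfsg.FusionSystem Cfsg.Agent.H86

universe u

variable {Ω : Type u} [Group Ω] {S T : Subgroup Ω}

open Cfsg.Agent.H53.Red Cfsg.Agent.H5.Red Cfsg.Agent.H28.Red Cfsg.Agent.H15.Red Cfsg.Agent.H75.Red

/-- The reduction lemma (Oliver), also recording that `E` is normal in `F₀`. -/
theorem reduction_main' [Finite S] (p : ℕ) [Fact p.Prime] (hS : IsPGroup p S) (F : FusionSystem S)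
    (hF : F.IsSaturated p) {T : Subgroup Ω} (E : FusionSystem T) (hE : E.IsNormalIn F p)
    [hn : ((E.autGroup T).subgroupOf (F.autGroup T)).Normal]
    (hsolv : Cfsg.IsPSolvable p (↥(F.autGroup T) ⧸ (E.autGroup T).subgroupOf (F.autGroup T))) :
    ∃ F₀ : FusionSystem (T ⊔ centralizerIn S T), F₀.IsNormalIn F p ∧ E.IsNormalIn F₀ p ∧
      E.IsSubsystemOf F₀ ∧
      F₀.autGroup T = E.autGroup T ∧ ∀ {U : Subgroup Ω} (Finf : FusionSystem U),
        Finf.IsResidualLimitOf F p → Finf.IsSubsystemOf F₀ ∧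
          ∀ {V : Subgroup Ω} (L : FusionSystem V), L.IsResidualLimitOf F₀ p →
            ∀ P : Subgroup Ω, L.Hom P = Finf.Hom P := by
  have hT : F.StronglyClosed T := hE.1.2.2.2.1
  have hTS : T ≤ S := hT.1
  haveI : Finite T := finite_of_le hTS
  have hBA : E.autGroup T ≤ F.autGroup T := by
    intro β hβ
    exact (mem_autGroup_iff hTS β).2
      (mor_of_subsystem hE.1.2.2.1 ((mem_autGroup_iff le_rfl β).1 hβ))
  obtain ⟨n, K, hK0, hKn, hKall, hKstep⟩ :=
    exists_pSolvable_chain (p := p) (F.autGroup T) (E.autGroup T) hBA hsolv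
  have key : ∀ i : Fin (n + 1), ∃ (S' : Subgroup Ω) (F' : FusionSystem S'),
      RCfg p F E (K i) F' := by
    intro i
    induction i using Fin.reverseInduction with
    | last => exact ⟨S, F, hKn ▸ rcfg_init hS hF hE⟩
    | cast i ih =>
      obtain ⟨S', F', h⟩ := ih
      rcases (hKstep i).2 with hres | hroot
      · exact step_p hS hF hE h (hKstep i).1 (hKall _).1 (hKall _).2.2 hres
      · obtain ⟨F'', h''⟩ := step_pprime hS hF hE h (hKstep i).1 (hKall _).1 (hKall _).2.2 hroot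
        exact ⟨S', F'', h''⟩
  obtain ⟨S', F', h⟩ := key 0
  rw [hK0] at h
  have hS'eq : S' = T ⊔ centralizerIn S T := h.grp.trans (actSub_autGroup hS hTS hE.1.1)
  subst hS'eq
  have hS₀S : T ⊔ centralizerIn S T ≤ S := sup_le hTS inf_le_left
  haveI : Finite (T ⊔ centralizerIn S T : Subgroup Ω) := finite_of_le hS₀S
  have hC : centralizerIn S (T ⊔ centralizerIn S T) ≤ T ⊔ centralizerIn S T := by
    intro c hc
    obtain ⟨hcS, hcT⟩ := mem_centralizerIn_iff.1 hc
    exact Subgroup.mem_sup_right (mem_centralizerIn_iff.2 ⟨hcS, fun x hx =>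
      hcT x (Subgroup.mem_sup_left hx)⟩)
  refine ⟨F', isNormalIn_of_centralizer_le hF h.sat h.inv hC, h.nor, h.nor.1.2.2.1, h.aut,
    fun Finf hFinf => ⟨?_, fun L hL P => h.lim Finf L hFinf hL P⟩⟩
  obtain ⟨V, L, hL⟩ := exists_resLimit (hS.to_le hS₀S) h.sat
  intro P
  rw [← h.lim Finf L hFinf hL P]
  exact resLimit_le hL P

end Cfsg.Agent.H87
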