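import Cfsg.Agent.H86.OlIndex
import Cfsg.Agent.H87.RedMain2

set_option autoImplicit false

/-!
Oliver's theorem: for `E` normal in `F` over `T` with the centralizer of `E` in `S` inside `T`
and `Aut_F(T)/Aut_E(T)` `p`-solvable, `F` and `E` have the same residual limits.
-/

namespace Cfsg.Agent.H87

open Cfsg Cfsg.FusionSystem Cfsg.Agent.H86

universe u

variable {Ω : Type u} [Group Ω] {S T : Subgroup Ω}

open Cfsg.Agent.H75.Red

/-- Oliver's theorem. -/
theorem oliver_reduction [Finite S] (p : ℕ) [Fact p.Prime] (hS : IsPGroup p S)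
    (F : FusionSystem S) (hF : F.IsSaturated p) {T : Subgroup Ω} (E : FusionSystem T)
    (hE : E.IsNormalIn F p)
    (hCE : ∀ Y : Subgroup Ω, Y ≤ centralizerIn S T →
      (∀ C : FusionSystem (centralizerIn S Y), F.IsCentralizerSystem Y C → E.IsSubsystemOf C) →
      Y ≤ T)
    [hn : ((E.autGroup T).subgroupOf (F.autGroup T)).Normal]
    (hsolv : Cfsg.IsPSolvable p (↥(F.autGroup T) ⧸ (E.autGroup T).subgroupOf (F.autGroup T)))
    {U V : Subgroup Ω} (Finf : FusionSystem U) (hFinf : Finf.IsResidualLimitOf F p)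
    (Einf : FusionSystem V) (hEinf : Einf.IsResidualLimitOf E p) :
    ∀ P : Subgroup Ω, Finf.Hom P = Einf.Hom P := by
  obtain ⟨D, hD, hnor, hED, hAut, hlim⟩ := reduction_main' p hS F hF E hE hsolv
  have hsc : F.StronglyClosed T := hE.1.2.2.2.1
  have hTS : T ≤ S := hsc.1
  have hS0 : T ⊔ centralizerIn S T ≤ S := sup_le hTS inf_le_left
  haveI : Finite ↥(T ⊔ centralizerIn S T) := finite_of_le hS0
  have hS0p : IsPGroup p ↥(T ⊔ centralizerIn S T) := hS.to_le hS0
  have hscD : D.StronglyClosed T := hnor.1.2.2.2.1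
  have hCE' : ∀ Y : Subgroup Ω, Y ≤ centralizerIn S T →
      (∀ P : Subgroup Ω, E.Hom P ⊆ F.centralizerHom Y P) → Y ≤ T := by
    intro Y hY h
    apply hCE Y hY
    intro C' hC' P
    rw [hC' P]
    exact h P
  have hEi : E.HasPPowerIndexIn D p :=
    hasPPowerIndexIn_of_centralizer_le hS hF hE hCE' hD.1.1 hD.1.2.2.1 hnor hAut
  obtain ⟨W, L, hL'⟩ := exists_resLimit hS0p hD.1.1
  have h1 := (hlim Finf hFinf).2 L hL'
  have h2 : SameHom L Einf :=
    resLimit_of_pPowerIndex hS0p le_sup_left hscD hE.1.1 hEi hD.1.1 hL' hEinf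
  intro P
  rw [← h1 P, h2 P]

end Cfsg.Agent.H87
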