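import Mathlib
import Cfsg.Agent.H83.PCDefs

/-!
# PC-ISO (helper87, for helper83's S3366 project)

`Data R N t` together with Heisenberg coordinates `α` on `R` adapted to `t` gives `X ≃* M0`.
-/

set_option autoImplicit false

namespace Cfsg.Agent.H87.PC

open Cfsg.Agent.H83.PC

universe u

/-- The coordinate generators of `Heis`. -/
def gx : Heis := ⟨1, 0, 0⟩
def gy : Heis := ⟨0, 1, 0⟩
def gz : Heis := ⟨0, 0, 1⟩

/-- The involution `(a, b, z) ↦ (-a, -b, z)` of `Heis`. -/
def tau (h : Heis) : Heis := ⟨-h.a, -h.b, h.z⟩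

theorem heis_decomp :
    ∀ h : Heis, h = gx ^ h.a.val * gy ^ h.b.val * gz ^ (h.z - h.a * h.b).val := by
  decide

theorem heis_hom_ext {M : Type*} [Monoid M] (φ ψ : Heis →* M) (h1 : φ gx = ψ gx)
    (h2 : φ gy = ψ gy) (h3 : φ gz = ψ gz) (h : Heis) : φ h = ψ h := by
  rw [heis_decomp h]
  simp only [map_mul, map_pow, h1, h2, h3]

theorem heis_key : ∀ A B : Heis, tau A = A⁻¹ → tau B = B⁻¹ → A * B = B * A * gz * gz →
    A.z = 0 ∧ B.z = 0 ∧ A.a * B.b - A.b * B.a = 1 := by
  decide

theorem gz_central : ∀ k : Heis, gz * k = k * gz := by decide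

theorem tau_gx : tau gx = gx⁻¹ := by decide
theorem tau_gy : tau gy = gy⁻¹ := by decide
theorem gx_gy : gx * gy = gy * gx * gz * gz := by decide

set_option maxRecDepth 100000 in
theorem card_SL23 : Nat.card SL23 = 24 := by
  rw [Nat.card_eq_fintype_card]
  decide

theorem card_Heis : Nat.card Heis = 27 := by
  rw [Nat.card_eq_fintype_card]
  decide

theorem actFun_inj (g g' : SL23) (h : ∀ k, actFun g k = actFun g' k) : g = g' := by
  have h1 := h gx
  have h2 := h gy
  simp only [Heis.ext_iff, actFun, gx, gy, mul_one, mul_zero, add_zero, zero_add] at h1 h2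
  ext i j
  fin_cases i <;> fin_cases j
  · exact h1.1
  · exact h2.1
  · exact h1.2.1
  · exact h2.2.1

/-- For `n ∈ N`, conjugation by `n` on `R` is `actFun g` in the coordinates `α`. -/
theorem exists_act {X : Type u} [Group X] (R N : Subgroup X) (t : X) (hD : Data R N t)
    (α : Heis →* X) (hinj : Function.Injective α) (hrange : α.range = R)
    (hτ : ∀ h : Heis, t * α h * t⁻¹ = α ⟨-h.a, -h.b, h.z⟩) (n : X) (hn : n ∈ N) :
    ∃ g : SL23, ∀ h, α (actFun g h) = n * α h * n⁻¹ := by
  obtain ⟨hRn, hR27, hexp, hnonab, hN24, hRN, hX, htN, ht1, htt, hNt, hinvZ, hNZ, hfaith⟩ := hD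
  have hmemR : ∀ h, α h ∈ R := fun h => hrange ▸ ⟨h, rfl⟩
  have hc : ∀ h, ∃ h', α h' = n * α h * n⁻¹ := by
    intro h
    have : n * α h * n⁻¹ ∈ R := hRn.conj_mem _ (hmemR h) n
    rw [← hrange] at this
    exact this
  choose c hc using hc
  have cmul : ∀ h k, c (h * k) = c h * c k := by
    intro h k
    apply hinj
    rw [hc, map_mul, map_mul, hc, hc]
    group
  let cH : Heis →* Heis := MonoidHom.mk' c cmul
  have hτ' : ∀ h, α (tau h) = t * α h * t⁻¹ := fun h => (hτ h).symm
  have ctau : ∀ h, c (tau h) = tau (c h) := by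
    intro h
    apply hinj
    rw [hc, hτ', hτ', hc]
    have h1 : n * t = t * n := hNt n hn
    have h2 : t⁻¹ * n⁻¹ = n⁻¹ * t⁻¹ := by rw [← mul_inv_rev, ← mul_inv_rev, h1]
    calc n * (t * α h * t⁻¹) * n⁻¹ = (n * t) * α h * (t⁻¹ * n⁻¹) := by group
      _ = (t * n) * α h * (n⁻¹ * t⁻¹) := by rw [h1, h2]
      _ = t * (n * α h * n⁻¹) * t⁻¹ := by group
  have cz : c gz = gz := by
    apply hinj
    rw [hc]
    have hZ : IsZ R (α gz) := by
      refine ⟨hmemR gz, ?_⟩
      intro s hs
      rw [← hrange] at hs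
      obtain ⟨k, rfl⟩ := hs
      rw [← map_mul, ← map_mul, gz_central]
    have h3 := hNZ n hn _ hZ
    rw [h3]
    group
  have hA : tau (c gx) = (c gx)⁻¹ := by
    rw [← ctau, tau_gx]
    exact map_inv cH gx
  have hB : tau (c gy) = (c gy)⁻¹ := by
    rw [← ctau, tau_gy]
    exact map_inv cH gy
  have hAB : c gx * c gy = c gy * c gx * gz * gz := by
    have h2 := congrArg c gx_gy
    rw [cmul, cmul, cmul, cmul, cz] at h2
    exact h2
  obtain ⟨hAz, hBz, hdet⟩ := heis_key (c gx) (c gy) hA hB hAB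
  let g : SL23 := ⟨!![(c gx).a, (c gy).a; (c gx).b, (c gy).b], by
    rw [Matrix.det_fin_two_of]
    linear_combination hdet⟩
  have key : ∀ h, (heisAct g).toMonoidHom h = cH h := by
    apply heis_hom_ext
    · show actFun g gx = c gx
      ext
      · show (c gx).a * gx.a + (c gy).a * gx.b = (c gx).a
        simp [gx]
      · show (c gx).b * gx.a + (c gy).b * gx.b = (c gx).b
        simp [gx]
      · show gx.z = (c gx).z
        rw [hAz]; rfl
    · show actFun g gy = c gy
      ext
      · show (c gx).a * gy.a + (c gy).a * gy.b = (c gy).a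
        simp [gy]
      · show (c gx).b * gy.a + (c gy).b * gy.b = (c gy).b
        simp [gy]
      · show gy.z = (c gy).z
        rw [hBz]; rfl
    · show actFun g gz = c gz
      rw [cz]
      ext
      · show (c gx).a * gz.a + (c gy).a * gz.b = gz.a
        simp [gz]
      · show (c gx).b * gz.a + (c gy).b * gz.b = gz.b
        simp [gz]
      · rfl
  refine ⟨g, fun h => ?_⟩
  have : actFun g h = c h := key h
  rw [this, hc]

theorem iso : StIso.{u} := by
  intro X _ _ R N t hD α hinj hrange hτ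
  have hex := exists_act R N t hD α hinj hrange hτ
  obtain ⟨hRn, hR27, hexp, hnonab, hN24, hRN, hX, htN, ht1, htt, hNt, hinvZ, hNZ, hfaith⟩ := hD
  have hmemR : ∀ h, α h ∈ R := fun h => hrange ▸ ⟨h, rfl⟩
  choose! β hβ using hex
  have βmul : ∀ n ∈ N, ∀ n' ∈ N, β (n * n') = β n * β n' := by
    intro n hn n' hn'
    apply actFun_inj
    intro h
    apply hinj
    rw [hβ _ (N.mul_mem hn hn'), actFun_comp, hβ n hn, hβ n' hn']
    group
  let βH : N →* SL23 := MonoidHom.mk' (fun n => β n.1) (fun a b => βmul a.1 a.2 b.1 b.2)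
  have βinj : Function.Injective βH := by
    rw [injective_iff_map_eq_one]
    intro n hn
    have h1 : β n.1 = 1 := hn
    have h2 : n.1 = 1 := by
      apply hfaith n.1 n.2
      intro r hr
      rw [← hrange] at hr
      obtain ⟨h, rfl⟩ := hr
      have h3 := hβ n.1 n.2 h
      rw [h1, actFun_one] at h3
      calc n.1 * α h = (n.1 * α h * n.1⁻¹) * n.1 := by group
        _ = α h * n.1 := by rw [← h3]
    exact Subtype.ext h2
  have βbij : Function.Bijective βH := by
    rw [Nat.bijective_iff_injective_and_card]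
    exact ⟨βinj, by rw [hN24, card_SL23]⟩
  let βE : N ≃* SL23 := MulEquiv.ofBijective βH βbij
  let γ : SL23 →* X := N.subtype.comp βE.symm.toMonoidHom
  have γinj : Function.Injective γ :=
    (Subgroup.subtype_injective N).comp βE.symm.injective
  have γmem : ∀ g, γ g ∈ N := fun g => (βE.symm g).2
  have hγ : ∀ g h, α (actFun g h) = γ g * α h * (γ g)⁻¹ := by
    intro g h
    have h1 := hβ (βE.symm g).1 (βE.symm g).2 h
    have e : β (βE.symm g).1 = g := βE.apply_symm_apply g
    rw [e] at h1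
    exact h1
  let Ψ : M0 →* X := SemidirectProduct.lift α γ (by
    intro g
    ext h
    exact hγ g h)
  have hΨ : ∀ a : M0, Ψ a = α a.left * γ a.right := fun a => rfl
  have Ψinj : Function.Injective Ψ := by
    rw [injective_iff_map_eq_one]
    intro a ha
    rw [hΨ] at ha
    have h1 : α a.left = (γ a.right)⁻¹ := eq_inv_of_mul_eq_one_left ha
    have h2 : α a.left ∈ R ⊓ N := ⟨hmemR _, h1 ▸ N.inv_mem (γmem _)⟩
    rw [hRN, Subgroup.mem_bot] at h2
    have h3 : a.left = 1 := hinj (by rw [h2, map_one])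
    have h4 : γ a.right = 1 := by
      rw [h2, one_mul] at ha
      exact ha
    have h5 : a.right = 1 := γinj (by rw [h4, map_one])
    exact SemidirectProduct.ext h3 h5
  have Ψbij : Function.Bijective Ψ := by
    rw [Nat.bijective_iff_injective_and_card]
    refine ⟨Ψinj, ?_⟩
    rw [SemidirectProduct.card, card_Heis, card_SL23, hX]
  exact ⟨(MulEquiv.ofBijective Ψ Ψbij).symm⟩

example : Cfsg.Agent.H83.PC.StIso.{u} := Cfsg.Agent.H87.PC.iso

end Cfsg.Agent.H87.PC
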