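import Cfsg.Agent.H87.SysIso
import Cfsg.Agent.H87.PPowerExist
import Cfsg.Agent.H88.Factor
import Cfsg.Agent.H88.Basic

set_option autoImplicit false

/-!
Transport along an isomorphism of fusion systems of: central subgroups and the centre, the hyperfocal
subgroup, the factor system modulo the centre, simplicity and quasisimplicity.
-/

namespace Cfsg.Agent.H87

open Cfsg Cfsg.FusionSystem Cfsg.Agent.H86 Cfsg.Agent.H90

universe u₁ u₂

section

variable {Ω : Type u₁} {Ω' : Type u₂} [Group Ω] [Group Ω'] {S : Subgroup Ω} {S' : Subgroup Ω'}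
  {F : FusionSystem S} {F' : FusionSystem S'} {e : S ≃* S'}

theorem FusIso.isCentral (h : FusIso F F' e) {Q : Subgroup Ω} (hQ : F.IsCentral Q) :
    F'.IsCentral (trSub e Q) := by
  have hs := h.symm
  rw [isCentral_iff] at hQ ⊢
  refine ⟨trSub_le e Q, fun P' f' hf' => ?_⟩
  have hP'S := hf'.le
  have hf : Mor F (trSub e.symm P') (jF e.symm ∘ f' ∘ jF e) := hs.mor hf'
  obtain ⟨f₁, hf₁, hf₁f, hf₁Q⟩ := hQ.2 _ _ hf
  have hpush := h.mor hf₁
  have hle : P' ⊔ trSub e Q ≤ trSub e (trSub e.symm P' ⊔ Q) := by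
    refine sup_le ?_ (trSub_mono e le_sup_right)
    have := trSub_mono e (le_sup_left : trSub e.symm P' ≤ trSub e.symm P' ⊔ Q)
    rwa [trSub_trSub_symm e hP'S] at this
  refine ⟨_, hpush.restrict hle, fun x' hx' => ?_, fun y hy => ?_⟩
  · have hx'S := hP'S hx'
    have h1 := hf₁f (jF e.symm x') (jF_mem_trSub e.symm hx'S hx')
    show jF e (f₁ (jF e.symm x')) = f' x'
    rw [h1]
    show jF e (jF e.symm (f' (jF e (jF e.symm x')))) = f' x'
    rw [jF_jF_symm e hx'S, jF_jF_symm e (hf'.mem hx')]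
  · obtain ⟨x, hxS, hxQ, rfl⟩ := (mem_trSub e).1 hy
    show jF e (f₁ (jF e.symm (jF e x))) = jF e x
    rw [jF_symm_jF e hxS, hf₁Q x hxQ]

theorem FusIso.trSub_center [Finite S] (h : FusIso F F' e) : trSub e F.center = F'.center := by
  haveI : Finite S' := Finite.of_equiv _ e.toEquiv
  apply le_antisymm
  · exact le_sSup (h.isCentral (Cfsg.Agent.H88.isCentral_center F))
  · have h1 : trSub e.symm F'.center ≤ F.center :=
      le_sSup (h.symm.isCentral (Cfsg.Agent.H88.isCentral_center F'))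
    have h2 := trSub_mono e h1
    rwa [trSub_trSub_symm e (Cfsg.Agent.H88.isCentral_center F').1] at h2

theorem FusIso.trSub_hyperfocal_le (h : FusIso F F' e) (p : ℕ) :
    trSub e (F.hyperfocalSubgroup p) ≤ F'.hyperfocalSubgroup p := by
  intro y hy
  obtain ⟨x, hxS, hx, rfl⟩ := (mem_trSub e).1 hy
  have key : ∀ z ∈ F.hyperfocalSubgroup p, z ∈ S ∧ jF e z ∈ F'.hyperfocalSubgroup p := by
    intro z hz
    unfold hyperfocalSubgroup at hz
    induction hz using Subgroup.closure_induction with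
    | mem z hz =>
      obtain ⟨P, α, x, hP, hα, rfl⟩ := hz
      have hxS : (x : Ω) ∈ S := hP x.2
      have hαxS : (((α : MulAut P) x : P) : Ω) ∈ S := hP ((α : MulAut P) x).2
      refine ⟨S.mul_mem (S.inv_mem hxS) hαxS, ?_⟩
      rw [jF_mul e (S.inv_mem hxS) hαxS, jF_inv e hxS]
      obtain ⟨ε, hε⟩ : ∃ ε : F.autGroup P →* F'.autGroup (trSub e P),
          ∀ β : F.autGroup P, ((ε β : F'.autGroup (trSub e P)) : MulAut (trSub e P)) =
            MulAut.congr (eSub e hP) (β : MulAut P) :=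
        ⟨MonoidHom.codRestrict ((MulAut.congr (eSub e hP)).toMonoidHom.comp (F.autGroup P).subtype)
          (F'.autGroup (trSub e P)) (fun β => (h.congr_mem_autGroup_iff hP β).2 β.2), fun _ => rfl⟩
      have hεinj : Function.Injective ε := by
        intro a b hab
        have h1 := congrArg (fun γ : F'.autGroup (trSub e P) => (γ : MulAut (trSub e P))) hab
        simp only [hε] at h1
        exact Subtype.ext ((MulAut.congr (eSub e hP)).injective h1)
      apply Subgroup.subset_closure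
      refine ⟨trSub e P, ε α, eSub e hP x, trSub_le e P, pResidual_map_of_injective p ε hεinj hα, ?_⟩
      rw [hε, congr_apply_apply]
      rfl
    | one => exact ⟨S.one_mem, by rw [jF_one]; exact Subgroup.one_mem _⟩
    | mul a b _ _ iha ihb =>
      exact ⟨S.mul_mem iha.1 ihb.1, by rw [jF_mul e iha.1 ihb.1]; exact Subgroup.mul_mem _ iha.2 ihb.2⟩
    | inv a _ iha =>
      exact ⟨S.inv_mem iha.1, by rw [jF_inv e iha.1]; exact Subgroup.inv_mem _ iha.2⟩
  exact (key x hx).2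

theorem FusIso.trSub_hyperfocal (h : FusIso F F' e) (p : ℕ) :
    trSub e (F.hyperfocalSubgroup p) = F'.hyperfocalSubgroup p := by
  apply le_antisymm (h.trSub_hyperfocal_le p)
  have h1 := h.symm.trSub_hyperfocal_le p
  have h2 := trSub_mono e h1
  rwa [trSub_trSub_symm e (hyperfocal_le F' p)] at h2

theorem fusIso_of_mor_both
    (h₁ : ∀ (P : Subgroup Ω) (f : Ω → Ω), Mor F P f → Mor F' (trSub e P) (jF e ∘ f ∘ jF e.symm))
    (h₂ : ∀ (P' : Subgroup Ω') (f' : Ω' → Ω'), Mor F' P' f' →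
      Mor F (trSub e.symm P') (jF e.symm ∘ f' ∘ jF e)) : FusIso F F' e := by
  intro P f hP hf
  refine ⟨h₁ P f, fun hm => ?_⟩
  have h3 := h₂ _ _ hm
  rw [trSub_symm_trSub e hP] at h3
  refine h3.congr (fun x hx => ?_)
  show jF e.symm (jF e (f (jF e.symm (jF e x)))) = f x
  rw [jF_symm_jF e (hP hx), jF_symm_jF e (hf x hx)]

theorem trSub_bot (e : S ≃* S') : trSub e ⊥ = ⊥ := by
  rw [eq_bot_iff]
  intro y hy
  obtain ⟨x, -, hx, rfl⟩ := (mem_trSub e).1 hy
  rw [Subgroup.mem_bot] at hx ⊢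
  rw [hx, jF_one]

theorem FusIso.isSimple [Finite S] {p : ℕ} [Fact p.Prime] (h : FusIso F F' e)
    (hF : F.IsSimple p) : F'.IsSimple p := by
  obtain ⟨hsat, hne, hmin⟩ := hF
  refine ⟨h.saturated hsat, ?_, fun T' E' hN => ?_⟩
  · intro hS'
    apply hne
    apply trSub_injective e le_rfl bot_le
    rw [trSub_self, trSub_bot, hS']
  · have hT' : T' ≤ S' := hN.1.2.2.2.1.1
    obtain ⟨T, hT, E, hE⟩ := exists_sysIso_pull e hT' E'
    have hEn := hE.normalIn h hsat hT hN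
    rcases hmin T E hEn with hb | ⟨hTS, hhom⟩
    · left
      rw [← hE.1, hb]
      exact trSub_bot e
    · right
      subst hTS
      have hEF : E = F := fusionSystem_ext hhom
      subst hEF
      have h1 : SysIso e.symm E' E := hE.symm le_rfl
      have h2 : SysIso e.symm F' E := (sysIso_of_fusIso h).symm le_rfl
      obtain ⟨hTT, hEE⟩ := h1.unique h2 hT' le_rfl
      subst hTT
      refine ⟨rfl, fun P' => ?_⟩
      have hEE' : E' = F' := hEE
      rw [hEE']

end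

section factor

variable {Ω : Type u₁} [Group Ω] {S : Subgroup Ω} {Ωq : Type*} [Group Ωq] {Sq : Subgroup Ωq}

/-- The maps of a factor system, in total-function form. -/
theorem mor_factor_iff {F : FusionSystem S} {S₀ : Subgroup Ω} {θ : S →* Ωq} {E₁ : FusionSystem Sq}
    (hE : F.IsFactorSystem S₀ θ E₁) {Pq : Subgroup Ωq} {fq : Ωq → Ωq} :
    Mor E₁ Pq fq ↔ Pq ≤ Sq ∧ ∃ f, Mor F (preimageAlong θ Pq) f ∧
      ∀ (x : Ω) (hx : x ∈ S) (hfx : f x ∈ S), θ ⟨x, hx⟩ ∈ Pq → fq (θ ⟨x, hx⟩) = θ ⟨f x, hfx⟩ := by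
  obtain ⟨-, -, hrange, hHom⟩ := hE
  constructor
  · rintro ⟨φq, hφq, hφqf⟩
    obtain ⟨hPq, hind⟩ := (hHom Pq φq).1 hφq
    obtain ⟨f, hf, hIF⟩ := (Cfsg.Agent.H88.induced_iff φq).1 hind
    refine ⟨hPq, f, hf, fun x hx hfx hθ => ?_⟩
    rw [← hIF x hx hfx hθ]
    exact (hφqf ⟨_, hθ⟩).symm
  · rintro ⟨hPq, f, hf, hfq⟩
    have hpre : ∀ y ∈ Pq, ∃ x, ∃ hx : x ∈ S, θ ⟨x, hx⟩ = y := by
      intro y hy
      have : y ∈ θ.range := by rw [hrange]; exact hPq hy
      obtain ⟨s, rfl⟩ := this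
      exact ⟨s, s.2, rfl⟩
    have hmul : ∀ a b : Pq, fq ((a * b : Pq) : Ωq) = fq a * fq b := by
      intro a b
      obtain ⟨x, hx, hxa⟩ := hpre a a.2
      obtain ⟨y, hy, hyb⟩ := hpre b b.2
      have hxP : x ∈ preimageAlong θ Pq :=
        Cfsg.Agent.H88.mem_preimageAlong.2 ⟨hx, by rw [hxa]; exact a.2⟩
      have hyP : y ∈ preimageAlong θ Pq :=
        Cfsg.Agent.H88.mem_preimageAlong.2 ⟨hy, by rw [hyb]; exact b.2⟩
      have hxyP : x * y ∈ preimageAlong θ Pq := Subgroup.mul_mem _ hxP hyP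
      have hfxy : f (x * y) = f x * f y := by
        obtain ⟨φ, -, hφf⟩ := hf
        have h1 := hφf (⟨x, hxP⟩ * ⟨y, hyP⟩)
        rw [map_mul, hφf, hφf] at h1
        exact h1.symm
      have e1 : ((a * b : Pq) : Ωq) = θ ⟨x * y, S.mul_mem hx hy⟩ := by
        have : (⟨x * y, S.mul_mem hx hy⟩ : S) = ⟨x, hx⟩ * ⟨y, hy⟩ := rfl
        rw [this, map_mul, hxa, hyb]
        rfl
      rw [e1, hfq (x * y) (S.mul_mem hx hy) (hf.mem hxyP) (by rw [← e1]; exact (a * b).2),
        ← hxa, ← hyb, hfq x hx (hf.mem hxP) (by rw [hxa]; exact a.2),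
        hfq y hy (hf.mem hyP) (by rw [hyb]; exact b.2), ← map_mul]
      congr 1
      exact Subtype.ext hfxy
    refine ⟨MonoidHom.mk' (fun a : Pq => fq a) hmul, ?_, fun _ => rfl⟩
    rw [hHom]
    refine ⟨hPq, (Cfsg.Agent.H88.induced_iff _).2 ⟨f, hf, fun x hxS hfS hθ => ?_⟩⟩
    exact hfq x hxS hfS hθ

end factor

section factorIso

variable {Ω : Type u₁} {Ω' : Type u₂} [Group Ω] [Group Ω'] {S : Subgroup Ω} {S' : Subgroup Ω'}
  {F : FusionSystem S} {F' : FusionSystem S'} {e : S ≃* S'}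
  {Ωq : Type*} [Group Ωq] {Sq : Subgroup Ωq} {Ωq' : Type*} [Group Ωq'] {Sq' : Subgroup Ωq'}

/-- Pushing a map of a factor system along compatible isomorphisms. -/
theorem factor_mor_push (h : FusIso F F' e) {S₀ : Subgroup Ω} {θ : S →* Ωq} {E₁ : FusionSystem Sq}
    (hE : F.IsFactorSystem S₀ θ E₁) {S₀' : Subgroup Ω'} {θ' : S' →* Ωq'} {E₁' : FusionSystem Sq'}
    (hE' : F'.IsFactorSystem S₀' θ' E₁') (eq : Sq ≃* Sq')
    (hcompat : ∀ s : S, jF eq (θ s) = θ' (e s)) {Pq : Subgroup Ωq} {fq : Ωq → Ωq}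
    (hm : Mor E₁ Pq fq) : Mor E₁' (trSub eq Pq) (jF eq ∘ fq ∘ jF eq.symm) := by
  have hrange : θ.range = Sq := hE.2.2.1
  have hθS : ∀ s : S, θ s ∈ Sq := fun s => by rw [← hrange]; exact ⟨s, rfl⟩
  obtain ⟨hPq, f, hf, hfq⟩ := (mor_factor_iff hE).1 hm
  rw [mor_factor_iff hE']
  have hpre : trSub e (preimageAlong θ Pq) = preimageAlong θ' (trSub eq Pq) := by
    ext y
    rw [mem_trSub, Cfsg.Agent.H88.mem_preimageAlong]
    constructor
    · rintro ⟨x, hxS, hx, rfl⟩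
      obtain ⟨hxS', hθx⟩ := Cfsg.Agent.H88.mem_preimageAlong.1 hx
      refine ⟨jF_mem e hxS, ?_⟩
      have h1 : θ' ⟨jF e x, jF_mem e hxS⟩ = jF eq (θ ⟨x, hxS⟩) := by
        rw [hcompat]
        congr 1
        apply Subtype.ext
        exact jF_of_mem e hxS
      rw [h1]
      exact jF_mem_trSub eq (hPq hθx) hθx
    · rintro ⟨hyS, hθy⟩
      obtain ⟨z, hzS, hzP, hz⟩ := (mem_trSub eq).1 hθy
      refine ⟨jF e.symm y, jF_mem e.symm hyS, ?_, jF_jF_symm e hyS⟩
      rw [Cfsg.Agent.H88.mem_preimageAlong]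
      refine ⟨jF_mem e.symm hyS, ?_⟩
      have h1 : jF eq (θ ⟨jF e.symm y, jF_mem e.symm hyS⟩) = θ' ⟨y, hyS⟩ := by
        rw [hcompat]
        congr 1
        apply Subtype.ext
        rw [← jF_of_mem e (jF_mem e.symm hyS)]
        exact jF_jF_symm e hyS
      have h2 : θ ⟨jF e.symm y, jF_mem e.symm hyS⟩ = z :=
        jF_injOn eq (hθS _) hzS (h1.trans hz.symm)
      rw [h2]
      exact hzP
  refine ⟨trSub_le eq Pq, jF e ∘ f ∘ jF e.symm, ?_, fun y hyS hfyS hθy => ?_⟩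
  · rw [← hpre]
    exact h.mor hf
  · have hyP : y ∈ preimageAlong θ' (trSub eq Pq) := Cfsg.Agent.H88.mem_preimageAlong.2 ⟨hyS, hθy⟩
    rw [← hpre] at hyP
    obtain ⟨x, hxS, hx, rfl⟩ := (mem_trSub e).1 hyP
    obtain ⟨hxS', hθx⟩ := Cfsg.Agent.H88.mem_preimageAlong.1 hx
    have hfxS : f x ∈ S := hf.mem hx
    have h1 : θ' ⟨jF e x, hyS⟩ = jF eq (θ ⟨x, hxS⟩) := by
      rw [hcompat]
      congr 1
      apply Subtype.ext
      exact jF_of_mem e hxS
    have h3 : (jF e ∘ f ∘ jF e.symm) (jF e x) = jF e (f x) := by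
      show jF e (f (jF e.symm (jF e x))) = _
      rw [jF_symm_jF e hxS]
    have h2 : θ' ⟨(jF e ∘ f ∘ jF e.symm) (jF e x), hfyS⟩ = jF eq (θ ⟨f x, hfxS⟩) := by
      rw [hcompat]
      congr 1
      apply Subtype.ext
      show (jF e ∘ f ∘ jF e.symm) (jF e x) = _
      rw [h3]
      exact jF_of_mem e hfxS
    rw [h1, h2]
    show jF eq (fq (jF eq.symm (jF eq (θ ⟨x, hxS⟩)))) = _
    rw [jF_symm_jF eq (hθS _), hfq x hxS hfxS hθx]

/-- Factor systems of isomorphic systems, read through compatible maps, are isomorphic. -/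
theorem fusIso_factor (h : FusIso F F' e) {S₀ : Subgroup Ω} {θ : S →* Ωq} {E₁ : FusionSystem Sq}
    (hE : F.IsFactorSystem S₀ θ E₁) {S₀' : Subgroup Ω'} {θ' : S' →* Ωq'} {E₁' : FusionSystem Sq'}
    (hE' : F'.IsFactorSystem S₀' θ' E₁') (eq : Sq ≃* Sq')
    (hcompat : ∀ s : S, jF eq (θ s) = θ' (e s)) : FusIso E₁ E₁' eq := by
  have hθS : ∀ s : S, θ s ∈ Sq := fun s => by rw [← hE.2.2.1]; exact ⟨s, rfl⟩
  have hcompat' : ∀ s' : S', jF eq.symm (θ' s') = θ (e.symm s') := by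
    intro s'
    have h1 := hcompat (e.symm s')
    rw [MulEquiv.apply_symm_apply] at h1
    rw [← h1, jF_symm_jF eq (hθS _)]
  apply fusIso_of_mor_both
  · intro Pq fq hm
    exact factor_mor_push h hE hE' eq hcompat hm
  · intro Pq' fq' hm
    exact factor_mor_push h.symm hE' hE eq.symm hcompat' hm

end factorIso

section quasi

variable {Ω : Type u₁} {Ω' : Type u₂} [Group Ω] [Group Ω'] {S : Subgroup Ω} {S' : Subgroup Ω'}
  {F : FusionSystem S} {F' : FusionSystem S'} {e : S ≃* S'}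

theorem isNormal_of_isCentral {Q : Subgroup Ω} (hQ : F.IsCentral Q) : F.IsNormal Q := by
  rw [isCentral_iff] at hQ
  rw [isNormal_iff]
  refine ⟨hQ.1, fun P f hf => ?_⟩
  obtain ⟨f', hf', hf'f, hf'Q⟩ := hQ.2 P f hf
  refine ⟨f', hf', hf'f, ?_⟩
  ext y
  rw [(hf'.restrict le_sup_right).mem_imgS]
  constructor
  · rintro ⟨x, hx, rfl⟩
    rw [hf'Q x hx]
    exact hx
  · intro hy
    exact ⟨y, hy, hf'Q y hy⟩

/-- Transport of quasisimplicity along an isomorphism of fusion systems. -/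
theorem FusIso.quasisimple [Finite S] {p : ℕ} [Fact p.Prime] (h : FusIso F F' e)
    (hF : F.Quasisimple p) : F'.Quasisimple p := by
  obtain ⟨hsat, hhyp, hfac⟩ := hF
  haveI : Finite S' := Finite.of_equiv _ e.toEquiv
  refine ⟨h.saturated hsat, ?_, fun E₁' hE₁' => ?_⟩
  · rw [← h.trSub_hyperfocal p, hhyp]
    exact trSub_self e
  · have hZsc : F.StronglyClosed F.center :=
      IsNormal.stronglyClosed (isNormal_of_isCentral (Cfsg.Agent.H88.isCentral_center F))
    obtain ⟨E₁, hE₁⟩ := Cfsg.Agent.H88.exists_factorSystem F F.center hZsc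
    have hsimple := hfac E₁ hE₁
    have hZ : ((F.center).subgroupOf S).map (e : S →* S') = (F'.center).subgroupOf S' := by
      rw [← h.trSub_center]
      unfold trSub
      ext y
      rw [Subgroup.mem_subgroupOf, Subgroup.mem_map]
      constructor
      · rintro ⟨x, hx, rfl⟩
        exact ⟨e x, ⟨x, hx, rfl⟩, rfl⟩
      · rintro ⟨z, ⟨x, hx, rfl⟩, hz⟩
        refine ⟨x, hx, ?_⟩
        exact Subtype.ext hz
    obtain ⟨qe, hqe⟩ : ∃ qe : S ⧸ (F.center).subgroupOf S ≃* S' ⧸ (F'.center).subgroupOf S',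
        ∀ s : S, qe (QuotientGroup.mk' _ s) = QuotientGroup.mk' _ (e s) :=
      ⟨QuotientGroup.congr _ _ e hZ, fun s => rfl⟩
    obtain ⟨eq, heq⟩ : ∃ eq : (⊤ : Subgroup (S ⧸ (F.center).subgroupOf S)) ≃*
        (⊤ : Subgroup (S' ⧸ (F'.center).subgroupOf S')), ∀ x, ((eq x : (⊤ : Subgroup _)) :
          S' ⧸ (F'.center).subgroupOf S') = qe (x : S ⧸ (F.center).subgroupOf S) :=
      ⟨Subgroup.topEquiv.trans (qe.trans Subgroup.topEquiv.symm), fun x => rfl⟩
    have hcompat : ∀ s : S, jF eq (QuotientGroup.mk' ((F.center).subgroupOf S) s) =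
        QuotientGroup.mk' ((F'.center).subgroupOf S') (e s) := by
      intro s
      rw [jF_of_mem eq (Subgroup.mem_top _), heq]
      exact hqe s
    have hiso : FusIso E₁ E₁' eq := fusIso_factor h hE₁ hE₁' eq hcompat
    exact hiso.isSimple hsimple

end quasi

end Cfsg.Agent.H87
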