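import Cfsg.Agent.H87.OlMain
import Cfsg.Agent.H87.ResLimit
import Cfsg.Agent.H87.PPowerNormal
import Cfsg.Agent.H88.HypAct

set_option autoImplicit false

/-!
Definitions for the reduction lemma: a normal subsystem `E` of `F` over `T` with
`Aut_F(T)/Aut_E(T)` `p`-solvable; the subgroup of `S` acting on `T` through a subgroup `K` of
`Aut(T)`, invariance under the automorphisms of an intermediate subgroup, and the configuration
carried along the chain.
-/

namespace Cfsg.Agent.H87

open Cfsg Cfsg.FusionSystem Cfsg.Agent.H86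

universe u

variable {Ω : Type u} [Group Ω] {S T : Subgroup Ω}

/-- The elements of `S` that act on `T` by conjugation as an element of `K`. -/
def actSub (S T : Subgroup Ω) (K : Subgroup (MulAut T)) : Subgroup Ω where
  carrier := {x | x ∈ S ∧ ∃ k ∈ K, ∀ t : T, ((k t : T) : Ω) = x * t * x⁻¹}
  mul_mem' := by
    rintro x y ⟨hx, k, hk, hkx⟩ ⟨hy, l, hl, hly⟩
    refine ⟨S.mul_mem hx hy, k * l, K.mul_mem hk hl, fun t => ?_⟩
    rw [MulAut.mul_apply, hkx, hly]
    group
  one_mem' := ⟨S.one_mem, 1, K.one_mem, fun t => by simp⟩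
  inv_mem' := by
    rintro x ⟨hx, k, hk, hkx⟩
    refine ⟨S.inv_mem hx, k⁻¹, K.inv_mem hk, fun t => ?_⟩
    have h := hkx (k⁻¹ t)
    rw [MulAut.apply_inv_self] at h
    rw [h]
    group

theorem mem_actSub {K : Subgroup (MulAut T)} {x : Ω} :
    x ∈ actSub S T K ↔ x ∈ S ∧ ∃ k ∈ K, ∀ t : T, ((k t : T) : Ω) = x * t * x⁻¹ := Iff.rfl

theorem actSub_le (S T : Subgroup Ω) (K : Subgroup (MulAut T)) : actSub S T K ≤ S :=
  fun _ hx => hx.1

theorem actSub_mono {K K' : Subgroup (MulAut T)} (h : K' ≤ K) : actSub S T K' ≤ actSub S T K :=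
  fun _ ⟨hx, k, hk, hkx⟩ => ⟨hx, k, h hk, hkx⟩

/-- Invariance of `D` (over `S''`) under the automorphisms of `S'` in `F`. -/
def AutInvOn {S'' : Subgroup Ω} (D : FusionSystem S'') (F : FusionSystem S) (S' : Subgroup Ω) :
    Prop :=
  ∀ (P : Subgroup Ω) (f a : Ω → Ω), P ≤ S'' → Mor D P f → Mor F S' a → imgS S' a = S' →
    ∃ χ, Mor D (imgS P a) χ ∧ ∀ x ∈ P, χ (a x) = a (f x)

/-- The configuration carried along the chain: `F'` over `S'` is a saturated invariant subsystem
of `F` in which `E` is normal, with `Aut_{F'}(T) = K`, over the subgroup of `S` acting on `T`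
through `K`, and with the same residual limits as `F`. -/
structure RCfg (p : ℕ) (F : FusionSystem S) (E : FusionSystem T) (K : Subgroup (MulAut T))
    {S' : Subgroup Ω} (F' : FusionSystem S') : Prop where
  sat : F'.IsSaturated p
  inv : F'.IsInvariantIn F
  nor : E.IsNormalIn F' p
  aut : F'.autGroup T = K
  grp : S' = actSub S T K
  lim : ∀ {U V : Subgroup Ω} (Finf : FusionSystem U) (L : FusionSystem V),
    Finf.IsResidualLimitOf F p → L.IsResidualLimitOf F' p → SameHom L Finf

end Cfsg.Agent.H87
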