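import Cfsg.Agent.H87.PPowerExist

set_option autoImplicit false

/-!
The kernel subsystem of index `p`, with the extra information that an element of `S` inducing a
map of the kernel subsystem on a receptive subgroup can be replaced by an element of the kernel.
-/

namespace Cfsg.Agent.H87

open Cfsg Cfsg.FusionSystem Cfsg.Agent.H86 MulAction

universe u

section kernel

variable {Ω : Type u} [Group Ω] {S : Subgroup Ω}

/-- An element of `S` inducing a map of the degree-zero subsystem on a receptive subgroup can be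
replaced by an element of the kernel. -/
theorem DegData.theta {G : Type*} [Group G] {A : Type*} [CommGroup A] {F : FusionSystem S} {p : ℕ}
    {ι : S →* G} {W : G →* A} {M : Subgroup Ω} (D : DegData F p ι W M) {P : Subgroup Ω}
    (hP : P ≤ M) (hrec : F.IsReceptive P) {t : Ω} (ht : t ∈ S)
    (hmor : Mor (degSys D) P (fun x => t * x * t⁻¹)) :
    ∃ m ∈ M, ∀ x ∈ P, m * x * m⁻¹ = t * x * t⁻¹ := by
  obtain ⟨-, -, k, hk, hkx⟩ := D.mor_iff.1 hmor
  have hcomm : ∀ s : S, (s : Ω) ∈ P → ((ι ⟨t, ht⟩)⁻¹ * k) * ι s = ι s * ((ι ⟨t, ht⟩)⁻¹ * k) := by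
    intro s hs
    have h2 := hkx s hs (S.mul_mem (S.mul_mem ht s.2) (S.inv_mem ht))
    have h3 : (⟨t * (s : Ω) * t⁻¹, S.mul_mem (S.mul_mem ht s.2) (S.inv_mem ht)⟩ : S) =
        ⟨t, ht⟩ * s * ⟨t, ht⟩⁻¹ := rfl
    rw [h3, map_mul, map_mul, map_inv] at h2
    calc ((ι ⟨t, ht⟩)⁻¹ * k) * ι s = (ι ⟨t, ht⟩)⁻¹ * (k * ι s * k⁻¹) * k := by group
      _ = ι s * ((ι ⟨t, ht⟩)⁻¹ * k) := by rw [← h2]; group
  obtain ⟨c, hc, hWc⟩ := D.cent P hP hrec _ hcomm
  refine ⟨t * (c : Ω), ?_, fun x hx => ?_⟩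
  · have h4 : W (ι (⟨t, ht⟩ * c)) = 1 := by
      rw [map_mul, map_mul, hWc, map_mul, map_inv, hk, mul_one, mul_inv_cancel]
    exact (D.ker (⟨t, ht⟩ * c)).1 h4
  · have hcx := (mem_centralizerIn_iff.1 hc).2 x hx
    calc t * (c : Ω) * x * (t * (c : Ω))⁻¹ = t * ((c : Ω) * x) * (c : Ω)⁻¹ * t⁻¹ := by group
      _ = t * x * t⁻¹ := by rw [← hcx]; group

/-- The saturated subsystem over the kernel of a homomorphism to a commutative group of
exponent `p` that is constant on the classes of the system. -/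
theorem exists_kernel_subsystem' [Finite S] {p : ℕ} [Fact p.Prime] (hS : IsPGroup p S)
    {F : FusionSystem S} (hF : F.IsSaturated p)
    {A : Type*} [CommGroup A] (hA : ∀ a : A, a ^ p = 1) (lam : S →* A)
    (hlam : ∀ (V : Subgroup Ω) (f : Ω → Ω), Mor F V f → ∀ (a b : S), (b : Ω) ∈ V →
      (a : Ω) = f b → lam a = lam b)
    (M : Subgroup Ω) (hMS : M ≤ S) (hM : ∀ s : S, lam s = 1 ↔ (s : Ω) ∈ M) :
    ∃ E : FusionSystem M, E.IsSaturated p ∧ PPow E F p ∧
      ∀ P : Subgroup Ω, P ≤ M → F.IsReceptive P → ∀ t ∈ S,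
        Mor E P (fun x => t * x * t⁻¹) → ∃ m ∈ M, ∀ x ∈ P, m * x * m⁻¹ = t * x * t⁻¹ := by
  classical
  obtain ⟨m, hm1, hm2, hm3⟩ := exists_charBiset hS hF
  have hstab : ∀ x : MSet (S × S) m, IsGraph F (stabilizer (S × S) x) := by
    rintro ⟨D, i, q⟩
    rw [stabilizer_mset]
    have hD : IsGraph F D := hm1 D (Fin.pos i).ne'
    induction q using QuotientGroup.induction_on with
    | H g =>
      rw [coe_eq_smul_one, stabilizer_smul_eq_stabilizer_map_conj, stabilizer_quotient]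
      exact isGraph_conj hD g
  have hstable : ∀ D D' : Subgroup (S × S), IsGraph F D → IsGraph F D' → sndS D = sndS D' →
      fixCount (S × S) (MSet (S × S) m) D = fixCount (S × S) (MSet (S × S) m) D' :=
    fun D D' hD hD' hh => hm2 D D' hD hD' ⟨1, by rw [map_conj_one']; exact hh⟩
  obtain ⟨n, hn, hpn⟩ := card_mset_of_top hS hF m hm1 hm3
  have hfree : ∀ (t : S) (x : MSet (S × S) m), ((1, t) : S × S) • x = x → t = 1 := by
    intro t x hx
    obtain ⟨V, f, hf, hmem⟩ := hstab x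
    have h1 : ((1 : S), t) ∈ stabilizer (S × S) x := mem_stabilizer_iff.2 hx
    obtain ⟨htV, h1f⟩ := (hmem 1 t).1 h1
    have h2 : f (t : Ω) = f 1 := by
      rw [← h1f, hf.map_one]
      rfl
    exact Subtype.ext (hf.injOn htV V.one_mem h2)
  have hQ : Nat.card (Quotient (rightSetoid S (MSet (S × S) m))) = n := by
    have := card_rightQuotient hfree
    rw [hn, mul_comm] at this
    exact (Nat.eq_of_mul_eq_mul_right Nat.card_pos this).symm
  have hfix : fixCount (S × S) (MSet (S × S) m) (autGraph (1 : MulAut S)) =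
      Nat.card (Subgroup.center S) :=
    hm3 _ (isGraph_autGraph (Subgroup.one_mem _)) (card_autGraph 1)
  have hpos : 0 < fixCount (S × S) (MSet (S × S) m) (autGraph (1 : MulAut S)) := by
    rw [hfix]
    exact Nat.card_pos
  obtain ⟨x₀, hx₀⟩ : ∃ x₀ : MSet (S × S) m, autGraph (1 : MulAut S) ≤ stabilizer (S × S) x₀ := by
    unfold fixCount at hpos
    obtain ⟨⟨x, hx⟩⟩ := (Nat.card_pos_iff.1 hpos).1
    exact ⟨x, hx⟩
  have hx₀' : ∀ u : S, ((u, u) : S × S) • x₀ = x₀ := fun u =>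
    mem_stabilizer_iff.1 (hx₀ (show ((u, u) : S × S) ∈ autGraph (1 : MulAut S) from rfl))
  obtain ⟨W, D⟩ := degData_of_biset hS hstab hstable hfree x₀ hx₀' (hQ ▸ hpn) hA lam hlam M hMS hM
  refine ⟨degSys D, D.saturated hS hF, ⟨D.sub, fun P hP β hβ hβp => ?_,
    fun P f hf hP => D.mor_of_F hf hP⟩, fun P hP hrec t ht hmor => ?_⟩
  · have h1 := D.residual hP
    apply h1
    refine ⟨⟨β, hβ⟩, Subgroup.subset_closure ?_, rfl⟩
    show (orderOf (⟨β, hβ⟩ : F.autGroup P)).Coprime p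
    rw [← Subgroup.orderOf_coe]
    exact hβp
  · exact D.theta hP hrec ht hmor

end kernel

end Cfsg.Agent.H87
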