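import Cfsg.Agent.H87.RedPStepB
import Cfsg.Agent.H53.RedChain
import Cfsg.Agent.H5.RedTrans
import Cfsg.Agent.H5.RedNorFinal
import Cfsg.Agent.H5.RedKAutInv
import Cfsg.Agent.H5.RedPAutInv
import Cfsg.Agent.H28.RedActB
import Cfsg.Agent.H28.RedPuigSC
import Cfsg.Agent.H28.RedNorPPow
import Cfsg.Agent.H15.RedAutT
import Cfsg.Agent.H75.RedExLim
import Cfsg.Agent.H75.RedPLimOf
import Cfsg.Agent.H89.RedPChainOf

set_option autoImplicit false

/-!
The reduction lemma (Oliver): for `E` normal in `F` over `T` with `Aut_F(T)/Aut_E(T)` `p`-solvable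
there is a normal subsystem over `T C_S(T)` containing `E`, with the same automizer of `T` as `E`
and the same residual limits as `F`.
-/

namespace Cfsg.Agent.H87

open Cfsg Cfsg.FusionSystem Cfsg.Agent.H86

universe u

variable {Ω : Type u} [Group Ω] {S T : Subgroup Ω}

open Cfsg.Agent.H53.Red Cfsg.Agent.H5.Red Cfsg.Agent.H28.Red Cfsg.Agent.H15.Red Cfsg.Agent.H75.Red

/-- Saturated subsystems of index prime to `p` have the same residual limits. -/
theorem resLimit_of_primeToPIndex [Finite S] {p : ℕ} [Fact p.Prime] (hS : IsPGroup p S)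
    {X R : FusionSystem S} (hX : X.IsSaturated p) (hR : R.IsSaturated p)
    (hRX : R.HasPrimeToPIndexIn X p) {U V : Subgroup Ω} {Xinf : FusionSystem U}
    (hXinf : Xinf.IsResidualLimitOf X p) {Rinf : FusionSystem V}
    (hRinf : Rinf.IsResidualLimitOf R p) : SameHom Xinf Rinf :=
  Cfsg.Agent.H75.Red.resLimit_of_primeToPIndex_of
    (fun S _ p _ hS X R hX hR hRX H hHS XH RH hXH hXHp hRH hRHp =>
      Cfsg.Agent.H89.Red.primeIdx_pPower_of
        (fun S _ p _ hS X R hX hR hRX M hMS hhyp XM RM hXM hXMp hTheta hRM hRMp =>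
          primeIdx_stepB hS hX hR hRX hMS hhyp hXM hXMp hTheta hRM hRMp)
        hS hX hR hRX hHS hXH hXHp hRH hRHp)
    hS hX hR hRX hXinf hRinf

/-- A residual limit is a subsystem. -/
theorem resLimit_le {p : ℕ} : ∀ {T₁ S₁ : Subgroup Ω} {L : FusionSystem T₁} {X : FusionSystem S₁},
    IsResidualLimitOf L X p → L.IsSubsystemOf X := by
  intro T₁ S₁ L X h
  induction h with
  | stable F p h1 h2 => exact fun P => subset_rfl
  | step F p D D' hD hD' hL ih => exact fun P => (ih P).trans ((hD'.2.1.1 P).trans (hD.2.1 P))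

/-- The main properties of the subsystem attached to a normal subgroup `K` of `Aut_F(T)` of index
prime to `p`. -/
theorem kcfg_main [Finite S] {p : ℕ} [Fact p.Prime] {F : FusionSystem S} {E : FusionSystem T}
    {K : Subgroup (MulAut T)} (hcfg : KCfg p F E K) (hS : IsPGroup p S) :
    (kSys F E K).IsSaturated p ∧ (kSys F E K).IsInvariantIn F ∧ E.IsSubsystemOf (kSys F E K) ∧
      (kSys F E K).HasPrimeToPIndexIn F p ∧ (kSys F E K).autGroup T = K := by
  classical
  have hTS := hcfg.leTS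
  haveI : Finite T := finite_of_le hTS
  have hF := hcfg.satF
  have hfr := kSys_frat' hcfg hS (Cfsg.Agent.H16.Oliver.kSys_autInv hcfg hS)
  have hsub := kSys_subsystem F E K
  have hℋ : ∀ P ∈ {U : Subgroup Ω | U ≤ S ∧ E.IsCentric (U ⊓ T)}, ∀ f, Mor F P f →
      imgS P f ∈ {U : Subgroup Ω | U ≤ S ∧ E.IsCentric (U ⊓ T)} := by
    intro P hP f hf
    refine ⟨hf.imgS_le, ?_⟩
    rw [imgS_inf_closed hcfg hf]
    exact Cfsg.Agent.H16.Oliver.isCentric_imgS hcfg hP.2 (hf.restrict inf_le_left)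
  have hsat : (kSys F E K).IsSaturated p := by
    apply bcglo hS (kSys F E K) {U : Subgroup Ω | U ≤ S ∧ E.IsCentric (U ⊓ T)}
    · intro U hU Q hUQ
      obtain ⟨f, hf, rfl⟩ := isConj_iff.1 hUQ
      exact hℋ U hU f (mor_of_subsystem hsub hf)
    · intro U hU
      exact Cfsg.Agent.H67.PIdx.satClass_of_frattini_family hS hF hsub hfr _ hℋ
        (fun R hR N ψ hRN hψ hψR => kSys_closed hcfg hS hR.2 hRN hψ hψR) hU hU.1
    · intro D hD
      rw [fusionSystem_le_iff]
      intro P f hf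
      refine kSys_le ?_ hf
      intro U g hg
      obtain ⟨φ, hφ, hφg⟩ := mor_kSys_of_gen hg
      exact ⟨φ, hD U ⟨hg.1.le, hg.2.1⟩ hφ, hφg⟩
    · intro P hPc hPn
      exact Cfsg.Agent.H5.Oliver.kSys_star hcfg hS hfr hPc (fun hc => hPn ⟨hPc.1, hc⟩)
  have hScl : F.StronglyClosed S := stronglyClosed_iff.2 ⟨le_rfl, fun R f _ hf x hx => hf.mem hx⟩
  have hinv : (kSys F E K).IsInvariantIn F :=
    (isInvariantIn_iff le_rfl).2 ⟨hsub, hScl, Cfsg.Agent.H16.Oliver.kSys_autInv hcfg hS,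
      fun P f _ hf => hfr P f hf⟩
  refine ⟨hsat, hinv, sub_kSys hcfg hS, primeToPIndex_of_frattini hS hF (kSys F E K) hsub hfr, ?_⟩
  have hTT : T ⊓ T = T := inf_idem T
  apply le_antisymm
  · intro α hα
    have hαm : Mor (kSys F E K) T (autFun T α) := (mem_autGroup_iff hTS α).1 hα
    have hke := ke_of_mor_kSys hcfg hS hαm
    rw [hTT] at hke
    obtain ⟨k, hk, f₀, hf₀, hfk⟩ := hke
    have himg : imgS T f₀ = T :=
      Subgroup.eq_of_le_of_card_ge hf₀.imgS_le (le_of_eq hf₀.card_imgS.symm)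
    have hγK : mkAut hf₀ himg ∈ K := hcfg.autE (mkAut_mem hf₀ himg)
    have hkγ : k * mkAut hf₀ himg ∈ K := K.mul_mem hk hγK
    have e : α = k * mkAut hf₀ himg := by
      apply MulEquiv.ext
      intro t
      apply Subtype.ext
      rw [← autFun_apply α t, hfk t t.2, ← autFun_apply (k * mkAut hf₀ himg) t,
        autFun_mul _ _ t.2, autFun_mkAut hf₀ himg t.2]
    rw [e]
    exact hkγ
  · intro k hk
    rw [mem_autGroup_iff hTS]
    refine mor_kSys_of_gen ⟨hcfg.morK hk, ?_, ?_⟩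
    · rw [hTT]
      exact Cfsg.Agent.H90.isCentric_top E
    · rw [hTT]
      exact ⟨k, hk, fun x => x, Mor.id E le_rfl, fun x hx => rfl⟩

/-- A fusion system is invariant under its own automorphisms of `S`. -/
theorem autInv_self (F : FusionSystem S) : AutInv F F := by
  intro P f a hPS hf ha haS
  have haP := ha.restrict hPS
  refine ⟨a ∘ (f ∘ invOn P a), ?_, fun x hx => ?_⟩
  · exact (haP.inv.comp hf (fun y hy => haP.invOn_mem hy)).comp ha
      (fun y hy => hf.mem (haP.invOn_mem hy))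
  · show a (f (invOn P a (a x))) = a (f x)
    rw [invOn_apply haP.injOn hx]

/-- The initial configuration. -/
theorem rcfg_init [Finite S] {p : ℕ} [Fact p.Prime] (hS : IsPGroup p S) {F : FusionSystem S}
    (hF : F.IsSaturated p) {E : FusionSystem T} (hE : E.IsNormalIn F p) :
    RCfg p F E (F.autGroup T) F := by
  have hT : F.StronglyClosed T := hE.1.2.2.2.1
  have hTS : T ≤ S := hT.1
  have hScl : F.StronglyClosed S := stronglyClosed_iff.2 ⟨le_rfl, fun R f _ hf x hx => hf.mem hx⟩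
  refine ⟨hF, (isInvariantIn_iff le_rfl).2 ⟨fun P => subset_rfl, hScl, autInv_self F,
    fun P f _ hf => frMor_of_mor le_rfl hf⟩, hE, rfl, ?_,
    fun Finf L hFinf hL => resLimit_unique hL Fact.out inferInstance hS hFinf⟩
  refine le_antisymm (fun x hx => ?_) (actSub_le S T _)
  have hc : Mor F T (fun t => x * t * x⁻¹) := Mor.conj F hTS hx
  have himg := Cfsg.Agent.H88.imgS_stronglyClosed hT hc le_rfl
  exact ⟨hx, mkAut hc himg, mkAut_mem hc himg, fun t => mkAut_apply hc himg t⟩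

theorem actSub_pow {K : Subgroup (MulAut T)} {k : MulAut T} {x : Ω}
    (hkx : ∀ t : T, ((k t : T) : Ω) = x * t * x⁻¹) :
    ∀ (m : ℕ) (t : T), (((k ^ m) t : T) : Ω) = x ^ m * t * (x ^ m)⁻¹ := by
  intro m
  induction m with
  | zero => intro t; simp
  | succ m ih =>
    intro t
    rw [pow_succ, MulAut.mul_apply, ih, hkx, pow_succ]
    group

/-- The step of the chain for a quotient of order prime to `p`. -/
theorem step_pprime [Finite S] {p : ℕ} [Fact p.Prime] (hS : IsPGroup p S) {F : FusionSystem S}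
    (hF : F.IsSaturated p) {E : FusionSystem T} (hE : E.IsNormalIn F p)
    {K K' : Subgroup (MulAut T)} {S' : Subgroup Ω} {F' : FusionSystem S'} (h : RCfg p F E K F')
    (hK'K : K' ≤ K) (hBK' : E.autGroup T ≤ K')
    (hK'n : ∀ a ∈ F.autGroup T, ∀ k ∈ K', a * k * a⁻¹ ∈ K')
    (hroot : ∀ a ∈ K, ∀ n : ℕ, a ^ (p ^ n) ∈ K' → a ∈ K') :
    ∃ F'' : FusionSystem S', RCfg p F E K' F'' := by
  have hS'S : S' ≤ S := h.inv.2.1.1
  haveI : Finite S' := finite_of_le hS'S
  have hS' : IsPGroup p S' := hS.to_le hS'S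
  obtain ⟨hF'sub, hS'cl, hF'ai, hF'fr⟩ := (isInvariantIn_iff hS'S).1 h.inv
  have hTS' : T ≤ S' := h.nor.1.2.2.2.1.1
  have hTS : T ≤ S := hTS'.trans hS'S
  haveI : Finite T := finite_of_le hTS
  obtain ⟨hEsub', hTcl', hEai', hEfr'⟩ := (isInvariantIn_iff hTS').1 h.nor.1.2.2
  obtain ⟨hEsub, hTcl, hEai, hEfr⟩ := (isInvariantIn_iff hTS).1 hE.1.2.2
  have hKF : K ≤ F.autGroup T := by
    rw [← h.aut]
    intro β hβ
    exact (mem_autGroup_iff hTS β).2 (mor_of_subsystem hF'sub ((mem_autGroup_iff hTS' β).1 hβ))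
  have hcfg : KCfg p F' E K' :=
    ⟨h.sat, hE.1.1, hEsub', hTcl', hEai', hEfr', by rw [h.aut]; exact hK'K,
      fun a ha k hk => hK'n a (hKF (h.aut ▸ ha)) k hk, hBK',
      fun a ha n han => hroot a (h.aut ▸ ha) n han⟩
  obtain ⟨hsat, hinv', hEk, hidx, haut⟩ := kcfg_main hcfg hS'
  obtain ⟨hksub, -, hkai, hkfr⟩ := (isInvariantIn_iff le_rfl).1 hinv'
  refine ⟨kSys F' E K', hsat, ?_, ?_, haut, ?_, ?_⟩
  · exact (isInvariantIn_iff hS'S).2 ⟨fun P => (hksub P).trans (hF'sub P), hS'cl,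
      kSys_autInv_big hS hcfg hS'S hF'sub hF'ai hTcl hEai hK'n,
      frat_trans hS'S le_rfl hS'cl hF'sub hF'fr hkfr⟩
  · have hTk : (kSys F' E K').StronglyClosed T :=
      stronglyClosed_iff.2 ⟨hTS', fun R f hR hf x hx =>
        (stronglyClosed_iff.1 hTcl').2 R f hR (mor_of_subsystem hksub hf) x hx⟩
    have hinvE : E.IsInvariantIn (kSys F' E K') := by
      have hSI : StrongInv E F' := (invariant_iff_strongInv hS' h.sat hEsub' hTcl').1 h.nor.1.2.2
      have hSI' : StrongInv E (kSys F' E K') := fun P Q f g hPQ hQT hf hfQ hg =>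
        hSI P Q f g hPQ hQT hf hfQ (mor_of_subsystem hksub hg)
      exact (invariant_iff_strongInv hS' hsat hEk hTk).2 hSI'
    refine ⟨⟨hE.1.1, hsat, hinvE⟩, fun α hα => ?_⟩
    obtain ⟨β, hβ, h1, h2⟩ := h.nor.2 α hα
    refine ⟨β, ?_, h1, h2⟩
    have hUS' : T ⊔ centralizerIn S' T ≤ S' := sup_le hTS' inf_le_left
    rw [mem_autGroup_iff hUS']
    have hUT : (T ⊔ centralizerIn S' T) ⊓ T = T := inf_eq_right.2 le_sup_left
    refine mor_kSys_of_gen ⟨(mem_autGroup_iff hUS' β).1 hβ, ?_, ?_⟩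
    · rw [hUT]
      exact Cfsg.Agent.H90.isCentric_top E
    · rw [hUT]
      refine ⟨α, hBK' hα, fun x => x, Mor.id E le_rfl, fun x hx => ?_⟩
      rw [autFun_of_mem β (show x ∈ T ⊔ centralizerIn S' T from le_sup_left (a := T) hx),
        autFun_of_mem α hx]
      exact h1 ⟨x, hx⟩
  · refine h.grp.trans (le_antisymm ?_ (actSub_mono hK'K))
    rintro x ⟨hx, k, hk, hkx⟩
    refine ⟨hx, k, ?_, hkx⟩
    obtain ⟨n, hn⟩ := hS ⟨x, hx⟩
    have hxn : x ^ (p ^ n) = 1 := by
      have := congrArg Subtype.val hn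
      simpa using this
    have hk1 : k ^ (p ^ n) = 1 := by
      apply MulEquiv.ext
      intro t
      apply Subtype.ext
      rw [actSub_pow (K := K) hkx, hxn]
      simp
    exact hroot k hk n (hk1 ▸ K'.one_mem)
  · intro U V Finf L hFinf hL
    obtain ⟨U', L', hL'⟩ := exists_resLimit hS' h.sat
    exact (resLimit_of_primeToPIndex hS' h.sat hsat hidx hL' hL).symm.trans
      (h.lim Finf L' hFinf hL')

/-- The step of the chain for a quotient of `p`-power order. -/
theorem step_p [Finite S] {p : ℕ} [Fact p.Prime] (hS : IsPGroup p S) {F : FusionSystem S}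
    (hF : F.IsSaturated p) {E : FusionSystem T} (hE : E.IsNormalIn F p)
    {K K' : Subgroup (MulAut T)} {S' : Subgroup Ω} {F' : FusionSystem S'} (h : RCfg p F E K F')
    (hK'K : K' ≤ K) (hBK' : E.autGroup T ≤ K')
    (hK'n : ∀ a ∈ F.autGroup T, ∀ k ∈ K', a * k * a⁻¹ ∈ K')
    (hres : ∀ a ∈ K, (orderOf a).Coprime p → a ∈ K') :
    ∃ (S'' : Subgroup Ω) (F'' : FusionSystem S''), RCfg p F E K' F'' := by
  have hS'S : S' ≤ S := h.inv.2.1.1
  haveI : Finite S' := finite_of_le hS'S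
  have hS' : IsPGroup p S' := hS.to_le hS'S
  obtain ⟨hF'sub, hS'cl, hF'ai, hF'fr⟩ := (isInvariantIn_iff hS'S).1 h.inv
  have hTS' : T ≤ S' := h.nor.1.2.2.2.1.1
  have hTS : T ≤ S := hTS'.trans hS'S
  haveI : Finite T := finite_of_le hTS
  obtain ⟨hEsub', hTcl', hEai', hEfr'⟩ := (isInvariantIn_iff hTS').1 h.nor.1.2.2
  obtain ⟨hEsub, hTcl, hEai, hEfr⟩ := (isInvariantIn_iff hTS).1 hE.1.2.2
  have hKF : K ≤ F.autGroup T := by
    rw [← h.aut]
    intro β hβ
    exact (mem_autGroup_iff hTS β).2 (mor_of_subsystem hF'sub ((mem_autGroup_iff hTS' β).1 hβ))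
  have hInn : ∀ t : T, MulAut.conj t ∈ K' := fun t =>
    hBK' ((mem_autGroup_iff le_rfl _).2 ((Mor.conj E le_rfl t.2).congr (fun x hx => by
      rw [autFun_of_mem _ hx]; rfl)))
  have hS''S : actSub S T K' ≤ S := actSub_le S T K'
  have hS''S' : actSub S T K' ≤ S' := by
    rw [h.grp]
    exact actSub_mono hK'K
  have hcl'' : F.StronglyClosed (actSub S T K') := actSub_stronglyClosed hS hF hTcl hInn hK'n
  have hTS'' : T ≤ actSub S T K' := fun t ht =>
    ⟨hTS ht, MulAut.conj ⟨t, ht⟩, hInn _, fun _ => rfl⟩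
  have hCS'' : centralizerIn S' T ≤ actSub S T K' := by
    intro c hc
    obtain ⟨hcS', hcT⟩ := mem_centralizerIn_iff.1 hc
    refine ⟨hS'S hcS', 1, K'.one_mem, fun t => ?_⟩
    have h1 := hcT t t.2
    show (t : Ω) = c * t * c⁻¹
    rw [← h1]
    group
  have hcl''F' : F'.StronglyClosed (actSub S T K') :=
    stronglyClosed_iff.2 ⟨hS''S', fun R f hR hf x hx =>
      (stronglyClosed_iff.1 hcl'').2 R f hR (mor_of_subsystem hF'sub hf) x hx⟩
  have hhyp : F'.hyperfocalSubgroup p ≤ actSub S T K' := by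
    intro x hx
    obtain ⟨α, hα, hαx⟩ := Cfsg.Agent.H88.hyperfocal_actsGood hS' h.sat hTcl' x hx
    refine ⟨hS'S (hyperfocal_le F' p hx), α, ?_, hαx⟩
    have hle : (pResidual p (F'.autGroup T)).map (F'.autGroup T).subtype ⊔ Inn T ≤ K' := by
      refine sup_le ?_ ?_
      · unfold pResidual
        rw [MonoidHom.map_closure, Subgroup.closure_le]
        rintro _ ⟨β, hβ, rfl⟩
        have hβ' : Nat.Coprime (orderOf β) p := hβ
        rw [← Subgroup.orderOf_coe] at hβ'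
        exact hres _ (h.aut ▸ β.2) hβ'
      · rintro _ ⟨t, rfl⟩
        exact hInn t
    exact hle hα
  obtain ⟨F'', hF''sat, hPP⟩ := exists_pPow hS' h.sat hS''S' hhyp
  have hidx := hPP.hasPPowerIndexIn hhyp
  have hS''n : ∀ s ∈ S', ∀ t ∈ actSub S T K', s * t * s⁻¹ ∈ actSub S T K' := fun s hs t ht =>
    Cfsg.Agent.H88.stronglyClosed_conj_mem hcl'' (hS'S hs) ht
  have hnor'' : F''.IsNormalIn F' p := normal_of_pPow hS' h.sat hS''S' hS''n hhyp hF''sat hPP
  obtain ⟨hF''sub', -, hF''ai', hF''fr'⟩ := (isInvariantIn_iff hS''S').1 hnor''.1.2.2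
  refine ⟨actSub S T K', F'', hF''sat, ?_, ?_, ?_, rfl, ?_⟩
  · exact (isInvariantIn_iff hS''S).2 ⟨fun P => (hF''sub' P).trans (hF'sub P), hcl'',
      autInv_trans hS'S hS''S' hcl'' hF'sub hF'fr hF''ai'
        (pPow_autInvOn hS hS'S hS''S' hF'sub hF'ai hcl'' hF''sat hidx),
      frat_trans hS'S hS''S' hcl'' hF'sub hF'fr hF''fr'⟩
  · exact normal_in_pPow hS' h.sat h.nor hF''sat hidx hS''S' (sup_le hTS'' hCS'')
  · refine autGroup_pPow hS' h.sat hTcl' hF''sat hidx (by rw [h.aut]; exact hK'K)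
      (fun a ha k hk => hK'n a (hKF (h.aut ▸ ha)) k hk)
      (fun a ha hc => hres a (h.aut ▸ ha) hc) ?_ hTS''
    apply le_antisymm
    · rintro x ⟨hx, k, hk, hkx⟩
      exact ⟨hS''S' ⟨hx, k, hk, hkx⟩, k, hk, hkx⟩
    · rintro x ⟨hx, k, hk, hkx⟩
      exact ⟨hS'S hx, k, hk, hkx⟩
  · intro U V Finf L hFinf hL
    obtain ⟨U', L', hL'⟩ := exists_resLimit hS' h.sat
    exact (resLimit_of_pPowerIndex hS' hS''S' hcl''F' hF''sat hidx h.sat hL' hL).symm.trans
      (h.lim Finf L' hFinf hL')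

/-- **The reduction lemma.** -/
theorem reduction_main [Finite S] (p : ℕ) [Fact p.Prime] (hS : IsPGroup p S) (F : FusionSystem S)
    (hF : F.IsSaturated p) {T : Subgroup Ω} (E : FusionSystem T) (hE : E.IsNormalIn F p)
    [hn : ((E.autGroup T).subgroupOf (F.autGroup T)).Normal]
    (hsolv : Cfsg.IsPSolvable p (↥(F.autGroup T) ⧸ (E.autGroup T).subgroupOf (F.autGroup T))) :
    ∃ F₀ : FusionSystem (T ⊔ centralizerIn S T), F₀.IsNormalIn F p ∧ E.IsSubsystemOf F₀ ∧
      F₀.autGroup T = E.autGroup T ∧ ∀ {U : Subgroup Ω} (Finf : FusionSystem U),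
        Finf.IsResidualLimitOf F p → Finf.IsSubsystemOf F₀ ∧
          ∀ {V : Subgroup Ω} (L : FusionSystem V), L.IsResidualLimitOf F₀ p →
            ∀ P : Subgroup Ω, L.Hom P = Finf.Hom P := by
  have hT : F.StronglyClosed T := hE.1.2.2.2.1
  have hTS : T ≤ S := hT.1
  haveI : Finite T := finite_of_le hTS
  have hBA : E.autGroup T ≤ F.autGroup T := by
    intro β hβ
    exact (mem_autGroup_iff hTS β).2
      (mor_of_subsystem hE.1.2.2.1 ((mem_autGroup_iff le_rfl β).1 hβ))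
  obtain ⟨n, K, hK0, hKn, hKall, hKstep⟩ :=
    exists_pSolvable_chain (p := p) (F.autGroup T) (E.autGroup T) hBA hsolv
  have key : ∀ i : Fin (n + 1), ∃ (S' : Subgroup Ω) (F' : FusionSystem S'),
      RCfg p F E (K i) F' := by
    intro i
    induction i using Fin.reverseInduction with
    | last => exact ⟨S, F, hKn ▸ rcfg_init hS hF hE⟩
    | cast i ih =>
      obtain ⟨S', F', h⟩ := ih
      rcases (hKstep i).2 with hres | hroot
      · exact step_p hS hF hE h (hKstep i).1 (hKall _).1 (hKall _).2.2 hres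
      · obtain ⟨F'', h''⟩ := step_pprime hS hF hE h (hKstep i).1 (hKall _).1 (hKall _).2.2 hroot
        exact ⟨S', F'', h''⟩
  obtain ⟨S', F', h⟩ := key 0
  rw [hK0] at h
  have hS'eq : S' = T ⊔ centralizerIn S T := h.grp.trans (actSub_autGroup hS hTS hE.1.1)
  subst hS'eq
  have hS₀S : T ⊔ centralizerIn S T ≤ S := sup_le hTS inf_le_left
  haveI : Finite (T ⊔ centralizerIn S T : Subgroup Ω) := finite_of_le hS₀S
  have hC : centralizerIn S (T ⊔ centralizerIn S T) ≤ T ⊔ centralizerIn S T := by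
    intro c hc
    obtain ⟨hcS, hcT⟩ := mem_centralizerIn_iff.1 hc
    exact Subgroup.mem_sup_right (mem_centralizerIn_iff.2 ⟨hcS, fun x hx =>
      hcT x (Subgroup.mem_sup_left hx)⟩)
  refine ⟨F', isNormalIn_of_centralizer_le hF h.sat h.inv hC, h.nor.1.2.2.1, h.aut,
    fun Finf hFinf => ⟨?_, fun L hL P => h.lim Finf L hFinf hL P⟩⟩
  obtain ⟨V, L, hL⟩ := exists_resLimit (hS.to_le hS₀S) h.sat
  intro P
  rw [← h.lim Finf L hFinf hL P]
  exact resLimit_le hL P

end Cfsg.Agent.H87
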