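import Cfsg.Agent.H87.RedDefs
import Cfsg.Agent.H87.OpPrime
import Cfsg.Agent.H87.PrimeIdx
import Cfsg.Agent.H87.PPowerExist
import Cfsg.Agent.H88.PPower
import Cfsg.Agent.H86.WPlaced

set_option autoImplicit false

/-!
The index-prime-to-`p` step of the reduction lemma: if `R` has index prime to `p` in `X`, then the
subsystems of `p`-power index of `R` and `X` over the same subgroup `M` (containing the hyperfocal
subgroup of `X`) again have index prime to `p`, provided conjugations by elements of `S` that are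
maps of the larger one are induced by elements of `M` on receptive subgroups.
-/

namespace Cfsg.Agent.H87

open Cfsg Cfsg.FusionSystem Cfsg.Agent.H86

universe u

variable {Ω : Type u} [Group Ω] {S : Subgroup Ω}

/-- The receptive case. -/
theorem pstep_receptive {p : ℕ}
    {X R : FusionSystem S} (hRX : R.HasPrimeToPIndexIn X p) {M : Subgroup Ω} (hMS : M ≤ S)
    {XM RM : FusionSystem M} (hXMX : XM.IsSubsystemOf X)
    (hTheta : ∀ P : Subgroup Ω, P ≤ M → X.IsReceptive P → ∀ t ∈ S,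
      Mor XM P (fun x => t * x * t⁻¹) → ∃ m ∈ M, ∀ x ∈ P, m * x * m⁻¹ = t * x * t⁻¹)
    (hRMp : PPow RM R p) (hRMXM : RM.IsSubsystemOf XM)
    {P : Subgroup Ω} (hPM : P ≤ M) (hPr : X.IsReceptive P)
    (α : MulAut P) (hα : α ∈ XM.autGroup P) (k : ℕ) (hk : orderOf α = p ^ k) :
    α ∈ RM.autGroup P := by
  have hPS : P ≤ S := hPM.trans hMS
  have hαXM : Mor XM P (autFun P α) := (mem_autGroup_iff hPM α).1 hα
  have hαX : α ∈ X.autGroup P := (mem_autGroup_iff hPS α).2 (mor_of_subsystem hXMX hαXM)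
  have hαR : α ∈ R.autGroup P := by
    apply hRX.2 P hPS
    refine ⟨⟨α, hαX⟩, Subgroup.subset_closure ⟨k, ?_⟩, rfl⟩
    rw [← hk]
    exact Subgroup.orderOf_mk α hαX
  have hfR : Mor R P (autFun P α) := (mem_autGroup_iff hPS α).1 hαR
  obtain ⟨t, ht, hg⟩ := hRMp.2.2 P (autFun P α) hfR hPM
  have hgXM : Mor XM P (fun x => t * autFun P α x * t⁻¹) := mor_of_subsystem hRMXM hg
  have hαinv : Mor XM P (autFun P α⁻¹) := (mem_autGroup_iff hPM α⁻¹).1 (inv_mem hα)
  have hct : Mor XM P (fun x => t * x * t⁻¹) := by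
    have h1 := hαinv.comp hgXM (fun x hx => autFun_mem α⁻¹ hx)
    refine h1.congr (fun x hx => ?_)
    show t * autFun P α (autFun P α⁻¹ x) * t⁻¹ = t * x * t⁻¹
    rw [autFun_apply_inv α hx]
  obtain ⟨m, hm, hmt⟩ := hTheta P hPM hPr t ht hct
  have hcm : Mor RM P (fun x => m * x * m⁻¹) := Mor.conj RM hPM hm
  have hcminv := hcm.inv
  have hgm : ∀ x ∈ P, t * autFun P α x * t⁻¹ = m * autFun P α x * m⁻¹ :=
    fun x hx => (hmt _ (autFun_mem α hx)).symm
  have h2 := hg.comp hcminv (fun x hx => by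
    show t * autFun P α x * t⁻¹ ∈ imgS P (fun x => m * x * m⁻¹)
    rw [hgm x hx]
    exact hcm.mem_imgS_of_mem (autFun_mem α hx))
  have h3 : Mor RM P (autFun P α) := by
    refine h2.congr (fun x hx => ?_)
    show invOn P (fun x => m * x * m⁻¹) (t * autFun P α x * t⁻¹) = autFun P α x
    rw [hgm x hx]
    exact invOn_apply hcm.injOn (autFun_mem α hx)
  exact (mem_autGroup_iff hPM α).2 h3

/-- Every subgroup of `M` is conjugate in the `p`-power index subsystem of `R` to a receptive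
subgroup of `X`. -/
theorem pstep_conj [Finite S] {p : ℕ} [Fact p.Prime] (hS : IsPGroup p S)
    {X R : FusionSystem S} (hX : X.IsSaturated p)
    (hRX : R.HasPrimeToPIndexIn X p) {M : Subgroup Ω} (hMS : M ≤ S)
    {RM : FusionSystem M} (hRMp : PPow RM R p)
    {P : Subgroup Ω} (hPM : P ≤ M) :
    ∃ g : Ω → Ω, Mor RM P g ∧ X.IsReceptive (imgS P g) := by
  have hPS : P ≤ S := hPM.trans hMS
  obtain ⟨Q, hPQ, hQn⟩ := exists_fullyNormalized_conj X hPS
  obtain ⟨χ, hχ, hχQ⟩ := isConj_iff.1 hPQ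
  have hST : X.StronglyClosed S := stronglyClosed_iff.2 ⟨le_rfl, fun R f _ hf x hx => hf.mem hx⟩
  have h : ∀ P : Subgroup Ω, X.IsCentric P →
      (Subgroup.closure {α : ↥(X.autGroup P) | ∃ k : ℕ, orderOf α = p ^ k}).map
        (X.autGroup P).subtype ≤ R.autGroup P := fun P hP => hRX.2 P hP.1
  have hfrat : Frat (invSys R X) X := frat_of_key hS hX hST (invSys_autInv R X)
    (fun Q hQ hQn ih β hβ => key_invSys hS hX R (invSys_contains h) Q hQ hQn ih β hβ)
  obtain ⟨a, χ₀, ha, haS, hχ₀, hχa⟩ := hfrat P χ hPS hχ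
  have hχ₀R : Mor R P χ₀ := mor_of_invSys hχ₀
  obtain ⟨t, ht, hg⟩ := hRMp.2.2 P χ₀ hχ₀R hPM
  refine ⟨_, hg, ?_⟩
  have hainv : Mor X S (invOn S a) := by
    have := ha.inv
    rwa [haS] at this
  have hainvmem : ∀ y ∈ S, invOn S a y ∈ S := fun y hy => ha.invOn_mem (by rw [haS]; exact hy)
  have hψ : Mor X S (fun y => t * invOn S a y * t⁻¹) :=
    (hainv.comp (Mor.conj X le_rfl ht) hainvmem).congr (fun _ _ => rfl)
  have hfn := (fullyNormalized_imgS hQn (hψ.restrict inf_le_left)).1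
  have himg : imgS P (fun x => t * χ₀ x * t⁻¹) = imgS Q (fun y => t * invOn S a y * t⁻¹) := by
    rw [← hχQ]
    have hcomp := Mor.imgS_comp hχ (hψ.restrict hχ.imgS_le) (fun x hx => hχ.mem_imgS_of_mem hx)
    rw [← hcomp]
    apply hg.imgS_congr
    intro x hx
    show t * χ₀ x * t⁻¹ = t * invOn S a (χ x) * t⁻¹
    rw [hχa x hx, invOn_apply ha.injOn (hχ₀R.mem hx)]
  rw [himg]
  exact saturated_receptive_of_fullyCentralized hS hX (saturated_fullyNormalized hS hX hfn).1

/-- The index-prime-to-`p` step. -/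
theorem primeIdx_stepB [Finite S] {p : ℕ} [Fact p.Prime] (hS : IsPGroup p S)
    {X R : FusionSystem S} (hX : X.IsSaturated p) (hR : R.IsSaturated p)
    (hRX : R.HasPrimeToPIndexIn X p) {M : Subgroup Ω} (hMS : M ≤ S)
    (hhyp : X.hyperfocalSubgroup p ≤ M)
    {XM RM : FusionSystem M} (hXM : XM.IsSaturated p) (hXMp : PPow XM X p)
    (hTheta : ∀ P : Subgroup Ω, P ≤ M → X.IsReceptive P → ∀ t ∈ S,
      Mor XM P (fun x => t * x * t⁻¹) → ∃ m ∈ M, ∀ x ∈ P, m * x * m⁻¹ = t * x * t⁻¹)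
    (hRM : RM.IsSaturated p) (hRMp : PPow RM R p) :
    RM.HasPrimeToPIndexIn XM p := by
  haveI : Finite M := finite_of_le hMS
  have hM : IsPGroup p M := hS.to_le hMS
  have hRMX : RM.IsSubsystemOf X := fun P => (hRMp.1 P).trans (hRX.1 P)
  have hRMXM : RM.IsSubsystemOf XM :=
    Cfsg.Agent.H88.subsystem_of_pPowerIndex hM RM hRM hRMX hMS XM le_rfl
      (hXMp.hasPPowerIndexIn hhyp)
  refine ⟨hRMXM, fun P hPM => ?_⟩
  rw [Subgroup.map_le_iff_le_comap, Subgroup.closure_le]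
  rintro α ⟨k, hk⟩
  show (α : MulAut P) ∈ RM.autGroup P
  have hk' : orderOf (α : MulAut P) = p ^ k := by rw [← hk]; exact Subgroup.orderOf_coe α
  obtain ⟨g, hg, hrec⟩ := pstep_conj hS hX hRX hMS hRMp hPM
  have hgXM : Mor XM P g := mor_of_subsystem hRMXM hg
  have hQM : imgS P g ≤ M := hg.imgS_le
  let e : P ≃* imgS P g := isoEquiv hg rfl
  have hβXM : MulAut.congr e (α : MulAut P) ∈ XM.autGroup (imgS P g) :=
    congr_mem_autGroup hgXM rfl e (isoEquiv_apply hg rfl) α.2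
  have hord : orderOf (MulAut.congr e (α : MulAut P)) = p ^ k := by
    rw [← hk']
    exact MulEquiv.orderOf_eq (MulAut.congr e) (α : MulAut P)
  have hβRM := pstep_receptive hRX hMS hXMp.1 hTheta hRMp hRMXM hQM hrec _ hβXM k hord
  have hinv : Mor RM (imgS P g) (invOn P g) := hg.inv
  have himg' : imgS (imgS P g) (invOn P g) = P := hg.imgS_inv
  have h5 := congr_mem_autGroup hinv himg' e.symm (isoEquiv_symm_apply hg rfl) hβRM
  have h6 : MulAut.congr e.symm (MulAut.congr e (α : MulAut P)) = (α : MulAut P) := by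
    ext x
    simp [MulAut.congr]
  rwa [h6] at h5

end Cfsg.Agent.H87
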