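import Mathlib

/-!
# S3641-N2, STRUCTURE part (helper87, for helper21's S3641)

A transitive group `G` on 18 points of order `18 * 17 * d`, `d ∈ {8, 16}` (faithful action):
the stabiliser of a point `a` contains an element `u` of order 17 whose powers act regularly
on the other 17 points and which generates a normal subgroup of the stabiliser; hence no
nonidentity element of `G` fixes three points (`fix3`, `zst`).
-/

set_option autoImplicit false

namespace Cfsg.Agent.H87.SN

open MulAction

section cyc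

variable {α : Type*} [Fintype α] [DecidableEq α]

/-- A permutation of order 17 of 18 points fixing `a` acts regularly on the other points. -/
theorem perm17 (hα : Fintype.card α = 18) (σ : Equiv.Perm α) (hσ : orderOf σ = 17) (a : α)
    (ha : σ a = a) :
    ∀ b, b ≠ a → (∀ c, c ≠ a → ∃ i : ℕ, (σ ^ i) b = c) ∧ (∀ i : ℕ, (σ ^ i) b = b → 17 ∣ i) := by
  have hfixpow : ∀ (τ : Equiv.Perm α) (x : α), τ x = x → ∀ k : ℕ, (τ ^ k) x = x := by
    intro τ x hx k
    induction k with
    | zero => simp
    | succ k ih => rw [pow_succ, Equiv.Perm.mul_apply, hx, ih]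
  have key : ∀ x, σ x ≠ x → ∀ i : ℕ, (σ ^ i) x = x → 17 ∣ i := by
    intro x hx i hi
    by_contra h17
    have hcop : Nat.Coprime i 17 :=
      (Nat.Coprime.symm ((Nat.Prime.coprime_iff_not_dvd (by norm_num)).mpr h17))
    obtain ⟨m, -, hm⟩ := Nat.exists_mul_mod_eq_one_of_coprime hcop (by norm_num)
    have h1 : σ ^ (i * m) = σ := by
      rw [← pow_mod_orderOf, hσ, hm, pow_one]
    have h2 : (σ ^ (i * m)) x = x := by
      rw [pow_mul]
      exact hfixpow (σ ^ i) x hi m
    rw [h1] at h2
    exact hx h2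
  have hne : σ ≠ 1 := by
    intro h; rw [h, orderOf_one] at hσ; omega
  obtain ⟨x, hx⟩ : ∃ x, σ x ≠ x := by
    by_contra hall
    push Not at hall
    exact hne (Equiv.ext hall)
  have hxa : x ≠ a := fun h => hx (h ▸ ha)
  have hpa : ∀ i : ℕ, (σ ^ i) a = a := hfixpow σ a ha
  have hinj0 : ∀ i j : ℕ, i ≤ j → j < 17 → (σ ^ i) x = (σ ^ j) x → i = j := by
    intro i j hij hj h
    have h1 : (σ ^ i) ((σ ^ (j - i)) x) = (σ ^ i) x := by
      rw [← Equiv.Perm.mul_apply, ← pow_add, Nat.add_sub_cancel' hij, h]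
    have h2 := key x hx (j - i) ((σ ^ i).injective h1)
    obtain ⟨t, ht⟩ := h2
    omega
  have hinj : Function.Injective (fun i : Fin 17 => (σ ^ (i : ℕ)) x) := by
    intro i j hij
    simp only at hij
    rcases le_total (i : ℕ) (j : ℕ) with h | h
    · exact Fin.ext (hinj0 _ _ h j.2 hij)
    · exact Fin.ext (hinj0 _ _ h i.2 hij.symm).symm
  have hsurj : ∀ c, c ≠ a → ∃ i : Fin 17, (σ ^ (i : ℕ)) x = c := by
    have himg : (Finset.univ.image (fun i : Fin 17 => (σ ^ (i : ℕ)) x)) = Finset.univ.erase a := by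
      apply Finset.eq_of_subset_of_card_le
      · intro c hc
        obtain ⟨i, -, rfl⟩ := Finset.mem_image.mp hc
        rw [Finset.mem_erase]
        refine ⟨?_, Finset.mem_univ _⟩
        intro h
        apply hxa
        exact (σ ^ (i : ℕ)).injective (h.trans (hpa i).symm)
      · rw [Finset.card_erase_of_mem (Finset.mem_univ _), Finset.card_univ, hα,
          Finset.card_image_of_injective _ hinj]
        simp
    intro c hc
    have hmem : c ∈ Finset.univ.erase a := by simp [hc]
    rw [← himg] at hmem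
    obtain ⟨i, -, hi⟩ := Finset.mem_image.mp hmem
    exact ⟨i, hi⟩
  intro b hb
  obtain ⟨j, hj⟩ := hsurj b hb
  constructor
  · intro c hc
    obtain ⟨i, hi⟩ := hsurj c hc
    refine ⟨(i : ℕ) + (17 - (j : ℕ)), ?_⟩
    rw [← hj, ← Equiv.Perm.mul_apply, ← pow_add]
    have h17 : (i : ℕ) + (17 - (j : ℕ)) + (j : ℕ) = (i : ℕ) + 17 := by omega
    have h17' : σ ^ 17 = 1 := by
      have := pow_orderOf_eq_one σ
      rwa [hσ] at this
    rw [h17, pow_add, h17', mul_one, hi]
  · intro i hi
    apply key x hx i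
    rw [← hj] at hi
    have h1 : (σ ^ (j : ℕ)) ((σ ^ i) x) = (σ ^ (j : ℕ)) x := by
      rw [← Equiv.Perm.mul_apply, ← pow_add, add_comm, pow_add, Equiv.Perm.mul_apply]
      exact hi
    exact (σ ^ (j : ℕ)).injective h1

end cyc

section grp

variable {α : Type*} [Fintype α] [DecidableEq α] {G : Type*} [Group G] [MulAction G α]

/-- STRUCTURE: in the stabiliser of `a` there is `u` of order 17, regular on the other points,
generating a normal subgroup of the stabiliser. -/
theorem struct17 [FaithfulSMul G α] [IsPretransitive G α] [Finite G]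
    (hα : Fintype.card α = 18) (d : ℕ) (hd : d = 8 ∨ d = 16) (hG : Nat.card G = 18 * 17 * d)
    (a : α) :
    ∃ u : G, u • a = a ∧ orderOf u = 17 ∧
      (∀ b, b ≠ a → (∀ c, c ≠ a → ∃ i : ℕ, (u ^ i) • b = c) ∧
        (∀ i : ℕ, (u ^ i) • b = b → 17 ∣ i)) ∧
      (∀ y : G, y • a = a → ∃ k : ℕ, y * u * y⁻¹ = u ^ k) := by
  classical
  have hidx : (stabilizer G a).index = 18 := by
    rw [index_stabilizer_of_transitive, Nat.card_eq_fintype_card, hα]
  have hcard : Nat.card (stabilizer G a) = 17 * d := by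
    have := Subgroup.card_mul_index (stabilizer G a)
    rw [hidx, hG] at this
    omega
  haveI : Fact (Nat.Prime 17) := ⟨by norm_num⟩
  obtain ⟨u0, hu0⟩ := exists_prime_orderOf_dvd_card' (G := stabilizer G a) 17
    (by rw [hcard]; exact Dvd.intro _ rfl)
  set u : G := (u0 : G) with hu
  have hua : u • a = a := u0.2
  have hou : orderOf u = 17 := by rw [hu, Subgroup.orderOf_coe, hu0]
  have hoσ : orderOf (MulAction.toPermHom G α u) = 17 := by
    rw [orderOf_injective (MulAction.toPermHom G α) MulAction.toPerm_injective, hou]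
  have hreg := perm17 hα (MulAction.toPermHom G α u) hoσ a hua
  have hpow : ∀ (i : ℕ) (x : α), ((MulAction.toPermHom G α u) ^ i) x = (u ^ i) • x := by
    intro i x
    rw [← map_pow]
    rfl
  refine ⟨u, hua, hou, ?_, ?_⟩
  · intro b hb
    obtain ⟨h1, h2⟩ := hreg b hb
    refine ⟨fun c hc => ?_, fun i hi => ?_⟩
    · obtain ⟨i, hi⟩ := h1 c hc
      exact ⟨i, by rw [← hpow]; exact hi⟩
    · exact h2 i (by rw [hpow]; exact hi)
  · intro y hy
    set v : G := y * u * y⁻¹ with hv
    have hva : v • a = a := by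
      rw [hv, mul_smul, mul_smul, inv_smul_eq_iff.mpr hy.symm, hua, hy]
    have hov : orderOf v = 17 := by
      have hsc : SemiconjBy y u v := by
        rw [SemiconjBy, hv, inv_mul_cancel_right]
      rw [← hsc.orderOf_eq, hou]
    have hK : Nat.card (Subgroup.zpowers u) = 17 := by rw [Nat.card_zpowers, hou]
    have hK' : Nat.card (Subgroup.zpowers v) = 17 := by rw [Nat.card_zpowers, hov]
    have hKle : Subgroup.zpowers u ≤ stabilizer G a := by
      rw [Subgroup.zpowers_le]; exact hua
    have hK'le : Subgroup.zpowers v ≤ stabilizer G a := by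
      rw [Subgroup.zpowers_le]; exact hva
    have hint : Subgroup.zpowers u ⊓ Subgroup.zpowers v ≠ ⊥ := by
      intro hbot
      have hinj : Function.Injective
          (fun p : (Subgroup.zpowers u) × (Subgroup.zpowers v) =>
            (⟨(p.1 : G) * (p.2 : G), (stabilizer G a).mul_mem (hKle p.1.2) (hK'le p.2.2)⟩ :
              stabilizer G a)) := by
        rintro ⟨x1, y1⟩ ⟨x2, y2⟩ h
        have h' : (x1 : G) * (y1 : G) = (x2 : G) * (y2 : G) := congrArg Subtype.val h
        have hz : (x2 : G)⁻¹ * (x1 : G) = (y2 : G) * (y1 : G)⁻¹ := by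
          rw [inv_mul_eq_iff_eq_mul, ← mul_assoc, ← h', mul_inv_cancel_right]
        have hz1 : (x2 : G)⁻¹ * (x1 : G) ∈ Subgroup.zpowers u ⊓ Subgroup.zpowers v := by
          refine ⟨(Subgroup.zpowers u).mul_mem ((Subgroup.zpowers u).inv_mem x2.2) x1.2, ?_⟩
          rw [hz]
          exact (Subgroup.zpowers v).mul_mem y2.2 ((Subgroup.zpowers v).inv_mem y1.2)
        rw [hbot, Subgroup.mem_bot] at hz1
        have hx : (x1 : G) = x2 := by
          have := inv_mul_eq_one.mp hz1
          exact this.symm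
        have hy' : (y1 : G) = y2 := by
          rw [hx] at h'
          exact mul_left_cancel h'
        exact Prod.ext (Subtype.ext hx) (Subtype.ext hy')
      have hle := Nat.card_le_card_of_injective _ hinj
      rw [Nat.card_prod, hK, hK', hcard] at hle
      rcases hd with rfl | rfl <;> omega
    have hdvd : Nat.card (Subgroup.zpowers u ⊓ Subgroup.zpowers v : Subgroup G) ∣ 17 := by
      rw [← hK]
      exact Subgroup.card_dvd_of_le inf_le_left
    have hc17 : Nat.card (Subgroup.zpowers u ⊓ Subgroup.zpowers v : Subgroup G) = 17 := by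
      rcases (Nat.dvd_prime (by norm_num : Nat.Prime 17)).mp hdvd with h1 | h17
      · exact absurd (Subgroup.card_eq_one.mp h1) hint
      · exact h17
    have heq1 : Subgroup.zpowers u ⊓ Subgroup.zpowers v = Subgroup.zpowers v :=
      Subgroup.eq_of_le_of_card_ge inf_le_right (by rw [hc17, hK'])
    have hvu : v ∈ Subgroup.zpowers u := by
      have : Subgroup.zpowers v ≤ Subgroup.zpowers u := by
        rw [← heq1]; exact inf_le_left
      exact this (Subgroup.mem_zpowers v)
    have hfin : IsOfFinOrder u := by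
      rw [← orderOf_pos_iff, hou]; norm_num
    rw [← hfin.mem_powers_iff_mem_zpowers] at hvu
    obtain ⟨k, hk⟩ := hvu
    exact ⟨k, hk.symm⟩

/-- No nonidentity element fixes three points. -/
theorem fix3 [FaithfulSMul G α] [IsPretransitive G α] [Finite G]
    (hα : Fintype.card α = 18) (d : ℕ) (hd : d = 8 ∨ d = 16) (hG : Nat.card G = 18 * 17 * d)
    (g : G) (a b c : α) (hab : a ≠ b) (hac : a ≠ c) (hbc : b ≠ c)
    (ha : g • a = a) (hb : g • b = b) (hc : g • c = c) : g = 1 := by
  obtain ⟨u, hua, hou, hreg, hnorm⟩ := struct17 hα d hd hG a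
  obtain ⟨hb1, hb2⟩ := hreg b hab.symm
  obtain ⟨k, hk⟩ := hnorm g ha
  obtain ⟨j, hj⟩ := hb1 c hac.symm
  have hconj : ∀ i : ℕ, g * u ^ i = u ^ (k * i) * g := by
    intro i
    have : g * u ^ i * g⁻¹ = u ^ (k * i) := by
      rw [pow_mul, ← hk, conj_pow]
    rw [← this, inv_mul_cancel_right]
  have hj17 : ¬ 17 ∣ j := by
    rintro ⟨t, rfl⟩
    apply hbc
    rw [← hj, pow_mul, ← hou, pow_orderOf_eq_one, one_pow, one_smul]
  -- `u^(k j) • b = u^j • b`
  have h1 : (u ^ (k * j)) • b = (u ^ j) • b := by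
    have : g • ((u ^ j) • b) = (u ^ j) • b := by rw [hj]; exact hc
    rw [← mul_smul, hconj j, mul_smul, hb] at this
    exact this
  have h2 : (u ^ (k * j + 16 * j)) • b = b := by
    rw [add_comm, pow_add, mul_smul, h1, ← mul_smul, ← pow_add]
    have : 16 * j + j = 17 * j := by ring
    rw [this, pow_mul, ← hou, pow_orderOf_eq_one, one_pow, one_smul]
  have h3 : 17 ∣ (k + 16) * j := by
    have := hb2 _ h2
    rwa [← add_mul] at this
  have h4 : 17 ∣ k + 16 := by
    rcases (Nat.Prime.dvd_mul (by norm_num : Nat.Prime 17)).mp h3 with h | h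
    · exact h
    · exact absurd h hj17
  have hk1 : u ^ k = u := by
    rw [← pow_mod_orderOf, hou]
    have : k % 17 = 1 := by omega
    rw [this, pow_one]
  have hcomm : ∀ i : ℕ, g * u ^ i = u ^ i * g := by
    intro i
    rw [hconj i, pow_mul, hk1]
  apply FaithfulSMul.eq_of_smul_eq_smul (α := α)
  intro x
  rw [one_smul]
  by_cases hxa : x = a
  · rw [hxa]; exact ha
  · obtain ⟨i, hi⟩ := hb1 x hxa
    rw [← hi, ← mul_smul, hcomm i, mul_smul, hb]

end grp

/-- STRUCTURE lemma for S3641 (N2 / N3): in a transitive subgroup `H` of `Sym(18)` of order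
`18 * 17 * d`, `d ∈ {8, 16}`, a nonidentity element fixes at most two points. -/
theorem zst {α : Type*} [Fintype α] [DecidableEq α] (hα : Fintype.card α = 18)
    (H : Subgroup (Equiv.Perm α)) [MulAction.IsPretransitive H α] (d : ℕ)
    (hd : d = 8 ∨ d = 16) (hH : Nat.card H = 18 * 17 * d) :
    ∀ h ∈ H, ∀ a b c : α, a ≠ b → a ≠ c → b ≠ c → h a = a → h b = b → h c = c → h = 1 := by
  intro h hh a b c hab hac hbc ha hb hc
  have := fix3 (G := H) hα d hd hH ⟨h, hh⟩ a b c hab hac hbc ha hb hc
  exact congrArg Subtype.val this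

/-- The same, as a bound on the number of fixed points. -/
theorem zst_card {α : Type*} [Fintype α] [DecidableEq α] (hα : Fintype.card α = 18)
    (H : Subgroup (Equiv.Perm α)) [MulAction.IsPretransitive H α] (d : ℕ)
    (hd : d = 8 ∨ d = 16) (hH : Nat.card H = 18 * 17 * d) :
    ∀ h ∈ H, h ≠ 1 → (Finset.univ.filter (fun x : α => h x = x)).card ≤ 2 := by
  intro h hh hne
  by_contra hcon
  push Not at hcon
  obtain ⟨a, b, c, ha, hb, hc, hab, hac, hbc⟩ := Finset.two_lt_card_iff.mp hcon
  simp only [Finset.mem_filter, Finset.mem_univ, true_and] at ha hb hc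
  exact hne (zst hα H d hd hH h hh a b c hab hac hbc ha hb hc)

end Cfsg.Agent.H87.SN

#print axioms Cfsg.Agent.H87.SN.zst
#print axioms Cfsg.Agent.H87.SN.zst_card
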