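import Mathlib
import Cfsg.Agent.H87.SNZst

/-!
# S3641-N2 (helper87, for helper21's S3641)

A transitive subgroup `H` of `Sym(18)` of order `18 * 17 * d`, `d ∈ {8, 16}`, has exactly 153
Sylow 2-subgroups: the setwise stabiliser `T` of a pair `{a, b}` is a self-normalising Sylow
2-subgroup.
-/

set_option autoImplicit false

namespace Cfsg.Agent.H87.SN

open MulAction

/-- The pointwise stabiliser of two points. -/
def Esub (G : Type*) [Group G] {α : Type*} [MulAction G α] (a b : α) : Subgroup G :=
  stabilizer G a ⊓ stabilizer G b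

/-- The setwise stabiliser of `{a, b}`. -/
def Tsub (G : Type*) [Group G] {α : Type*} [MulAction G α] (a b : α) : Subgroup G where
  carrier := {g | (g • a = a ∧ g • b = b) ∨ (g • a = b ∧ g • b = a)}
  mul_mem' := by
    rintro x y (⟨h1, h2⟩ | ⟨h1, h2⟩) (⟨h3, h4⟩ | ⟨h3, h4⟩)
    · left; exact ⟨by rw [mul_smul, h3, h1], by rw [mul_smul, h4, h2]⟩
    · right; exact ⟨by rw [mul_smul, h3, h2], by rw [mul_smul, h4, h1]⟩
    · right; exact ⟨by rw [mul_smul, h3, h1], by rw [mul_smul, h4, h2]⟩
    · left; exact ⟨by rw [mul_smul, h3, h2], by rw [mul_smul, h4, h1]⟩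
  one_mem' := Or.inl ⟨one_smul _ _, one_smul _ _⟩
  inv_mem' := by
    rintro x (⟨h1, h2⟩ | ⟨h1, h2⟩)
    · left; exact ⟨inv_smul_eq_iff.mpr h1.symm, inv_smul_eq_iff.mpr h2.symm⟩
    · right; exact ⟨inv_smul_eq_iff.mpr h2.symm, inv_smul_eq_iff.mpr h1.symm⟩

section grp2

variable {α : Type*} [Fintype α] [DecidableEq α] {G : Type*} [Group G] [MulAction G α]

theorem mem_Esub {a b : α} {g : G} : g ∈ Esub G a b ↔ g • a = a ∧ g • b = b := Iff.rfl

theorem mem_Tsub {a b : α} {g : G} :
    g ∈ Tsub G a b ↔ (g • a = a ∧ g • b = b) ∨ (g • a = b ∧ g • b = a) := Iff.rfl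

theorem card_Esub [FaithfulSMul G α] [IsPretransitive G α] [Finite G]
    (hα : Fintype.card α = 18) (d : ℕ) (hd : d = 8 ∨ d = 16) (hG : Nat.card G = 18 * 17 * d)
    (a b : α) (hab : a ≠ b) : Nat.card (Esub G a b) = d := by
  classical
  obtain ⟨u, hua, hou, hreg, -⟩ := struct17 hα d hd hG a
  have hidx : (stabilizer G a).index = 18 := by
    rw [index_stabilizer_of_transitive, Nat.card_eq_fintype_card, hα]
  have hcard : Nat.card (stabilizer G a) = 17 * d := by
    have := Subgroup.card_mul_index (stabilizer G a)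
    rw [hidx, hG] at this
    omega
  have horb : orbit (stabilizer G a) b = {c | c ≠ a} := by
    ext c
    constructor
    · rintro ⟨k, rfl⟩ hka
      have h1 : (k : G) • b = a := hka
      have h2 : (k : G) • a = a := k.2
      exact hab (MulAction.injective (k : G) (h2.trans h1.symm))
    · intro hc
      obtain ⟨i, hi⟩ := (hreg b hab.symm).1 c hc
      exact ⟨⟨u ^ i, (stabilizer G a).pow_mem hua i⟩, hi⟩
  have hidx2 : (stabilizer (stabilizer G a) b).index = 17 := by
    rw [index_stabilizer, horb]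
    have hset : ({c | c ≠ a} : Set α) = ((Finset.univ.erase a : Finset α) : Set α) := by
      ext; simp
    rw [hset, Set.ncard_coe_finset, Finset.card_erase_of_mem (Finset.mem_univ _),
      Finset.card_univ, hα]
  have hc2 : Nat.card (stabilizer (stabilizer G a) b) = d := by
    have := Subgroup.card_mul_index (stabilizer (stabilizer G a) b)
    rw [hidx2, hcard] at this
    omega
  rw [← hc2]
  apply Nat.card_congr
  exact ⟨fun x => ⟨⟨x.1, (mem_Esub.mp x.2).1⟩, (mem_Esub.mp x.2).2⟩,
    fun y => ⟨y.1.1, mem_Esub.mpr ⟨y.1.2, y.2⟩⟩, fun _ => rfl, fun _ => rfl⟩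

theorem card_Tsub [FaithfulSMul G α] [IsPretransitive G α] [Finite G]
    (hα : Fintype.card α = 18) (d : ℕ) (hd : d = 8 ∨ d = 16) (hG : Nat.card G = 18 * 17 * d)
    (a b : α) (hab : a ≠ b) : Nat.card (Tsub G a b) = 2 * d := by
  classical
  have hE := card_Esub hα d hd hG a b hab
  obtain ⟨g1, hg1⟩ := exists_smul_eq G a b
  obtain ⟨ub, hubb, -, hregb, -⟩ := struct17 hα d hd hG b
  have hc : g1 • b ≠ b := by
    intro h
    exact hab (MulAction.injective g1 (hg1.trans h.symm))
  obtain ⟨i, hi⟩ := (hregb (g1 • b) hc).1 a hab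
  set s : G := ub ^ i * g1 with hs
  have hsa : s • a = b := by
    rw [hs, mul_smul, hg1]
    exact (stabilizer G b).pow_mem hubb i
  have hsb : s • b = a := by rw [hs, mul_smul, hi]
  have hT : ((Tsub G a b : Subgroup G) : Set G) = ((Esub G a b : Subgroup G) : Set G) ∪
      (fun g => s * g) '' ((Esub G a b : Subgroup G) : Set G) := by
    ext g
    constructor
    · rintro (⟨h1, h2⟩ | ⟨h1, h2⟩)
      · left; exact ⟨h1, h2⟩
      · right
        refine ⟨s⁻¹ * g, mem_Esub.mpr ⟨?_, ?_⟩, by simp⟩
        · rw [mul_smul, h1, inv_smul_eq_iff, hsa]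
        · rw [mul_smul, h2, inv_smul_eq_iff, hsb]
    · rintro (h | ⟨y, hy, rfl⟩)
      · exact Or.inl (mem_Esub.mp h)
      · right
        obtain ⟨h1', h2'⟩ := mem_Esub.mp hy
        exact ⟨by rw [mul_smul, h1', hsa], by rw [mul_smul, h2', hsb]⟩
  have hdisj : Disjoint ((Esub G a b : Subgroup G) : Set G)
      ((fun g => s * g) '' ((Esub G a b : Subgroup G) : Set G)) := by
    rw [Set.disjoint_left]
    rintro g hg ⟨y, hy, rfl⟩
    have h1' : (s * y) • a = a := (mem_Esub.mp hg).1
    have h3' : y • a = a := (mem_Esub.mp hy).1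
    rw [mul_smul, h3', hsa] at h1'
    exact hab h1'.symm
  have hTc : Nat.card (Tsub G a b) = Set.ncard ((Tsub G a b : Subgroup G) : Set G) :=
    Nat.card_coe_set_eq _
  have hEc : Nat.card (Esub G a b) = Set.ncard ((Esub G a b : Subgroup G) : Set G) :=
    Nat.card_coe_set_eq _
  rw [hTc, hT, Set.ncard_union_eq hdisj, Set.ncard_image_of_injective _ (mul_right_injective s),
    ← hEc, hE]
  omega

/-- S3641-N2 in group-action form. -/
theorem card_sylow_two_grp [FaithfulSMul G α] [IsPretransitive G α] [Finite G]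
    (hα : Fintype.card α = 18) (d : ℕ) (hd : d = 8 ∨ d = 16) (hG : Nat.card G = 18 * 17 * d) :
    Nat.card (Sylow 2 G) = 153 := by
  classical
  haveI : Fact (Nat.Prime 2) := ⟨Nat.prime_two⟩
  obtain ⟨a, b, hab⟩ : ∃ a b : α, a ≠ b := by
    have : 1 < Fintype.card α := by omega
    exact Fintype.exists_pair_of_one_lt_card this
  have hE := card_Esub hα d hd hG a b hab
  have hT := card_Tsub hα d hd hG a b hab
  have hfac : Nat.card (Tsub G a b) = 2 ^ (Nat.card G).factorization 2 := by
    rw [hT, hG]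
    have h153 : (153 : ℕ).factorization 2 = 0 :=
      Nat.factorization_eq_zero_of_not_dvd (by norm_num)
    rcases hd with rfl | rfl
    · have h1 : (18 * 17 * 8 : ℕ) = 2 ^ 4 * 153 := by norm_num
      rw [h1, Nat.factorization_mul (by norm_num) (by norm_num),
        Nat.Prime.factorization_pow Nat.prime_two]
      simp [h153]
    · have h1 : (18 * 17 * 16 : ℕ) = 2 ^ 5 * 153 := by norm_num
      rw [h1, Nat.factorization_mul (by norm_num) (by norm_num),
        Nat.Prime.factorization_pow Nat.prime_two]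
      simp [h153]
  set P : Sylow 2 G := Sylow.ofCard (Tsub G a b) hfac with hP
  have hPc : (P : Subgroup G) = Tsub G a b := Sylow.coe_ofCard _ _
  have hnorm : Subgroup.normalizer ((Tsub G a b : Subgroup G) : Set G) = Tsub G a b := by
    apply le_antisymm _ Subgroup.le_normalizer
    intro g hg
    by_contra hgT
    have hEle : Esub G a b ≤ Tsub G a b := fun y hy => Or.inl (mem_Esub.mp hy)
    have hconjmem : ∀ y ∈ Esub G a b, g * y * g⁻¹ ∈ Tsub G a b := fun y hy =>
      (Subgroup.mem_normalizer_iff.mp hg y).mp (hEle hy)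
    have hinj : Function.Injective (fun p : (Esub G a b) × (Esub G a b) =>
        (⟨(p.1 : G) * (g * (p.2 : G) * g⁻¹),
          (Tsub G a b).mul_mem (hEle p.1.2) (hconjmem p.2 p.2.2)⟩ : Tsub G a b)) := by
      rintro ⟨x1, y1⟩ ⟨x2, y2⟩ h
      have h' : (x1 : G) * (g * (y1 : G) * g⁻¹) = (x2 : G) * (g * (y2 : G) * g⁻¹) :=
        congrArg Subtype.val h
      set z : G := (x2 : G)⁻¹ * (x1 : G) with hz
      have hz2 : z = g * ((y2 : G) * (y1 : G)⁻¹) * g⁻¹ := by
        have h3 : (x1 : G) = (x2 : G) * (g * (y2 : G) * g⁻¹) * (g * (y1 : G) * g⁻¹)⁻¹ := by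
          rw [← h', mul_inv_cancel_right]
        rw [hz, h3]
        group
      have hzE : z ∈ Esub G a b :=
        (Esub G a b).mul_mem ((Esub G a b).inv_mem x2.2) x1.2
      have hwE : (y2 : G) * (y1 : G)⁻¹ ∈ Esub G a b :=
        (Esub G a b).mul_mem y2.2 ((Esub G a b).inv_mem y1.2)
      have hza : z • a = a := (mem_Esub.mp hzE).1
      have hzb : z • b = b := (mem_Esub.mp hzE).2
      have hzga : z • (g • a) = g • a := by
        rw [hz2, mul_smul, mul_smul, inv_smul_smul, (mem_Esub.mp hwE).1]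
      have hzgb : z • (g • b) = g • b := by
        rw [hz2, mul_smul, mul_smul, inv_smul_smul, (mem_Esub.mp hwE).2]
      have hz1 : z = 1 := by
        by_cases h1 : g • a = a ∨ g • a = b
        · by_cases h2 : g • b = a ∨ g • b = b
          · exfalso
            apply hgT
            have hne : g • a ≠ g • b := fun h => hab (MulAction.injective g h)
            rcases h1 with h1 | h1 <;> rcases h2 with h2 | h2
            · exact absurd (h1.trans h2.symm) hne
            · exact Or.inl ⟨h1, h2⟩
            · exact Or.inr ⟨h1, h2⟩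
            · exact absurd (h1.trans h2.symm) hne
          · push Not at h2
            exact fix3 hα d hd hG z a b (g • b) hab h2.1.symm h2.2.symm hza hzb hzgb
        · push Not at h1
          exact fix3 hα d hd hG z a b (g • a) hab h1.1.symm h1.2.symm hza hzb hzga
      have hx : (x1 : G) = x2 := by
        rw [hz] at hz1
        exact (inv_mul_eq_one.mp hz1).symm
      have hy : (y1 : G) = y2 := by
        rw [hx] at h'
        have h4 := mul_left_cancel h'
        have h5 := mul_right_cancel h4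
        exact mul_left_cancel h5
      exact Prod.ext (Subtype.ext hx) (Subtype.ext hy)
    have hle := Nat.card_le_card_of_injective _ hinj
    rw [Nat.card_prod, hE, hT] at hle
    rcases hd with rfl | rfl <;> omega
  rw [Sylow.card_eq_index_normalizer P]
  change (Subgroup.normalizer ((Tsub G a b : Subgroup G) : Set G)).index = 153
  rw [hnorm]
  have := Subgroup.card_mul_index (Tsub G a b)
  rw [hT, hG] at this
  rcases hd with rfl | rfl <;> omega

end grp2

/-- S3641-N2. -/
theorem card_sylow_two {α : Type*} [Fintype α] [DecidableEq α] (hα : Fintype.card α = 18)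
    (H : Subgroup (Equiv.Perm α)) [MulAction.IsPretransitive H α] (d : ℕ)
    (hd : d = 8 ∨ d = 16) (hH : Nat.card H = 18 * 17 * d) : Nat.card (Sylow 2 H) = 153 :=
  card_sylow_two_grp (G := H) hα d hd hH

example {α : Type*} [Fintype α] [DecidableEq α] (hα : Fintype.card α = 18)
    (H : Subgroup (Equiv.Perm α)) [MulAction.IsPretransitive H α] (d : ℕ)
    (hd : d = 8 ∨ d = 16) (hH : Nat.card H = 18 * 17 * d) : Nat.card (Sylow 2 H) = 153 :=
  card_sylow_two hα H d hd hH

end Cfsg.Agent.H87.SN

#print axioms Cfsg.Agent.H87.SN.card_sylow_two
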