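import Cfsg.Agent.H90.FusPull
import Cfsg.Agent.H88.Subnormal

set_option autoImplicit false

/-!
The image of a subsystem under an ambient isomorphism `e : S ≃* S'` of fusion systems, and transport of
normality and subnormality of subsystems.
-/

namespace Cfsg.Agent.H87

open Cfsg Cfsg.FusionSystem Cfsg.Agent.H86 Cfsg.Agent.H90

universe u₁ u₂

section

variable {Ω : Type u₁} {Ω' : Type u₂} [Group Ω] [Group Ω'] {S : Subgroup Ω} {S' : Subgroup Ω'}

theorem hom_of_mor_extFun {T : Subgroup Ω} {F : FusionSystem T} {P : Subgroup Ω} {φ : P →* Ω}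
    (h : Mor F P (extFun P φ)) : φ ∈ F.Hom P := by
  obtain ⟨ψ, hψ, hψf⟩ := h
  have : ψ = φ := by
    ext x
    rw [hψf, extFun_apply]
  rwa [this] at hψ

theorem fusionSystem_ext_mor {T : Subgroup Ω} {E₁ E₂ : FusionSystem T}
    (h : ∀ (P : Subgroup Ω) (f : Ω → Ω), P ≤ T → (∀ x ∈ P, f x ∈ T) → (Mor E₁ P f ↔ Mor E₂ P f)) :
    E₁ = E₂ := by
  apply fusionSystem_ext
  intro P
  ext φ
  constructor
  · intro hφ
    have hm := mor_extFun hφ
    exact hom_of_mor_extFun ((h P _ hm.le (fun x hx => hm.mem hx)).1 hm)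
  · intro hφ
    have hm := mor_extFun hφ
    exact hom_of_mor_extFun ((h P _ hm.le (fun x hx => hm.mem hx)).2 hm)

theorem trSub_self (e : S ≃* S') : trSub e S = S' := by
  apply le_antisymm (trSub_le e S)
  intro y hy
  have := jF_mem_trSub e.symm hy hy
  have h2 := jF_mem_trSub e (jF_mem e.symm hy) (jF_mem e.symm hy)
  rwa [jF_jF_symm e hy] at h2

theorem trSub_le_trSub_iff (e : S ≃* S') {A B : Subgroup Ω} (hA : A ≤ S) (hB : B ≤ S) :
    trSub e A ≤ trSub e B ↔ A ≤ B := by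
  constructor
  · intro h
    have := trSub_mono e.symm h
    rwa [trSub_symm_trSub e hA, trSub_symm_trSub e hB] at this
  · exact trSub_mono e

theorem trSub_injective (e : S ≃* S') {A B : Subgroup Ω} (hA : A ≤ S) (hB : B ≤ S)
    (h : trSub e A = trSub e B) : A = B :=
  le_antisymm ((trSub_le_trSub_iff e hA hB).1 h.le) ((trSub_le_trSub_iff e hB hA).1 h.ge)

/-- `E'` (over `T'`) is the image of `E` (over `T`) under the ambient isomorphism `e : S ≃* S'`. -/
def SysIso (e : S ≃* S') {T : Subgroup Ω} {T' : Subgroup Ω'} (E : FusionSystem T)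
    (E' : FusionSystem T') : Prop :=
  trSub e T = T' ∧ ∀ (P : Subgroup Ω) (f : Ω → Ω), P ≤ T → (∀ x ∈ P, f x ∈ T) →
    (Mor E P f ↔ Mor E' (trSub e P) (jF e ∘ f ∘ jF e.symm))

theorem sysIso_of_fusIso {F : FusionSystem S} {F' : FusionSystem S'} {e : S ≃* S'}
    (h : FusIso F F' e) : SysIso e F F' :=
  ⟨trSub_self e, h⟩

theorem SysIso.fusIso {F : FusionSystem S} {F' : FusionSystem S'} {e : S ≃* S'}
    (h : SysIso e F F') : FusIso F F' e := h.2

theorem SysIso.mor {e : S ≃* S'} {T : Subgroup Ω} {T' : Subgroup Ω'} {E : FusionSystem T}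
    {E' : FusionSystem T'} (h : SysIso e E E') {P : Subgroup Ω} {f : Ω → Ω} (hf : Mor E P f) :
    Mor E' (trSub e P) (jF e ∘ f ∘ jF e.symm) :=
  (h.2 P f hf.le (fun _ hx => hf.mem hx)).1 hf

/-- The pullback exists. -/
theorem exists_sysIso_pull (e : S ≃* S') {T' : Subgroup Ω'} (hT' : T' ≤ S') (E' : FusionSystem T') :
    ∃ (T : Subgroup Ω) (_ : T ≤ S) (E : FusionSystem T), SysIso e E E' := by
  have h : trSub e (trSub e.symm T') = T' := trSub_trSub_symm e hT'
  have hT : trSub e.symm T' ≤ S := trSub_le e.symm T'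
  obtain ⟨T, hTdef⟩ : ∃ T : Subgroup Ω, T = trSub e.symm T' := ⟨_, rfl⟩
  rw [← hTdef] at h hT
  subst h
  refine ⟨T, hT, pullSys e hT E', rfl, fun P f hP hf => ?_⟩
  rw [mor_pullSys_iff]
  exact ⟨fun h => h.2.2, fun h => ⟨hP, hf, h⟩⟩

theorem SysIso.fusIso_eSub {e : S ≃* S'} {T : Subgroup Ω} (hT : T ≤ S) {E : FusionSystem T}
    {E' : FusionSystem (trSub e T)} (h : SysIso e E E') : FusIso E E' (eSub e hT) := by
  intro P f hP hf
  rw [h.2 P f hP hf, trSub_eSub e hT hP]
  have hcongr : ∀ y ∈ trSub e P, (jF e ∘ f ∘ jF e.symm) y =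
      (jF (eSub e hT) ∘ f ∘ jF (eSub e hT).symm) y := by
    intro y hy
    have hyT : y ∈ trSub e T := trSub_mono e hP hy
    show jF e (f (jF e.symm y)) = jF (eSub e hT) (f (jF (eSub e hT).symm y))
    rw [jF_eSub_symm e hT hyT, jF_eSub e hT (hf _ (jF_symm_mem e (hP.trans hT) hy))]
  constructor
  · intro hm
    exact hm.congr hcongr
  · intro hm
    exact hm.congr (fun y hy => (hcongr y hy).symm)

/-- Restricting the ambient isomorphism to an intermediate subgroup. -/
theorem SysIso.restrict {e : S ≃* S'} {T U : Subgroup Ω} {T' : Subgroup Ω'} {E : FusionSystem T}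
    {E' : FusionSystem T'} (h : SysIso e E E') (hU : U ≤ S) (hTU : T ≤ U) :
    SysIso (eSub e hU) E E' := by
  refine ⟨(trSub_eSub e hU hTU).trans h.1, fun P f hP hf => ?_⟩
  rw [h.2 P f hP hf, trSub_eSub e hU (hP.trans hTU)]
  have hcongr : ∀ y ∈ trSub e P, (jF e ∘ f ∘ jF e.symm) y =
      (jF (eSub e hU) ∘ f ∘ jF (eSub e hU).symm) y := by
    intro y hy
    have hyU : y ∈ trSub e U := trSub_mono e (hP.trans hTU) hy
    show jF e (f (jF e.symm y)) = jF (eSub e hU) (f (jF (eSub e hU).symm y))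
    rw [jF_eSub_symm e hU hyU, jF_eSub e hU (hTU (hf _ (jF_symm_mem e (hP.trans (hTU.trans hU)) hy)))]
  constructor
  · intro hm
    exact hm.congr hcongr
  · intro hm
    exact hm.congr (fun y hy => (hcongr y hy).symm)

theorem SysIso.symm {e : S ≃* S'} {T : Subgroup Ω} {T' : Subgroup Ω'} {E : FusionSystem T}
    {E' : FusionSystem T'} (h : SysIso e E E') (hT : T ≤ S) : SysIso e.symm E' E := by
  obtain ⟨rfl, h2⟩ := h
  refine ⟨trSub_symm_trSub e hT, fun P' f' hP' hf' => ?_⟩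
  have hP'S : P' ≤ S' := hP'.trans (trSub_le e T)
  have hPT : trSub e.symm P' ≤ T := by
    have := trSub_mono e.symm hP'
    rwa [trSub_symm_trSub e hT] at this
  have hmem : ∀ x ∈ trSub e.symm P', jF e x ∈ P' := fun x hx => jF_symm_mem e.symm hP'S hx
  have key := h2 (trSub e.symm P') (jF e.symm ∘ f' ∘ jF e) hPT
    (fun x hx => jF_symm_mem e hT (hf' _ (hmem x hx)))
  rw [trSub_trSub_symm e hP'S] at key
  have hT'S' : trSub e T ≤ S' := trSub_le e T
  constructor
  · intro hf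
    refine key.2 (hf.congr (fun y hy => ?_))
    show f' y = jF e (jF e.symm (f' (jF e (jF e.symm y))))
    rw [jF_jF_symm e (hP'S hy), jF_jF_symm e (hT'S' (hf' y hy))]
  · intro hf
    refine (key.1 hf).congr (fun y hy => ?_)
    show jF e (jF e.symm (f' (jF e (jF e.symm y)))) = f' y
    rw [jF_jF_symm e (hP'S hy), jF_jF_symm e (hT'S' (hf' y hy))]

/-- Two systems with the same image coincide. -/
theorem SysIso.unique {e : S ≃* S'} {T₁ T₂ : Subgroup Ω} {T' : Subgroup Ω'} {E₁ : FusionSystem T₁}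
    {E₂ : FusionSystem T₂} {E' : FusionSystem T'} (h₁ : SysIso e E₁ E') (h₂ : SysIso e E₂ E')
    (hT₁ : T₁ ≤ S) (hT₂ : T₂ ≤ S) : ∃ hT : T₁ = T₂, hT ▸ E₁ = E₂ := by
  have hT : T₁ = T₂ := trSub_injective e hT₁ hT₂ (h₁.1.trans h₂.1.symm)
  subst hT
  refine ⟨rfl, fusionSystem_ext_mor (fun P f hP hf => ?_)⟩
  rw [h₁.2 P f hP hf, h₂.2 P f hP hf]

/-- Transport of normality. -/
theorem SysIso.normalIn [Finite S] {p : ℕ} [Fact p.Prime] {F : FusionSystem S}
    {F' : FusionSystem S'} {e : S ≃* S'} (h : FusIso F F' e) (hF : F.IsSaturated p)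
    {U : Subgroup Ω} {U' : Subgroup Ω'} {D : FusionSystem U} {D' : FusionSystem U'}
    (hD : SysIso e D D') (hU : U ≤ S) (hN : D'.IsNormalIn F' p) : D.IsNormalIn F p := by
  obtain ⟨rfl, hD2⟩ := hD
  have h1 := normalIn_pullSys h hF hU D' hN
  have h2 : D = pullSys e hU D' := by
    apply fusionSystem_ext_mor
    intro P f hP hf
    rw [hD2 P f hP hf, mor_pullSys_iff]
    exact ⟨fun h => ⟨hP, hf, h⟩, fun h => h.2.2⟩
  rw [h2]
  exact h1

end

/-- Transport of subnormality. -/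
theorem subnormal_of_sysIso {p : ℕ} {Ω' : Type u₂} [Group Ω'] {T' S' : Subgroup Ω'}
    {E' : FusionSystem T'} {F' : FusionSystem S'} (hsub : E'.IsSubnormalIn F' p) :
    Fact p.Prime → ∀ {Ω : Type u₁} [Group Ω] {S : Subgroup Ω} [Finite S] (F : FusionSystem S)
      (e : S ≃* S'), FusIso F F' e → F.IsSaturated p → ∀ {T : Subgroup Ω} (E : FusionSystem T),
        T ≤ S → SysIso e E E' → E.IsSubnormalIn F p := by
  induction hsub with
  | refl F' p =>
    intro hp Ω _ S _ F e h hF T E hT hE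
    have hTS : T = S := trSub_injective e hT le_rfl (hE.1.trans (trSub_self e).symm)
    subst hTS
    have hEF : E = F := by
      apply fusionSystem_ext_mor
      intro P f hP hf
      rw [hE.2 P f hP hf, h P f hP hf]
    rw [hEF]
    exact IsSubnormalIn.refl F p
  | step hED hDF ih =>
    rename_i U' S'' E'' D' F'' p'
    intro hp Ω _ S _ F e h hF T E hT hE
    haveI := hp
    have hU' : U' ≤ S'' := hDF.1.2.2.2.1.1
    obtain ⟨U, hU, D, hD⟩ := exists_sysIso_pull e hU' D'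
    have hDn : D.IsNormalIn F p' := hD.normalIn h hF hU hDF
    have hT'U' : T' ≤ U' := Cfsg.Agent.H88.subnormal_le hED
    have hTU : T ≤ U := by
      rw [← trSub_le_trSub_iff e hT hU, hE.1, hD.1]
      exact hT'U'
    have hE2 := hE.restrict hU hTU
    obtain ⟨rfl, hD2⟩ := hD
    haveI : Finite U := finite_of_le hU
    have hED' := ih hp D (eSub e hU) (SysIso.fusIso_eSub hU ⟨rfl, hD2⟩) hDn.1.1 E hTU hE2
    exact IsSubnormalIn.step hED' hDn

end Cfsg.Agent.H87
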